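import Cfsg.Agent.Lib.Sy.Lat
import Cfsg.Agent.Lib.SylowIn

/-!
# Brauer's theorem on the principal block of defect one
-/

set_option autoImplicit false

namespace CfsgLib.Sy

open Cfsg Subgroup CfsgLib.FT CfsgLib.Blk CfsgLib.Blk.D1
open scoped ComplexConjugate

variable {G : Type*} [Group G] [Fintype G] {p r e t : ℕ} {P : Subgroup G}

theorem orderOf_sharp (hp : p.Prime) (hP : Nat.card P = p) {u : G} (hu : u ∈ P) (h1 : u ≠ 1) :
    orderOf u = p := by rw [← Nat.card_zpowers, eq_zpowers hp hP hu h1, hP]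

/-- A `p`-singular element is conjugate to `u v` with `u ∈ P#` and `v ∈ C(P)` `p`-regular. -/
theorem exists_sing_dec (hp : p.Prime) (hP : Nat.card P = p) (hi : ¬ p ∣ P.index) {g : G}
    (hg : p ∣ orderOf g) : ∃ x : G, ∃ u ∈ P, u ≠ 1 ∧ ∃ v ∈ centralizer (P : Set G),
      (orderOf v).Coprime p ∧ x * g * x⁻¹ = u * v := by
  have := Fact.mk hp
  obtain ⟨u, -, v, -, rfl, hc, ⟨k, hk⟩, hv⟩ := exists_p_part hp g
  have h1 : u ≠ 1 := by
    rintro rfl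
    rw [one_mul] at hg
    exact hp.coprime_iff_not_dvd.mp hv.symm hg
  let Q : Sylow p G := (IsPGroup.of_card (hP.trans (pow_one p).symm)).toSylow hi
  obtain ⟨x, -, hx⟩ := (IsSylowIn.sylow_top Q).exists_conj_le (Q := zpowers u)
    (IsPGroup.of_card ((Nat.card_zpowers u).trans hk)) le_top
  have hu : x * u * x⁻¹ ∈ P := hx ⟨u, mem_zpowers u, rfl⟩
  have hu1 : x * u * x⁻¹ ≠ 1 := by simpa using h1
  refine ⟨x, _, hu, hu1, x * v * x⁻¹, ?_, by rwa [orderOf_conj'], by group⟩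
  rw [← cent_eq hp hP hu hu1, mem_centralizer_singleton_iff]
  calc x * v * x⁻¹ * (x * u * x⁻¹) = x * (v * u) * x⁻¹ := by group
    _ = _ := by rw [← hc.eq]; group

theorem exists_sing_val (hp : p.Prime) (hP : Nat.card P = p) (hi : ¬ p ∣ P.index) {g : G}
    (hg : p ∣ orderOf g) : ∃ u ∈ P, u ≠ 1 ∧ ∀ χ ∈ B0 p (⊤ : Subgroup G), χ g = χ u := by
  obtain ⟨x, u, hu, h1, v, hv, ho, h⟩ := exists_sing_dec hp hP hi hg
  obtain ⟨K, hKC, hCK, hcop, hmem, -⟩ := exists_K hp hP hi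
  refine ⟨u, hu, h1, fun χ hχ => ?_⟩
  rw [← CF_conj χ.mem_CF (mem_top x), h, apply_mul_of_mem_B0 (N := K) hp (pow_eq_one hP hu)
    (mem_top _) (by rwa [top_inf_eq, cent_eq hp hP hu h1])
    (by rwa [top_inf_eq, cent_eq hp hP hu h1]) hcop (hmem v hv ho) hχ]

theorem card_sharp (hP : Nat.card P = p) : ((elems (sharp P)).card : ℂ) = p - 1 := by
  classical
  have e3 : elems (sharp P) = (elems (P : Set G)).erase 1 := by
    ext x; simp [mem_sharp, and_comm]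
  rw [e3, Finset.card_erase_of_mem (mem_elems.mpr P.one_mem), card_elems, hP,
    Nat.cast_sub (hP ▸ Nat.card_pos), Nat.cast_one]

theorem sum_P_eq (F : G → ℂ) :
    ∑ u ∈ elems (P : Set G), F u = F 1 + ∑ u ∈ elems (sharp P), F u := by
  classical
  have e3 : elems (sharp P) = (elems (P : Set G)).erase 1 := by
    ext x; simp [mem_sharp, and_comm]
  rw [e3, Finset.add_sum_erase _ _ (mem_elems.mpr P.one_mem)]

theorem om_class (hp : p.Prime) (hP : Nat.card P = p) {u : G} (hu : u ∈ P) (h1 : u ≠ 1)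
    (ψ : Irr (⊤ : Subgroup G)) : om ψ (cfInd1 {x | IsConj u x}) =
      (centralizer (P : Set G)).index * ψ u / dg (ψ : G → ℂ) := by
  rw [om_cfInd1, Finset.sum_congr rfl (g := fun _ => ψ u) fun x hx => by
    obtain ⟨y, rfl⟩ := isConj_iff.mp (mem_elems.mp hx :)
    exact CF_conj ψ.mem_CF (mem_top y) u, Finset.sum_const, card_elems_set,
    ← index_centralizer_eq_ncard_isConj, cent_eq hp hP hu h1, nsmul_eq_mul, irr_one]

/-- The consequence of the lattice theorem for class sums of elements of `P#`. -/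
theorem exists_padic' (hp : p.Prime) (hP : Nat.card P = p) (hi : ¬ p ∣ P.index)
    {χ : Irr (⊤ : Subgroup G)} (hχ : χ ∈ B0 p ⊤) :
    ∃ n : Irr (⊤ : Subgroup G) → ℕ, n χ ≠ 0 ∧ (∀ ψ, n ψ ≠ 0 → ψ ∈ B0 p ⊤) ∧
      (∀ (ψ ψ' : Irr ⊤) (d : ℤ), n ψ ≠ 0 → n ψ' ≠ 0 → (∀ u ∈ P, u ≠ 1 → ψ u = d) →
        ∀ u ∈ P, u ≠ 1 → ψ' u = d / dg (ψ : G → ℂ) * dg (ψ' : G → ℂ)) ∧
      ∃ k : ℤ, |k| ≤ 1 ∧ ∑ ψ, (n ψ : ℂ) * ∑ u ∈ elems (sharp P), ψ u = (p - 1) * k := by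
  obtain ⟨n, h1, h2, h3, h4⟩ := exists_padic hp hP hi hχ
  refine ⟨n, h1, h2, fun ψ ψ' d hψ hψ' hd u hu hu1 => ?_, h4⟩
  have := h3 (cfInd1 {x | IsConj u x}) (CFon_CF (cfInd1_mem_CFon (L := ⊤) (fun _ _ => mem_top _)
    fun x _ a ha => IsConj.trans ha (isConj_iff.mpr ⟨x, rfl⟩))) (fun g => by
      by_cases hg : g ∈ {x | IsConj u x}
      · exact ⟨1, by rw [cfInd1_apply hg]; simp⟩
      · exact ⟨0, by rw [cfInd1_apply_of_notMem hg]; simp⟩)
    ((centralizer (P : Set G)).index * d / dg (ψ : G → ℂ)) ψ ψ' hψ hψ'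
    (by rw [om_class hp hP hu hu1, hd u hu hu1]; push_cast; rfl)
  rw [om_class hp hP hu hu1] at this
  have i1 : ((centralizer (P : Set G)).index : ℂ) ≠ 0 := by exact_mod_cast index_ne_zero_of_finite
  have i2 : (dg (ψ : G → ℂ) : ℂ) ≠ 0 := by exact_mod_cast (dg_pos ψ).ne'
  have i3 : (dg (ψ' : G → ℂ) : ℂ) ≠ 0 := by exact_mod_cast (dg_pos ψ').ne'
  push_cast at this
  field_simp at this ⊢
  exact this

theorem sign_of_const (hp : p.Prime) (hP : Nat.card P = p) (hi : ¬ p ∣ P.index)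
    {χ : Irr (⊤ : Subgroup G)} (hχ : χ ∈ B0 p ⊤) {d : ℤ} (hd : ∀ u ∈ P, u ≠ 1 → χ u = d) :
    d = 1 ∨ d = -1 := by
  classical
  have hp1 : (p : ℂ) - 1 ≠ 0 := sub_ne_zero.mpr (by exact_mod_cast hp.one_lt.ne')
  have h0 : d ≠ 0 := by
    rintro rfl
    obtain ⟨u, hu⟩ := (normedTI hp hP).nonempty
    obtain ⟨hu, h1⟩ := mem_sharp.mp hu
    have hne : χ ≠ 1 := by
      rintro rfl
      have := hd u hu h1
      change cf1 ⊤ u = _ at this
      rw [cf1_apply (mem_top _)] at this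
      simp at this
    have e1 := χ.cfdot_eq 1
    rw [if_neg hne] at e1
    change cfdot ⊤ _ (cf1 ⊤) = 0 at e1
    rw [cfdot_cf1_right, elems_top, mul_eq_zero, ← sum_reg_add_sing p,
      Finset.sum_eq_zero (s := sing G p) fun g hg => by
        obtain ⟨u, hu, h1, h⟩ := exists_sing_val hp hP hi (mem_sing.mp hg)
        rw [h χ hχ, hd u hu h1, Int.cast_zero], add_zero] at e1
    refine mem_B0.mp hχ ((Finset.sum_congr ?_ fun _ _ => rfl).trans
      (e1.resolve_left (inv_ne_zero (card_ne_zero _))))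
    ext g
    simp [mem_regSet, Nat.coprime_comm, hp.coprime_iff_not_dvd]
  obtain ⟨n, h1, -, h3, k, hk, h4⟩ := exists_padic' hp hP hi hχ
  have i2 : (dg (χ : G → ℂ) : ℂ) ≠ 0 := by exact_mod_cast (dg_pos χ).ne'
  have h5 : ((d * ∑ ψ, (n ψ : ℤ) * dg (ψ : G → ℂ) : ℤ) : ℂ) = (k * dg (χ : G → ℂ) : ℤ) := by
    refine mul_left_cancel₀ hp1 ?_
    push_cast
    rw [← mul_assoc _ (k : ℂ), ← h4, Finset.mul_sum, Finset.mul_sum, Finset.sum_mul]
    refine Finset.sum_congr rfl fun ψ _ => ?_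
    by_cases h : n ψ = 0
    · simp [h]
    · rw [Finset.sum_congr rfl fun u hu => h3 χ ψ d h1 h hd u (mem_sharp.mp (mem_elems.mp hu)).1
        (mem_sharp.mp (mem_elems.mp hu)).2, Finset.sum_const, nsmul_eq_mul, card_sharp hP]
      field_simp
  have h6 : d * ∑ ψ, (n ψ : ℤ) * dg (ψ : G → ℂ) = k * dg (χ : G → ℂ) := Int.cast_injective h5
  have h7 : (n χ * dg (χ : G → ℂ) : ℤ) ≤ ∑ ψ, (n ψ : ℤ) * dg (ψ : G → ℂ) :=
    Finset.single_le_sum (f := fun ψ => (n ψ : ℤ) * dg (ψ : G → ℂ)) (fun _ _ => by positivity)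
      (Finset.mem_univ χ)
  have h8 : (0 : ℤ) < dg (χ : G → ℂ) := by exact_mod_cast dg_pos χ
  have h9 : (1 : ℤ) ≤ n χ := by exact_mod_cast Nat.one_le_iff_ne_zero.mpr h1
  generalize ∑ ψ, (n ψ : ℤ) * dg (ψ : G → ℂ) = s at *
  generalize (dg (χ : G → ℂ) : ℤ) = x at *
  rw [abs_le] at hk
  by_contra hc
  push Not at hc
  have hs : x ≤ s := by nlinarith
  rcases (by omega : d ≤ -2 ∨ 2 ≤ d) with h | h <;> nlinarith

/-- Assembling the block data. -/
theorem BD.mk' (hp : p.Prime) (hP : Nat.card P = p) (hi : ¬ p ∣ P.index)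
    {𝒳 : Finset (Irr (⊤ : Subgroup G))} {δ : Irr (⊤ : Subgroup G) → ℤ} {δ0 : ℤ} {χ0 : G → ℂ}
    (hX : 𝒳 ⊆ B0 p ⊤) (h1 : 1 ∉ 𝒳) (hc : 𝒳.card = t) (hB : (B0 p (⊤ : Subgroup G)).card = e + t)
    (h0 : δ0 = 1 ∨ δ0 = -1) (hN : ∀ χ ∈ B0 p ⊤, χ ∉ 𝒳 → ∀ u ∈ P, u ≠ 1 → χ u = δ χ)
    (hv : ∀ ψ ∈ 𝒳, ∀ g, ¬ p ∣ orderOf g → ψ g = χ0 g)
    (hs : ∀ u ∈ P, u ≠ 1 → ∑ ψ ∈ 𝒳, ψ u = δ0)
    (hs' : ∀ ψ ∈ 𝒳, ∑ u ∈ elems (sharp P), ψ u = δ0 * e) :
    ∃ 𝒩, BD p P e t 𝒩 𝒳 δ δ0 χ0 := by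
  classical
  refine ⟨B0 p ⊤ \ 𝒳, by rw [Finset.card_sdiff_of_subset hX]; omega, hc, Finset.sdiff_disjoint,
    Finset.mem_sdiff.mpr ⟨one_mem_B0 hp, h1⟩, fun χ hχ => ?_, h0, fun χ hχ g hg => ?_, hv,
    fun g hg => ?_, hs', fun g hg => ?_, fun χ => ?_⟩
  · obtain ⟨a, b⟩ := Finset.mem_sdiff.mp hχ
    exact sign_of_const hp hP hi a (hN χ a b)
  · obtain ⟨a, b⟩ := Finset.mem_sdiff.mp hχ
    obtain ⟨u, hu, hu1, h⟩ := exists_sing_val hp hP hi hg
    rw [h χ a, hN χ a b u hu hu1]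
  · obtain ⟨u, hu, hu1, h⟩ := exists_sing_val hp hP hi hg
    rw [Finset.sum_congr rfl fun ψ hψ => h ψ (hX hψ), hs u hu hu1]
  · obtain ⟨u, hu⟩ := (normedTI hp hP).nonempty
    obtain ⟨hu, hu1⟩ := mem_sharp.mp hu
    have := K0_eq_zero_of_reg (L := ⊤) (x := g) (g := u) hp (hp.coprime_iff_not_dvd.mpr hg).symm
      (orderOf_sharp hp hP hu hu1).symm.dvd
    rw [kerB, ← Finset.sum_sdiff hX, Finset.sum_congr rfl (s₁ := 𝒳) fun ψ hψ => by rw [hv ψ hψ g hg],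
      ← Finset.mul_sum, ← map_sum, hs u hu hu1, map_intCast] at this
    rw [← this, mul_comm]
    congr 1
    refine Finset.sum_congr rfl fun χ hχ => ?_
    obtain ⟨a, b⟩ := Finset.mem_sdiff.mp hχ
    rw [hN χ a b u hu hu1, map_intCast, mul_comm]
  · rw [Finset.mem_sdiff]
    have := @hX χ
    tauto

/-- Brauer's theorem on the principal block of defect one. -/
theorem Hyp.exists_bd (h : Hyp p P r e t) :
    ∃ (𝒩 𝒳 : Finset (Irr (⊤ : Subgroup G))) (δ : Irr (⊤ : Subgroup G) → ℤ) (δ0 : ℤ) (χ0 : G → ℂ),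
      BD p P e t 𝒩 𝒳 δ δ0 χ0 := by
  classical
  have hp := h.prime
  have hP := h.card
  have hi := h.ndvd
  obtain ⟨S, hS, hS2, hS3, hsum⟩ := exists_transversal hp hP
  have hCN : centralizer (P : Set G) ≤ normalizer (P : Set G) := centralizer_le_normalizer _
  have hcc := relIndex_mul_relIndex P _ _ (le_cent hp hP) hCN
  have hc0 := relIndex_cast_ne_zero P (centralizer (P : Set G))
  have htt := fun f f' => cfdot_tau_tau (f := f) (f' := f') hp hP hi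
  have hinert := fun θ => inertia_eq (θ := θ) hp hP
  rw [h.rel] at hcc hsum
  generalize centralizer (P : Set G) = C at hCN hcc hc0 htt hinert
  have heZ : (2 : ℤ) ≤ e := by exact_mod_cast h.two_le_e
  have hpe' : (p : ℤ) = e * t + 1 := by exact_mod_cast h.pe
  have hpeC : (p : ℂ) - 1 = e * t := by rw [h.pe]; push_cast; ring
  have ht : S.card = t := by
    have := hsum (fun _ => 1) (fun _ _ _ => rfl)
    simp only [Finset.sum_const, Finset.card_univ, card_irr_of_comm (comm_P hp hP), hP,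
      nsmul_eq_mul, mul_one] at this
    exact_mod_cast mul_left_cancel₀ (by omega : (e : ℤ) ≠ 0) (by linarith : (e : ℤ) * S.card = e * t)
  have hlin : ∀ ξ ∈ S, ξ 1 = 1 := fun ξ hξ => ((hS ξ hξ).1.isLin_of_comm (comm_P hp hP)).one
  have hII : ∀ ξ ∈ S, ∀ η ∈ S, cfdot (normalizer (P : Set G)) (cfInd P (normalizer (P : Set G)) ξ)
      (cfInd P (normalizer (P : Set G)) η) = P.relIndex C * cfdot P ξ η := by
    intro ξ hξ η hη
    rw [cfdot_Ind_irr le_normalizer le_rfl (hS ξ hξ).1 (hS η hη).1,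
      hinert ξ (hS ξ hξ).1 (hS ξ hξ).2, (hS ξ hξ).1.cfdot_eq (hS η hη).1]
    by_cases h : ξ = η
    · subst h; simp [self_mem_cfclass]
    · rw [if_neg h, if_neg fun h' => h (hS2 ξ hξ η hη h').symm, mul_zero]
  have hn1 : ∀ ξ ∈ S, cf1 P ∉ cfclass (normalizer (P : Set G)) ξ := fun ξ hξ h => by
    obtain ⟨x, hx, he⟩ := mem_cfclass.mp (mem_cfclass_comm.mp h)
    exact (hS ξ hξ).2 (by rw [← he, cfConjg_cf1 hx])
  obtain ⟨ξ0, hξ0⟩ : S.Nonempty := Finset.card_pos.mp (ht ▸ h.one_le_t)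
  let c : Irr (⊤ : Subgroup G) → ℤ := fun χ => mult P χ (cf1 P) - mult P χ ξ0
  have h10 : ∀ ξ ∈ S, (cf1 P - ξ) 1 = 0 := fun ξ hξ => by
    rw [Pi.sub_apply, cf1_apply P.one_mem, hlin ξ hξ, sub_self]
  have hB : ∑ χ ∈ B0 p ⊤, c χ ^ 2 = e + 1 := by
    have h1 := htt _ _ (h10 _ hξ0) (h10 _ hξ0)
    have hi1 : normalizer (P : Set G) ⊓ inertia (cf1 P) = normalizer (P : Set G) :=
      inf_eq_left.mpr fun x hx => mem_inertia_cf1 hx
    rw [map_sub (cfInd P _), cfdot_sub_left, cfdot_sub_right, cfdot_sub_right, hII _ hξ0 _ hξ0,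
      cfdot_Ind_irr le_normalizer le_rfl (isIrr_cf1 P) (isIrr_cf1 P),
      cfdot_Ind_irr le_normalizer le_rfl (hS _ hξ0).1 (isIrr_cf1 P),
      cfdot_Ind_irr le_normalizer le_rfl (isIrr_cf1 P) (hS _ hξ0).1, if_pos self_mem_cfclass,
      if_neg (hn1 _ hξ0), if_neg (fun h => hn1 _ hξ0 (mem_cfclass_comm.mp h)), hi1, ← hcc,
      (hS _ hξ0).1.cfdot_self, cfdot_eq_sum_irr (tau_mem_CF _)] at h1
    have h2 : ∑ χ : Irr (⊤ : Subgroup G), cfdot ⊤ (tau p P (cf1 P - ξ0)) χ *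
        conj (cfdot ⊤ (tau p P (cf1 P - ξ0)) χ) = ((∑ χ ∈ B0 p ⊤, c χ ^ 2 : ℤ) : ℂ) := by
      rw [Int.cast_sum, ← Finset.sum_subset (Finset.subset_univ (B0 p ⊤))
        fun χ _ h => by rw [cfdot_tau, if_neg h, zero_mul]]
      refine Finset.sum_congr rfl fun χ h => ?_
      rw [cfdot_tau, if_pos h, cfdot_sub_left, (mult_spec χ (isIrr_cf1 P)).1,
        (mult_spec χ (hS _ hξ0).1).1]
      simp [sq, c]
    rw [h2] at h1
    have h3 : ((∑ χ ∈ B0 p ⊤, c χ ^ 2 : ℤ) : ℂ) = ((e + 1 : ℤ) : ℂ) :=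
      mul_left_cancel₀ hc0 (by rw [h1]; push_cast; ring)
    exact_mod_cast h3
  -- values of combinations with constant multiplicities
  have hval : ∀ (T : Finset (Irr (⊤ : Subgroup G))) (m : ℤ),
      (∀ ξ ∈ S, ∑ χ ∈ T, mult P χ ξ = m) → ∀ u ∈ P, u ≠ 1 →
      ∑ χ ∈ T, χ u = ((∑ χ ∈ T, mult P χ (cf1 P) - m : ℤ) : ℂ) := by
    intro T m hm u hu h1
    have e1 : ∀ χ : Irr (⊤ : Subgroup G), χ u = ∑ μ : Irr P, (mult P χ μ : ℂ) * μ u := fun χ => by
      have := congrFun (cfRes_eq_sum (P := P) χ) u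
      rwa [cfRes_apply hu, Finset.sum_apply] at this
    have e2 := sum_irr_one_mul (L := P) h1
    simp only [fun μ : Irr P => (μ.irr.isLin_of_comm (comm_P hp hP)).one, one_mul] at e2
    have e3 : (1 : Irr P) u = 1 := cf1_apply hu
    rw [← Finset.add_sum_erase _ _ (Finset.mem_univ (1 : Irr P)), e3] at e2
    rw [Finset.sum_congr rfl fun χ _ => e1 χ, Finset.sum_comm,
      ← Finset.add_sum_erase _ _ (Finset.mem_univ (1 : Irr P)),
      Finset.sum_congr rfl (s₁ := Finset.univ.erase 1) (g := fun μ : Irr P => (m : ℂ) * μ u)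
        fun μ hμ => by
          obtain ⟨ξ, hξ, h⟩ := hS3 μ μ.irr fun h => (Finset.ne_of_mem_erase hμ) (Irr.ext h)
          rw [← Finset.sum_mul, ← hm ξ hξ]
          simp only [mult_cfclass _ h, Int.cast_sum],
      ← Finset.mul_sum, eq_neg_of_add_eq_zero_right e2, e3]
    push_cast
    simp only [mul_one]
    rw [mul_neg_one, ← sub_eq_add_neg]
    rfl
  have hconst : ∀ χ : Irr (⊤ : Subgroup G), (∀ ξ ∈ S, mult P χ ξ = mult P χ ξ0) →
      ∀ u ∈ P, u ≠ 1 → χ u = c χ := fun χ hχ u hu h1 => by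
    simpa [c] using hval {χ} (mult P χ ξ0) (by simpa using hχ) u hu h1
  have hSum : ∀ χ : Irr (⊤ : Subgroup G), ∑ u ∈ elems (sharp P), χ u =
      ((e * (t * mult P χ (cf1 P) - ∑ ξ ∈ S, mult P χ ξ) : ℤ) : ℂ) := fun χ => by
    have e1 := mult_spec' χ (isIrr_cf1 P)
    rw [cfdot_cf1_right, sum_P_eq, degree_eq_sum hp hP, hsum (mult P χ) fun _ _ h =>
      mult_cfclass χ h, inv_mul_eq_iff_eq_mul₀ (card_ne_zero _), hP] at e1
    push_cast at e1 ⊢
    linear_combination e1 + (mult P χ (cf1 P) : ℂ) * hpeC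
  rcases h.one_le_t.eq_or_lt with ht1 | ht2
  · -- `t = 1`
    have hall : ∀ χ : Irr (⊤ : Subgroup G), ∀ u ∈ P, u ≠ 1 → χ u = c χ := fun χ =>
      hconst χ fun ξ hξ => by rw [Finset.card_le_one.mp (by omega) ξ hξ _ hξ0]
    have hcard : (B0 p (⊤ : Subgroup G)).card = e + t := by
      rw [Finset.sum_congr rfl (g := fun _ => 1) fun χ hχ => by
        rcases sign_of_const hp hP hi hχ (hall χ) with h | h <;> rw [h] <;> rfl] at hB
      simp only [Finset.sum_const, nsmul_eq_mul, mul_one] at hB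
      omega
    obtain ⟨ψ, hψ, hψ1⟩ := Finset.exists_mem_ne (s := B0 p (⊤ : Subgroup G)) (by omega) 1
    obtain ⟨𝒩, hb⟩ := BD.mk' (e := e) (t := t) (𝒳 := {ψ}) (δ := c) (δ0 := c ψ) (χ0 := ψ) hp hP hi
      (by simpa using hψ) (by simpa using hψ1.symm) (by simpa using ht1) hcard
      (sign_of_const hp hP hi hψ (hall ψ)) (fun χ _ _ => hall χ) (by simp) (by simpa using hall ψ)
      (by
        simp only [Finset.mem_singleton, forall_eq]
        rw [Finset.sum_congr rfl fun u hu => hall ψ u (mem_sharp.mp (mem_elems.mp hu)).1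
          (mem_sharp.mp (mem_elems.mp hu)).2, Finset.sum_const, nsmul_eq_mul, card_sharp hP, hpeC,
          ← ht1]
        push_cast; ring)
    exact ⟨_, _, _, _, _, hb⟩
  have hiso : ZIsom1 P ⊤ S (tau p P) := by
    refine ⟨fun φ hφ h1 ψ hψ h1' => mul_left_cancel₀ hc0 ?_, fun φ hφ _ =>
      tau_mem_ZIrr (zspan_le_ZIrr (fun ξ hξ => (hS ξ hξ).1.mem_ZIrr) hφ),
      fun φ _ h1 => tau_one hp hP h1⟩
    rw [htt φ ψ h1 h1']
    have := cfdot_map_zspan (L := P) (L' := normalizer (P : Set G)) (S := S) (T := S)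
      (τ := ((P.relIndex C : ℂ)⁻¹) • cfInd P (normalizer (P : Set G)))
      (τ' := cfInd P (normalizer (P : Set G))) (fun ξ hξ η hη => by
        rw [LinearMap.smul_apply, cfdot_smul_left, hII ξ hξ η hη, inv_mul_cancel_left₀ hc0]) hφ hψ
    rw [LinearMap.smul_apply, cfdot_smul_left] at this
    rw [← this, mul_inv_cancel_left₀ hc0]
  obtain ⟨μ, ε, hε, hμ, hμi, hμτ⟩ := vchar_isometry_base (fun ξ hξ => (hS ξ hξ).1)
    (by omega) (fun ξ hξ η hη => by rw [hlin ξ hξ, hlin η hη]) hiso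
  have hε0 : (ε : ℂ) ≠ 0 := by rcases hε with rfl | rfl <;> simp
  have hεZ : ε ≠ 0 := by rcases hε with rfl | rfl <;> simp
  have hε2 : ε * ε = 1 := by rcases hε with rfl | rfl <;> simp
  have hdiff : ∀ χ : Irr (⊤ : Subgroup G), ∀ ξ ∈ S, ∀ η ∈ S,
      (if χ ∈ B0 p ⊤ then mult P χ ξ - mult P χ η else 0) =
        ε * ((if μ ξ = χ then 1 else 0) - if μ η = χ then 1 else 0) := by
    intro χ ξ hξ η hη
    have h := cfdot_tau (p := p) (P := P) (ξ - η) χ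
    rw [hμτ ξ hξ η hη, cfdot_smul_left, cfdot_sub_left, cfdot_sub_left,
      (hμ ξ hξ).cfdot_eq χ.irr, (hμ η hη).cfdot_eq χ.irr, (mult_spec χ (hS _ hξ).1).1,
      (mult_spec χ (hS _ hη).1).1] at h
    have h' : (((if χ ∈ B0 p ⊤ then mult P χ ξ - mult P χ η else 0 : ℤ)) : ℂ) =
        ((ε * ((if μ ξ = χ then 1 else 0) - if μ η = χ then 1 else 0) : ℤ) : ℂ) := by
      push_cast; exact h.symm
    exact_mod_cast h'
  let ν : S → Irr (⊤ : Subgroup G) := fun ξ => ⟨μ ξ, hμ ξ ξ.2⟩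
  have hνi : Function.Injective ν := fun ξ η h =>
    Subtype.ext (hμi ξ.2 η.2 (congrArg Subtype.val h))
  have hνe : ∀ ξ η : S, μ ξ = ν η ↔ ξ = η := fun ξ η =>
    ⟨fun h => hνi (Irr.ext h), fun h => h ▸ rfl⟩
  have hne : ∀ ξ : S, ∃ η : S, η ≠ ξ := fun ξ => by
    obtain ⟨η, hη, h⟩ := Finset.exists_mem_ne (s := S) (by omega) ξ
    exact ⟨⟨η, hη⟩, fun h' => h (congrArg Subtype.val h')⟩
  have hνB : ∀ ξ, ν ξ ∈ B0 p ⊤ := fun ξ => by
    by_contra h'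
    obtain ⟨η, hη⟩ := hne ξ
    have := hdiff (ν ξ) ξ ξ.2 η η.2
    rw [if_neg h', if_pos ((hνe _ _).mpr rfl), if_neg fun h => hη ((hνe _ _).mp h)] at this
    exact hεZ (by omega)
  have hνm : ∀ ζ ξ η : S, mult P (ν ζ) ξ - mult P (ν ζ) η =
      ε * ((if ξ = ζ then 1 else 0) - if η = ζ then 1 else 0) := fun ζ ξ η => by
    have := hdiff (ν ζ) ξ ξ.2 η η.2
    rwa [if_pos (hνB ζ), if_congr (hνe ξ ζ) rfl rfl, if_congr (hνe η ζ) rfl rfl] at this
  let 𝒳 := Finset.univ.image ν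
  have hX : ∀ ψ ∈ 𝒳, ∃ ξ, ν ξ = ψ := fun ψ hψ => by simpa [𝒳] using hψ
  have hN : ∀ χ ∈ B0 p ⊤, χ ∉ 𝒳 → ∀ u ∈ P, u ≠ 1 → χ u = c χ := fun χ hχ h' =>
    hconst χ fun ξ hξ => by
      have := hdiff χ ξ hξ _ hξ0
      rw [if_pos hχ, if_neg fun h => h' (Finset.mem_image.mpr ⟨⟨ξ, hξ⟩, Finset.mem_univ _,
        Irr.ext h⟩), if_neg fun h => h' (Finset.mem_image.mpr ⟨⟨_, hξ0⟩, Finset.mem_univ _,
        Irr.ext h⟩)] at this
      omega
  -- the common constant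
  obtain ⟨k, hk⟩ : ∃ k : ℤ, ∀ ζ ξ : S, mult P (ν ζ) (cf1 P) - mult P (ν ζ) ξ =
      k - if ξ = ζ then ε else 0 := by
    have key : ∀ ζ η : S, (mult P (ν ζ) (cf1 P) - mult P (ν ζ) ζ) -
        (mult P (ν η) (cf1 P) - mult P (ν η) ζ) = -ε * (1 - if η = ζ then 1 else 0) := by
      intro ζ η
      have h1 := htt (ζ - η) _ (by rw [Pi.sub_apply, hlin _ ζ.2, hlin _ η.2, sub_self]) (h10 _ ζ.2)
      rw [map_sub (cfInd P _), map_sub (cfInd P _), cfdot_sub_left, cfdot_sub_right,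
        cfdot_sub_right, hII _ ζ.2 _ ζ.2, hII _ η.2 _ ζ.2,
        cfdot_Ind_irr le_normalizer le_rfl (hS _ ζ.2).1 (isIrr_cf1 P),
        cfdot_Ind_irr le_normalizer le_rfl (hS _ η.2).1 (isIrr_cf1 P), if_neg (hn1 _ ζ.2),
        if_neg (hn1 _ η.2), (hS _ ζ.2).1.cfdot_self, (hS _ η.2).1.cfdot_eq (hS _ ζ.2).1,
        hμτ _ ζ.2 _ η.2, cfdot_smul_left, cfdot_sub_left, ← cfdot_conj (φ := tau p P _),
        ← cfdot_conj (φ := tau p P _) (ψ := μ η), cfdot_tau _ (ν ζ), cfdot_tau _ (ν η),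
        if_pos (hνB _), if_pos (hνB _), cfdot_sub_left, cfdot_sub_left,
        (mult_spec _ (isIrr_cf1 P)).1, (mult_spec _ (isIrr_cf1 P)).1,
        (mult_spec _ (hS _ ζ.2).1).1, (mult_spec _ (hS _ ζ.2).1).1,
        if_congr Subtype.val_inj rfl rfl] at h1
      simp only [map_sub, map_intCast] at h1
      have h2 : ((ε * ((mult P (ν ζ) (cf1 P) - mult P (ν ζ) ζ) -
          (mult P (ν η) (cf1 P) - mult P (ν η) ζ)) : ℤ) : ℂ) =
          ((-(1 - if η = ζ then 1 else 0) : ℤ) : ℂ) :=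
        mul_left_cancel₀ hc0 (by push_cast; rw [h1]; ring)
      have h3 : ε * ((mult P (ν ζ) (cf1 P) - mult P (ν ζ) ζ) -
          (mult P (ν η) (cf1 P) - mult P (ν η) ζ)) = -(1 - if η = ζ then 1 else 0) := by
        exact_mod_cast h2
      linear_combination ε * h3 - ((mult P (ν ζ) (cf1 P) - mult P (ν ζ) ζ) -
          (mult P (ν η) (cf1 P) - mult P (ν η) ζ)) * hε2
    refine ⟨mult P (ν ⟨_, hξ0⟩) (cf1 P) - mult P (ν ⟨_, hξ0⟩) ξ0 + ε, fun ζ ξ => ?_⟩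
    have a1 := key ⟨_, hξ0⟩ ζ
    have a2 := hνm ζ ⟨_, hξ0⟩ ξ
    rw [if_congr eq_comm rfl rfl] at a1
    split_ifs at a1 a2 ⊢ <;> linarith
  have hSν : ∀ ζ, ∑ u ∈ elems (sharp P), ν ζ u = ((t * k - ε : ℤ) : ℂ) * e := fun ζ => by
    have : t * mult P (ν ζ) (cf1 P) - ∑ ξ ∈ S, mult P (ν ζ) ξ = t * k - ε := by
      have := Finset.sum_congr rfl fun ξ (_ : ξ ∈ Finset.univ) => hk ζ ξ
      simp only [Finset.sum_sub_distrib, Finset.sum_const, Finset.card_univ, Fintype.card_coe, ht,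
        nsmul_eq_mul, Finset.sum_ite_eq', Finset.mem_univ, if_true] at this
      rw [← this, Finset.sum_coe_sort S (mult P (ν ζ))]
    rw [hSum, this]; push_cast; ring
  have hnc : ∀ ζ (q : ℂ), ¬ ∀ u ∈ P, u ≠ 1 → ν ζ u = q := fun ζ q hq => by
    obtain ⟨η, hη⟩ := hne ζ
    have a1 := hνm ζ ζ η
    rw [if_pos rfl, if_neg hη] at a1
    have a2 : cfdot P (ζ.1 - η.1) (ν ζ) = cfdot P (ζ.1 - η.1) (q • cf1 P) := by
      rw [cfdot, cfdot]
      congr 1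
      refine Finset.sum_congr rfl fun u hu => ?_
      by_cases h1 : u = 1
      · rw [h1, Pi.sub_apply, hlin _ ζ.2, hlin _ η.2, sub_self, zero_mul, zero_mul]
      · rw [hq u (mem_elems.mp hu) h1, Pi.smul_apply, cf1_apply (mem_elems.mp hu), smul_eq_mul,
          mul_one]
    rw [cfdot_smul_right, cfdot_sub_left, cfdot_sub_left, (mult_spec _ (hS _ ζ.2).1).1,
      (mult_spec _ (hS _ η.2).1).1, (hS _ ζ.2).1.cfdot_ne (isIrr_cf1 P) (hS _ ζ.2).2,
      (hS _ η.2).1.cfdot_ne (isIrr_cf1 P) (hS _ η.2).2, sub_self, mul_zero, sub_eq_zero] at a2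
    have a3 : mult P (ν ζ) ζ = mult P (ν ζ) η := by exact_mod_cast a2
    exact hεZ (by omega)
  have h0 : t * k - ε = 1 ∨ t * k - ε = -1 := by
    obtain ⟨n, h1, h2, h3, j, hj, h4⟩ := exists_padic' hp hP hi (hνB ⟨_, hξ0⟩)
    have h5 : ∀ ψ, (n ψ : ℂ) * ∑ u ∈ elems (sharp P), ψ u = n ψ * (((t * k - ε : ℤ) : ℂ) * e) := by
      intro ψ
      by_cases hψ : n ψ = 0
      · simp [hψ]
      by_cases hψX : ψ ∈ 𝒳
      · obtain ⟨ζ, rfl⟩ := hX ψ hψX
        rw [hSν]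
      · exact absurd (h3 ψ _ _ hψ h1 (hN ψ (h2 ψ hψ) hψX)) (hnc _ _)
    rw [Finset.sum_congr rfl fun ψ _ => h5 ψ, ← Finset.sum_mul, hpeC, ← Nat.cast_sum] at h4
    have h6 : ((∑ ψ, n ψ : ℕ) : ℤ) * (t * k - ε) = t * j := by
      have : ((((∑ ψ, n ψ : ℕ) : ℤ) * (t * k - ε) : ℤ) : ℂ) = ((t * j : ℤ) : ℂ) :=
        mul_left_cancel₀ (show (e : ℂ) ≠ 0 by exact_mod_cast (by omega : e ≠ 0))
          (by rw [Int.cast_mul, Int.cast_natCast]; push_cast at h4 ⊢; linear_combination h4)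
      exact_mod_cast this
    have h7 : ∑ ψ, n ψ ≠ 0 := fun h => h1 (Finset.sum_eq_zero_iff.mp h _ (Finset.mem_univ _))
    have htZ : (2 : ℤ) ≤ t := by exact_mod_cast ht2
    have h8 : t * k - ε ≠ 0 := fun h => by
      have : (t : ℤ) ∣ 1 := ⟨k * ε, by linear_combination -hε2 - ε * h⟩
      have := Int.le_of_dvd one_pos this
      omega
    have h9 : j = 1 ∨ j = -1 := by
      have : j ≠ 0 := by
        rintro rfl
        exact mul_ne_zero (show ((∑ ψ, n ψ : ℕ) : ℤ) ≠ 0 by exact_mod_cast h7) h8 (by rw [h6, mul_zero])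
      rw [abs_le] at hj
      omega
    have h10 : t * k - ε ∣ t := by
      rcases h9 with rfl | rfl
      · exact ⟨(∑ ψ, n ψ : ℕ), by linear_combination -h6⟩
      · exact ⟨-(∑ ψ, n ψ : ℕ), by linear_combination h6⟩
    have h11 : t * k - ε ∣ 1 := by
      have := dvd_sub (h10.mul_right (k * ε)) (dvd_mul_right (t * k - ε) ε)
      rwa [show t * (k * ε) - (t * k - ε) * ε = 1 by linear_combination hε2] at this
    exact Int.isUnit_iff.mp (isUnit_of_dvd_one h11)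
  have hcX : 𝒳.card = t := by
    rw [Finset.card_image_of_injective _ hνi, Finset.card_univ, Fintype.card_coe, ht]
  have hXB : 𝒳 ⊆ B0 p ⊤ := fun ψ hψ => by obtain ⟨ζ, rfl⟩ := hX ψ hψ; exact hνB ζ
  have hcard : (B0 p (⊤ : Subgroup G)).card = e + t := by
    have a1 : ∑ ψ ∈ 𝒳, c ψ ^ 2 = 1 := by
      rw [Finset.sum_image fun _ _ _ _ h => hνi h,
        Finset.sum_congr rfl (g := fun ζ : S => k ^ 2 + if ⟨_, hξ0⟩ = ζ then 1 - 2 * k * ε else 0)
        fun ζ _ => by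
          rw [show c (ν ζ) = _ from hk ζ ⟨_, hξ0⟩]
          split_ifs
          · linear_combination hε2
          · ring]
      simp only [Finset.sum_add_distrib, Finset.sum_const, Finset.card_univ, Fintype.card_coe, ht,
        nsmul_eq_mul, Finset.sum_ite_eq, Finset.mem_univ, if_true]
      have : t * (t * k ^ 2 - 2 * k * ε) = 0 := by
        rcases h0 with h0 | h0
        · linear_combination (t * k - ε + 1) * h0 - hε2
        · linear_combination (t * k - ε - 1) * h0 - hε2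
      have := (mul_eq_zero.mp this).resolve_left (by exact_mod_cast (by omega : t ≠ 0))
      linarith
    rw [← Finset.sum_sdiff hXB, a1, Finset.sum_congr rfl (g := fun _ => 1) fun χ hχ => by
      obtain ⟨a, b⟩ := Finset.mem_sdiff.mp hχ
      rcases sign_of_const hp hP hi a (hN χ a b) with h | h <;> rw [h] <;> rfl] at hB
    simp only [Finset.sum_const, nsmul_eq_mul, mul_one] at hB
    have := Finset.card_sdiff_add_card_eq_card hXB
    omega
  obtain ⟨𝒩, hb⟩ := BD.mk' (e := e) (t := t) (𝒳 := 𝒳) (δ := c) (δ0 := t * k - ε) (χ0 := μ ξ0)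
    hp hP hi hXB (fun h1 => by
      obtain ⟨ζ, hζ⟩ := hX _ h1
      exact hnc ζ 1 fun u _ _ => by rw [hζ]; exact cf1_apply (mem_top _)) hcX hcard h0 hN
    (fun ψ hψ g hg => by
      obtain ⟨ζ, rfl⟩ := hX ψ hψ
      have a1 := congrFun (hμτ _ ζ.2 _ hξ0) g
      have a2 : tau p P (ζ.1 - ξ0) g = 0 := by
        change projB _ _ g = 0
        rw [projB_eq_sum, Finset.sum_eq_zero, mul_zero]
        intro x _
        by_cases hx : p ∣ orderOf x
        · rw [K0_eq_zero_of_reg hp (hp.coprime_iff_not_dvd.mpr hg).symm hx, mul_zero]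
        · rw [cfInd_eq_zero, zero_mul]
          intro y _ hy
          by_cases h1 : y * x * y⁻¹ = 1
          · rw [h1, Pi.sub_apply, hlin _ ζ.2, hlin _ hξ0, sub_self]
          · exact absurd ((orderOf_sharp hp hP hy h1).symm.trans (orderOf_conj' _ _)).dvd hx
      rw [a2, Pi.smul_apply, smul_eq_mul, eq_comm, mul_eq_zero, Pi.sub_apply, sub_eq_zero] at a1
      exact a1.resolve_left hε0)
    (fun u hu h1 => by
      rw [hval 𝒳 (∑ ψ ∈ 𝒳, mult P ψ (cf1 P) - (t * k - ε)) (fun ξ hξ => ?_) u hu h1,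
        sub_sub_cancel]
      have := Finset.sum_congr rfl fun ζ (_ : ζ ∈ Finset.univ) => hk ζ ⟨ξ, hξ⟩
      simp only [Finset.sum_sub_distrib, Finset.sum_const, Finset.card_univ, Fintype.card_coe, ht,
        nsmul_eq_mul, Finset.sum_ite_eq, Finset.mem_univ, if_true] at this
      rw [Finset.sum_image fun _ _ _ _ h => hνi h, Finset.sum_image fun _ _ _ _ h => hνi h, ← this,
        sub_sub_cancel])
    (fun ψ hψ => by obtain ⟨ζ, rfl⟩ := hX ψ hψ; exact hSν ζ)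
  exact ⟨_, _, _, _, _, hb⟩

end CfsgLib.Sy
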