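import Cfsg.Agent.Lib.Sy.CaseAB4

set_option autoImplicit false

namespace CfsgLib.Sy

open Cfsg Subgroup CfsgLib.FT CfsgLib.Blk
open scoped ComplexConjugate

variable {G : Type*} [Group G] [Fintype G] {p r e t : ℕ} {P : Subgroup G}
  {𝒩 𝒳 : Finset (Irr (⊤ : Subgroup G))} {δ : Irr (⊤ : Subgroup G) → ℤ} {δ0 : ℤ} {χ0 : G → ℂ}

namespace W

variable (h : W p P r e t 𝒩 𝒳 δ δ0 χ0)
include h

/-- Exceptional degree `A / t`. -/
theorem caseA (h0 : δ0 = 1) {u v : ℕ} (hr : Rep p r u v) (hx : t * dg χ0 = u * p + 1) :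
    False :=
  h.caseA' h0 hr hx

/-- Exceptional degree `B / t`. -/
theorem caseB (h0 : δ0 = -1) {u v : ℕ} (hr : Rep p r u v) (hx : t * dg χ0 + 1 = (v + 1) * p) :
    (e = 2 ∧ p + 3 = 2 * r ∧ 3 < p ∧ ∃ S : Sylow 2 G, Nat.card S = p + 1 ∧ ElemCent S.1) ∨
    (t = e + 1 ∧ ∃ St, EData e p P r 𝒩 𝒳 δ χ0 St) := by
  obtain ⟨α, β, γ, ε, Θ, θ, C⟩ := h.exists_cnt hr
  obtain ⟨r1, r2, r3, r4⟩ := id hr
  have pe := h.hyp.pe
  have t1 := h.hyp.one_le_t
  have p3 := h.hyp.three_le
  obtain ⟨c, hc⟩ : t ∣ v := by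
    have : v + t * ((v + 1) * e) = t * dg χ0 := by
      have : (v + 1) * p = v + t * ((v + 1) * e) + 1 := by rw [pe]; ring
      omega
    exact (Nat.dvd_add_left (dvd_mul_right _ _)).1 (this ▸ dvd_mul_right _ _)
  have c1 : 1 ≤ c := Nat.pos_of_ne_zero (by rintro rfl; omega)
  have he : e = (u + 1) * c := Nat.eq_of_mul_eq_mul_right t1 (by
    have : e * t = (u + 1) * v := by omega
    rw [this, hc]; ring)
  have hx0 : dg χ0 = c * (p + u + 1) := Nat.eq_of_mul_eq_mul_left t1 (by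
    have : (v + 1) * p = v * (p + u + 1) + 1 := by rw [← r3]; ring
    rw [← mul_assoc, ← hc]; omega)
  have o1 := C.one
  have o2 := C.one'
  have o3 := C.s2
  have o4 := C.sum
  have o5 := C.s1
  rw [h0] at o1 o2 o3 o5
  simp only [if_true, show ¬ (-1 : ℤ) = 1 by decide, if_false] at o1 o2 o3 o5
  obtain ⟨rel, hS⟩ := arithB (t := t) (c := c) (by exact_mod_cast hc) (by exact_mod_cast r3)
    (by exact_mod_cast r4) (by exact_mod_cast he) (by exact_mod_cast hx0) (by omega)
    (by exact_mod_cast o4) o1 o2 o3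
  have rel' : α * (u * v + u + 2) + (u + 1) * β + 1 = (u + 2) * c + v * ε := by exact_mod_cast rel
  have ineq : (p + u + 1) * α * (t * ε + 1) ≤ (u + 1) * t * β * γ := by
    have h1 := Cnt.sum_nonneg (G := G) (p := p) (θ := θ)
    rw [hS] at h1
    have h2 := (mul_nonneg_iff_of_pos_left (by positivity)).1 h1
    rw [sub_nonneg] at h2
    exact_mod_cast h2
  have hα : β = 0 ∨ γ = 0 → α = 0 := by
    rintro (rfl | rfl) <;> simp at ineq <;> omega
  have hβ : β ≠ 0 := by
    rintro rfl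
    obtain rfl := hα (Or.inl rfl)
    have h1 : 2 * 1 ≤ (u + 2) * c := Nat.mul_le_mul (by omega) c1
    omega
  by_cases hγ : γ = 0
  · obtain rfl := hα (Or.inr hγ)
    subst hγ
    have hS0 : ∑ g ∈ reg1 G p, θ g * (θ g - 1) = 0 := by rw [hS]; simp
    have h1 := C.eq_one_or h hS0 (a := c) (b := u + 1) (he ▸ dvd_mul_left _ _)
      (he ▸ dvd_mul_right _ _) ⟨(ε * t + 1) * (p + u + 1), by
        rw [o2, hx0, ← r3, hc]; push_cast; ring⟩
      ⟨β * (u * v + 1), by rw [o1, ← r3]; push_cast; ring⟩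
    obtain rfl : c = 1 := by omega
    simp only [mul_one, zero_mul, zero_add, add_zero] at hc he rel' o4
    subst hc he
    by_cases hε : ε = 0
    · subst hε
      obtain rfl : β = 1 := Nat.eq_of_mul_eq_mul_left (show 0 < u + 1 by omega) (by omega)
      obtain rfl : u = 1 := by omega
      have hG : Nat.card G = p * (p + 2) * (p + 1) := by rw [h.card_eq, r4, ← r3]; ring
      have h2 : θ 1 = p + 2 := by rw [o1]; push_cast; ring
      refine Or.inl ⟨rfl, by omega, by omega, C.elemCent h hS0 hG h2 ?_⟩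
      rw [h2, r4, ← r3] at o5
      rw [← r3]
      push_cast at o5 ⊢
      linear_combination o5
    · exfalso
      obtain rfl : v = u + 1 := le_antisymm (Nat.le_of_dvd (by omega) (C.hε hε)) r2
      have h2 : β = 1 + ε := Nat.eq_of_mul_eq_mul_left (show 0 < u + 1 by omega) (by
        rw [mul_add]; omega)
      obtain ⟨y, -, hy⟩ := h.exists_compl
      have h3 : Even (u + 1) := ⟨ε + 1, by omega⟩
      have h4 : Odd p := h.hyp.prime.odd_of_ne_two (by omega)
      refine h.hyp.not_cyclic (hy ▸ h3) ?_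
      have h5 := card_mul_index (zpowers y)
      rw [Nat.card_zpowers, hy, h.card_eq, mul_comm _ (u + 1)] at h5
      rw [Nat.eq_of_mul_eq_mul_left (by omega) h5]
      refine Odd.mul (Odd.add_even odd_one (Even.mul_right ?_ _)) h4
      rw [r4, add_assoc]
      exact (h3.mul_left u).add h3
  obtain ⟨h1, h2⟩ := C.hγ hγ
  have h3 : t ∣ u + 2 := by
    rw [r4, hc, show u * (t * c) + u + 1 + 1 = t * (u * c) + (u + 2) by ring] at h1
    exact (Nat.dvd_add_right (dvd_mul_right _ _)).1 h1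
  obtain rfl : ε = 0 := by
    by_contra hε
    have := Nat.dvd_one.1 ((Nat.dvd_add_right (C.hε hε)).1 h3)
    omega
  have h4 : (u + 1) * 1 ≤ (u + 1) * β := Nat.mul_le_mul_left _ (by omega)
  obtain rfl : α = 0 := by
    by_contra h5
    have h6 : 1 * (u * v + u + 2) ≤ α * (u * v + u + 2) := Nat.mul_le_mul_right _ (by omega)
    rcases Nat.eq_or_lt_of_le r1 with rfl | h7
    · obtain rfl : t = 3 := ((Nat.dvd_prime Nat.prime_three).1 h3).resolve_left (by omega)
      omega
    · have h8 : (u + 2) * c ≤ u * v := by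
        rw [hc, ← mul_assoc]
        exact Nat.mul_le_mul_right _ (by nlinarith)
      omega
  have h5 := h.lt_of_gamma h0 hr hc he hx0 h2 (C.zα rfl) (C.zε rfl)
  simp only [zero_mul, zero_add, mul_zero, add_zero] at rel' o4
  obtain rfl : c = 1 := by
    have h6 : u + 1 ∣ c - 1 := (Nat.dvd_add_right (dvd_mul_right (u + 1) c)).1 ⟨β, by
      have : (u + 2) * c = (u + 1) * c + c := by ring
      omega⟩
    have := Nat.eq_zero_of_dvd_of_lt h6 (by omega)
    omega
  simp only [mul_one] at hc he rel'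
  subst hc he
  obtain rfl : β = 1 := Nat.eq_of_mul_eq_mul_left (show 0 < u + 1 by omega) (by omega)
  obtain rfl : v = u + 2 := by
    rcases Nat.eq_or_lt_of_le (Nat.le_of_dvd (by omega) h3) with h6 | h6
    · exact h6
    · obtain rfl : v = u + 1 := by omega
      have := Nat.dvd_one.1 ((Nat.dvd_add_right dvd_rfl).1 h3)
      omega
  obtain ⟨St, a1, a2, a3, a4⟩ := C.oβ rfl
  subst h0
  refine Or.inr ⟨rfl, St, h, by omega, by rw [r4]; ring, by rw [hx0, ← r3]; ring, a1, a2,
    by rw [a3, ← r3]; ring, fun χ hχ => ?_⟩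
  rcases h.bd.sign χ hχ with b | b
  · exact (C.zα rfl χ hχ b).imp_right fun b1 => Or.inl (a4 χ hχ b b1)
  · refine Or.inr (Or.inr ⟨b, ?_⟩)
    have := C.zε rfl χ hχ b
    rw [← r3] at this
    exact Nat.add_right_cancel this

end W

end CfsgLib.Sy
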