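import Cfsg.Agent.Lib.Sy.Tools

/-!
# Counting the characters of the principal block by their degrees
-/

set_option autoImplicit false

namespace CfsgLib.Sy

open Cfsg Subgroup CfsgLib.FT CfsgLib.Blk
open scoped ComplexConjugate

variable {G : Type*} [Group G] [Fintype G] {p r e t : ℕ} {P : Subgroup G}
  {𝒩 𝒳 : Finset (Irr (⊤ : Subgroup G))} {δ : Irr (⊤ : Subgroup G) → ℤ} {δ0 : ℤ} {χ0 : G → ℂ}

theorem sum_elems_eq_add_sharp {M : Type*} [AddCommMonoid M] (H : Subgroup G) (F : G → M) :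
    ∑ u ∈ elems (H : Set G), F u = F 1 + ∑ u ∈ elems (sharp H), F u := by
  classical
  rw [← Finset.add_sum_erase _ _ (show (1 : G) ∈ elems (H : Set G) by simp [elems])]
  congr 2
  ext g
  simp [elems, mem_sharp, and_comm]

theorem card_elems_sharp_add (H : Subgroup G) : (elems (sharp H)).card + 1 = Nat.card H := by
  have := sum_elems_eq_add_sharp H fun _ => 1
  simp only [Finset.sum_const, smul_eq_mul, mul_one, card_elems] at this
  omega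

/-- The numerical data attached to a representation of `r`. -/
structure Cnt (p r e t u v : ℕ) (𝒩 : Finset (Irr (⊤ : Subgroup G)))
    (δ : Irr (⊤ : Subgroup G) → ℤ) (δ0 : ℤ) (χ0 : G → ℂ) (α β γ ε : ℕ) (Θ : G → ℂ)
    (θ : G → ℤ) : Prop where
  mem : Θ ∈ ZIrr (⊤ : Subgroup G)
  val : ∀ g, ¬ p ∣ orderOf g → Θ g = θ g
  sum : 1 + α + β + γ + ε = e
  one : θ 1 = 1 + α * (1 + r * p) + β * (u * p + 1) + if δ0 = 1 then (dg χ0 : ℤ) else 0
  one' : θ 1 = γ * (p - 1) + ε * ((v + 1) * p - 1) + if δ0 = -1 then (dg χ0 : ℤ) else 0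
  s1 : θ 1 + ∑ g ∈ reg1 G p, θ g = (1 + r * p) * e * (t * (γ + ε) + if δ0 = -1 then 1 else 0)
  s2 : θ 1 * (θ 1 - 1) + ∑ g ∈ reg1 G p, θ g * (θ g - 1) = (1 + r * p) * e *
    (t * (γ + ε) * (α + β) + if δ0 = 1 then ((γ : ℤ) + ε) else ((α : ℤ) + β))
  hβ : β ≠ 0 → t ∣ v
  hγ : γ ≠ 0 → t ∣ r + 1 ∧ 2 ≤ t
  hε : ε ≠ 0 → t ∣ u + 1
  zα : α = 0 → ∀ χ ∈ 𝒩, δ χ = 1 → χ = 1 ∨ dg (χ : G → ℂ) = u * p + 1
  zε : ε = 0 → ∀ χ ∈ 𝒩, δ χ = -1 → dg (χ : G → ℂ) + 1 = p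
  oβ : β = 1 → ∃ St ∈ 𝒩, δ St = 1 ∧ dg (St : G → ℂ) = u * p + 1 ∧
    ∀ χ ∈ 𝒩, δ χ = 1 → dg (χ : G → ℂ) = u * p + 1 → χ = St

namespace W

variable (h : W p P r e t 𝒩 𝒳 δ δ0 χ0)
include h

theorem dvd_orderOf_of_mem {x : G} (hx : x ∈ P) (h1 : x ≠ 1) : p ∣ orderOf x := by
  have h2 := P.orderOf_dvd_natCard hx
  rw [h.hyp.card] at h2
  rcases (Nat.dvd_prime h.hyp.prime).1 h2 with h3 | h3
  · exact absurd (orderOf_eq_one_iff.1 h3) h1
  · exact h3.symm.dvd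

theorem sumP_eq_zero {χ : Irr (⊤ : Subgroup G)} (hχ : χ ∈ 𝒩) (h1 : δ χ = -1)
    (hd : dg (χ : G → ℂ) + 1 = p) : ∑ u ∈ elems (P : Set G), χ u = 0 := by
  rw [sum_elems_eq_add_sharp, irr_one, Finset.sum_congr rfl (g := fun _ => -1) fun x hx => by
    have := mem_sharp.1 (by simpa [elems] using hx : x ∈ sharp P)
    rw [h.bd.valN χ hχ x (h.dvd_orderOf_of_mem this.1 this.2), h1]; simp]
  have h2 := card_elems_sharp_add P
  rw [h.hyp.card, ← hd, Nat.add_right_cancel_iff] at h2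
  simp [h2]

theorem two_le_t {χ : Irr (⊤ : Subgroup G)} (hχ : χ ∈ 𝒩) (h1 : δ χ = -1)
    (hd : dg (χ : G → ℂ) + 1 = p) : 2 ≤ t := by
  by_contra ht
  have h2 := h.hyp.one_le_t
  obtain rfl : t = 1 := by omega
  have h3 := h.hyp.pe
  have h4 := h.hyp.three_le
  obtain ⟨k, hk⟩ := h.hyp.prime.odd_of_ne_two (by omega)
  exact absurd (h.even_t hd (h.sumP_eq_zero hχ h1 hd) ⟨k, by omega⟩) (by decide)

theorem types {u v : ℕ} (hr : Rep p r u v) {χ : Irr (⊤ : Subgroup G)} (hχ : χ ∈ 𝒩)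
    (h1 : χ ≠ 1) :
    (δ χ = 1 ∧ (dg (χ : G → ℂ) = 1 + r * p ∨ t ∣ v ∧ dg (χ : G → ℂ) = u * p + 1)) ∨
    (δ χ = -1 ∧ ((t ∣ r + 1 ∧ dg (χ : G → ℂ) + 1 = p) ∨
      t ∣ u + 1 ∧ dg (χ : G → ℂ) + 1 = (v + 1) * p)) := by
  rcases h.bd.typeN h.hyp hχ h1 with ⟨h2, h3 | ⟨u', v', h3, h4⟩⟩ |
    ⟨h2, h3 | ⟨h3, h4⟩ | ⟨u', v', h3, h4⟩⟩
  · exact Or.inl ⟨h2, Or.inl h3⟩
  · obtain ⟨rfl, rfl⟩ := hr.unique h3
    exact Or.inl ⟨h2, Or.inr h4⟩
  · exact Or.inr ⟨h2, Or.inl h3⟩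
  · exfalso
    have h5 := h.dg_sq_lt χ
    have h6 := h.hyp.pe
    have h7 := h.hyp.one_le_r
    have h8 := h.hyp.two_le_e
    rw [h3, mul_one] at h6
    rw [h4, h6, Nat.add_sub_cancel] at h5
    have h11 : 1 * (e + 1) ≤ r * (e + 1) := Nat.mul_le_mul_right _ h7
    have h9 : e + 1 < e * (1 + r * (e + 1)) := by nlinarith
    have h10 : (1 + r * (e + 1)) * e * (e + 1) <
        (1 + r * (e + 1)) * e * (e * (1 + r * (e + 1))) :=
      Nat.mul_lt_mul_of_pos_left h9 (by positivity)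
    nlinarith
  · obtain ⟨rfl, rfl⟩ := hr.unique h3
    exact Or.inr ⟨h2, Or.inr h4⟩

theorem exists_cnt {u v : ℕ} (hr : Rep p r u v) :
    ∃ α β γ ε Θ θ, Cnt p r e t u v 𝒩 δ δ0 χ0 α β γ ε Θ θ := by
  classical
  obtain ⟨Θ, hΘ, θ, h1, h2, h3, h4, h5⟩ := h.exists_theta
  obtain ⟨r1, r2, r3, r4⟩ := id hr
  have hp := h.hyp.three_le
  have hd1 : dg ((1 : Irr (⊤ : Subgroup G)) : G → ℂ) = 1 := by
    have := irr_one (1 : Irr (⊤ : Subgroup G))
    rw [Irr.coe_one, cf1_apply (mem_top _)] at this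
    exact_mod_cast this.symm
  have n1 : 1 + r * p ≠ u * p + 1 := by
    have : u * p < r * p := Nat.mul_lt_mul_of_pos_right (by omega) (by omega)
    omega
  have n2 : p ≠ (v + 1) * p := by
    have : 1 * p < (v + 1) * p := Nat.mul_lt_mul_of_pos_right (by omega) (by omega)
    omega
  have n3 : 1 ≤ r * p := Nat.mul_pos (by omega) (by omega)
  have n4 : 1 ≤ u * p := Nat.mul_pos (by omega) (by omega)
  set Fα := 𝒩.filter fun χ => δ χ = 1 ∧ dg (χ : G → ℂ) = 1 + r * p with hα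
  set Fβ := 𝒩.filter fun χ => δ χ = 1 ∧ dg (χ : G → ℂ) = u * p + 1 with hβ
  set Fγ := 𝒩.filter fun χ => δ χ = -1 ∧ dg (χ : G → ℂ) + 1 = p with hγ
  set Fε := 𝒩.filter fun χ => δ χ = -1 ∧ dg (χ : G → ℂ) + 1 = (v + 1) * p with hε
  have d1 := h.bd.δ_one h.hyp
  have e1 : ∀ f : Irr (⊤ : Subgroup G) → ℤ,
      ∑ χ ∈ 𝒩 with δ χ = 1, f χ = f 1 + ∑ χ ∈ Fα, f χ + ∑ χ ∈ Fβ, f χ := fun f => by
    rw [add_assoc, ← Finset.sum_union, ← Finset.sum_insert]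
    · congr 1
      ext χ
      simp only [hα, hβ, Finset.mem_filter, Finset.mem_insert, Finset.mem_union]
      constructor
      · rintro ⟨a1, a2⟩
        by_cases a3 : χ = 1
        · exact Or.inl a3
        rcases h.types hr a1 a3 with ⟨-, a4 | a4⟩ | ⟨a4, -⟩
        · exact Or.inr (Or.inl ⟨a1, a2, a4⟩)
        · exact Or.inr (Or.inr ⟨a1, a2, a4.2⟩)
        · omega
      · rintro (rfl | a | a)
        · exact ⟨h.bd.one_mem, d1⟩
        · exact ⟨a.1, a.2.1⟩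
        · exact ⟨a.1, a.2.1⟩
    · simp only [hα, hβ, Finset.mem_filter, Finset.mem_union, hd1]
      omega
    · rw [Finset.disjoint_filter]
      omega
  have e2 : ∀ f : Irr (⊤ : Subgroup G) → ℤ,
      ∑ χ ∈ 𝒩 with δ χ = -1, f χ = ∑ χ ∈ Fγ, f χ + ∑ χ ∈ Fε, f χ := fun f => by
    rw [← Finset.sum_union]
    · congr 1
      ext χ
      simp only [hγ, hε, Finset.mem_filter, Finset.mem_union]
      constructor
      · rintro ⟨a1, a2⟩
        rcases h.types hr a1 (by rintro rfl; omega) with ⟨a4, -⟩ | ⟨-, a4 | a4⟩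
        · omega
        · exact Or.inl ⟨a1, a2, a4.2⟩
        · exact Or.inr ⟨a1, a2, a4.2⟩
      · rintro (a | a)
        · exact ⟨a.1, a.2.1⟩
        · exact ⟨a.1, a.2.1⟩
    · rw [Finset.disjoint_filter]
      omega
  have c1 := e1 fun _ => 1
  have c2 := e2 fun _ => 1
  simp only [Finset.sum_const, nsmul_eq_mul, mul_one] at c1 c2
  have c3 : (𝒩.filter fun χ => δ χ = 1).card + (𝒩.filter fun χ => δ χ = -1).card = e := by
    rw [← h.bd.cardN, ← Finset.card_filter_add_card_filter_not (s := 𝒩) fun χ => δ χ = 1]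
    congr 2
    exact Finset.filter_congr fun χ hχ => by rcases h.bd.sign χ hχ with a | a <;> simp [a]
  have np : ¬ p ∣ orderOf (1 : G) := by simpa using h.hyp.prime.one_lt.ne'
  have sc : ∀ (F : Finset (Irr (⊤ : Subgroup G))) (k : ℤ), (∀ χ ∈ F, (dg (χ : G → ℂ) : ℤ) = k) →
      ∑ χ ∈ F, (dg (χ : G → ℂ) : ℤ) = F.card * k := fun F k a => by
    rw [Finset.sum_congr rfl a]; simp
  rw [sum_reg_eq h.hyp.prime] at h4 h5
  refine ⟨Fα.card, Fβ.card, Fγ.card, Fε.card, Θ, θ, hΘ, h1, by omega, ?_, ?_, ?_, ?_, fun a => ?_,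
    fun a => ?_, fun a => ?_, fun a χ a1 a2 => ?_, fun a χ a1 a2 => ?_, fun a => ?_⟩
  · have a := e1 fun χ => dg (χ : G → ℂ)
    rw [hd1, sc Fα (1 + r * p) fun χ a => by exact_mod_cast (Finset.mem_filter.1 a).2.2,
      sc Fβ (u * p + 1) fun χ a => by exact_mod_cast (Finset.mem_filter.1 a).2.2] at a
    have b := h2 1 np
    simp only [irr_one, h.bd.one_eq_dg0 h.hyp] at b
    rw [Nat.cast_one] at a
    rw [← a]
    split_ifs at b ⊢ <;> exact_mod_cast b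
  · have a := e2 fun χ => dg (χ : G → ℂ)
    rw [sc Fγ (p - 1) fun χ a => by have := (Finset.mem_filter.1 a).2.2; omega,
      sc Fε ((v + 1) * p - 1) fun χ a => by
        have := (Finset.mem_filter.1 a).2.2
        rw [eq_sub_iff_add_eq]; exact_mod_cast this] at a
    have b := h3 1 np
    simp only [irr_one, h.bd.one_eq_dg0 h.hyp] at b
    rw [← a]
    split_ifs at b ⊢ <;> exact_mod_cast b
  · rw [h4, c2]; push_cast; ring
  · rw [h5, c1, c2]; push_cast; split_ifs <;> ring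
  · obtain ⟨χ, a1⟩ := Finset.card_ne_zero.1 a
    obtain ⟨a1, a2, a3⟩ := Finset.mem_filter.1 a1
    rcases h.types hr a1 (by rintro rfl; omega) with ⟨-, a4 | a4⟩ | ⟨a4, -⟩
    · omega
    · exact a4.1
    · omega
  · obtain ⟨χ, a1⟩ := Finset.card_ne_zero.1 a
    obtain ⟨a1, a2, a3⟩ := Finset.mem_filter.1 a1
    refine ⟨?_, h.two_le_t a1 a2 a3⟩
    rcases h.types hr a1 (by rintro rfl; omega) with ⟨a4, -⟩ | ⟨-, a4 | a4⟩
    · omega
    · exact a4.1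
    · omega
  · obtain ⟨χ, a1⟩ := Finset.card_ne_zero.1 a
    obtain ⟨a1, a2, a3⟩ := Finset.mem_filter.1 a1
    rcases h.types hr a1 (by rintro rfl; omega) with ⟨a4, -⟩ | ⟨-, a4 | a4⟩
    · omega
    · omega
    · exact a4.1
  · refine or_iff_not_imp_left.2 fun a3 => ?_
    rcases h.types hr a1 a3 with ⟨-, a4 | a4⟩ | ⟨a4, -⟩
    · exact absurd (Finset.card_ne_zero.2 ⟨χ, Finset.mem_filter.2 ⟨a1, a2, a4⟩⟩) (not_not.2 a)
    · exact a4.2
    · omega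
  · rcases h.types hr a1 (by rintro rfl; omega) with ⟨a4, -⟩ | ⟨-, a4 | a4⟩
    · omega
    · exact a4.2
    · exact absurd (Finset.card_ne_zero.2 ⟨χ, Finset.mem_filter.2 ⟨a1, a2, a4.2⟩⟩) (not_not.2 a)
  · obtain ⟨St, a1⟩ := Finset.card_eq_one.1 a
    obtain ⟨a2, a3, a4⟩ := Finset.mem_filter.1 (a1.ge (Finset.mem_singleton_self St))
    exact ⟨St, a2, a3, a4, fun χ b1 b2 b3 =>
      Finset.mem_singleton.1 (a1.le (Finset.mem_filter.2 ⟨b1, b2, b3⟩))⟩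

theorem not_dvd_e : ¬ p ∣ e := fun a => by
  have h1 := h.hyp.pe
  have h2 := (Nat.dvd_add_right (a.mul_right t)).1 (h1 ▸ dvd_refl p : p ∣ e * t + 1)
  exact h.hyp.prime.one_lt.ne' (Nat.dvd_one.1 h2)

end W

namespace Cnt

variable {u v α β γ ε : ℕ} {Θ : G → ℂ} {θ : G → ℤ}
  (C : Cnt p r e t u v 𝒩 δ δ0 χ0 α β γ ε Θ θ)

theorem mul_pred_nonneg (k : ℤ) : 0 ≤ k * (k - 1) := by
  rcases le_or_gt k 0 with h | h
  · exact mul_nonneg_of_nonpos_of_nonpos h (by omega)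
  · exact mul_nonneg h.le (by omega)

theorem sum_nonneg : 0 ≤ ∑ g ∈ reg1 G p, θ g * (θ g - 1) :=
  Finset.sum_nonneg fun _ _ => mul_pred_nonneg _

theorem zero_one (h : ∑ g ∈ reg1 G p, θ g * (θ g - 1) = 0) :
    ∀ g, ¬ p ∣ orderOf g → g ≠ 1 → θ g = 0 ∨ θ g = 1 := fun g h1 h2 =>
  (mul_eq_zero.1 ((Finset.sum_eq_zero_iff_of_nonneg fun _ _ => mul_pred_nonneg _).1 h g
    (mem_reg1.2 ⟨h1, h2⟩))).imp_right sub_eq_zero.1

include C in
/-- Two divisors of `e`, one dividing `θ(1)`, the other `θ(1) - 1`. -/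
theorem eq_one_or (h : W p P r e t 𝒩 𝒳 δ δ0 χ0) (h0 : ∑ g ∈ reg1 G p, θ g * (θ g - 1) = 0)
    {a b : ℕ} (ha : a ∣ e) (hb : b ∣ e) (h1 : (a : ℤ) ∣ θ 1) (h2 : (b : ℤ) ∣ θ 1 - 1) :
    a = 1 ∨ b = 1 := by
  by_contra hh
  push Not at hh
  obtain ⟨y, -, hy⟩ := h.exists_compl
  have h3 : ¬ p ∣ orderOf y := hy ▸ h.not_dvd_e
  have key := fun q hq hqg => zero_one_dvd (q := q) C.mem C.val (zero_one h0) h.hyp.prime h3 hq hqg
  obtain ⟨q, hq, hqa⟩ := Nat.exists_prime_and_dvd hh.1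
  obtain ⟨s, hs, hsb⟩ := Nat.exists_prime_and_dvd hh.2
  have h4 := key q hq (hy ▸ hqa.trans ha)
  have h5 := key s hs (hy ▸ hsb.trans hb)
  have h6 := (Int.natCast_dvd_natCast.2 hqa).trans h1
  have h7 := (Int.natCast_dvd_natCast.2 hsb).trans h2
  rcases zero_one h0 y h3 (by
    rintro rfl
    have := h.hyp.two_le_e
    rw [orderOf_one] at hy
    omega) with h8 | h8 <;> rw [h8] at h4 h5
  · have := dvd_sub h5 h7
    rw [sub_zero, sub_sub_cancel] at this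
    exact hs.one_lt.ne' (by exact_mod_cast Int.eq_one_of_dvd_one (by positivity) this)
  · have := dvd_sub h6 h4
    rw [sub_sub_cancel] at this
    exact hq.one_lt.ne' (by exact_mod_cast Int.eq_one_of_dvd_one (by positivity) this)

end Cnt

end CfsgLib.Sy
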