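import Cfsg.Agent.Lib.Sy.CaseAB1

/-!
# Exceptional degree `A / t`
-/

set_option autoImplicit false

namespace CfsgLib.Sy

open Cfsg Subgroup CfsgLib.FT CfsgLib.Blk
open scoped ComplexConjugate

variable {G : Type*} [Group G] [Fintype G] {p r e t : ℕ} {P : Subgroup G}
  {𝒩 𝒳 : Finset (Irr (⊤ : Subgroup G))} {δ : Irr (⊤ : Subgroup G) → ℤ} {δ0 : ℤ} {χ0 : G → ℂ}

theorem arithA {t c v α β γ ε T S u p r e x : ℤ} (hu : u + 1 = t * c) (hp : (u + 1) * v + 1 = p)
    (hr : r = u * v + u + 1) (he : e = c * v) (hx : x = c * (u * v + 1)) (hp0 : p ≠ 0)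
    (sum : 1 + α + β + γ + ε = e) (one : T = 1 + α * (1 + r * p) + β * (u * p + 1) + x)
    (one' : T = γ * (p - 1) + ε * ((v + 1) * p - 1) + 0)
    (s2 : T * (T - 1) + S = (1 + r * p) * e * (t * (γ + ε) * (α + β) + (γ + ε))) :
    α * (u * v + u + 2) + t * c * β + c + 1 = (c + ε) * v ∧
      S = p * (u * v + 1) * v * (c * (t * β + 1) * γ - (p + u + 1) * α * ε) := by
  obtain rfl : u = t * c - 1 := by omega
  subst hp hr he hx
  refine ⟨mul_left_cancel₀ hp0 ?_, ?_⟩
  · linear_combination one' - one + (t * c - 1 + 1) * v * sum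
  · linear_combination s2 - (T - 1) * one' - (γ * ((t * c - 1 + 1) * v + 1 - 1) +
      ε * ((v + 1) * ((t * c - 1 + 1) * v + 1) - 1)) * one

theorem arithB {t c v α β γ ε T S u p r e x : ℤ} (hv : v = t * c) (hp : (u + 1) * v + 1 = p)
    (hr : r = u * v + u + 1) (he : e = (u + 1) * c) (hx : x = c * (p + u + 1)) (hp0 : p ≠ 0)
    (sum : 1 + α + β + γ + ε = e) (one : T = 1 + α * (1 + r * p) + β * (u * p + 1) + 0)
    (one' : T = γ * (p - 1) + ε * ((v + 1) * p - 1) + x)
    (s2 : T * (T - 1) + S = (1 + r * p) * e * (t * (γ + ε) * (α + β) + (α + β))) :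
    α * (u * v + u + 2) + (u + 1) * β + 1 = (u + 2) * c + v * ε ∧
      S = p * (u * v + 1) * c * ((u + 1) * t * β * γ - (p + u + 1) * α * (t * ε + 1)) := by
  subst hv
  subst hp hr he hx
  refine ⟨mul_left_cancel₀ hp0 ?_, ?_⟩
  · linear_combination one' - one + (u + 1) * (t * c) * sum
  · linear_combination s2 - (T - 1) * one' - (γ * ((u + 1) * (t * c) + 1 - 1) +
      ε * ((t * c + 1) * ((u + 1) * (t * c) + 1) - 1) + c * ((u + 1) * (t * c) + 1 + u + 1)) * one

theorem W.caseA' (h : W p P r e t 𝒩 𝒳 δ δ0 χ0) (h0 : δ0 = 1) {u v : ℕ} (hr : Rep p r u v)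
    (hx : t * dg χ0 = u * p + 1) : False := by
  obtain ⟨α, β, γ, ε, Θ, θ, C⟩ := h.exists_cnt hr
  obtain ⟨r1, r2, r3, r4⟩ := hr
  have pe := h.hyp.pe
  have t1 := h.hyp.one_le_t
  have p3 := h.hyp.three_le
  obtain ⟨c, hc⟩ : t ∣ u + 1 := by
    have : u + 1 + t * (u * e) = t * dg χ0 := by rw [hx, pe]; ring
    exact (Nat.dvd_add_left (dvd_mul_right _ _)).1 (this ▸ dvd_mul_right _ _)
  have c1 : 1 ≤ c := Nat.pos_of_ne_zero (by rintro rfl; omega)
  have he : e = c * v := Nat.eq_of_mul_eq_mul_right t1 (by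
    have : e * t = (u + 1) * v := by omega
    rw [this, hc]; ring)
  have hx0 : dg χ0 = c * (u * v + 1) := Nat.eq_of_mul_eq_mul_left t1 (by
    rw [hx, ← mul_assoc, ← hc, ← r3]; ring)
  have o1 := C.one
  have o2 := C.one'
  have o3 := C.s2
  have o4 := C.sum
  rw [h0] at o1 o2 o3
  simp only [if_true, show ¬ (1 : ℤ) = -1 by decide, if_false] at o1 o2 o3
  obtain ⟨rel, hS⟩ := arithA (t := t) (c := c) (by exact_mod_cast hc) (by exact_mod_cast r3)
    (by exact_mod_cast r4) (by exact_mod_cast he) (by exact_mod_cast hx0) (by omega)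
    (by exact_mod_cast o4) o1 o2 o3
  have rel' : α * (u * v + u + 2) + t * c * β + c + 1 = (c + ε) * v := by exact_mod_cast rel
  have ineq : (p + u + 1) * α * ε ≤ c * (t * β + 1) * γ := by
    have h1 := Cnt.sum_nonneg (G := G) (p := p) (θ := θ)
    rw [hS] at h1
    have h2 := (mul_nonneg_iff_of_pos_left (by
      have : 0 < v := by omega
      positivity)).1 h1
    rw [sub_nonneg] at h2
    exact_mod_cast h2
  by_cases hγ : γ = 0
  · subst hγ
    have hε : ε ≠ 0 := by
      rintro rfl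
      have : (0 : ℤ) ≤ α * (1 + r * p) + β * (u * p + 1) + dg χ0 := by positivity
      simp only [Nat.cast_zero, zero_mul, add_zero] at o2
      omega
    obtain rfl : α = 0 := by
      simp only [mul_zero, nonpos_iff_eq_zero, mul_eq_zero, hε, or_false] at ineq
      omega
    have h1 := C.eq_one_or h (by rw [hS]; simp) (a := v) (b := c) (he ▸ dvd_mul_left _ _)
      (he ▸ dvd_mul_right _ _) ⟨ε * (p + u + 1), by rw [o2, ← r3]; push_cast; ring⟩
      ⟨β * t * (u * v + 1) + (u * v + 1), by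
        have : (u : ℤ) + 1 = t * c := by exact_mod_cast hc
        rw [o1, hx0, ← r3]; push_cast; linear_combination (β * (u * v + 1) : ℤ) * this⟩
    obtain rfl : c = 1 := by omega
    simp only [mul_one, one_mul, zero_mul, zero_add, add_zero] at hc he rel' o4
    subst he
    by_cases hβ : β = 0
    · subst hβ
      rw [show 1 + ε = e by omega] at rel'
      have : 2 * 2 ≤ e * e := Nat.mul_le_mul (by omega) (by omega)
      omega
    · obtain ⟨k, hk⟩ := C.hβ hβ
      have h2 : t ∣ 2 := (Nat.dvd_add_right (dvd_mul_right t β)).1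
        ⟨(1 + ε) * k, by rw [mul_left_comm, ← hk, ← rel']⟩
      have h3 : t = 2 := le_antisymm (Nat.le_of_dvd two_pos h2) (by omega)
      subst h3
      have : 2 * e ≤ (1 + ε) * e := Nat.mul_le_mul_right _ (by omega)
      omega
  obtain ⟨h1, h2⟩ := C.hγ hγ
  have h3 : t ∣ v - 1 := by
    have h4 : v - 1 + (r + 1) = t * (c * v + c) := by
      have : t * (c * v + c) = (u + 1) * v + (u + 1) := by rw [hc]; ring
      have : (u + 1) * v = u * v + v := by ring
      omega
    exact (Nat.dvd_add_left h1).1 (h4 ▸ dvd_mul_right _ _)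
  obtain rfl : β = 0 := by
    by_contra hβ
    have h4 := (Nat.dvd_sub (C.hβ hβ) h3)
    rw [Nat.sub_sub_self (by omega), Nat.dvd_one] at h4
    omega
  have h4 : t * c + 1 ≤ v := by
    by_contra h4
    have h5 : v = t * c := by omega
    have h6 := Nat.dvd_sub (show t ∣ v from h5 ▸ dvd_mul_right _ _) h3
    rw [Nat.sub_sub_self (by omega), Nat.dvd_one] at h6
    omega
  have h5 : 2 * c ≤ t * c := Nat.mul_le_mul_right _ h2
  simp only [mul_zero, add_zero, zero_add, mul_one] at rel' ineq o4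
  rcases Nat.eq_zero_or_pos α with rfl | hα
  · have h6 : c * (2 * c + 1) ≤ (c + ε) * v := Nat.mul_le_mul (by omega) (by omega)
    nlinarith
  · have h6 : 1 * (u * v + u + 2) ≤ α * (u * v + u + 2) := Nat.mul_le_mul_right _ hα
    have h7 : u < c + ε := lt_of_mul_lt_mul_right (a := v) (by omega) (Nat.zero_le _)
    have h8 : c ≤ ε := by omega
    have h9 : (t * c * v) * 1 * c ≤ (p + u + 1) * α * ε :=
      Nat.mul_le_mul (Nat.mul_le_mul (by rw [← hc]; omega) hα) h8
    have h10 : c * γ < c * (c * v) := Nat.mul_lt_mul_of_pos_left (by omega) c1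
    have h11 : 2 * c * v * 1 * c ≤ (t * c * v) * 1 * c := by gcongr
    nlinarith

end CfsgLib.Sy
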