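import Cfsg.Agent.Lib.Sy.CaseAB2
import Cfsg.Agent.Lib.PComplement

/-!
# Exceptional degree `B / t`, no character of degree `p - 1`
-/

set_option autoImplicit false

namespace CfsgLib.Sy

open Cfsg Subgroup CfsgLib.FT CfsgLib.Blk
open scoped ComplexConjugate

variable {G : Type*} [Group G] [Fintype G] {p r e t : ℕ} {P : Subgroup G}
  {𝒩 𝒳 : Finset (Irr (⊤ : Subgroup G))} {δ : Irr (⊤ : Subgroup G) → ℤ} {δ0 : ℤ} {χ0 : G → ℂ}

theorem ordConj {X : Type*} [Group X] (c g : X) : orderOf (c * g * c⁻¹) = orderOf g :=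
  (MulAut.conj c).orderOf_eq g

theorem Hyp.not_cyclic (h : Hyp p P r e t) {y : G} (h1 : Even (orderOf y))
    (h2 : Odd (zpowers y).index) : False := by
  obtain ⟨k, m, hm, hk⟩ := Nat.exists_eq_two_pow_mul_odd (orderOf_pos y).ne'
  have h3 := orderOf_pow_orderOf_div (orderOf_pos y).ne' (hk ▸ dvd_mul_right (2 ^ k) m)
  set x := y ^ (orderOf y / 2 ^ k)
  have h4 : (zpowers x).index = m * (zpowers y).index :=
    Nat.eq_of_mul_eq_mul_left (pow_pos two_pos k) (by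
      rw [← mul_assoc, ← hk, ← h3, ← Nat.card_zpowers, ← Nat.card_zpowers, card_mul_index,
        card_mul_index])
  have h5 : ¬ 2 ∣ (zpowers x).index := by
    rw [h4, ← even_iff_two_dvd, Nat.not_even_iff_odd]; exact hm.mul h2
  obtain ⟨Q, N, hN, hQ⟩ := PCompl.hnpc_two_of_isCyclic
    ((IsPGroup.of_card ((Nat.card_zpowers x).trans h3)).toSylow h5)
    (inferInstanceAs (IsCyclic (zpowers x)))
  rcases h.simple.eq_bot_or_eq_top_of_normal N hN with rfl | rfl
  · have h6 := (isComplement'_bot_left.1 hQ ▸ Q.isPGroup' : IsPGroup 2 (⊤ : Subgroup G))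
    obtain ⟨j, hj⟩ := h6.exists_card_eq
    have h7 : p ∣ 2 ^ j := by rw [← hj, card_top, ← h.card]; exact card_subgroup_dvd_card P
    have := (Nat.prime_dvd_prime_iff_eq h.prime Nat.prime_two).1 (h.prime.dvd_of_dvd_pow h7)
    have := h.three_le
    omega
  · have h6 := Q.not_dvd_index
    rw [isComplement'_top_left.1 hQ, index_bot] at h6
    exact h6 (h1.two_dvd.trans (orderOf_dvd_natCard y))

theorem Cnt.elemCent {u v α β γ ε : ℕ} {Θ : G → ℂ} {θ : G → ℤ}
    (C : Cnt p r e t u v 𝒩 δ δ0 χ0 α β γ ε Θ θ) (h : W p P r e t 𝒩 𝒳 δ δ0 χ0)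
    (h0 : ∑ g ∈ reg1 G p, θ g * (θ g - 1) = 0) (hG : Nat.card G = p * (p + 2) * (p + 1))
    (h1 : θ 1 = p + 2) (h2 : ∑ g ∈ reg1 G p, θ g = p * (p + 2)) :
    ∃ S : Sylow 2 G, Nat.card S = p + 1 ∧ ElemCent S.1 := by
  classical
  have hp := h.hyp.prime
  have p3 := h.hyp.three_le
  have h01 := Cnt.zero_one h0
  have key : ∀ {g : G}, ¬ p ∣ orderOf g → ∀ {q : ℕ}, q.Prime → q ∣ orderOf g →
      (θ g = 1 ∧ q ∣ p + 1) ∨ (θ g = 0 ∧ q ∣ p + 2) := fun {g} a1 q hq a2 => by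
    have a3 := zero_one_dvd C.mem C.val h01 hp a1 hq a2
    rw [h1] at a3
    rcases h01 g a1 (by rintro rfl; rw [orderOf_one] at a2; exact hq.one_lt.ne' (Nat.dvd_one.1 a2))
      with a | a <;> rw [a] at a3
    · exact Or.inr ⟨a, by exact_mod_cast (sub_zero ((p : ℤ) + 2) ▸ a3)⟩
    · exact Or.inl ⟨a, by
        rw [show (p : ℤ) + 2 - 1 = p + 1 by ring] at a3; exact_mod_cast a3⟩
  have nd : ∀ {q : ℕ}, q.Prime → q ∣ p + 1 → ¬ q ∣ p + 2 := fun hq a b =>
    hq.one_lt.ne' (Nat.dvd_one.1 ((Nat.dvd_add_right a).1 b))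
  have key1 : ∀ {g : G}, ¬ p ∣ orderOf g → ∀ {q : ℕ}, q.Prime → q ∣ orderOf g → q ∣ p + 1 →
      θ g = 1 := fun a1 q hq a2 a3 =>
    (key a1 hq a2).elim (·.1) fun a => absurd a.2 (nd hq a3)
  have key2 : ∀ {g : G}, ¬ p ∣ orderOf g → ∀ {q : ℕ}, q.Prime → q ∣ orderOf g → θ g = 1 →
      q ∣ p + 1 := fun a1 q hq a2 a3 =>
    (key a1 hq a2).elim (·.2) fun a => by omega
  set T := (reg1 G p).filter fun g => θ g = 1 with hT
  have hTc : T.card = p * (p + 2) := by
    have : ∑ g ∈ reg1 G p, θ g = ∑ g ∈ reg1 G p, if θ g = 1 then 1 else 0 :=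
      Finset.sum_congr rfl fun g hg => by
        rcases h01 g (mem_reg1.1 hg).1 (mem_reg1.1 hg).2 with a | a <;> simp [a]
    rw [this, Finset.sum_boole] at h2
    exact_mod_cast h2
  have hcl : ∀ g ∈ T, Nat.card (centralizer ({g} : Set G)) = p + 1 ∧ ∀ x ∈ T, IsConj g x := by
    intro g hg
    obtain ⟨a1, a3⟩ := Finset.mem_filter.1 hg
    obtain ⟨a1, a2⟩ := mem_reg1.1 a1
    have b1 : (Nat.card (centralizer ({g} : Set G))).Coprime (p * (p + 2)) := by
      refine Nat.Coprime.mul_right ((Nat.coprime_comm.1 ((Nat.Prime.coprime_iff_not_dvd hp).2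
        (h.not_dvd_cent a1 a2)))) (Nat.coprime_of_dvd fun q hq b1 b2 => ?_)
      have := Fact.mk hq
      obtain ⟨⟨x, hx⟩, b3⟩ := exists_prime_orderOf_dvd_card' q b1
      rw [orderOf_mk] at b3
      by_cases b4 : q ∣ orderOf g
      · exact nd hq (key2 a1 hq b4 a3) b2
      have b5 := (show Commute x g from mem_centralizer_singleton_iff.1 hx
        ).orderOf_mul_eq_mul_orderOf_of_coprime (b3 ▸ (Nat.Prime.coprime_iff_not_dvd hq).2 b4)
      rw [b3] at b5
      have b6 : ¬ p ∣ orderOf (x * g) := by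
        rw [b5, hp.dvd_mul, not_or]
        refine ⟨fun b => ?_, a1⟩
        obtain rfl := (Nat.prime_dvd_prime_iff_eq hp hq).1 b
        have := Nat.le_of_dvd two_pos ((Nat.dvd_add_right dvd_rfl).1 b2)
        omega
      obtain ⟨s, hs, b7⟩ := Nat.exists_prime_and_dvd (mt orderOf_eq_one_iff.1 a2)
      exact nd hq (key2 b6 hq (b5 ▸ dvd_mul_right _ _)
        (key1 b6 hs (b5 ▸ b7.mul_left _) (key2 a1 hs b7 a3))) b2
    have b2 : Nat.card (centralizer ({g} : Set G)) ≤ p + 1 := Nat.le_of_dvd (by omega)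
      (b1.dvd_of_dvd_mul_left (hG ▸ card_subgroup_dvd_card _))
    have b3 : {x | IsConj g x} ⊆ (T : Set G) := fun x hx => by
      obtain ⟨c, rfl⟩ := isConj_iff.1 hx
      have b4 : ¬ p ∣ orderOf (c * g * c⁻¹) := by rwa [ordConj]
      refine Finset.mem_filter.2 ⟨mem_reg1.2 ⟨b4, by simpa using a2⟩, ?_⟩
      have := CF_conj (ZIrr_mem_CF C.mem) (mem_top c) g
      rw [C.val _ b4, C.val _ a1, a3] at this
      exact_mod_cast this
    have b4 := Set.ncard_le_ncard b3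
    have b5 := card_mul_index (centralizer ({g} : Set G))
    rw [index_centralizer_eq_ncard_isConj, hG] at b5
    rw [Set.ncard_coe_finset, hTc] at b4
    have b6 : p * (p + 2) ≤ {x | IsConj g x}.ncard := by
      refine Nat.le_of_mul_le_mul_left (c := p + 1) ?_ (by omega)
      rw [mul_comm, ← b5]
      exact Nat.mul_le_mul_right _ b2
    refine ⟨?_, fun x hx => (Set.eq_of_subset_of_ncard_le b3
      (by rwa [Set.ncard_coe_finset, hTc])).ge hx⟩
    rw [le_antisymm b4 b6, mul_comm] at b5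
    exact Nat.eq_of_mul_eq_mul_left (by positivity) b5
  have memT : ∀ {g : G} {q k : ℕ}, q.Prime → q ∣ p + 1 → g ≠ 1 → orderOf g = q ^ k → g ∈ T := by
    intro g q k hq a1 a2 a3
    have a4 : ¬ p ∣ orderOf g := fun b => by
      obtain rfl := (Nat.prime_dvd_prime_iff_eq hp hq).1 (hp.dvd_of_dvd_pow (a3 ▸ b))
      exact hq.one_lt.ne' (Nat.dvd_one.1 ((Nat.dvd_add_right dvd_rfl).1 a1))
    refine Finset.mem_filter.2 ⟨mem_reg1.2 ⟨a4, a2⟩, key1 a4 hq (a3 ▸ dvd_pow_self q ?_) a1⟩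
    rintro rfl
    exact a2 (orderOf_eq_one_iff.1 a3)
  have exT : ∀ {q : ℕ}, q.Prime → q ∣ p + 1 → ∃ g ∈ T, orderOf g = q := fun {q} hq a => by
    have := Fact.mk hq
    obtain ⟨g, hg⟩ := exists_prime_orderOf_dvd_card' (G := G) q (hG ▸ a.mul_left _)
    exact ⟨g, memT hq a (by rintro rfl; exact hq.one_lt.ne (by simpa using hg))
      (hg.trans (pow_one q).symm), hg⟩
  have ho := hp.odd_of_ne_two (by omega)
  have h21 : 2 ∣ p + 1 := ho.add_one.two_dvd
  obtain ⟨j, hj, hj2⟩ := exT Nat.prime_two h21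
  have ordT : ∀ x ∈ T, orderOf x = 2 := fun x hx => by
    obtain ⟨c, rfl⟩ := isConj_iff.1 ((hcl j hj).2 x hx)
    rw [ordConj, hj2]
  obtain ⟨k, hk⟩ : ∃ k, p + 1 = 2 ^ k := ⟨_, Nat.eq_prime_pow_of_unique_prime_dvd (by omega)
    fun hq a => by obtain ⟨g, a1, a2⟩ := exT hq a; rw [← a2, ordT g a1]⟩
  obtain ⟨S⟩ : Nonempty (Sylow 2 G) := inferInstance
  have hS : Nat.card S = p + 1 := by
    rw [S.card_eq_multiplicity, hG, hk, Nat.factorization_mul (by positivity) (by positivity),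
      Finsupp.add_apply, Nat.factorization_eq_zero_of_not_dvd, Nat.prime_two.factorization_pow]
    · simp
    · rw [← even_iff_two_dvd, Nat.not_even_iff_odd]
      exact ho.mul (ho.add_even even_two)
  have hT2 : ∀ x ∈ S.1, x ≠ 1 → x ∈ T := fun x hx a => by
    obtain ⟨i, hi⟩ := S.isPGroup'.exists_orderOf_eq_pow ⟨x, hx⟩
    exact memT Nat.prime_two h21 a (by rwa [orderOf_mk] at hi)
  have sq : ∀ x ∈ S.1, x * x = 1 := fun x hx => by
    by_cases a : x = 1
    · simp [a]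
    · rw [← pow_two, ← ordT x (hT2 x hx a), pow_orderOf_eq_one]
  refine ⟨S, hS, fun x hx a => ⟨sq x hx, (eq_of_le_of_card_ge (fun y hy => ?_)
    ((hcl x (hT2 x hx a)).1.trans hS.symm).le).ge⟩⟩
  have := inv_eq_of_mul_eq_one_right (sq _ (mul_mem hx hy))
  rw [mul_inv_rev, inv_eq_of_mul_eq_one_right (sq x hx),
    inv_eq_of_mul_eq_one_right (sq y hy)] at this
  exact mem_centralizer_singleton_iff.2 this

end CfsgLib.Sy
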