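import Cfsg.Agent.Lib.Sy.CaseAB3

/-!
# Exceptional degree `B / t`, with characters of degree `p - 1`
-/

set_option autoImplicit false

namespace CfsgLib.Sy

open Cfsg Subgroup CfsgLib.FT CfsgLib.Blk
open scoped ComplexConjugate

variable {G : Type*} [Group G] [Fintype G] {p r e t : ℕ} {P : Subgroup G}
  {𝒩 𝒳 : Finset (Irr (⊤ : Subgroup G))} {δ : Irr (⊤ : Subgroup G) → ℤ} {δ0 : ℤ} {χ0 : G → ℂ}

theorem natDvd_of_isIntegral {m : ℤ} {d : ℕ} (hd : d ≠ 0) (h : IsIntegral ℤ ((m : ℂ) / d)) :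
    (d : ℤ) ∣ m := by
  obtain ⟨k, hk⟩ := int_of_isIntegral_of_rat h ((m : ℚ) / d) (by simp)
  rw [div_eq_iff (by exact_mod_cast hd)] at hk
  exact ⟨k, by rw [mul_comm]; exact_mod_cast hk⟩

theorem isIntegral_congr {a b : ℂ} (h : IsIntegral ℤ a) (e : b = a) : IsIntegral ℤ b := e ▸ h

theorem arithC {u v c p r e x : ℤ} (h1 : 1 ≤ u) (h2 : u < v) (h3 : u + 2 ≤ c)
    (hp : (u + 1) * v + 1 = p) (hr : r = u * v + u + 1) (he : e = (u + 1) * c)
    (hx : x = c * (p + u + 1))
    (h : (1 + r * p) * p * ((e - 1) * c ^ 2) ≤ (r + 1) * ((1 + r * p) * e * e - x ^ 2)) :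
    False := by
  have h4 : 0 < p := by nlinarith
  have h5 : (p + u + 1) * p * c ^ 2 * ((u * v + 1) * (e - 1)) ≤
      (p + u + 1) * p * c ^ 2 * ((u * v + 1 + (u + 1)) * (u ^ 2 + u - 1)) := by
    convert h using 1 <;> subst hp hr he hx <;> ring
  have h6 := le_of_mul_le_mul_left h5 (by
    have : 0 < c := by omega
    have : 0 < u := by omega
    positivity)
  have h7 : u * (u + 1) ≤ u * v := mul_le_mul_of_nonneg_left (by omega) (by omega)
  have h8 : (u + 1) * (u + 2) ≤ e := he ▸ mul_le_mul_of_nonneg_left h3 (by omega)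
  generalize u * v = a at h6 h7
  have h9 : (a + 1) * ((u + 1) * (u + 2) - 1) ≤ (a + 1) * (e - 1) :=
    mul_le_mul_of_nonneg_left (by omega) (by nlinarith)
  have h10 : (u + 1) * (2 * (a + 1)) ≤ (u + 1) * (u ^ 2 + u - 1) := by nlinarith
  have h11 := le_of_mul_le_mul_left h10 (by omega)
  nlinarith

namespace W

variable (h : W p P r e t 𝒩 𝒳 δ δ0 χ0)
include h

theorem isIntegral_E {y z : G} (ho : orderOf y = e) (hz : z ∈ zpowers y)
    (χ : Irr (⊤ : Subgroup G)) : IsIntegral ℤ (((1 + r * p) * p : ℕ) * χ z / dg (χ : G → ℂ)) := by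
  obtain ⟨m, hm⟩ : e ∣ Nat.card (centralizer ({z} : Set G)) := by
    rw [← ho, ← Nat.card_zpowers]
    refine card_dvd_of_le (zpowers_le.2 (mem_centralizer_singleton_iff.2 ?_))
    obtain ⟨k, rfl⟩ := hz
    exact ((Commute.refl y).zpow_right k).eq
  have h1 := card_mul_index (centralizer ({z} : Set G))
  rw [hm, h.card_eq] at h1
  have h2 : (1 + r * p) * p = m * (centralizer ({z} : Set G)).index :=
    Nat.eq_of_mul_eq_mul_left (zero_lt_two.trans_le h.hyp.two_le_e) (by rw [mul_comm, ← h1]; ring)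
  have h3 := (isIntegral_natCast (R := ℤ) (B := ℂ) m).mul
    ((isIrr_top.1 χ.irr).isIntegral_index_mul_div z)
  rw [irr_one] at h3
  refine isIntegral_congr h3 ?_
  rw [h2]; push_cast; ring

theorem not_dvd_of_E {y z : G} (ho : orderOf y = e) (hz : z ∈ zpowers y) : ¬ p ∣ orderOf z :=
  fun a => h.not_dvd_e (ho ▸ a.trans (orderOf_dvd_of_mem_zpowers hz))

theorem lt_of_gamma (h0 : δ0 = -1) {u v c : ℕ} (hr : Rep p r u v) (hv : v = t * c)
    (he : e = (u + 1) * c) (hx : dg χ0 = c * (p + u + 1)) (ht : 2 ≤ t)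
    (h1 : ∀ χ ∈ 𝒩, δ χ = 1 → χ = 1 ∨ dg (χ : G → ℂ) = u * p + 1)
    (h2 : ∀ χ ∈ 𝒩, δ χ = -1 → dg (χ : G → ℂ) + 1 = p) : c < u + 2 := by
  classical
  by_contra hc
  obtain ⟨r1, r2, r3, r4⟩ := hr
  obtain ⟨y, hy, ho⟩ := h.exists_compl
  obtain ⟨ψ, hψ⟩ : 𝒳.Nonempty := Finset.card_pos.1 (by rw [h.bd.cardX]; omega)
  have hn : 1 + r * p = (u * v + 1) * (p + u + 1) := by rw [r4, ← r3]; ring
  have hA : u * p + 1 = (u + 1) * (u * v + 1) := by rw [← r3]; ring
  have key : ∀ z ∈ elems (sharp (zpowers y)), (c : ℝ) ^ 2 ≤ Complex.normSq (ψ z) := by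
    intro z hz
    obtain ⟨hz, z1⟩ := mem_sharp.1 (by simpa [elems] using hz : z ∈ sharp (zpowers y))
    have np := h.not_dvd_of_E ho hz
    obtain ⟨k, hk⟩ := h.int_val0 ht np
    have a1 : (c : ℤ) ∣ k := by
      have a := h.isIntegral_E ho hz ψ
      rw [h.bd.dg_X h.hyp hψ, h.bd.valX ψ hψ z np, hk, hx, hn] at a
      have a2 := natDvd_of_isIntegral (m := ((u * v + 1) * p : ℕ) * k) (d := c) (by omega) (by
        refine isIntegral_congr a ?_
        have : ((p + u + 1 : ℕ) : ℂ) ≠ 0 := Nat.cast_ne_zero.2 (by omega)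
        have : (c : ℂ) ≠ 0 := Nat.cast_ne_zero.2 (by omega)
        push_cast at *
        field_simp)
      refine Int.dvd_of_dvd_mul_right_of_gcd_one a2 ?_
      rw [Int.gcd_natCast_natCast]
      refine Nat.Coprime.mul_right ?_ ?_
      · rw [hv, ← mul_assoc, add_comm, Nat.coprime_add_mul_right_right]; simp
      · rw [← r3, hv, ← mul_assoc, add_comm, Nat.coprime_add_mul_right_right]; simp
    have a2 : ((u + 1 : ℕ) : ℤ) ∣ k - 1 := by
      have a := h.bd.rel z np
      rw [← Finset.add_sum_erase _ _ h.bd.one_mem, h.bd.δ_one h.hyp, h0, hk, Irr.coe_one,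
        cf1_apply (mem_top _)] at a
      have a3 := natDvd_of_isIntegral (m := ((p + u + 1) * p : ℕ) * (k - 1)) (d := u + 1)
        (by omega) (by
        have a4 : (((((p + u + 1) * p : ℕ) : ℤ) * (k - 1) : ℤ) : ℂ) / (u + 1 : ℕ) =
            ∑ χ ∈ 𝒩.erase 1, ((p + u + 1) * p : ℕ) * (δ χ * χ z) / (u + 1 : ℕ) := by
          rw [← Finset.sum_div, ← Finset.mul_sum]
          push_cast at a ⊢
          congr 2
          linear_combination -a
        rw [a4]
        refine IsIntegral.sum _ fun χ hχ => ?_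
        obtain ⟨b1, b2⟩ := Finset.mem_erase.1 hχ
        rcases h.bd.sign χ b2 with b3 | b3
        · have b4 := h.isIntegral_E ho hz χ
          rw [(h1 χ b2 b3).resolve_left b1, hA, hn] at b4
          refine isIntegral_congr b4 ?_
          have : ((u * v + 1 : ℕ) : ℂ) ≠ 0 := Nat.cast_ne_zero.2 (by omega)
          have : ((u + 1 : ℕ) : ℂ) ≠ 0 := Nat.cast_ne_zero.2 (by omega)
          rw [b3]
          push_cast at *
          field_simp
        · rw [h.zero_on_norm (h.sumP_eq_zero b2 b3 (h2 χ b2 b3)) (zpowers_le.2 hy hz)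
            fun b => np (h.dvd_orderOf_of_mem b z1)]
          simpa using isIntegral_zero)
      refine Int.dvd_of_dvd_mul_right_of_gcd_one a3 ?_
      rw [Int.gcd_natCast_natCast]
      have b : (u + 1).Coprime p := by
        rw [← r3, add_comm (_ * _) 1, Nat.coprime_add_mul_left_right]; simp
      refine Nat.Coprime.mul_right ?_ b
      rwa [add_assoc, Nat.coprime_add_self_right]
    have a3 : k ≠ 0 := by
      rintro rfl
      have := Int.natAbs_le_of_dvd_ne_zero a2 (by norm_num)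
      simp only [Int.natAbs_natCast] at this
      omega
    have a4 := Int.le_abs_of_dvd a3 a1
    rw [h.bd.valX ψ hψ z np, hk, Complex.normSq_intCast, ← sq, ← sq_abs (k : ℝ)]
    exact pow_le_pow_left₀ (by positivity) (by exact_mod_cast a4) 2
  have s1 := h.sum_fixN hy ho (F := fun g => Complex.normSq (ψ g))
    fun x g => by rw [CF_conj ψ.isChar.mem_CF (mem_top x)]
  have s2 := Finset.card_nsmul_le_sum _ _ _ key
  have s3 := card_elems_sharp_add (zpowers y)
  rw [Nat.card_zpowers, ho] at s3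
  have s4 : ∑ g ∈ reg1 G p, Complex.normSq (ψ g) * fixN P g ≤
      (r + 1) * ∑ g ∈ reg1 G p, Complex.normSq (ψ g) := by
    rw [Finset.mul_sum]
    refine Finset.sum_le_sum fun g hg => ?_
    rw [mul_comm]
    exact mul_le_mul_of_nonneg_right
      (by exact_mod_cast h.fixN_le' (mem_reg1.1 hg).1 (mem_reg1.1 hg).2) (Complex.normSq_nonneg _)
  have s5 : ∑ g ∈ reg1 G p, Complex.normSq (ψ g) = (1 + r * p) * e * e - (dg χ0 : ℝ) ^ 2 := by
    have a := h.sum_reg_00
    rw [sum_reg_eq h.hyp.prime, h.bd.one_eq_dg0 h.hyp, Finset.sum_congr rfl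
      (g := fun g => (Complex.normSq (ψ g) : ℂ)) fun g hg => by
        rw [Complex.mul_conj, h.bd.valX ψ hψ g (mem_reg1.1 hg).1], map_natCast] at a
    apply Complex.ofReal_injective
    push_cast at a ⊢
    linear_combination a
  rw [s1, s5] at s4
  have s6 : ((elems (sharp (zpowers y))).card : ℝ) = e - 1 := by rw [← s3]; simp
  rw [nsmul_eq_mul, s6] at s2
  have s7 := (mul_le_mul_of_nonneg_left s2 (by positivity)).trans s4
  exact arithC (u := u) (v := v) (c := c) (p := p) (r := r) (e := e) (x := dg χ0) (by omega)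
    (by omega) (by omega) (by exact_mod_cast r3) (by exact_mod_cast r4) (by exact_mod_cast he)
    (by exact_mod_cast hx) (by exact_mod_cast s7)

end W

end CfsgLib.Sy
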