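import Cfsg.Agent.Lib.Sy.E1

set_option autoImplicit false
set_option linter.unusedSectionVars false

namespace CfsgLib.Sy

open Cfsg Subgroup CfsgLib.FT CfsgLib.Blk CfsgLib.FT.BGN CfsgLib.FT.U4
open scoped ComplexConjugate

variable {G : Type*} [Group G] [Fintype G] {s p r e t : ℕ} {P : Subgroup G}
  {𝒩 𝒳 : Finset (Irr (⊤ : Subgroup G))} {δ : Irr (⊤ : Subgroup G) → ℤ} {δ0 : ℤ} {χ0 : G → ℂ}
  {St : Irr (⊤ : Subgroup G)}

theorem primePow_or_coprime (n : ℕ) : n ≤ 1 ∨ (∃ q k, q.Prime ∧ 0 < k ∧ n = q ^ k) ∨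
    ∃ a b, 1 < a ∧ a < b ∧ a.Coprime b ∧ n = a * b := by
  induction n using Nat.recOnPosPrimePosCoprime with
  | prime_pow q k hq hk => exact Or.inr (Or.inl ⟨q, k, hq, hk, rfl⟩)
  | zero => simp
  | one => simp
  | coprime a b ha hb hab _ _ =>
    refine Or.inr (Or.inr ?_)
    rcases lt_trichotomy a b with k | rfl | k
    · exact ⟨a, b, ha, k, hab, rfl⟩
    · simp at hab; omega
    · exact ⟨b, a, hb, k, hab.symm, mul_comm _ _⟩

/-- A `q`-central element of order `q`. -/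
theorem exists_central {q k : ℕ} (hq : q.Prime) (hk : 0 < k) (hd : q ^ k ∣ Nat.card G) :
    ∃ g : G, orderOf g = q ∧ q ^ k ∣ Nat.card 𝐂[g] := by
  have := Fact.mk hq
  obtain ⟨Q, hQ⟩ := Sylow.exists_subgroup_card_pow_prime q hd
  have hp : IsPGroup q Q := IsPGroup.of_card hQ
  have : Nontrivial Q := Finite.one_lt_card_iff_nontrivial.1
    (by rw [hQ]; exact Nat.one_lt_pow hk.ne' hq.one_lt)
  have := hp.center_nontrivial
  obtain ⟨m, hm, hc⟩ := (hp.to_subgroup (center Q)).nontrivial_iff_card.1 this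
  obtain ⟨z, hz⟩ := exists_prime_orderOf_dvd_card' (G := center Q) q
    (by rw [hc]; exact dvd_pow_self q hm.ne')
  refine ⟨((z : Q) : G), by rw [orderOf_coe, orderOf_coe, hz], hQ ▸ card_dvd_of_le fun x hx => mem_cent1.2 ?_⟩
  exact congrArg Subtype.val (mem_center_iff.1 z.2 ⟨x, hx⟩)

namespace EData

variable (h : EData s p P r 𝒩 𝒳 δ χ0 St)
include h

theorem reg_of_dvd {g : G} {k : ℕ} (ho : orderOf g ∣ s ^ k) : ¬ p ∣ orderOf g := fun hd =>
  h.prime.one_lt.ne' ((h.cop_p.pow_right k).eq_one_of_dvd (hd.trans ho))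

theorem valE {z : G} (hz : z ∈ 𝐍(P)) (ho : orderOf z ∣ s) (h1 : z ≠ 1) :
    χ0 z = 1 ∧ Nat.card 𝐂[z] ∣ s ^ 2 := by
  have hr : ¬ p ∣ orderOf z := h.reg_of_dvd (k := 1) (by simpa using ho)
  have hP : z ∉ P := fun hm => h1 (orderOf_eq_one_iff.1
    (Nat.eq_one_of_dvd_coprimes h.cop_p (h.w.hyp.card ▸ orderOf_dvd_card_of_mem hm) ho))
  obtain ⟨q, hq, hqz⟩ := exists_prime_dvd_orderOf h1
  have e1 := h.St_zero hq (hqz.trans ho) hqz
  have e2 : ∀ χ ∈ Ls 𝒩 St, χ z = 0 := fun χ hχ => h.w.zero_on_norm (h.sumP_Ls hχ) hz hP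
  have e3 : χ0 z = 1 := by
    have := h.rel hr
    rw [e1, Finset.sum_eq_zero e2] at this
    simpa using this.symm
  refine ⟨e3, ?_⟩
  obtain ⟨a, ha⟩ := h.cm hr
  rw [e1, e3, Finset.sum_eq_zero fun χ hχ => by rw [e2 χ hχ]; simp] at ha
  have ha' : Nat.card 𝐂[z] ^ 2 * a = (s ^ 2) ^ 2 * (p * (s + 2)) := by
    have : (Nat.card 𝐂[z] : ℝ) ^ 2 * a = (s ^ 2) ^ 2 * (p * (s + 2)) := by
      rw [ha]; simp; ring
    exact_mod_cast this
  obtain ⟨ψ, hψ⟩ := h.exists_X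
  have k1 := cent_int ψ z
  rw [h.w.bd.valX ψ hψ z hr, e3, mul_one, h.dg_X hψ] at k1
  obtain ⟨m, hm⟩ : (s + 1) ^ 2 ∣ (𝐂[z]).index := by
    have := int_dvd_of_isIntegral (a := (𝐂[z]).index) (b := ((s + 1) ^ 2 : ℕ)) (by positivity)
      (by simpa only [Int.cast_natCast] using k1)
    exact_mod_cast this
  have k2 := (𝐂[z]).card_mul_index
  rw [hm, h.card] at k2
  have k3 : Nat.card 𝐂[z] ∣ p * s ^ 3 :=
    ⟨m, Nat.eq_of_mul_eq_mul_right (by positivity : 0 < (s + 1) ^ 2) (by rw [← k2]; ring)⟩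
  have c1 : (Nat.card 𝐂[z]).Coprime p :=
    ((h.prime.coprime_iff_not_dvd).2 (h.w.not_dvd_cent hr h1)).symm
  have c2 : (Nat.card 𝐂[z]).Coprime (s + 2) := by
    refine Nat.Coprime.coprime_dvd_left (c1.dvd_of_dvd_mul_left k3) (Nat.Coprime.pow_left 3 ?_)
    simpa using h.odd
  exact (Nat.pow_dvd_pow_iff two_ne_zero).1
    (((c1.mul_right c2).pow_left 2).dvd_of_dvd_mul_right ⟨a, ha'.symm⟩)

theorem not_coprime {a b : ℕ} (h1 : 1 < a) (h2 : a < b) (hc : a.Coprime b) (hs : s = a * b) :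
    False := by
  classical
  obtain ⟨y0, hy0, ho0⟩ := h.w.exists_compl
  obtain ⟨y, hy, ho⟩ : ∃ y ∈ 𝐍(P), orderOf y = a := ⟨y0 ^ b, pow_mem hy0 b, by
    rw [orderOf_pow, ho0, hs, Nat.gcd_mul_left_left, Nat.mul_div_cancel _ (by omega)]⟩
  have y1 : y ≠ 1 := by
    rintro rfl
    rw [orderOf_one] at ho
    omega
  obtain ⟨v1, hd⟩ := h.valE hy (by rw [ho, hs]; exact dvd_mul_right a b) y1
  obtain ⟨H, hH, k1, k2⟩ := Hall.exists_isPiHallOf
    (GW.solvable_of_odd (Odd.of_dvd_nat (h.odd.pow (n := 2)) hd)) {q | q ∣ b}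
  have hd' : Nat.card 𝐂[y] ∣ a ^ 2 * b ^ 2 := by rwa [hs, mul_pow] at hd
  have d1 : Nat.card H ∣ b ^ 2 := by
    refine Nat.Coprime.dvd_of_dvd_mul_left (Nat.Coprime.pow_right 2 ?_)
      ((card_dvd_of_le hH).trans hd')
    exact Nat.Coprime.symm (Nat.coprime_of_dvd fun q hq qa qH =>
      hq.one_lt.ne' (Nat.eq_one_of_dvd_coprimes hc qa (k1 q hq qH)))
  have d2 : H.relIndex 𝐂[y] ∣ a ^ 2 := by
    refine Nat.Coprime.dvd_of_dvd_mul_right (Nat.Coprime.pow_right 2 ?_)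
      ((relIndex_dvd_card _ _).trans hd')
    exact Nat.Coprime.symm (Nat.coprime_of_dvd fun q hq qb => k2 q hq qb)
  have hab : (b ^ 2).Coprime a := hc.symm.pow_left 2
  let A : Set G := {g | ∃ x ∈ 𝐂[y], orderOf x ∣ b ^ 2 ∧ g = x * y}
  have ti : NormedTI A ⊤ 𝐂[y] := by
    refine ⟨⟨y, 1, one_mem _, by simp, by simp⟩, le_top, ?_, ?_⟩
    · rintro z hz _ ⟨x, hx, ox, rfl⟩
      refine ⟨z * x * z⁻¹, (conj_mem_iff hz).2 hx, by rwa [orderOf_conj], ?_⟩
      have := mem_cent1.1 (inv_mem hz)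
      simp only [mul_assoc, this]
    · rintro g - _ ⟨x, hx, ox, rfl⟩ ⟨x', hx', ox', e⟩
      refine mem_cent1_of_conj_eq (conj_eq_of_conj_mul_eq hab.symm (y := x) (y' := x') ho.dvd ox
        ho.dvd ox' (mem_cent1'.1 hx) (mem_cent1'.1 hx') ?_)
      rw [mem_cent1'.1 hx, mem_cent1'.1 hx', e]
  have hA : ∀ g ∈ A, ¬ p ∣ orderOf g ∧ g ≠ 1 := by
    rintro _ ⟨x, hx, ox, rfl⟩
    refine ⟨h.reg_of_dvd ((orderOf_dvd_card_of_mem (mul_mem hx (self_mem_cent1 y))).trans hd),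
      fun e => ?_⟩
    rw [eq_inv_of_mul_eq_one_left e, orderOf_inv, ho] at ox
    exact h1.ne' (hab.symm.eq_one_of_dvd ox)
  obtain ⟨ψ, hψ⟩ := h.exists_X
  have hHA : ∀ x ∈ H, x * y ∈ A := fun x hx =>
    ⟨x, hH hx, (orderOf_dvd_card_of_mem hx).trans d1, rfl⟩
  have s1 : (Nat.card H : ℝ) ≤ ∑ x ∈ elems (H : Set G), ‖ψ (x * y)‖ ^ 2 := by
    have : ∀ x, ∃ k : ℤ, x ∈ H → ψ (x * y) = k := fun x => by
      by_cases hx : x ∈ H
      · obtain ⟨k, hk⟩ := h.int0 (hA _ (hHA x hx)).1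
        exact ⟨k, fun _ => (h.w.bd.valX ψ hψ _ (hA _ (hHA x hx)).1).trans hk⟩
      · exact ⟨0, fun e => absurd e hx⟩
    choose k hk using this
    have i1 := isIntegral_norm_translate hH ψ.mem_ZIrr
    have i2 : ∑ x ∈ elems (H : Set G), ψ (x * y) * conj (ψ (x * y)) =
        ((∑ x ∈ elems (H : Set G), k x ^ 2 : ℤ) : ℂ) := by
      push_cast
      exact Finset.sum_congr rfl fun x hx => by rw [hk x (mem_elems.1 hx), map_intCast, sq]
    rw [cfdot, i2, ← div_eq_inv_mul] at i1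
    have i3 := int_dvd_of_isIntegral (b := Nat.card H) (by exact_mod_cast Nat.card_pos.ne')
      (by simpa only [Int.cast_natCast] using i1)
    have i4 : k 1 = 1 := by
      have := hk 1 H.one_mem
      rw [one_mul, h.w.bd.valX ψ hψ _ (by simpa using (hA _ (hHA 1 H.one_mem)).1), v1] at this
      exact_mod_cast this.symm
    have i5 := Int.le_of_dvd (Finset.sum_pos' (fun x _ => sq_nonneg (k x))
      ⟨1, mem_elems.2 H.one_mem, by rw [i4]; norm_num⟩) i3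
    rw [Finset.sum_congr rfl (g := fun x => ((k x : ℝ)) ^ 2) fun x hx => by
      rw [hk x (mem_elems.1 hx), Complex.norm_intCast, sq_abs]]
    exact_mod_cast i5
  have s2 : ∑ x ∈ elems (H : Set G), ‖ψ (x * y)‖ ^ 2 ≤ ∑ g ∈ elems A, ‖ψ g‖ ^ 2 := by
    rw [← Finset.sum_image (f := fun g => ‖ψ g‖ ^ 2) (g := fun x => x * y)
      fun x _ x' _ e => mul_right_cancel e]
    refine Finset.sum_le_sum_of_subset_of_nonneg (fun g hg => ?_) fun _ _ _ => sq_nonneg _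
    obtain ⟨x, hx, rfl⟩ := Finset.mem_image.1 hg
    exact mem_elems.2 (hHA x (mem_elems.1 hx))
  have s3 := ti.sum_classSupport (f := fun g => ‖ψ g‖ ^ 2) fun z hz x => by
    rw [CF_conj ψ.mem_CF hz]
  have s4 : ∑ g ∈ elems (classSupport A ⊤), ‖ψ g‖ ^ 2 ≤ ∑ g ∈ reg1 G p, ‖χ0 g‖ ^ 2 := by
    rw [Finset.sum_congr rfl (s₂ := reg1 G p) (g := fun g => ‖ψ g‖ ^ 2) fun g hg => by
      rw [h.w.bd.valX ψ hψ g (mem_reg1.1 hg).1]]
    refine Finset.sum_le_sum_of_subset_of_nonneg (fun g hg => ?_) fun _ _ _ => sq_nonneg _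
    obtain ⟨x, hx, z, -, rfl⟩ := mem_elems.1 hg
    exact mem_reg1.2 ⟨by rw [orderOf_conj]; exact (hA x hx).1, conj_ne_one_iff.2 (hA x hx).2⟩
  rw [h.sum_reg1, s3, relIndex_top_right, nsmul_eq_mul] at s4
  have c1 : ((𝐂[y]).index : ℝ) * Nat.card H * H.relIndex 𝐂[y] = p * s ^ 3 * (s + 1) ^ 2 := by
    have := (𝐂[y]).card_mul_index
    rw [h.card, card_eq_relIndex_mul hH] at this
    exact_mod_cast (by rw [← this]; ring)
  have c2 : (H.relIndex 𝐂[y] : ℝ) ≤ s := by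
    have := Nat.le_of_dvd (by positivity) d2
    exact_mod_cast (by rw [hs]; nlinarith)
  have c3 : ((𝐂[y]).index : ℝ) * Nat.card H ≤ p * (s + 1) ^ 2 * (s ^ 2 - s - 1) :=
    (mul_le_mul_of_nonneg_left (s1.trans s2) (Nat.cast_nonneg _)).trans s4
  have c4 := mul_le_mul c3 c2 (Nat.cast_nonneg _) ((by positivity : (0 : ℝ) ≤ _).trans c3)
  have hp : (0 : ℝ) < p := by exact_mod_cast h.prime.pos
  have hs0 : (0 : ℝ) < s := by have := h.three; exact_mod_cast (by omega : 0 < s)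
  rw [c1] at c4
  have : 0 < p * (s + 1 : ℝ) ^ 2 * (s * (s + 1)) := by positivity
  nlinarith

theorem eq_three_of_central {g : G} {q : ℕ} (hq : q.Prime) (hs : q ∣ s) (ho : orderOf g = q)
    (hd : s ^ 3 ∣ Nat.card 𝐂[g]) : s = 3 := by
  have hr : ¬ p ∣ orderOf g := h.reg_of_dvd (k := 1) (by simpa [ho] using hs)
  have h3 := h.three
  obtain ⟨c, hc⟩ := hd
  have cop : (𝐂[g]).index.Coprime s := by
    have := (𝐂[g]).card_mul_index
    rw [h.card, hc] at this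
    refine Nat.Coprime.coprime_dvd_left (k := p * (s + 1) ^ 2) ⟨c, ?_⟩
      (Nat.Coprime.mul_left h.cop_p (by simp))
    exact Nat.eq_of_mul_eq_mul_left (by positivity : 0 < s ^ 3) (by linarith)
  have hs0 : (s : ℂ) ≠ 0 := by exact_mod_cast (by omega : s ≠ 0)
  have hs1 : (s : ℂ) + 1 ≠ 0 := by exact_mod_cast (by omega : s + 1 ≠ 0)
  have hp0 : (p : ℂ) ≠ 0 := by exact_mod_cast h.prime.ne_zero
  have i1 : ∀ χ ∈ Ls 𝒩 St, IsIntegral ℤ (χ g / s) := fun χ hχ => by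
    refine isIntegral_div_of_coprime cop (by omega) (χ.isChar.isIntegral g) ?_
    have := (cent_int χ g).mul (isIntegral_natCast (s + 1))
    rw [(h.Ls_spec hχ).2.2] at this
    have e : ((𝐂[g]).index : ℂ) * χ g / s =
        (𝐂[g]).index * χ g / (s * (s + 1) : ℕ) * (s + 1 : ℕ) := by
      push_cast
      field_simp
    rwa [e]
  have e1 := h.St_zero hq hs ho.symm.dvd
  obtain ⟨k, hk⟩ := h.int0 hr
  have e2 := h.rel hr
  obtain ⟨a, ha⟩ := h.cm hr
  rw [e1, hk] at e2 ha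
  rw [hc, Complex.norm_intCast, sq_abs, norm_zero] at ha
  obtain ⟨b, hb⟩ : (s : ℤ) ∣ 1 - k := by
    refine int_dvd_of_isIntegral (by omega) ?_
    have := IsIntegral.sum _ i1
    rw [← Finset.sum_div, (by linear_combination -e2 : ∑ χ ∈ Ls 𝒩 St, χ g = 1 - k)] at this
    simpa only [Int.cast_natCast, Int.cast_sub, Int.cast_one] using this
  obtain ⟨X, hX⟩ : ∃ X, X = ∑ χ ∈ Ls 𝒩 St, ‖χ g‖ ^ 2 := ⟨_, rfl⟩
  have X0 : 0 ≤ X := hX ▸ Finset.sum_nonneg fun _ _ => sq_nonneg _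
  have i2 : IsIntegral ℤ ((X : ℂ) / s ^ 2) := by
    rw [hX, Complex.ofReal_sum, Finset.sum_div]
    refine IsIntegral.sum _ fun χ hχ => ?_
    have := (i1 χ hχ).mul (isIntegral_conj (i1 χ hχ))
    rwa [map_div₀, map_natCast, div_mul_div_comm, mul_conj_eq, ← sq] at this
  rw [← hX] at ha
  obtain ⟨m, hm⟩ := int_of_isIntegral_of_rat i2
    ((p * ((s + 1) ^ 2 - k ^ 2) - s ^ 3 * c ^ 2 * a) / (p * s * (s + 1))) (by
      have := congrArg Complex.ofReal ha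
      push_cast at this ⊢
      field_simp
      apply mul_left_cancel₀ (pow_ne_zero 2 hs0)
      linear_combination this)
  have hm' : X = s ^ 2 * m := by
    rw [div_eq_iff (pow_ne_zero 2 hs0)] at hm
    exact_mod_cast hm.trans (mul_comm _ _)
  have s0 : (0 : ℝ) < s := by exact_mod_cast (by omega : 0 < s)
  have m0 : 0 ≤ m := by
    rw [hm'] at X0
    exact_mod_cast nonneg_of_mul_nonneg_right X0 (by positivity)
  have eq : (s : ℤ) ^ 3 * (c ^ 2 * a) = p * ((s + 1) ^ 2 - s * (s + 1) * m - k ^ 2) := by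
    have : (s : ℝ) ^ 3 * (c ^ 2 * a) = p * ((s + 1) ^ 2 - s * (s + 1) * m - k ^ 2) := by
      apply mul_left_cancel₀ (pow_ne_zero 3 s0.ne')
      rw [hm'] at ha
      push_cast at ha
      linear_combination ha
    exact_mod_cast this
  obtain ⟨T, hT⟩ : ∃ T : ℤ, T = (s + 1) ^ 2 - s * (s + 1) * m - k ^ 2 := ⟨_, rfl⟩
  rw [← hT] at eq
  have h3' : (3 : ℤ) ≤ s := by exact_mod_cast h3
  have T0 : T = 0 := by
    have p0 : (0 : ℤ) < p := by exact_mod_cast h.prime.pos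
    have t1 : 0 ≤ T := nonneg_of_mul_nonneg_right (eq ▸ by positivity) p0
    have t2 : (s : ℤ) ^ 3 ∣ T := IsCoprime.dvd_of_dvd_mul_left
      (by exact_mod_cast Nat.isCoprime_iff_coprime.2 (h.cop_p.symm.pow_left 3)) ⟨_, eq.symm⟩
    refine Int.eq_zero_of_dvd_of_nonneg_of_lt t1 ?_ t2
    have : 0 ≤ (s : ℤ) * (s + 1) * m := by positivity
    nlinarith [sq_nonneg k]
  rw [T0] at hT
  have k1 : k ≠ 1 := by
    rintro rfl
    have : s + 2 = (s + 1) * m := by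
      apply mul_left_cancel₀ (by omega : (s : ℤ) ≠ 0)
      linear_combination -hT
    rcases (by omega : m ≤ 1 ∨ 2 ≤ m) with l | l <;> nlinarith
  have m1 : 1 ≤ m := by
    by_contra l
    rw [hm', (by omega : m = 0), Int.cast_zero, mul_zero, eq_comm,
      Finset.sum_eq_zero_iff_of_nonneg fun _ _ => sq_nonneg _] at hX
    rw [Finset.sum_eq_zero fun χ hχ => by simpa using hX χ hχ] at e2
    exact k1 (by exact_mod_cast (by simpa using e2.symm : (k : ℂ) = 1))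
  have b0 : b ≠ 0 := by
    rintro rfl
    omega
  have l1 : k ^ 2 ≤ s + 1 := by
    have := mul_le_mul_of_nonneg_left m1 (by positivity : (0 : ℤ) ≤ s * (s + 1))
    linarith
  by_contra hne
  have h4 : (4 : ℤ) ≤ s := by omega
  rcases (by omega : 1 ≤ b ∨ b ≤ -1) with l | l
  · have : k ≤ 1 - s := by nlinarith
    nlinarith
  · have : 1 + s ≤ k := by nlinarith
    nlinarith

end EData

theorem EData.eq_three {s : ℕ} {St : Irr (⊤ : Subgroup G)} (h : EData s p P r 𝒩 𝒳 δ χ0 St) :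
    s = 3 := by
  rcases primePow_or_coprime s with l | ⟨q, k, hq, hk, e⟩ | ⟨a, b, h1, h2, hc, e⟩
  · have := h.three
    omega
  · obtain ⟨g, ho, hd⟩ := exists_central (G := G) hq (k := k * 3) (by omega)
      (by rw [pow_mul, ← e, h.card]; exact ⟨p * (s + 1) ^ 2, by ring⟩)
    exact h.eq_three_of_central hq (e ▸ dvd_pow_self q hk.ne') ho (by rwa [pow_mul, ← e] at hd)
  · exact (h.not_coprime h1 h2 hc e).elim

end CfsgLib.Sy
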