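import Cfsg.Agent.Lib.Sy.Tools
import Cfsg.Agent.Lib.MaxN.A

set_option autoImplicit false

namespace CfsgLib.Sy

open Cfsg Subgroup CfsgLib.FT CfsgLib.Blk
open scoped ComplexConjugate

variable {G : Type*} [Group G] [Fintype G] {p r e t : ℕ} {P : Subgroup G}
  {𝒩 𝒳 : Finset (Irr (⊤ : Subgroup G))} {δ : Irr (⊤ : Subgroup G) → ℤ} {δ0 : ℤ} {χ0 : G → ℂ}

theorem le_cfnorm_of_comm {E : Subgroup G} (hc : ∀ x ∈ E, ∀ y ∈ E, x * y = y * x) {f : G → ℂ}
    (hf : f ∈ ZIrr E) {a : ℤ} (h1 : f 1 = a) : (a : ℝ) ≤ cfnorm E f := by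
  obtain ⟨c, -, h2, h3⟩ := ZIrr_exists_coeff hf
  have h4 := congrFun h2 1
  simp only [h1, Finset.sum_apply, Pi.smul_apply, (Irr.irr _).isLin_of_comm hc |>.one,
    smul_eq_mul, mul_one] at h4
  rw [h3, show a = ∑ χ, c χ by exact_mod_cast h4]
  exact_mod_cast Finset.sum_le_sum fun χ _ => Int.le_self_sq (c χ)

namespace W

variable (h : W p P r e t 𝒩 𝒳 δ δ0 χ0)
include h

theorem sum_reg_sq {ψ : Irr (⊤ : Subgroup G)} (hψ : ψ ∈ 𝒳) :
    ∑ g ∈ reg1 G p, ‖ψ g‖ ^ 2 = (1 + r * p : ℕ) * e * e - (dg χ0 : ℝ) ^ 2 := by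
  have h1 := h.sum_reg_00
  rw [sum_reg_eq h.hyp.prime, h.bd.one_eq_dg0 h.hyp, map_natCast, Finset.sum_congr rfl fun g hg =>
    by rw [← h.bd.valX ψ hψ g (mem_reg1.1 hg).1, Complex.mul_conj, Complex.normSq_eq_norm_sq]] at h1
  rw [eq_sub_iff_add_eq', sq]
  exact_mod_cast h1

theorem odd_p : Odd p := h.hyp.prime.odd_of_ne_two (by have := h.hyp.three_le; omega)

/-- Exceptional degree `e`. -/
theorem caseP (h0 : δ0 = -1) (hx : dg χ0 = e) : r = 1 ∧ t = 2 := by
  classical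
  obtain ⟨ψ, hψ⟩ := h.bd.exists_X h.hyp
  have hpe := h.hyp.pe
  have he := h.hyp.two_le_e
  have hd : ψ 1 = e := by rw [irr_one, h.bd.dg_X h.hyp hψ, hx]
  have ht : 2 ≤ t := by
    refine h.hyp.one_le_t.lt_of_ne fun h1 => Nat.not_even_one (h1 ▸ h.even_t (χ := ψ) ?_ ?_ ?_)
    · rw [h.bd.dg_X h.hyp hψ, hx, hpe, ← h1, mul_one]
    · simp [sum_elems_sharp, h.bd.sumP ψ hψ, hd, h0]
    · simpa [hpe, ← h1, Nat.odd_add_one] using h.odd_p
  have hF := ψ.isChar.mul (ψ.isChar.cfAut (starRingEnd ℂ))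
  choose m hm using fun χ : Irr (⊤ : Subgroup G) => hF.cfdot_nat χ.isChar
  have h1 := cfun_sum_cfdot hF.mem_CF
  simp only [hm] at h1
  have h2 : m 1 = 1 := by
    have h2 := hm 1
    rw [cfdot_mul_left, cfConjC_cfConjC, Irr.coe_one, cf1_mul ψ.mem_CF, ψ.irr.cfdot_self] at h2
    exact_mod_cast h2.symm
  have h3 : e * e = ∑ χ, m χ * dg (χ : G → ℂ) := by
    have h3 := congrFun h1 1
    simp only [Pi.mul_apply, cfAut_apply, hd, map_natCast, Finset.sum_apply, Pi.smul_apply,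
      smul_eq_mul, irr_one] at h3
    exact_mod_cast h3
  have h4 : (e : ℤ) * (p - e) =
      ∑ χ, m χ * if χ ∈ 𝒩 then e * t * δ χ else if χ ∈ 𝒳 then δ0 * e else 0 := by
    have h4 := h.sum_reg_irr ψ ψ
    rw [if_pos rfl, Finset.sum_congr rfl fun g hg => by rw [h.bd.valX ψ hψ g (mem_reg.1 hg)],
      h.sum_reg_00, mul_assoc, mul_right_inj' (by exact_mod_cast (by omega : 1 + r * p ≠ 0)),
      Finset.sum_congr rfl fun u _ => show ψ u * conj (ψ u) =
        ∑ x : Irr (⊤ : Subgroup G), (m x : ℂ) * x u by simpa using congrFun h1 u] at h4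
    rw [Finset.sum_comm, Finset.sum_congr rfl fun χ _ => by rw [← Finset.mul_sum, h.sumP_eq]] at h4
    refine Int.cast_injective (α := ℂ) ?_
    push_cast at h4 ⊢
    linear_combination -h4
  set T := (𝒩.filter fun χ => δ χ = 1).erase 1 with hT
  have h5 : (1 : Irr (⊤ : Subgroup G)) ∈ 𝒩.filter fun χ => δ χ = 1 :=
    Finset.mem_filter.2 ⟨h.bd.one_mem, h.bd.δ_one h.hyp⟩
  have h6 : (p : ℤ) - e ≤ t * (1 + (∑ χ ∈ T, m χ : ℕ)) := by
    refine le_of_mul_le_mul_left ?_ (show (0 : ℤ) < e by omega)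
    rw [h4, ← mul_assoc, ← Nat.cast_one (R := ℤ), ← h2, ← Nat.cast_add, Finset.add_sum_erase _ _ h5,
      Nat.cast_sum, Finset.mul_sum, Finset.sum_filter, ← Finset.sum_ite_mem_eq 𝒩]
    refine Finset.sum_le_sum fun χ _ => ?_
    have : (0 : ℤ) ≤ m χ * (e * t) := by positivity
    have : (0 : ℤ) ≤ m χ * e := by positivity
    by_cases h6 : χ ∈ 𝒩
    · rcases h.bd.sign χ h6 with h7 | h7 <;> simp [h6, h7, mul_comm]
      linarith
    · by_cases h7 : χ ∈ 𝒳 <;> simp [h6, h7, h0, this]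
  have h7 : ∀ c, (∀ χ ∈ T, c ≤ dg (χ : G → ℂ)) → 1 + c * ∑ χ ∈ T, m χ ≤ e * e := fun c hc => by
    rw [h3, Finset.mul_sum]
    refine le_trans ?_ (Finset.sum_le_sum_of_subset (Finset.subset_univ
      (𝒩.filter fun χ => δ χ = 1)))
    rw [← Finset.add_sum_erase _ _ h5, h2, one_mul]
    exact add_le_add (dg_pos 1) (Finset.sum_le_sum fun χ hχ =>
      mul_comm (m χ) c ▸ Nat.mul_le_mul_left _ (hc χ hχ))
  have h8 : ∀ χ ∈ T, dg (χ : G → ℂ) = 1 + r * p ∨
      ∃ u v, Rep p r u v ∧ t ∣ v ∧ dg (χ : G → ℂ) = u * p + 1 := fun χ hχ => by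
    obtain ⟨h8, h9⟩ := Finset.mem_erase.1 hχ
    obtain ⟨h10, h11⟩ := Finset.mem_filter.1 h9
    exact ((h.bd.typeN h.hyp h10 h8).resolve_right fun e => by omega).2
  have hr := h.hyp.one_le_r
  have h9 := h7 (p + 1) fun χ hχ => by
    rcases h8 χ hχ with h9 | ⟨u, v, ⟨h9, -⟩, -, h10⟩ <;> nlinarith
  generalize ∑ χ ∈ T, m χ = A at h6 h7 h9
  have h10 : (e - 1 : ℤ) * (t - 1) ≤ t * A := by zify at hpe; linarith
  have h11 : t = 2 := by
    by_contra h11
    zify at h9 hpe he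
    have h12 : (3 : ℤ) ≤ t := by omega
    have h13 : (p + 1 : ℤ) * ((e - 1) * (t - 1)) ≤ t * ((e - 1) * (e + 1)) := by nlinarith
    have h14 : (p + 1 : ℤ) * (t - 1) ≤ t * (e + 1) :=
      le_of_mul_le_mul_left (a := (e - 1 : ℤ)) (by linarith) (by omega)
    nlinarith
  subst h11
  have h12 : e = 2 * A + 1 := by
    zify at h9 hpe he ⊢
    nlinarith
  refine ⟨by_contra fun h13 => ?_, rfl⟩
  have h14 := h7 (p + 2) fun χ hχ => by
    rcases h8 χ hχ with h14 | ⟨u, v, ⟨h14, -, h15, -⟩, h16, h17⟩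
    · have : 2 ≤ r := by omega
      nlinarith
    · have : u ≠ 1 := by rintro rfl; omega
      have : 2 ≤ u := by omega
      nlinarith
  nlinarith

set_option maxHeartbeats 800000 in
/-- The numerical part of the case of exceptional degree `n / t`. -/
theorem numN (h0 : δ0 = 1) (hx : t * dg χ0 = 1 + r * p) {ψ : Irr (⊤ : Subgroup G)} (hψ : ψ ∈ 𝒳)
    {y : G} (hy : y ∈ normalizer (P : Set G)) (ho : orderOf y = e) : r + 1 = t ∧ dg χ0 + e = p ∧
      (∃ α, e = t * α + 2) ∧ (∀ g, ¬ p ∣ orderOf g → g ≠ 1 → ψ g ≠ 0 → fixN P g = t) ∧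
      ∀ z ∈ zpowers y, z ≠ 1 → ψ z ≠ 0 := by
  classical
  have hpe := h.hyp.pe
  have he := h.hyp.two_le_e
  have ht := h.hyp.one_le_t
  have hp := h.hyp.prime.pos
  obtain ⟨a, ha⟩ := exists_sum_elems (P := P) ψ.isChar le_top
  rw [h.hyp.card] at ha
  obtain ⟨f, hf, hf1, hf2⟩ := h.exists_resE' hy ho ψ (a := a) (by exact_mod_cast ha)
  rw [sum_elems_sharp, h.bd.sumP ψ hψ, irr_one, h.bd.dg_X h.hyp hψ, h0] at ha
  replace ha : dg χ0 + e = p * a := by exact_mod_cast (by simpa using ha : (dg χ0 : ℂ) + e = p * a)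
  have h1 : t * a = r + 1 := Nat.eq_of_mul_eq_mul_left hp (by nlinarith)
  have h2 : ∑ g ∈ reg1 G p, ‖ψ g‖ ^ 2 = dg χ0 * p * (e - a : ℝ) := by
    rw [h.sum_reg_sq hψ, ← hx]
    have h2 : (dg χ0 : ℝ) + e = p * a := by exact_mod_cast ha
    have h3 : (p : ℝ) = e * t + 1 := by exact_mod_cast hpe
    push_cast
    linear_combination -dg χ0 * h2 - dg χ0 * e * h3
  have h3 : (a : ℝ) * (e - a) ≤ ∑ z ∈ elems (sharp (zpowers y)), ‖ψ z‖ ^ 2 := by
    have h3 := le_cfnorm_of_comm (comm_of_isCyclic inferInstance) hf.mem_ZIrr hf1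
    rw [cfnorm_eq, sum_elems_sharp, hf1, Nat.card_zpowers, ho, le_inv_mul_iff₀ (by positivity),
      Finset.sum_congr rfl fun z hz => by rw [hf2 z (mem_elems.1 hz).1 (mem_elems.1 hz).2]] at h3
    simp only [Int.cast_natCast, Complex.norm_natCast] at h3
    linarith
  have h4 : ∀ g, ¬ p ∣ orderOf g → g ≠ 1 → ψ g ≠ 0 → fixN P g = r + 1 := fun g h4 h5 h6 => by
    have h7 : ∀ g ∈ reg1 G p, ‖ψ g‖ ^ 2 * fixN P g ≤ ‖ψ g‖ ^ 2 * (r + 1 : ℕ) := fun g hg =>
      mul_le_mul_of_nonneg_left (Nat.cast_le.2 (h.fixN_le' (mem_reg1.1 hg).1 (mem_reg1.1 hg).2))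
        (sq_nonneg _)
    refine Nat.cast_injective (R := ℝ) (mul_left_cancel₀ (pow_ne_zero 2 (norm_ne_zero_iff.2 h6))
      ((Finset.sum_eq_sum_iff_of_le h7).1 (le_antisymm (Finset.sum_le_sum h7) ?_) g
        (mem_reg1.2 ⟨h4, h5⟩)))
    rw [← Finset.sum_mul, h2, h.sum_fixN hy ho fun x g => by rw [CF_conj ψ.mem_CF (mem_top x)],
      ← hx, ← h1]
    refine le_of_eq_of_le ?_ (mul_le_mul_of_nonneg_left h3 (by positivity))
    push_cast
    ring
  have hx0 := h.bd.one_lt_dg0 h.hyp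
  have h5 : a < e := by
    have h5 : (0 : ℝ) ≤ e - a := le_of_mul_le_mul_left (a := (dg χ0 * p : ℝ))
      (by rw [← h2, mul_zero]; positivity) (by positivity)
    refine lt_of_le_of_ne (by exact_mod_cast sub_nonneg.1 h5) fun h6 => ?_
    rw [h6, sub_self, mul_zero, Finset.sum_eq_zero_iff_of_nonneg fun _ _ => sq_nonneg _] at h2
    have h7 := h.sum_reg_N0 h.bd.one_mem
    rw [sum_reg_eq h.hyp.prime, Finset.sum_eq_zero fun g hg => by
      rw [← h.bd.valX ψ hψ g (mem_reg1.1 hg).1, show ψ g = 0 by simpa using h2 g hg, zero_mul],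
      h.bd.one_eq_dg0 h.hyp, h.bd.δ_one h.hyp, h0] at h7
    have h8 : dg χ0 + (1 + r * p) * e = 0 := by
      exact_mod_cast (by simpa using add_eq_zero_iff_eq_neg.2 h7 :
        (dg χ0 : ℂ) + (1 + r * p) * e = 0)
    omega
  have h6 : 0 < a := Nat.pos_of_ne_zero (by rintro rfl; omega)
  have h7 : r + 1 < e * t := by rw [← h1, mul_comm]; exact Nat.mul_lt_mul_of_pos_right h5 ht
  have h8 : r + 1 ∣ e * t := by
    obtain ⟨z, hz, h8⟩ := Finset.exists_ne_zero_of_sum_ne_zero (lt_of_lt_of_le (mul_pos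
      (Nat.cast_pos.2 h6) (sub_pos.2 (Nat.cast_lt.2 h5))) h3).ne'
    obtain ⟨h9, h10⟩ := mem_elems.1 hz
    have h11 := card_subgroup_dvd_card (normalizer ((zpowers z : Subgroup G) : Set G))
    rw [h.card_norm_zpowers hy ho h9 h10, h4 z (h.not_dvd_of_mem ho h9) h10 (by simpa using h8),
      h.card_eq, mul_comm] at h11
    have h12 := ((Nat.coprime_of_lt_prime r.succ_ne_zero (by omega) h.hyp.prime).symm
      ).dvd_of_dvd_mul_right (Nat.dvd_of_mul_dvd_mul_right (by omega) h11)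
    exact (Nat.dvd_add_right h12).1 ⟨p, by rw [Nat.succ_eq_add_one]; linarith⟩
  have h9 : ∀ u v, ¬ Rep p r u v := fun u v ⟨h9, h10, h11, h12⟩ => by
    obtain ⟨c, hc⟩ := h8
    have : 2 ≤ c := by
      by_contra h13
      interval_cases c <;> omega
    nlinarith
  set α := ((𝒩.erase 1).filter fun χ : Irr (⊤ : Subgroup G) =>
    dg (χ : G → ℂ) = 1 + r * p).card with hα
  have h10 : (t * α + 1) * a + 1 = e := by
    have h10 := h.bd.rel_one h.hyp
    rw [← Finset.add_sum_erase _ _ h.bd.one_mem, Finset.sum_congr rfl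
      (g := fun χ : Irr (⊤ : Subgroup G) => (if dg (χ : G → ℂ) = 1 + r * p then (t * a * p : ℤ) else 0) - e * t) fun χ hχ => ?_,
      Finset.sum_sub_distrib, ← Finset.sum_filter, Finset.sum_const, Finset.sum_const,
      Finset.card_erase_of_mem h.bd.one_mem, h.bd.cardN, h.bd.δ_one h.hyp, h0,
      show dg ((1 : Irr (⊤ : Subgroup G)) : G → ℂ) = 1 by simp [dg], ← hα] at h10
    · refine Nat.eq_of_mul_eq_mul_left hp ?_
      zify [(by omega : 1 ≤ e)] at h10 ha hpe ⊢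
      simp only [nsmul_eq_mul] at h10
      push_cast [(by omega : 1 ≤ e)] at h10
      linear_combination h10 - ha - (e - 1) * hpe
    · obtain ⟨h11, h12⟩ := Finset.mem_erase.1 hχ
      rcases h.bd.typeN h.hyp h12 h11 with ⟨h13, h14 | ⟨u, v, h14, -⟩⟩ |
        ⟨h13, ⟨-, h14⟩ | ⟨h15, h14⟩ | ⟨u, v, h14, -⟩⟩
      · rw [if_pos h14, h13, h14]
        zify at h1 hpe ⊢
        linear_combination -hpe - p * h1
      · exact (h9 u v h14).elim
      · have := h.hyp.one_le_r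
        rw [if_neg (by nlinarith), h13]
        zify at h14 hpe
        linear_combination -hpe - h14
      · have h16 := h.dg_sq_lt χ
        rw [h15, mul_one] at hpe
        have h17 : e + 2 ≤ 1 + r * p := by have := h.hyp.one_le_r; nlinarith
        rw [h14, show p - 1 = e by omega] at h16
        generalize 1 + r * p = n at h16 h17
        have := Nat.le_of_mul_le_mul_left (show e * n * (e * n) ≤ e * n * (e + 1) by
          rw [← hpe]; linarith) (Nat.mul_pos (by omega) (by omega))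
        have := Nat.mul_le_mul (show 2 ≤ e from he) h17
        have := Nat.mul_le_mul_left e h17
        nlinarith only [this, he, ‹e * n ≤ e + 1›]
      · exact (h9 u v h14).elim
  have h11 : a = 1 := by
    rw [← h1, mul_comm e] at h8
    exact Nat.dvd_one.1 ((Nat.dvd_add_right (dvd_mul_left a _)).1
      (h10 ▸ Nat.dvd_of_mul_dvd_mul_left ht h8))
  subst h11
  rw [mul_one] at h1 ha
  refine ⟨h1.symm, ha, ⟨α, by omega⟩, h1 ▸ h4, fun z hz h12 => ?_⟩
  exact hf2 z hz h12 ▸ IsLin.apply_ne_zero ⟨hf, by simpa using hf1⟩ hz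

/-- Exceptional degree `n / t`. -/
theorem caseN (h0 : δ0 = 1) (hx : t * dg χ0 = 1 + r * p) : (r = 1 ∧ t = 2) ∨
    (e = 2 ∧ p = 2 * r + 3 ∧ 3 < p ∧ ∃ S : Sylow 2 G, Nat.card S + 1 = p ∧ ElemCent S.1) := by
  classical
  obtain ⟨ψ, hψ⟩ := h.bd.exists_X h.hyp
  obtain ⟨y, hy, ho⟩ := h.exists_compl
  obtain ⟨h1, h2, ⟨α, h3⟩, h4, h5⟩ := h.numN h0 hx hψ hy ho
  have hpe := h.hyp.pe
  have hr := h.hyp.one_le_r
  have hG : Nat.card G = t * dg χ0 * p * e := by rw [h.card_eq, hx]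
  have hd : ψ 1 = dg χ0 := by rw [irr_one, h.bd.dg_X h.hyp hψ]
  have h6 : ∀ {q k : ℕ} {g : G}, q.Prime → q ∣ t → g ^ q ^ k = 1 → ψ g ≠ 0 →
      ∃ x, x * g * x⁻¹ ∈ zpowers y := fun {q k g} hq hqt hg h6 => by
    have h7 : ¬ p ∣ orderOf g := fun h7 => by
      have h8 := (Nat.prime_dvd_prime_iff_eq h.hyp.prime hq).1 (h.hyp.prime.dvd_of_dvd_pow
        (h7.trans (orderOf_dvd_of_pow_eq_one hg)))
      exact hq.not_dvd_one ((Nat.dvd_add_right (hqt.mul_left e)).1 (hpe ▸ h8.symm.dvd))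
    by_cases h8 : g = 1
    · exact ⟨1, by simp [h8]⟩
    exact h.conj_into hy ho h7 (by rw [h4 g h7 h8 h6]; omega)
  have h7 : ∀ {q : ℕ}, q.Prime → q ∣ t → q = 2 := fun {q} hq hqt => by
    refine (Nat.prime_dvd_prime_iff_eq hq Nat.prime_two).1 ((Nat.dvd_add_right
      (hqt.mul_right α)).1 (h3 ▸ by_contra fun h7 => ?_))
    have := Fact.mk hq
    obtain ⟨Q⟩ := (inferInstance : Nonempty (Sylow q G))
    obtain ⟨m, hm⟩ := exists_sum_elems (P := Q) ψ.isChar le_top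
    rw [sum_elems_sharp, hd, Finset.sum_eq_zero fun g hg => by_contra fun h8 => ?_, add_zero] at hm
    · refine Q.not_dvd_index (Nat.dvd_of_mul_dvd_mul_left (Nat.card_pos (α := Q)) ?_)
      rw [card_mul_index, hG, show dg χ0 = Nat.card Q * m by exact_mod_cast hm, mul_comm]
      exact ((mul_dvd_mul hqt (dvd_mul_right _ m)).mul_right p).mul_right e
    · obtain ⟨k, hk⟩ := Q.isPGroup' ⟨g, (mem_elems.1 hg).1⟩
      replace hk : g ^ q ^ k = 1 := congrArg Subtype.val hk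
      obtain ⟨x, hx⟩ := h6 hq hqt hk h8
      refine (mem_elems.1 hg).2 (orderOf_eq_one_iff.1 (Nat.eq_one_of_dvd_coprimes
        (((Nat.Prime.coprime_iff_not_dvd hq).2 h7).pow_left k) (orderOf_dvd_of_pow_eq_one hk) ?_))
      exact orderOf_conj' x g ▸ ho ▸ orderOf_dvd_of_mem_zpowers hx
  obtain ⟨k, hk⟩ : ∃ k, t = 2 ^ k := ⟨_, Nat.eq_prime_pow_of_unique_prime_dvd (by omega) h7⟩
  refine or_iff_not_imp_left.2 fun h8 => ?_
  have h9 : 4 ∣ t := by
    rcases k with _ | _ | k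
    · omega
    · omega
    · exact ⟨2 ^ k, by rw [hk]; ring⟩
  have h10 : e % 4 = 2 := by obtain ⟨c, rfl⟩ := h9; rw [h3, mul_assoc]; omega
  have h11 : Odd (dg χ0) := by have := Nat.odd_iff.1 h.odd_p; rw [Nat.odd_iff]; omega
  have h12 : ∀ {g : G} {j : ℕ}, g ^ 2 ^ j = 1 → g * g = 1 ∧ ∃ x, x * g * x⁻¹ ∈ zpowers y :=
    fun {g j} hg => by
      obtain ⟨x, hx⟩ := h6 Nat.prime_two (dvd_trans (by decide) h9) hg (ZIrr_ne_zero_of_prime_pow
        ψ.mem_ZIrr Nat.prime_two (mem_top g) hg (n := dg χ0) hd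
          (by exact_mod_cast h11.not_two_dvd_nat))
      refine ⟨?_, x, hx⟩
      have h12 : orderOf g ∣ e := orderOf_conj' x g ▸ ho ▸ orderOf_dvd_of_mem_zpowers hx
      obtain ⟨i, -, hi⟩ := (Nat.dvd_prime_pow Nat.prime_two).1 (orderOf_dvd_of_pow_eq_one hg)
      rw [← sq, ← orderOf_dvd_iff_pow_eq_one, hi]
      rcases i with _ | _ | i
      · decide
      · decide
      · have := (show 4 ∣ 2 ^ (i + 1 + 1) from ⟨2 ^ i, by ring⟩).trans (hi ▸ h12)
        omega
  have h13 : ∀ z ∈ zpowers y, z ≠ 1 →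
      Nat.card (normalizer ((zpowers z : Subgroup G) : Set G)) = e * t := fun z hz h13 => by
    rw [h.card_norm_zpowers hy ho hz h13, h4 z (h.not_dvd_of_mem ho hz) h13 (h5 z hz h13)]
  have hy1 : y ≠ 1 := by rintro rfl; rw [orderOf_one] at ho; omega
  have h14 : ∀ z ∈ zpowers y, z ≠ 1 → normalizer ((zpowers z : Subgroup G) : Set G) =
      normalizer ((zpowers y : Subgroup G) : Set G) := fun z hz h14 => by
    refine (eq_of_le_of_card_ge (fun g hg => mem_normalizer_fintype ?_)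
      ((h13 z hz h14).trans (h13 y (mem_zpowers y) hy1).symm).le).symm
    exact fun w hw => PGrp.mem_zpowers_of_orderOf_dvd
      (conj_mem_of_mem_normalizer hg (zpowers_le.2 hz hw)) hz
      (orderOf_conj' g w ▸ orderOf_dvd_of_mem_zpowers hw)
  have h15 : e = 2 := by
    by_contra h15
    obtain ⟨s, hs, h16⟩ := Nat.exists_prime_and_dvd (show e / 2 ≠ 1 by omega)
    have h17 : ∀ {q : ℕ}, q.Prime → q ∣ e → ∃ w ∈ zpowers y, orderOf w = q ∧ w ≠ 1 :=
      fun {q} hq hqe => by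
        have h17 := orderOf_pow_orderOf_div (orderOf_pos y).ne' (show q ∣ orderOf y from ho ▸ hqe)
        exact ⟨_, pow_mem (mem_zpowers y) _, h17, fun e => hq.one_lt.ne (by
          rw [← h17, e, orderOf_one])⟩
    obtain ⟨w, hw, hw1, hw2⟩ := h17 hs (h16.trans (Nat.div_dvd_of_dvd (by omega)))
    obtain ⟨j, hj, hj1, hj2⟩ := h17 Nat.prime_two (by omega)
    have h18 : ∀ {c : G}, c * c = 1 → c * w * c⁻¹ = w → c = 1 ∨ c = j := fun {c} hc hcw => by
      refine or_iff_not_imp_left.2 fun h18 => ?_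
      obtain ⟨-, x, hx⟩ := h12 (g := c) (j := 1) (by rwa [pow_one, sq])
      have h19 : orderOf (x * c * x⁻¹) = 2 := by
        rw [orderOf_conj', orderOf_eq_prime (by rwa [sq]) h18]
      have h20 : x * w * x⁻¹ ∈ normalizer ((zpowers y : Subgroup G) : Set G) := by
        rw [← h14 _ hx (mt conj_eq_one_iff.1 h18), H5.MN.norm_zpowers_inv h19,
          mem_centralizer_singleton_iff, conj_mul, conj_mul, mul_inv_eq_iff_eq_mul.1 hcw]
      have := normal_subgroupOf_of_le_norm (le_refl (normalizer ((zpowers y : Subgroup G) : Set G)))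
      have h21 : x * w * x⁻¹ ∈ zpowers y := mem_of_coprime_index (N := (zpowers y).subgroupOf _)
        (x := ⟨_, h20⟩) (by
          have h21 := card_eq_relIndex_mul (le_normalizer (H := zpowers y))
          rw [h13 y (mem_zpowers y) hy1, Nat.card_zpowers, ho, mul_comm] at h21
          rw [orderOf_mk, orderOf_conj', hw1, ← relIndex,
            ← Nat.eq_of_mul_eq_mul_right (by omega) h21, hk]
          exact ((Nat.coprime_primes hs Nat.prime_two).2 (by rintro rfl; omega)).pow_right k)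
      have h22 : x ∈ centralizer {j} := by
        rw [← H5.MN.norm_zpowers_inv hj1, h14 j hj hj2, ← h14 w hw hw2]
        refine mem_normalizer_fintype ?_
        rintro _ ⟨i, rfl⟩
        rw [← conj_zpow]
        exact zpow_mem (PGrp.mem_zpowers_of_orderOf_dvd h21 hw (orderOf_conj' x w).dvd) i
      refine mul_left_cancel (a := x) (mul_right_cancel (b := x⁻¹) ?_)
      rw [mul_inv_eq_iff_eq_mul.2 (mem_centralizer_singleton_iff.1 h22)]
      obtain ⟨i, hi⟩ := PGrp.mem_zpowers_of_orderOf_dvd hx hj (h19.trans hj1.symm).dvd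
      have h23 : (x * c * x⁻¹) ∈ ({1, j} : Set G) := by
        rw [← hi]
        rcases Int.even_or_odd' i with ⟨i, rfl | rfl⟩ <;>
          simp [zpow_add, zpow_mul, zpow_ofNat, ← hj1]
      exact h23.resolve_left (mt conj_eq_one_iff.1 h18)
    have := Fact.mk Nat.prime_two
    obtain ⟨K, hK⟩ := Sylow.exists_subgroup_card_pow_prime
      (G := normalizer ((zpowers y : Subgroup G) : Set G)) 2 (n := 3) (by
        rw [h13 y (mem_zpowers y) hy1]
        exact show 2 * 4 ∣ e * t from mul_dvd_mul (show 2 ∣ e by omega) h9)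
    have h19 : ∀ c : K, c.1.1 * c.1.1 = 1 := fun c => (h12 (j := 3) (by
      rw [← hK, ← coe_pow, ← coe_pow, pow_card_eq_one', coe_one, coe_one])).1
    have h20 : ∀ c : K, c.1.1 * w * c.1.1⁻¹ = w ∨ c.1.1 * w * c.1.1⁻¹ = w⁻¹ := fun c =>
      H5.MN.conj_eq_or_inv hs (hw1 ▸ pow_orderOf_eq_one w)
        (conj_mem_of_mem_normalizer ((h14 w hw hw2).ge c.1.2) (mem_zpowers w)) (by simp [h19 c])
    obtain ⟨d, h21⟩ : ∃ d : G, ∀ c : K, c.1.1 ∈ ({1, j, d, d * j} : Finset G) := by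
      by_cases h21 : ∀ c : K, c.1.1 * w * c.1.1⁻¹ = w
      · exact ⟨1, fun c => by rcases h18 (h19 c) (h21 c) with e | e <;> simp [e]⟩
      obtain ⟨d, hd⟩ := not_forall.1 h21
      refine ⟨d.1.1, fun c => ?_⟩
      rcases h20 c with e | e
      · rcases h18 (h19 c) e with e | e <;> simp [e]
      have h22 := h18 (h19 (d⁻¹ * c)) (by
        simp only [coe_mul, coe_inv]
        rw [← (h20 d).resolve_left hd] at e
        rw [mul_inv_rev, mul_assoc, mul_assoc, ← mul_assoc w, ← mul_assoc c.1.1, ← mul_assoc c.1.1, e]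
        group)
      simp only [coe_mul, coe_inv, inv_mul_eq_iff_eq_mul] at h22
      rcases h22 with e | e <;> simp [e]
    have h22 := Nat.card_le_card_of_injective
      (fun c : K => (⟨c.1.1, h21 c⟩ : ({1, j, d, d * j} : Finset G)))
      fun a b hab => Subtype.ext (Subtype.ext (Subtype.mk.inj hab))
    rw [hK, Nat.card_eq_fintype_card, Fintype.card_coe] at h22
    exact absurd (h22.trans Finset.card_le_four) (by decide)
  subst h15
  have := Fact.mk Nat.prime_two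
  obtain ⟨S⟩ := (inferInstance : Nonempty (Sylow 2 G))
  obtain ⟨i, hi⟩ := S.isPGroup'.exists_card_eq
  have h15 : Nat.card S = 2 * t := by
    refine Nat.dvd_antisymm (Nat.Coprime.dvd_of_dvd_mul_right (n := dg χ0 * p) ?_ ?_) ?_
    · rw [hi]
      exact (Nat.coprime_two_left.2 (h11.mul h.odd_p)).pow_left i
    · exact (card_subgroup_dvd_card S.1).trans (dvd_of_eq (by rw [hG]; ring))
    · refine Nat.Coprime.dvd_of_dvd_mul_right (n := S.1.index) ?_ ⟨dg χ0 * p, ?_⟩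
      · rw [hk, ← pow_succ']
        exact ((Nat.Prime.coprime_iff_not_dvd Nat.prime_two).2 S.not_dvd_index).pow_left _
      · rw [card_mul_index, hG]; ring
  have h16 : ∀ j ∈ S.1, j * j = 1 ∧ ∃ x, x * j * x⁻¹ ∈ zpowers y := fun j hj =>
    h12 (j := i) (by rw [← hi]; exact congrArg Subtype.val (pow_card_eq_one' (x := (⟨j, hj⟩ : S.1))))
  refine ⟨rfl, by omega, by omega, S, by omega, fun j hj hj1 => ⟨(h16 j hj).1, ?_⟩⟩
  obtain ⟨h17, x, hx⟩ := h16 j hj
  refine (eq_of_le_of_card_ge (fun c hc => mem_centralizer_singleton_iff.2 ?_) ?_).ge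
  · have h18 := (h16 _ (S.1.mul_mem hc hj)).1
    rw [← inv_eq_of_mul_eq_one_right h18, mul_inv_rev, inv_eq_of_mul_eq_one_right h17,
      inv_eq_of_mul_eq_one_right (h16 c hc).1]
  · rw [h15, ← Frob.card_centralizer_conj x, ← H5.MN.norm_zpowers_inv (by
      rw [orderOf_conj', orderOf_eq_prime (by rwa [sq]) hj1]), h13 _ hx (mt conj_eq_one_iff.1 hj1)]

end W

end CfsgLib.Sy
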