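import Cfsg.Agent.Lib.Blk.DefOne

/-!
# Simple groups with fewer than `p ^ 2` Sylow `p`-subgroups: definitions
-/

set_option autoImplicit false

namespace CfsgLib.Sy

open Cfsg Subgroup CfsgLib.FT CfsgLib.Blk

variable {G : Type*} [Group G]

/-- `G` is simple with a Sylow subgroup `P` of order `p`, `1 + r p < p ^ 2` Sylow `p`-subgroups,
`e = |N(P) : C(P)|` and `p - 1 = e t`. -/
structure Hyp (p : ℕ) (P : Subgroup G) (r e t : ℕ) : Prop where
  prime : p.Prime
  card : Nat.card P = p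
  ndvd : ¬ p ∣ P.index
  simple : IsSimpleGroup G
  nonab : ¬ IsMulCommutative G
  index : (normalizer (P : Set G)).index = 1 + r * p
  lt : r < p
  rel : (centralizer (P : Set G)).relIndex (normalizer (P : Set G)) = e
  pe : p = e * t + 1

/-- The degree of a character as a natural number. -/
noncomputable def dg (χ : G → ℂ) : ℕ := ⌊(χ 1).re⌋₊

/-- The number of Sylow subgroups (conjugates of `P`) normalized by `g`. -/
noncomputable def fixN (P : Subgroup G) (g : G) : ℕ :=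
  Nat.card {x : G ⧸ normalizer (P : Set G) // g • x = x}

/-- All nontrivial elements of `S` are involutions whose centralizer is contained in `S`. -/
def ElemCent (S : Subgroup G) : Prop :=
  ∀ j ∈ S, j ≠ 1 → j * j = 1 ∧ centralizer ({j} : Set G) ≤ S

/-- Brauer's representable values of `r`. -/
def Rep (p r u v : ℕ) : Prop := 1 ≤ u ∧ u < v ∧ (u + 1) * v + 1 = p ∧ r = u * v + u + 1

variable [Fintype G]

/-- The `p`-regular elements. -/
noncomputable def reg (G : Type*) [Group G] [Fintype G] (p : ℕ) : Finset G :=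
  Finset.univ.filter fun g => ¬ p ∣ orderOf g

/-- The `p`-singular elements. -/
noncomputable def sing (G : Type*) [Group G] [Fintype G] (p : ℕ) : Finset G :=
  Finset.univ.filter fun g => p ∣ orderOf g

open Classical in
/-- The nontrivial `p`-regular elements. -/
noncomputable def reg1 (G : Type*) [Group G] [Fintype G] (p : ℕ) : Finset G :=
  Finset.univ.filter fun g => ¬ p ∣ orderOf g ∧ g ≠ 1

@[simp] theorem mem_reg1 {p : ℕ} {g : G} : g ∈ reg1 G p ↔ ¬ p ∣ orderOf g ∧ g ≠ 1 := by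
  simp [reg1]

@[simp] theorem mem_reg {p : ℕ} {g : G} : g ∈ reg G p ↔ ¬ p ∣ orderOf g := by simp [reg]

@[simp] theorem mem_sing {p : ℕ} {g : G} : g ∈ sing G p ↔ p ∣ orderOf g := by simp [sing]

theorem sum_reg_add_sing {M : Type*} [AddCommMonoid M] (p : ℕ) (F : G → M) :
    ∑ g ∈ reg G p, F g + ∑ g ∈ sing G p, F g = ∑ g, F g := by
  rw [reg, sing, add_comm, Finset.sum_filter_add_sum_filter_not]

theorem sum_reg_eq {M : Type*} [AddCommMonoid M] {p : ℕ} (hp : p.Prime) (F : G → M) :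
    ∑ g ∈ reg G p, F g = F 1 + ∑ g ∈ reg1 G p, F g := by
  classical
  have h1 : (1 : G) ∈ reg G p := by simpa using hp.one_lt.ne'
  rw [← Finset.add_sum_erase _ _ h1]
  congr 2
  ext g
  simp [and_comm]

theorem _root_.CfsgLib.FT.IsChar.one_eq_dg {L : Subgroup G} {χ : G → ℂ} (h : IsChar L χ) :
    χ 1 = dg χ := by
  obtain ⟨n, hn⟩ := h.exists_nat_one
  simp [dg, hn]

theorem irr_one {L : Subgroup G} (χ : Irr L) : χ 1 = dg χ := χ.isChar.one_eq_dg

theorem dg_pos {L : Subgroup G} (χ : Irr L) : 0 < dg (χ : G → ℂ) :=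
  Nat.pos_of_ne_zero fun h => χ.irr.one_ne_zero (by rw [irr_one, h, Nat.cast_zero])

/-- Brauer's description of the principal block for a Sylow subgroup of order `p`:
`𝒩` are the non-exceptional characters, `𝒳` the exceptional ones (for `t = 1` an arbitrary
nonprincipal character of the block plays this role). -/
structure BD (p : ℕ) (P : Subgroup G) (e t : ℕ) (𝒩 𝒳 : Finset (Irr (⊤ : Subgroup G)))
    (δ : Irr (⊤ : Subgroup G) → ℤ) (δ0 : ℤ) (χ0 : G → ℂ) : Prop where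
  cardN : 𝒩.card = e
  cardX : 𝒳.card = t
  disj : Disjoint 𝒩 𝒳
  one_mem : 1 ∈ 𝒩
  sign : ∀ χ ∈ 𝒩, δ χ = 1 ∨ δ χ = -1
  sign0 : δ0 = 1 ∨ δ0 = -1
  valN : ∀ χ ∈ 𝒩, ∀ g, p ∣ orderOf g → χ g = δ χ
  valX : ∀ ψ ∈ 𝒳, ∀ g, ¬ p ∣ orderOf g → ψ g = χ0 g
  sumX : ∀ g, p ∣ orderOf g → ∑ ψ ∈ 𝒳, ψ g = δ0
  sumP : ∀ ψ ∈ 𝒳, ∑ u ∈ elems (sharp P), ψ u = δ0 * e
  rel : ∀ g, ¬ p ∣ orderOf g → ∑ χ ∈ 𝒩, δ χ * χ g + δ0 * χ0 g = 0
  mem : ∀ χ, χ ∈ B0 p ⊤ ↔ χ ∈ 𝒩 ∨ χ ∈ 𝒳

/-- The full setup once `C(P) = P` is known. -/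
structure W (p : ℕ) (P : Subgroup G) (r e t : ℕ) (𝒩 𝒳 : Finset (Irr (⊤ : Subgroup G)))
    (δ : Irr (⊤ : Subgroup G) → ℤ) (δ0 : ℤ) (χ0 : G → ℂ) : Prop where
  hyp : Hyp p P r e t
  cent : centralizer (P : Set G) = P
  bd : BD p P e t 𝒩 𝒳 δ δ0 χ0

/-- The configuration with the numerics of `PSL(3, s)`-type: `|G| = p s³ (s+1)²`. -/
structure EData (s p : ℕ) (P : Subgroup G) (r : ℕ) (𝒩 𝒳 : Finset (Irr (⊤ : Subgroup G)))
    (δ : Irr (⊤ : Subgroup G) → ℤ) (χ0 : G → ℂ) (St : Irr (⊤ : Subgroup G)) : Prop where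
  w : W p P r s (s + 1) 𝒩 𝒳 δ (-1) χ0
  three : 3 ≤ s
  r_eq : r + 1 = s * (s + 1)
  dg0 : dg χ0 = (s + 1) ^ 2
  St_mem : St ∈ 𝒩
  St_sign : δ St = 1
  St_dg : dg (St : G → ℂ) = s ^ 3
  others : ∀ χ ∈ 𝒩, χ = 1 ∨ χ = St ∨ (δ χ = -1 ∧ dg (χ : G → ℂ) = s * (s + 1))

namespace Hyp

variable {p r e t : ℕ} {P : Subgroup G} (h : Hyp p P r e t)
include h

theorem ne_bot : P ≠ ⊥ := by
  rintro rfl
  exact h.prime.one_lt.ne (by simpa using h.card)

theorem ne_top : P ≠ ⊤ := by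
  rintro rfl
  have := Fact.mk h.prime
  have hc : IsCyclic G := isCyclic_of_prime_card (card_top.symm.trans h.card)
  exact h.nonab hc.isMulCommutative

theorem eq_top_of_normal {K : Subgroup G} (hK : K.Normal) (h1 : K ≠ ⊥) : K = ⊤ :=
  (h.simple.eq_bot_or_eq_top_of_normal K hK).resolve_left h1

theorem one_le_r : 1 ≤ r := by
  by_contra hr
  have h0 : r = 0 := by omega
  have hi := h.index
  rw [h0, zero_mul, add_zero, index_eq_one] at hi
  exact h.ne_top (h.eq_top_of_normal (normalizer_eq_top_iff.mp hi) h.ne_bot)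

theorem commutator_eq : ⁅(⊤ : Subgroup G), (⊤ : Subgroup G)⁆ = ⊤ := by
  refine h.eq_top_of_normal inferInstance fun hb => h.nonab ⟨⟨fun a b => ?_⟩⟩
  have := commutator_mem_commutator (mem_top a) (mem_top b)
  rw [hb, mem_bot] at this
  exact commutatorElement_eq_one_iff_mul_comm.mp this

theorem two_le_e : 2 ≤ e := by
  have := Fact.mk h.prime
  by_contra he
  have h0 : e ≠ 0 := h.rel ▸ FT.relIndex_ne_zero' _ _
  have h1 : e = 1 := by omega
  have hle := relIndex_eq_one.mp (h.rel.trans h1)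
  let Q : Sylow p G := (IsPGroup.of_card (h.card.trans (pow_one p).symm)).toSylow h.ndvd
  have hc := MonoidHom.ker_transferSylow_isComplement' Q hle
  rcases h.simple.eq_bot_or_eq_top_of_normal (MonoidHom.transferSylow Q hle).ker inferInstance
    with hb | hb
  · rw [hb] at hc
    exact h.ne_top (isComplement'_bot_left.mp hc)
  · rw [hb] at hc
    exact h.ne_bot (isComplement'_top_left.mp hc)

theorem one_le_t : 1 ≤ t := by
  by_contra ht
  have h0 : t = 0 := by omega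
  have := h.pe
  rw [h0] at this
  exact h.prime.one_lt.ne' (by omega)

theorem three_le : 3 ≤ p := by
  have := h.pe
  have := h.two_le_e
  have := h.one_le_t
  nlinarith

theorem index_cent : (centralizer (P : Set G)).index = e * (1 + r * p) := by
  rw [← relIndex_mul_index (centralizer_le_normalizer (P : Set G)), h.rel, h.index]

/-- A simple nonabelian group has no nonprincipal linear character. -/
theorem eq_one_of_dg {χ : Irr (⊤ : Subgroup G)} (h1 : dg (χ : G → ℂ) = 1) : χ = 1 := by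
  have hl : IsLin ⊤ (χ : G → ℂ) := ⟨χ.isChar, by rw [irr_one, h1, Nat.cast_one]⟩
  exact (Irr.eq_one_iff χ).mpr (h.commutator_eq.symm.le.trans hl.commutator_le_cfker)

end Hyp

end CfsgLib.Sy
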