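import Cfsg.Agent.Lib.Sy.Defs

set_option autoImplicit false

namespace CfsgLib.Sy

open Cfsg Subgroup CfsgLib.FT CfsgLib.Blk
open scoped ComplexConjugate

variable {G : Type*} [Group G] [Fintype G] {p r e t : ℕ} {P : Subgroup G}
  {𝒩 𝒳 : Finset (Irr (⊤ : Subgroup G))} {δ : Irr (⊤ : Subgroup G) → ℤ} {δ0 : ℤ} {χ0 : G → ℂ}

theorem Rep.unique {u v u' v' : ℕ} (h : Rep p r u v) (h' : Rep p r u' v') : u = u' ∧ v = v' := by
  obtain ⟨-, -, h1, h2⟩ := h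
  obtain ⟨-, -, h3, h4⟩ := h'
  have h5 : u + v' = u' + v := by nlinarith
  rcases lt_trichotomy u u' with h | h | h
  · have := Nat.mul_le_mul (show u + 1 ≤ u' by omega) (show v ≤ v' by omega)
    nlinarith
  · omega
  · have := Nat.mul_le_mul (show u' + 1 ≤ u by omega) (show v' ≤ v by omega)
    nlinarith

theorem rep_of_mul {c v b : ℕ} (h3 : 3 ≤ p) (hr : r < p) (hb : b + 1 = (v + 1) * p)
    (h : (c * p + 1) * b = (p - 1) * (1 + r * p)) : c = 0 ∨ v = 0 ∨ Rep p r c v := by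
  refine or_iff_not_imp_left.2 fun hc => or_iff_not_imp_left.2 fun hv => ?_
  obtain ⟨q, rfl⟩ : ∃ q, p = q + 1 := ⟨p - 1, by omega⟩
  rw [Nat.add_sub_cancel] at h
  zify at h hb hr h3
  have h1 : ((c : ℤ) + 1) * v = q * (r - c * (v + 1)) :=
    mul_left_cancel₀ (show (q : ℤ) + 1 ≠ 0 by omega)
      (by linear_combination h - (c * (q + 1) + 1) * hb)
  have hc' : (1 : ℤ) ≤ c := by omega
  have hv' : (1 : ℤ) ≤ v := by omega
  have h2 : (r : ℤ) - c * (v + 1) = 1 := by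
    by_contra h2
    rcases lt_or_gt_of_ne h2 with h2 | h2
    · nlinarith
    · nlinarith
  rw [h2] at h1
  refine ⟨by omega, ?_, ?_, ?_⟩ <;> zify <;> nlinarith

/-- Divisors of `(p - 1)(1 + r p)` congruent to `±1` modulo `p`. -/
theorem deg_cases {y : ℕ} {d : ℤ} (hp : p.Prime) (h3 : 3 ≤ p) (hr : r < p) (_hr1 : 1 ≤ r)
    (hy : y ∣ (p - 1) * (1 + r * p)) (hd : d = 1 ∨ d = -1) (hc : (p : ℤ) ∣ y - d) :
    (d = 1 ∧ (y = 1 ∨ y = 1 + r * p ∨ ∃ u v, Rep p r u v ∧ y = u * p + 1)) ∨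
    (d = -1 ∧ (y + 1 = p ∨ y = (p - 1) * (1 + r * p) ∨
      ∃ u v, Rep p r u v ∧ y + 1 = (v + 1) * p)) := by
  obtain ⟨z, hz⟩ := hy
  have h1 : ∀ a : ℕ, (p : ℤ) ∣ a - 1 → ∃ c, a = c * p + 1 := fun a h => by
    rcases a with _ | a
    · exact absurd (Int.natCast_dvd_natCast.1 (Int.dvd_neg.1 h)) hp.not_dvd_one
    · obtain ⟨c, hc⟩ := Int.natCast_dvd_natCast.1 (show (p : ℤ) ∣ a by simpa using h)
      exact ⟨c, by rw [hc, mul_comm]⟩
  have h2 : ∀ a : ℕ, (p : ℤ) ∣ a + 1 → ∃ v, a + 1 = (v + 1) * p := fun a h => by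
    obtain ⟨c, hc⟩ := Int.natCast_dvd_natCast.1 (show (p : ℤ) ∣ (a + 1 : ℕ) by simpa using h)
    rcases c with _ | c
    · omega
    · exact ⟨c, by rw [hc, mul_comm]⟩
  have h4 : (y : ℤ) * z + 1 = p * (1 + r * p - r) := by
    zify [hp.one_le] at hz
    linear_combination -hz
  have hp1 : 0 < p - 1 := by omega
  obtain ⟨k, hk⟩ := hc
  rcases hd with rfl | rfl
  · obtain ⟨c, rfl⟩ := h1 y ⟨k, hk⟩
    obtain ⟨v, hv⟩ := h2 z ⟨1 + r * p - r - c * z, by push_cast at h4; linear_combination h4⟩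
    refine Or.inl ⟨rfl, (rep_of_mul h3 hr hv hz.symm).imp (fun e => by simp [e])
      (Or.imp (fun e => ?_) fun h => ⟨c, v, h, rfl⟩)⟩
    rw [show z = p - 1 by subst e; omega, mul_comm _ (p - 1)] at hz
    exact (Nat.eq_of_mul_eq_mul_left hp1 hz).symm
  · obtain ⟨v, hv⟩ := h2 y ⟨k, by rw [← hk]; ring⟩
    obtain ⟨c, rfl⟩ := h1 z ⟨k * z - (1 + r * p - r), by linear_combination z * hk - h4⟩
    rcases rep_of_mul h3 hr hv (by rw [hz, mul_comm]) with e | e | h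
    · exact Or.inr ⟨rfl, Or.inr (Or.inl (by simp [hz, e]))⟩
    · exact Or.inr ⟨rfl, Or.inl (by simpa [e] using hv)⟩
    · exact Or.inr ⟨rfl, Or.inr (Or.inr ⟨c, v, h, hv⟩)⟩

theorem dvd_of_isIntegral_div {a b : ℤ} (hb : b ≠ 0) (h : IsIntegral ℤ ((a : ℂ) / b)) : b ∣ a := by
  obtain ⟨n, hn⟩ := int_of_isIntegral_of_rat h (a / b) (by push_cast; rfl)
  rw [div_eq_iff (by exact_mod_cast hb)] at hn
  exact ⟨n, by exact_mod_cast hn.trans (mul_comm _ _)⟩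

theorem sum_elems_sharp {M : Type*} [AddCommMonoid M] (P : Subgroup G) (F : G → M) :
    ∑ u ∈ elems (P : Set G), F u = F 1 + ∑ u ∈ elems (sharp P), F u := by
  classical
  rw [← Finset.add_sum_erase _ _ (mem_elems.2 P.one_mem)]
  congr 2
  ext g
  simp [mem_sharp, and_comm]

theorem exists_sum_elems {L : Subgroup G} {χ : G → ℂ} (h : IsChar L χ) (hP : P ≤ L) :
    ∃ m : ℕ, ∑ u ∈ elems (P : Set G), χ u = Nat.card P * m := by
  obtain ⟨m, hm⟩ := h.cfdot_nat' hP isChar_cf1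
  rw [cfdot_cf1_right, inv_mul_eq_iff_eq_mul₀ (card_ne_zero P)] at hm
  exact ⟨m, hm⟩

namespace Hyp

variable (h : Hyp p P r e t)
include h

theorem orderOf_eq {u : G} (hu : u ∈ P) (h1 : u ≠ 1) : orderOf u = p := by
  rw [← Nat.card_zpowers, D1.eq_zpowers h.prime h.card hu h1, h.card]

theorem exists_ne : ∃ u ∈ P, u ≠ 1 :=
  let ⟨u, hu⟩ := (D1.normedTI h.prime h.card).nonempty
  ⟨u, mem_sharp.1 hu⟩

theorem card_sharp : (elems (sharp P)).card = e * t := by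
  rw [card_elems_set, sharp, Frob.ncard_diff_one, h.card, h.pe, Nat.add_sub_cancel]

theorem sum_classSupport {F : G → ℂ} (hF : ∀ x g, F (x * g * x⁻¹) = F g) :
    ∑ g ∈ elems (classSupport (sharp P) ⊤), F g =
      (1 + r * p : ℕ) * ∑ u ∈ elems (sharp P), F u := by
  rw [(D1.normedTI h.prime h.card).sum_classSupport fun y _ => hF y, relIndex_top_right, h.index,
    nsmul_eq_mul]

end Hyp

namespace BD

variable (h : Hyp p P r e t) (b : BD p P e t 𝒩 𝒳 δ δ0 χ0)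
include h b

theorem valP {χ : Irr (⊤ : Subgroup G)} (hχ : χ ∈ 𝒩) {u : G} (hu : u ∈ elems (sharp P)) :
    χ u = δ χ :=
  have h1 := mem_sharp.1 (mem_elems.1 hu)
  b.valN χ hχ u (h.orderOf_eq h1.1 h1.2).symm.dvd

theorem sumPN {χ : Irr (⊤ : Subgroup G)} (hχ : χ ∈ 𝒩) :
    ∑ u ∈ elems (sharp P), χ u = e * t * δ χ := by
  rw [Finset.sum_congr rfl fun u => b.valP h hχ, Finset.sum_const, h.card_sharp, nsmul_eq_mul,
    Nat.cast_mul]

theorem δ_one : δ 1 = 1 := by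
  obtain ⟨u, hu⟩ := h.exists_ne
  have h1 := b.valP h b.one_mem (mem_elems.2 (mem_sharp.2 hu))
  rw [Irr.coe_one, cf1_apply (mem_top u)] at h1
  exact_mod_cast h1.symm

theorem exists_X : ∃ ψ, ψ ∈ 𝒳 := Finset.card_pos.1 (b.cardX ▸ h.one_le_t)

theorem X_one {ψ : Irr (⊤ : Subgroup G)} (hψ : ψ ∈ 𝒳) : ψ 1 = χ0 1 :=
  b.valX ψ hψ 1 (by simpa using h.prime.one_lt.ne')

theorem dg_X {ψ : Irr (⊤ : Subgroup G)} (hψ : ψ ∈ 𝒳) : dg (ψ : G → ℂ) = dg χ0 := by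
  rw [dg, b.X_one h hψ, dg]

theorem one_eq_dg0 : χ0 1 = dg χ0 := by
  obtain ⟨ψ, hψ⟩ := b.exists_X h
  rw [← b.dg_X h hψ, ← irr_one, b.X_one h hψ]

theorem dgN_dvd {χ : Irr (⊤ : Subgroup G)} (hχ : χ ∈ 𝒩) : dg (χ : G → ℂ) ∣ e * (1 + r * p) := by
  obtain ⟨u, hu⟩ := h.exists_ne
  have h1 := (isIrr_top.1 χ.irr).isIntegral_index_mul_div u
  rw [D1.cent_eq h.prime h.card hu.1 hu.2, h.index_cent, irr_one,
    b.valP h hχ (mem_elems.2 (mem_sharp.2 hu))] at h1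
  have h2 := dvd_of_isIntegral_div (a := (e * (1 + r * p) : ℕ) * δ χ) (b := dg (χ : G → ℂ))
    (by exact_mod_cast (dg_pos χ).ne') (by exact_mod_cast h1)
  rcases b.sign χ hχ with h3 | h3 <;> rw [h3] at h2
  · exact_mod_cast mul_one (_ : ℤ) ▸ h2
  · exact_mod_cast (Int.dvd_neg.1 (mul_neg_one (_ : ℤ) ▸ h2))

theorem dgN_mod {χ : Irr (⊤ : Subgroup G)} (hχ : χ ∈ 𝒩) : (p : ℤ) ∣ dg (χ : G → ℂ) - δ χ := by
  obtain ⟨m, hm⟩ := exists_sum_elems (P := P) χ.isChar le_top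
  rw [sum_elems_sharp, b.sumPN h hχ, irr_one, h.card] at hm
  have h1 : (dg (χ : G → ℂ) : ℤ) + e * t * δ χ = p * m := by exact_mod_cast hm
  have h2 : (p : ℤ) = e * t + 1 := by exact_mod_cast h.pe
  exact ⟨m - δ χ, by linear_combination h1 + δ χ * h2⟩

theorem dg0_dvd : dg χ0 ∣ e * (1 + r * p) := by
  obtain ⟨ψ, hψ⟩ := b.exists_X h
  have h1 := ψ.irr.isIntegral_central (f := cfInd1 (classSupport (sharp P) ⊤))
    (CFon_CF (cfInd1_mem_CFon (fun _ _ => mem_top _) (by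
      rintro x - _ ⟨a, ha, y, -, rfl⟩
      exact ⟨a, ha, x * y, mem_top _, by group⟩))) fun x => by
      by_cases hx : x ∈ classSupport (sharp P) ⊤
      · rw [cfInd1_apply hx]; exact isIntegral_one
      · rw [cfInd1_apply_of_notMem hx]; exact isIntegral_zero
  rw [elems_top, sum_cfInd1_mul, h.sum_classSupport fun x => CF_conj ψ.mem_CF (mem_top x),
    b.sumP ψ hψ, irr_one, b.dg_X h hψ] at h1
  have h2 := dvd_of_isIntegral_div (a := (e * (1 + r * p) : ℕ) * δ0) (b := dg χ0)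
    (by exact_mod_cast (b.dg_X h hψ ▸ dg_pos ψ).ne') (by convert h1 using 2; push_cast; ring; rfl)
  rcases b.sign0 with h3 | h3 <;> rw [h3] at h2
  · exact_mod_cast mul_one (_ : ℤ) ▸ h2
  · exact_mod_cast (Int.dvd_neg.1 (mul_neg_one (_ : ℤ) ▸ h2))

theorem dg0_mod : (p : ℤ) ∣ (t * dg χ0 : ℕ) - δ0 := by
  obtain ⟨ψ, hψ⟩ := b.exists_X h
  obtain ⟨m, hm⟩ := exists_sum_elems (P := P) ψ.isChar le_top
  rw [sum_elems_sharp, b.sumP ψ hψ, irr_one, h.card, b.dg_X h hψ] at hm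
  have h1 : (dg χ0 : ℤ) + δ0 * e = p * m := by exact_mod_cast hm
  have h2 : (p : ℤ) = e * t + 1 := by exact_mod_cast h.pe
  exact ⟨t * m - δ0, by push_cast; linear_combination t * h1 + δ0 * h2⟩

theorem one_lt_dg0 : 1 < dg χ0 := by
  obtain ⟨ψ, hψ⟩ := b.exists_X h
  have h1 := dg_pos ψ
  have h2 : dg (ψ : G → ℂ) ≠ 1 := fun e =>
    Finset.disjoint_left.1 b.disj b.one_mem (h.eq_one_of_dg e ▸ hψ)
  rw [b.dg_X h hψ] at h1 h2
  omega

theorem rel_one : ∑ χ ∈ 𝒩, δ χ * dg (χ : G → ℂ) + δ0 * dg χ0 = 0 := by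
  have h1 := b.rel 1 (by simpa using h.prime.one_lt.ne')
  simp only [irr_one, b.one_eq_dg0 h] at h1
  exact_mod_cast h1

/-- Degrees of the nonprincipal non-exceptional characters. -/
theorem typeN {χ : Irr (⊤ : Subgroup G)} (hχ : χ ∈ 𝒩) (h1 : χ ≠ 1) :
    (δ χ = 1 ∧ (dg (χ : G → ℂ) = 1 + r * p ∨
      ∃ u v, Rep p r u v ∧ t ∣ v ∧ dg (χ : G → ℂ) = u * p + 1)) ∨
    (δ χ = -1 ∧ ((t ∣ r + 1 ∧ dg (χ : G → ℂ) + 1 = p) ∨
      (t = 1 ∧ dg (χ : G → ℂ) = (p - 1) * (1 + r * p)) ∨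
      ∃ u v, Rep p r u v ∧ t ∣ u + 1 ∧ dg (χ : G → ℂ) + 1 = (v + 1) * p)) := by
  have h2 := b.dgN_dvd h hχ
  have h3 : p - 1 = e * t := by rw [h.pe, Nat.add_sub_cancel]
  have he : 0 < e := zero_lt_two.trans_le h.two_le_e
  refine (deg_cases h.prime h.three_le h.lt h.one_le_r (h2.trans (Nat.mul_dvd_mul_right
    (h3 ▸ dvd_mul_right e t) _)) (b.sign χ hχ) (b.dgN_mod h hχ)).imp (And.imp_right fun h4 =>
      (h4.resolve_left fun e => h1 (h.eq_one_of_dg e)).imp_right ?_)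
    (And.imp_right (Or.imp (fun h4 => ⟨?_, h4⟩) (Or.imp (fun h4 => ⟨?_, h4⟩) ?_)))
  · rw [show dg (χ : G → ℂ) = e * t by have := h.pe; omega] at h2
    have h5 := Nat.dvd_of_mul_dvd_mul_left he h2
    rwa [h.pe, show 1 + r * (e * t + 1) = r + 1 + t * (r * e) by ring,
      Nat.dvd_add_left (dvd_mul_right _ _)] at h5
  · rw [h4, h3] at h2
    exact Nat.dvd_one.1 (Nat.dvd_of_mul_dvd_mul_left he
      (by simpa using Nat.dvd_of_mul_dvd_mul_right (by omega) h2))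
  · rintro ⟨u, v, hr, h4⟩
    refine ⟨u, v, hr, ?_, h4⟩
    obtain ⟨-, h7, h5, h6⟩ := hr
    rw [show dg (χ : G → ℂ) = v * (p + (u + 1)) from Nat.add_right_cancel (h4.trans
      (by rw [← h5]; ring)), show 1 + r * p = (u * v + 1) * (p + (u + 1)) by
      rw [h6, ← h5]; ring, ← mul_assoc] at h2
    obtain ⟨c, rfl⟩ := (show v.Coprime (u * v + 1) by simp).dvd_of_dvd_mul_right
      (Nat.dvd_of_mul_dvd_mul_right (by omega) h2)
    exact ⟨c, Nat.eq_of_mul_eq_mul_left (show 0 < v by omega) (by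
      have := h.pe; rw [← h5] at this; rw [mul_comm v, Nat.add_right_cancel this]; ring)⟩
  · rintro ⟨u, v, hr, h4⟩
    refine ⟨u, v, hr, ?_, h4⟩
    obtain ⟨-, -, h5, h6⟩ := hr
    rw [h4, show u * p + 1 = (u + 1) * (u * v + 1) by rw [← h5]; ring,
      show 1 + r * p = (p + (u + 1)) * (u * v + 1) by rw [h6, ← h5]; ring, ← mul_assoc] at h2
    obtain ⟨c, rfl⟩ := (show (u + 1).Coprime (p + (u + 1)) by
      rw [Nat.coprime_add_self_right, ← h5]; simp).dvd_of_dvd_mul_right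
      (Nat.dvd_of_mul_dvd_mul_right (Nat.succ_pos _) h2)
    exact ⟨c, Nat.eq_of_mul_eq_mul_left (show 0 < u + 1 by omega) (by
      have := h.pe; rw [← h5] at this; rw [Nat.add_right_cancel this]; ring)⟩

/-- Degree of the exceptional characters. -/
theorem typeX :
    (δ0 = 1 ∧ (t * dg χ0 = 1 + r * p ∨ ∃ u v, Rep p r u v ∧ t * dg χ0 = u * p + 1)) ∨
    (δ0 = -1 ∧ (dg χ0 = e ∨ dg χ0 = e * (1 + r * p) ∨
      ∃ u v, Rep p r u v ∧ t * dg χ0 + 1 = (v + 1) * p)) := by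
  have h3 : p - 1 = t * e := by rw [h.pe, Nat.add_sub_cancel, mul_comm]
  have h1 := b.one_lt_dg0 h
  have ht := h.one_le_t
  refine (deg_cases h.prime h.three_le h.lt h.one_le_r (by
    rw [h3, mul_assoc]; exact Nat.mul_dvd_mul_left t (b.dg0_dvd h)) b.sign0 (b.dg0_mod h)).imp
    (And.imp_right fun h4 => h4.resolve_left fun e => by nlinarith)
    (And.imp_right (Or.imp (fun h4 => Nat.eq_of_mul_eq_mul_left ht (by omega))
      (Or.imp_left fun h4 => Nat.eq_of_mul_eq_mul_left ht (by rw [h4, h3, mul_assoc]))))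

end BD

end CfsgLib.Sy
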