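import Cfsg.Agent.Lib.Sy.Tools
import Cfsg.Agent.Lib.GW.Basic

/-!
# The configuration `EData`: basic character theory
-/

set_option autoImplicit false
set_option linter.unusedSectionVars false

namespace CfsgLib.Sy

open Cfsg Subgroup CfsgLib.FT CfsgLib.Blk CfsgLib.FT.BGN CfsgLib.FT.U4
open scoped ComplexConjugate

variable {G : Type*} [Group G] [Fintype G] {s p r : ℕ} {P : Subgroup G}
  {𝒩 𝒳 : Finset (Irr (⊤ : Subgroup G))} {δ : Irr (⊤ : Subgroup G) → ℤ} {χ0 : G → ℂ}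
  {St : Irr (⊤ : Subgroup G)}

/-- Characters of defect zero vanish on the singular elements. -/
theorem defect_zero {L : Subgroup G} (χ : Irr L) {q m : ℕ} (hq : q.Prime)
    (hL : Nat.card L = dg (χ : G → ℂ) * m) (hm : m.Coprime q) {g : G} (hg : q ∣ orderOf g) :
    χ g = 0 := by
  classical
  by_cases e : g ∈ L
  swap
  · exact CF_zero χ.mem_CF e
  obtain ⟨R, hv⟩ := exists_val hq
  have h1 := sum_idempotent_eq_zero hq hv (idem_mem_CF _) (fun y => ?_)
    (conv_idem_indicator (B := {χ})) L.one_mem (by simp) hg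
  · rw [sum_idem_indicator 1 e, kerB, Finset.sum_singleton, mul_eq_zero, map_eq_zero] at h1
    exact h1.resolve_right χ.irr.one_ne_zero
  have : (dg (χ : G → ℂ) : ℂ) ≠ 0 := by exact_mod_cast (dg_pos χ).ne'
  rw [idem_apply, Finset.sum_eq_single χ (fun ψ _ e => by simp [e]) (by simp),
    if_pos (Finset.mem_singleton_self _), one_mul, irr_one, hL, Nat.cast_mul,
    div_mul_cancel_left₀ this, ← χ.irr.isChar.inv]
  exact val_mul_le (val_inv_le (val_natCast_eq_one hv hm))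
    (val_le_one_of_isIntegral _ (χ.irr.isChar.isIntegral _))

theorem isIntegral_conj {z : ℂ} (h : IsIntegral ℤ z) : IsIntegral ℤ (conj z) :=
  h.map (starRingEnd ℂ).toIntAlgHom

theorem cent_int (χ : Irr (⊤ : Subgroup G)) (g : G) :
    IsIntegral ℤ ((𝐂[g]).index * χ g / dg (χ : G → ℂ)) := by
  rw [← irr_one]
  exact (isIrr_top.1 χ.irr).isIntegral_index_mul_div g

theorem isIntegral_div_of_coprime {a b : ℕ} (h : a.Coprime b) (hb : b ≠ 0) {z : ℂ}
    (hz : IsIntegral ℤ z) (h1 : IsIntegral ℤ (a * z / b)) : IsIntegral ℤ (z / b) := by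
  obtain ⟨u, v, e⟩ := Nat.isCoprime_iff_coprime.mpr h
  have e' : (u : ℂ) * a + v * b = 1 := by exact_mod_cast e
  have : (b : ℂ) ≠ 0 := by exact_mod_cast hb
  have k : z / b = u * (a * z / b) + v * z := by
    field_simp
    linear_combination -z * e'
  rw [k]
  exact ((isIntegral_intCast u).mul h1).add ((isIntegral_intCast v).mul hz)

theorem int_dvd_of_isIntegral {a b : ℤ} (hb : b ≠ 0) (h : IsIntegral ℤ ((a : ℂ) / b)) : b ∣ a := by
  obtain ⟨n, hn⟩ := int_of_isIntegral_of_rat h (a / b) (by push_cast; rfl)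
  have : (b : ℂ) ≠ 0 := by exact_mod_cast hb
  refine ⟨n, ?_⟩
  rw [div_eq_iff this] at hn
  exact_mod_cast hn.trans (mul_comm _ _)

/-- Fourier coefficients of a translate of a virtual character by a centralizing element. -/
theorem isIntegral_cfdot_translate {H : Subgroup G} {y : G} (hH : H ≤ 𝐂[y]) {φ : G → ℂ}
    (hφ : φ ∈ ZIrr 𝐂[y]) {θ : G → ℂ} (hθ : IsChar H θ) :
    IsIntegral ℤ (cfdot H (fun h => φ (h * y)) θ) := by
  induction hφ using Submodule.span_induction with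
  | mem ξ hξ =>
    have hξ : IsIrr 𝐂[y] ξ := hξ
    have hc : ∀ z ∈ zpowers y, ∀ x ∈ 𝐂[y], x * z * x⁻¹ * z⁻¹ ∈ cfker 𝐂[y] ξ := fun z hz x hx => by
      rw [conj_eq_of_mem_cent1 (cent1_le_cent1 hz hx), mul_inv_cancel]
      exact one_mem _
    obtain ⟨μ, hμ, e⟩ := hξ.exists_lin_cfRes_center (zpowers_le_cent1 y) hc
    have e1 : ξ y / ξ 1 = μ y := by
      have := congrFun e y
      rw [cfRes_apply (mem_zpowers y), Pi.smul_apply, smul_eq_mul] at this
      rw [this, mul_div_cancel_left₀ _ hξ.one_ne_zero]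
    have e2 : (fun h => ξ (h * y)) = μ y • ξ := funext fun h => by
      rw [hξ.isChar.mul_of_norm_eq (self_mem_cent1 y)
        (hξ.norm_eq_of_center (self_mem_cent1 y) (hc y (mem_zpowers y))), e1]
      rfl
    obtain ⟨n, hn⟩ := (hξ.isChar.cfRes hH).cfdot_nat hθ
    rw [e2, cfdot_smul_left, ← cfdot_cfRes_left, hn]
    exact (hμ.isChar.isIntegral y).mul (isIntegral_natCast n)
  | zero =>
    have : cfdot H (fun h => (0 : G → ℂ) (h * y)) θ = 0 := by simp [cfdot]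
    rw [this]; exact isIntegral_zero
  | add a b _ _ ha hb =>
    have : (fun h => (a + b) (h * y)) = (fun h => a (h * y)) + fun h => b (h * y) := rfl
    rw [this, cfdot_add_left]; exact ha.add hb
  | smul n a _ ha =>
    have : (fun h => (n • a) (h * y)) = n • fun h => a (h * y) := rfl
    rw [this, cfdot_zsmul_left]; exact (isIntegral_intCast n).mul ha

theorem isIntegral_norm_translate {H : Subgroup G} {y : G} (hH : H ≤ 𝐂[y]) {φ : G → ℂ}
    (hφ : φ ∈ ZIrr (⊤ : Subgroup G)) :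
    IsIntegral ℤ (cfdot H (fun h => φ (h * y)) (fun h => φ (h * y))) := by
  have e : ∀ θ, cfdot H (fun h => φ (h * y)) θ = cfdot H (fun h => cfRes 𝐂[y] φ (h * y)) θ :=
    fun θ => cfdot_congr (fun x hx => (cfRes_apply (mul_mem (hH hx) (self_mem_cent1 y))).symm)
      fun _ _ => rfl
  have hm : cfRes H (fun h => φ (h * y)) ∈ CF H := by
    refine ⟨fun x hx => cfRes_apply_of_notMem hx, fun z hz x => ?_⟩
    by_cases hx : x ∈ H
    · rw [cfRes_apply hx, cfRes_apply ((conj_mem_iff hz).2 hx),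
        ← CF_conj (ZIrr_mem_CF hφ) (mem_top z) (x * y)]
      congr 1
      have := mem_cent1.1 (inv_mem (hH hz))
      simp only [mul_assoc, this]
    · rw [cfRes_apply_of_notMem hx, cfRes_apply_of_notMem (mt (conj_mem_iff hz).1 hx)]
  rw [← cfdot_cfRes_left, cfdot_eq_sum_irr hm]
  refine IsIntegral.sum _ fun ξ _ => ?_
  have := isIntegral_cfdot_translate hH (ZIrr_cfRes le_top hφ) ξ.isChar
  rw [cfdot_cfRes_left, e]
  exact this.mul (isIntegral_conj this)

theorem mul_conj_eq (z : ℂ) : z * conj z = ((‖z‖ ^ 2 : ℝ) : ℂ) := by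
  rw [Complex.mul_conj, Complex.normSq_eq_norm_sq]

/-- The nonprincipal non-exceptional characters other than `St`. -/
noncomputable def Ls (𝒩 : Finset (Irr (⊤ : Subgroup G))) (St : Irr (⊤ : Subgroup G)) :
    Finset (Irr (⊤ : Subgroup G)) := (𝒩.erase 1).erase St

namespace EData

variable (h : EData s p P r 𝒩 𝒳 δ χ0 St)
include h

theorem prime : p.Prime := h.w.hyp.prime

theorem p_eq : p = s * (s + 1) + 1 := h.w.hyp.pe

theorem n_eq : 1 + r * p = (s * (s + 1)) ^ 2 := by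
  have h1 := h.r_eq
  have h2 := h.p_eq
  rw [h2, ← h1]; ring

theorem card : Nat.card G = p * s ^ 3 * (s + 1) ^ 2 := by
  rw [h.w.card_eq, h.n_eq]; ring

theorem cop_p : p.Coprime s := by
  rw [h.p_eq, add_comm]; simp

theorem St_ne : St ≠ 1 := by
  rintro rfl
  have h1 := irr_one (1 : Irr (⊤ : Subgroup G))
  rw [h.St_dg, Irr.coe_one, cf1_apply (mem_top _)] at h1
  have h2 : 1 = s ^ 3 := by exact_mod_cast h1
  have := h.three
  have : 3 ^ 3 ≤ s ^ 3 := Nat.pow_le_pow_left this 3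
  omega

theorem sumN {M : Type*} [AddCommMonoid M] (F : Irr (⊤ : Subgroup G) → M) :
    ∑ χ ∈ 𝒩, F χ = F 1 + F St + ∑ χ ∈ Ls 𝒩 St, F χ := by
  rw [← Finset.add_sum_erase _ _ h.w.bd.one_mem, Ls,
    ← Finset.add_sum_erase _ _ (Finset.mem_erase.2 ⟨h.St_ne, h.St_mem⟩), add_assoc]

theorem card_Ls : (Ls 𝒩 St).card + 2 = s := by
  have := h.sumN fun _ => 1
  simp only [Finset.sum_const, smul_eq_mul, mul_one, h.w.bd.cardN] at this
  omega

theorem Ls_spec {χ : Irr (⊤ : Subgroup G)} (hχ : χ ∈ Ls 𝒩 St) :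
    χ ∈ 𝒩 ∧ δ χ = -1 ∧ dg (χ : G → ℂ) = s * (s + 1) := by
  simp only [Ls, Finset.mem_erase] at hχ
  exact ⟨hχ.2.2, ((h.others χ hχ.2.2).resolve_left hχ.2.1).resolve_left hχ.1⟩

theorem δ_one : δ 1 = 1 := h.w.bd.δ_one h.w.hyp

theorem rel {g : G} (hg : ¬ p ∣ orderOf g) : 1 + St g = χ0 g + ∑ χ ∈ Ls 𝒩 St, χ g := by
  have := h.w.bd.rel g hg
  rw [h.sumN, h.δ_one, h.St_sign, Finset.sum_congr rfl fun χ hχ => by rw [(h.Ls_spec hχ).2.1],
    Irr.coe_one, cf1_apply (mem_top _), ← Finset.mul_sum] at this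
  push_cast at this
  linear_combination this

theorem exists_X : ∃ ψ, ψ ∈ 𝒳 :=
  Finset.card_pos.1 (by rw [h.w.bd.cardX]; omega)

theorem dg_X {ψ : Irr (⊤ : Subgroup G)} (hψ : ψ ∈ 𝒳) : dg (ψ : G → ℂ) = (s + 1) ^ 2 :=
  (h.w.bd.dg_X h.w.hyp hψ).trans h.dg0

theorem int0 {g : G} (hg : ¬ p ∣ orderOf g) : ∃ k : ℤ, χ0 g = k :=
  h.w.int_val0 (by have := h.three; omega) hg

theorem St_zero {q : ℕ} (hq : q.Prime) (hs : q ∣ s) {g : G} (hg : q ∣ orderOf g) : St g = 0 := by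
  refine defect_zero St (m := p * (s + 1) ^ 2) hq (by rw [card_top, h.card, h.St_dg]; ring) ?_ hg
  exact Nat.Coprime.coprime_dvd_right hs (Nat.Coprime.mul_left h.cop_p (by simp))

/-- The class multiplication identity. -/
theorem cm {g : G} (hg : ¬ p ∣ orderOf g) : ∃ a : ℕ, (Nat.card 𝐂[g] : ℝ) ^ 2 * a =
    p * (s ^ 3 * (s + 1) ^ 2 + (s + 1) ^ 2 * ‖St g‖ ^ 2 -
      s ^ 2 * (s + 1) * ∑ χ ∈ Ls 𝒩 St, ‖χ g‖ ^ 2 - s ^ 3 * ‖χ0 g‖ ^ 2) := by
  obtain ⟨a, ha⟩ := h.w.class_mul hg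
  refine ⟨a, ?_⟩
  have h1 := irr_one (1 : Irr (⊤ : Subgroup G))
  rw [h.sumN, h.δ_one, h.St_sign, h.St_dg, h.dg0, h.card, ← h1,
    Finset.sum_congr rfl fun χ hχ => by rw [(h.Ls_spec hχ).2.1, (h.Ls_spec hχ).2.2],
    ← Finset.sum_div, ← Finset.mul_sum] at ha
  simp only [Irr.coe_one, cf1_apply (mem_top _), mul_conj_eq] at ha
  have hs : (s : ℂ) ≠ 0 := by have := h.three; exact_mod_cast (by omega : s ≠ 0)
  have hs' : (s : ℂ) + 1 ≠ 0 := by exact_mod_cast (by omega : s + 1 ≠ 0)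
  apply Complex.ofReal_injective
  push_cast at ha ⊢
  rw [ha, norm_one, Complex.ofReal_one]
  field_simp
  ring

theorem sumP_Ls {χ : Irr (⊤ : Subgroup G)} (hχ : χ ∈ Ls 𝒩 St) :
    ∑ u ∈ elems (P : Set G), χ u = 0 := by
  classical
  obtain ⟨h1, h2, h3⟩ := h.Ls_spec hχ
  have hp := h.prime
  rw [← Finset.add_sum_erase _ _ (mem_elems.2 P.one_mem), irr_one, h3,
    Finset.sum_congr rfl (g := fun _ => -1) fun u hu => ?_, Finset.sum_const,
    Finset.card_erase_of_mem (mem_elems.2 P.one_mem), card_elems, h.w.hyp.card, h.p_eq]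
  · simp
  simp only [Finset.mem_erase, mem_elems, SetLike.mem_coe] at hu
  rw [h.w.bd.valN χ h1 u, h2]
  · simp
  rw [← Nat.card_zpowers, D1.eq_zpowers hp h.w.hyp.card hu.2 hu.1, h.w.hyp.card]

theorem odd : Odd s := by
  obtain ⟨χ, hχ⟩ : (Ls 𝒩 St).Nonempty :=
    Finset.card_pos.1 (by have := h.card_Ls; have := h.three; omega)
  rw [← Nat.not_even_iff_odd]
  intro he
  have := h.w.even_t (by rw [(h.Ls_spec hχ).2.2, h.p_eq]) (h.sumP_Ls hχ) he
  exact Nat.even_add_one.1 this he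

theorem sum_reg1 : ∑ g ∈ reg1 G p, ‖χ0 g‖ ^ 2 = p * (s + 1) ^ 2 * (s ^ 2 - s - 1) := by
  have h1 := h.w.sum_reg_00
  rw [sum_reg_eq h.prime, h.w.bd.one_eq_dg0 h.w.hyp, h.dg0, h.n_eq, map_natCast] at h1
  simp only [mul_conj_eq] at h1
  apply Complex.ofReal_injective
  have h2 : (p : ℂ) = s * (s + 1) + 1 := by exact_mod_cast h.p_eq
  push_cast at h1 ⊢
  rw [h2]
  linear_combination h1

end EData

end CfsgLib.Sy
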