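import Cfsg.Agent.Lib.Sy.Main
import Cfsg.Agent.Lib.H9SylowNum
import Cfsg.Agent.Lib.CorePiSep
import Cfsg.Agent.Lib.FT.BG1
import Cfsg.Agent.S4303
import Cfsg.Agent.S4343

/-!
# Groups with fewer than `p ^ 2` Sylow `p`-subgroups: the final assembly
-/

set_option autoImplicit false

namespace CfsgLib.Sy

open Cfsg Subgroup CfsgLib.H9

variable {p : ℕ} [hp : Fact p.Prime]

theorem sylow_mod (G : Type*) [Group G] [Finite G] : Nat.card (Sylow p G) % p = 1 :=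
  Eq.trans (card_sylow_modEq_one p G) (Nat.mod_eq_of_lt hp.out.one_lt)

theorem exists_hyp {S : Type*} [Group S] [Finite S] [IsSimpleGroup S] (hS : ¬ IsMulCommutative S)
    (hd : p ∣ Nat.card S) (hn : Nat.card (Sylow p S) < p ^ 2) :
    ∃ (P : Subgroup S) (r e t : ℕ), Hyp p P r e t ∧ Nat.card (Sylow p S) = 1 + r * p := by
  obtain ⟨P⟩ : Nonempty (Sylow p S) := inferInstance
  have hc : Nat.card (P : Subgroup S) = p := Cfsg.Agent.S4343.result hS p hd hn P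
  have h1 : Nat.card (Sylow p S) = 1 + Nat.card (Sylow p S) / p * p := by
    have := Nat.mod_add_div' (Nat.card (Sylow p S)) p
    rw [sylow_mod] at this
    exact this.symm
  obtain ⟨t, ht⟩ := FT.relIndex_cent_cyclic_pgroup_dvd (p := p) (n := 0) (E := (P : Subgroup S))
    le_rfl (isCyclic_of_prime_card hc) (by rw [hc, zero_add, pow_one])
  refine ⟨P, _, _, t, ⟨hp.out, hc, P.not_dvd_index, inferInstance, hS,
    (card_sylow_eq_index P).symm.trans h1, Nat.div_lt_of_lt_mul (by rwa [← sq]), rfl, ?_⟩, h1⟩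
  have := hp.out.one_lt
  rw [pow_zero, one_mul] at ht
  omega

theorem prod_cases {l : List ℕ} (h : ∀ m ∈ l, m % p = 1) (hl : l.prod < p ^ 2) :
    l.prod % p = 1 ∧ (l.prod = 1 ∨ l.prod ∈ l) := by
  have h1 := hp.out.one_lt
  have key : ∀ m, m % p = 1 → m = 1 ∨ p < m := fun m hm => by
    by_contra hc
    push Not at hc
    rcases hc.2.lt_or_eq with h2 | h2
    · exact hc.1 ((Nat.mod_eq_of_lt h2).symm.trans hm)
    · simp [h2] at hm
  induction l with
  | nil => simp [Nat.mod_eq_of_lt h1]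
  | cons a t ih =>
    rw [List.prod_cons] at hl ⊢
    have h2 := h a List.mem_cons_self
    have h3 := key a h2
    obtain ⟨h4, h5⟩ := ih (fun m hm => h m (List.mem_cons_of_mem _ hm))
      (lt_of_le_of_lt (Nat.le_mul_of_pos_left _ (by omega)) hl)
    refine ⟨by rw [Nat.mul_mod, h2, h4, Nat.mod_eq_of_lt h1], ?_⟩
    rcases h3 with rfl | h3
    · rw [one_mul]; exact h5.imp_right (List.mem_cons_of_mem _)
    · rcases key _ h4 with h6 | h6
      · rw [h6, mul_one]; exact Or.inr List.mem_cons_self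
      · nlinarith

theorem card_sylow_eq_one {G : Type*} [Group G] [Finite G]
    (h : IsMulCommutative G ∨ ¬ p ∣ Nat.card G) : Nat.card (Sylow p G) = 1 := by
  obtain ⟨P⟩ : Nonempty (Sylow p G) := inferInstance
  rw [card_sylow_eq_index P, index_eq_one, normalizer_eq_top_iff]
  rcases h with h | h
  · infer_instance
  · rw [card_eq_one.1 (P.isPGroup'.card_eq_or_dvd.resolve_right fun e =>
      h (e.trans (card_subgroup_dvd_card _)))]
    infer_instance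

theorem card_sylow_dvd {G : Type*} [Group G] [Finite G] (hd : p ∣ Nat.card G) {m : ℕ}
    (h : Nat.card G ∣ p * m) : Nat.card (Sylow p G) ∣ m := by
  obtain ⟨P⟩ : Nonempty (Sylow p G) := inferInstance
  refine P.card_dvd_index.trans (Nat.dvd_of_mul_dvd_mul_left hp.out.pos (dvd_trans ?_ h))
  rw [← (P : Subgroup G).card_mul_index]
  exact mul_dvd_mul_right (P.dvd_card_of_dvd_card hd) _

/-- The possible numbers of Sylow subgroups of a simple group. -/
theorem simple_number {S : Type*} [Group S] [Finite S] [IsSimpleGroup S]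
    (hS : ¬ IsMulCommutative S) (hd : p ∣ Nat.card S) (hn : Nat.card (Sylow p S) < p ^ 2) :
    (3 < p ∧ Nat.card (Sylow p S) = 1 + p) ∨ (p = 13 ∧ Nat.card (Sylow p S) = 144) ∨
    (3 < p ∧ (∃ k : ℕ, p = 2 ^ k + 1) ∧ 2 * Nat.card (Sylow p S) = 2 + (p - 3) * p) ∨
    (3 < p ∧ (∃ k : ℕ, p + 1 = 2 ^ k) ∧ 2 * Nat.card (Sylow p S) = 2 + (p + 3) * p) := by
  haveI := Fintype.ofFinite S
  obtain ⟨P, r, e, t, h, h1⟩ := exists_hyp hS hd hn
  rw [h1]
  rcases h.classify.2 with ⟨rfl, rfl⟩ | ⟨-, h2, h3, T, h4, -⟩ | ⟨-, h2, h3, T, h4, -⟩ | ⟨rfl, rfl, -⟩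
  · have := h.pe
    have := h.two_le_e
    exact Or.inl ⟨by omega, by rw [one_mul]⟩
  · obtain ⟨k, hk⟩ := IsPGroup.iff_card.1 T.isPGroup'
    refine Or.inr (Or.inr (Or.inl ⟨h3, ⟨k, by rw [← hk]; exact h4.symm⟩, ?_⟩))
    rw [show p - 3 = 2 * r by omega]; ring
  · obtain ⟨k, hk⟩ := IsPGroup.iff_card.1 T.isPGroup'
    refine Or.inr (Or.inr (Or.inr ⟨h3, ⟨k, by rw [← hk]; exact h4.symm⟩, ?_⟩))
    rw [h2]; ring
  · exact Or.inr (Or.inl ⟨rfl, rfl⟩)

theorem exists_normal_of_not_simple {G : Type*} [Group G] [Nontrivial G] (hs : ¬ IsSimpleGroup G) :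
    ∃ N : Subgroup G, N.Normal ∧ N ≠ ⊥ ∧ N ≠ ⊤ := by
  by_contra hcon
  push Not at hcon
  exact hs ⟨fun N hN => (em (N = ⊥)).imp_right (hcon N hN)⟩

theorem list_of_pSolvable {G : Type*} [Group G] [Finite G] (h : IsPSolvable p G) :
    ∃ l : List ℕ, l.prod = Nat.card (Sylow p G) ∧ ∀ m ∈ l, IsPrimePow m ∧ m % p = 1 := by
  refine card_induction (P := fun X _ _ => PiSep {p} X → ∃ l : List ℕ,
    l.prod = Nat.card (Sylow p X) ∧ ∀ m ∈ l, IsPrimePow m ∧ m % p = 1) ?_ G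
    (isPSolvable_iff_piSep.1 h)
  intro G _ _ ih h
  obtain ⟨P⟩ : Nonempty (Sylow p G) := inferInstance
  rcases subsingleton_or_nontrivial G with h1 | h1
  · exact ⟨[], (card_sylow_eq_one (Or.inl ⟨⟨fun _ _ => Subsingleton.elim _ _⟩⟩)).symm, by simp⟩
  obtain ⟨K, hK, h0, -, h2⟩ := PiSep.exists_normal_le (N := ⊤) (h.subgroup ⊤) top_ne_bot
  obtain ⟨l₁, hl₁, hm₁⟩ := ih _ (card_quotient_lt h0) (h.quotient K)
  rcases h2 with h2 | h2
  · refine ⟨l₁, hl₁.trans (card_sylow_quotient_of_le K P (le_trans ?_ le_normalizer)), hm₁⟩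
    exact Hall.le_hall_of_normal (Hall.isPiHall_singleton_sylow P) h2
  · obtain ⟨l₂, hl₂, hm₂⟩ := Cfsg.Agent.S4303.list_of_parts p _ index_ne_zero_of_finite fun q hq =>
      ordProj_relIndex_normalizer_modEq_one K P (by rw [normalizer_eq_top K]; exact le_top)
        ((isPiNum_compl_singleton_iff hp.out).1 h2) hq
    refine ⟨l₁ ++ l₂, ?_, fun m hm => (List.mem_append.1 hm).elim (hm₁ m) (hm₂ m)⟩
    rw [List.prod_append, hl₁, hl₂, card_sylow_eq_quotient_mul K P]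
    rfl

theorem pSolvable_of_primePow (h3 : ¬ (3 < p ∧ ∃ k : ℕ, p + 1 = 2 ^ k)) {q : ℕ} (hq : q.Prime)
    {G : Type*} [Group G] [Finite G] (hn : Nat.card (Sylow p G) < p ^ 2)
    (h : ∃ k, Nat.card (Sylow p G) = q ^ k) : IsPSolvable p G := by
  refine isPSolvable_iff_piSep.2 (card_induction (P := fun X _ _ => Nat.card (Sylow p X) < p ^ 2 →
    (∃ k, Nat.card (Sylow p X) = q ^ k) → PiSep {p} X) ?_ G hn h)
  intro G _ _ ih hn ⟨k, hk⟩
  rcases subsingleton_or_nontrivial G with h1 | h1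
  · exact PiSep.triv G h1
  by_cases hs : IsSimpleGroup G
  · by_cases hc : IsMulCommutative G
    · exact PiSep.of_isSolvable isSolvable_of_isMulCommutative
    by_cases hd : p ∣ Nat.card G
    swap
    · exact PiSep.of_isPiSubgroup_top (Or.inr fun r _ hr e => hd (by
        rw [card_top, Set.mem_singleton_iff.1 e] at hr; exact hr))
    exfalso
    have key : 2 ∣ Nat.card (Sylow p G) → q = 2 := fun e =>
      ((Nat.prime_dvd_prime_iff_eq Nat.prime_two hq).1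
        (Nat.prime_two.dvd_of_dvd_pow (hk ▸ e))).symm
    rcases simple_number hc hd hn with ⟨h4, h5⟩ | ⟨-, h5⟩ | ⟨h4, ⟨j, hj⟩, h5⟩ | ⟨h4, h5, -⟩
    · obtain rfl := key (by
        have := hp.out.eq_two_or_odd
        omega)
      exact h3 ⟨h4, k, by omega⟩
    · obtain rfl := key (by rw [h5]; decide)
      exact absurd (Nat.prime_three.dvd_of_dvd_pow (hk ▸ h5 ▸ (by decide : 3 ∣ 144))) (by decide)
    · obtain ⟨j, rfl⟩ : ∃ i, j = i + 2 := ⟨j - 2, by
        have : 2 ^ 1 < 2 ^ j := by omega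
        have := (Nat.pow_lt_pow_iff_right one_lt_two).1 this
        omega⟩
      obtain ⟨a, ha⟩ : ∃ a, 2 ^ j = a + 1 := ⟨2 ^ j - 1, by have := Nat.two_pow_pos j; omega⟩
      have h6 : p = 4 * a + 5 := by rw [hj, pow_add, ha]; ring
      have h7 : Nat.card (Sylow p G) = 2 * (a + 1) * (4 * a + 3) := by
        rw [show p - 3 = 4 * a + 2 by omega] at h5
        nth_rewrite 2 [h6] at h5
        nlinarith
      obtain rfl := key (h7 ▸ ⟨_, mul_assoc _ _ _⟩)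
      obtain ⟨i, -, hi⟩ := (Nat.dvd_prime_pow hq).1 (hk ▸ h7 ▸ dvd_mul_left (4 * a + 3) _)
      rcases i with _ | i
      · omega
      · rw [pow_succ] at hi; omega
    · exact h3 ⟨h4, h5⟩
  obtain ⟨K, hK, h0, h2⟩ := exists_normal_of_not_simple hs
  obtain ⟨P⟩ : Nonempty (Sylow p G) := inferInstance
  have hle : (P : Subgroup G) ⊓ K ≤ ((P : Subgroup G) ⊔ K) ⊓
      normalizer (((P : Subgroup G) ⊓ K : Subgroup G) : Set G) :=
    le_inf (inf_le_left.trans le_sup_left) le_normalizer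
  haveI := (normal_subgroupOf_iff_le_normalizer hle).2 inf_le_right
  have h4 := card_sylow_product K P _ rfl
  have key : ∀ (X : Type _) [Group X] [Finite X], Nat.card X < Nat.card G →
      Nat.card (Sylow p X) ∣ Nat.card (Sylow p G) → PiSep {p} X := fun X _ _ h5 h6 =>
    ih X h5 (lt_of_le_of_lt (Nat.le_of_dvd Nat.card_pos h6) hn)
      (((Nat.dvd_prime_pow hq).1 (hk ▸ h6)).imp fun _ h => h.2)
  exact PiSep.of_normal_of_quotient K
    (key _ (card_lt_of_ne_top h2) (h4 ▸ (dvd_mul_left _ _).mul_right _))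
    (key _ (card_quotient_lt h0) (h4 ▸ (dvd_mul_right _ _).mul_right _))

theorem number_cases {G : Type*} [Group G] [Finite G] (hn : Nat.card (Sylow p G) < p ^ 2) :
    (∃ q k : ℕ, q.Prime ∧ Nat.card (Sylow p G) = q ^ k) ∨
    (p = 13 ∧ Nat.card (Sylow p G) = 144) ∨
    (p ≠ 2 ∧ (¬ ∃ k : ℕ, p + 1 = 2 ^ k) ∧ Nat.card (Sylow p G) = 1 + p) ∨
    (3 < p ∧ (∃ k : ℕ, p = 2 ^ k + 1) ∧ 2 * Nat.card (Sylow p G) = 2 + (p - 3) * p) ∨
    (3 < p ∧ (∃ k : ℕ, p + 1 = 2 ^ k) ∧ 2 * Nat.card (Sylow p G) = 2 + (p + 3) * p) := by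
  obtain ⟨l, hl, hm⟩ := Cfsg.Agent.S4303.result (G := G) p
  have one : Nat.card (Sylow p G) = 1 → ∃ q k : ℕ, q.Prime ∧ Nat.card (Sylow p G) = q ^ k :=
    fun e => ⟨2, 0, Nat.prime_two, e⟩
  rcases (prod_cases (p := p) (fun m h => (hm m h).elim And.right fun ⟨S, _, _, _, e⟩ =>
    e ▸ sylow_mod S) (hl ▸ hn)).2 with h | h
  · exact Or.inl (one (hl ▸ h))
  rw [hl] at h
  rcases hm _ h with ⟨h1, -⟩ | ⟨S, _, _, _, e⟩
  · obtain ⟨q, k, hq, -, e⟩ := (isPrimePow_nat_iff _).1 h1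
    exact Or.inl ⟨q, k, hq, e.symm⟩
  by_cases h1 : IsMulCommutative S ∨ ¬ p ∣ Nat.card S
  · exact Or.inl (one (e.trans (card_sylow_eq_one h1)))
  push Not at h1
  have h2 := simple_number h1.1 h1.2 (e ▸ hn)
  rw [← e] at h2
  rcases h2 with ⟨h2, h3⟩ | h2 | h2 | h2
  · by_cases h4 : ∃ k : ℕ, p + 1 = 2 ^ k
    · obtain ⟨k, hk⟩ := h4
      exact Or.inl ⟨2, k, Nat.prime_two, by omega⟩
    · exact Or.inr (Or.inr (Or.inl ⟨by omega, h4, h3⟩))
  · exact Or.inr (Or.inl h2)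
  · exact Or.inr (Or.inr (Or.inr (Or.inl h2)))
  · exact Or.inr (Or.inr (Or.inr (Or.inr h2)))

theorem pSolvable_iff {G : Type*} [Group G] [Finite G] (h3 : ¬ (3 < p ∧ ∃ k : ℕ, p + 1 = 2 ^ k))
    (hn : Nat.card (Sylow p G) < p ^ 2) :
    IsPSolvable p G ↔ ∃ q k : ℕ, q.Prime ∧ Nat.card (Sylow p G) = q ^ k := by
  refine ⟨fun h => ?_, fun ⟨q, k, hq, e⟩ => pSolvable_of_primePow h3 hq hn ⟨k, e⟩⟩
  obtain ⟨l, hl, hm⟩ := list_of_pSolvable h
  rcases (prod_cases (p := p) (fun m h => (hm m h).2) (hl ▸ hn)).2 with h | h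
  · exact ⟨2, 0, Nat.prime_two, hl ▸ h⟩
  · obtain ⟨q, k, hq, -, e⟩ := (isPrimePow_nat_iff _).1 (hm _ h).1
    exact ⟨q, k, hq, hl ▸ e.symm⟩

end CfsgLib.Sy
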