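import Cfsg.Agent.Lib.Sy.Semi
import Cfsg.Agent.Lib.BSW.ZassOdd
import Cfsg.Agent.Lib.BSW.SL2SN
import Cfsg.Agent.Lib.H8AbTI
import Cfsg.Agent.Lib.SL2Card
import Cfsg.Agent.Lib.GW.Basic

set_option autoImplicit false

namespace CfsgLib.Sy

section

open Subgroup MulAction CfsgLib.FT.BGN CfsgLib.FT.U4 CfsgLib.GW

variable {G : Type*} [Group G] {p e : ℕ}

/-- There are `p + 1` self-centralizing Sylow subgroups of order `p = 2 e + 1`. -/
structure Z1 (p : ℕ) (G : Type*) [Group G] (e : ℕ) : Prop where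
  sp : Sp p G 1
  cent : ∀ R : Sylow p G, 𝐂((R : Subgroup G)) = R
  norm : ∀ R : Sylow p G, Nat.card (stabilizer G R) = e * p
  pe : p = e * 2 + 1

/-- The two point stabilizer. -/
def Dp (R S : Sylow p G) : Subgroup G := stabilizer G R ⊓ stabilizer G S

theorem mem_Dp {R S : Sylow p G} {g : G} : g ∈ Dp R S ↔ g • R = R ∧ g • S = S := Iff.rfl

theorem swap_norm [Finite G] {R S : Sylow p G} {g : G} (h1 : g • R = S) (h2 : g • S = R) :
    g ∈ 𝐍(Dp R S) := mem_normalizer_of_conj_mem fun d hd => mem_Dp.2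
  ⟨by rw [mul_smul, mul_smul, inv_smul_eq_iff.2 h2.symm, hd.2, h2],
    by rw [mul_smul, mul_smul, inv_smul_eq_iff.2 h1.symm, hd.1, h1]⟩

theorem swap_mul {R S : Sylow p G} {g g' : G} (h1 : g • R = S) (h2 : g • S = R) (h3 : g' • R = S)
    (h4 : g' • S = R) : g * g' ∈ Dp R S :=
  mem_Dp.2 ⟨by rw [mul_smul, h3, h2], by rw [mul_smul, h4, h1]⟩

namespace Z1

variable [hp : Fact p.Prime] [Finite G] [Fintype (Sylow p G)] [DecidableEq (Sylow p G)]
  (h : Z1 p G e)
include h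

theorem fix_le {g : G} (h1 : g ≠ 1) {R S : Sylow p G} (hg : g ∈ Dp R S) (hne : S ≠ R) :
    (Finset.univ.filter fun Q : Sylow p G => g • Q = Q).card ≤ 2 :=
  h.sp.fix_le (fun e => h1 (h.sp.eq_one hne (h.cent R ▸ e) hg.2)) hg.1

theorem fix3 {g : G} (h1 : g ≠ 1) {R S T : Sylow p G} (hg : g ∈ Dp R S) (hne : S ≠ R)
    (hT : g • T = T) : T = R ∨ T = S := by
  by_contra hc
  push Not at hc
  have := (Finset.two_lt_card_iff (s := Finset.univ.filter fun Q : Sylow p G => g • Q = Q)).2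
    ⟨R, S, T, Finset.mem_filter.2 ⟨Finset.mem_univ _, hg.1⟩,
    Finset.mem_filter.2 ⟨Finset.mem_univ _, hg.2⟩, Finset.mem_filter.2 ⟨Finset.mem_univ _, hT⟩,
    hne.symm, hc.1.symm, hc.2.symm⟩
  exact absurd (h.fix_le h1 hg hne) (by omega)

theorem trans1 {R S T : Sylow p G} (hS : S ≠ R) (hT : T ≠ R) :
    ∃ u ∈ (R : Subgroup G), u • S = T := by
  haveI := Fintype.ofFinite (R : Subgroup G)
  have h2 : Finset.univ.image (fun a : (R : Subgroup G) => (a : G) • S) = Finset.univ.erase R := by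
    refine Finset.eq_of_subset_of_card_le (fun U hU => ?_) ?_
    · obtain ⟨a, -, rfl⟩ := Finset.mem_image.1 hU
      refine Finset.mem_erase.2 ⟨fun e => hS ?_, Finset.mem_univ _⟩
      rw [← inv_smul_smul (a : G) S, e, Sylow.smul_eq_iff_mem_normalizer]
      exact le_normalizer (inv_mem a.2)
    · rw [Finset.card_image_of_injective _ fun a b e1 => Subtype.ext (inv_mul_eq_one.1
        (h.sp.eq_one hS (mul_mem (inv_mem a.2) b.2)
          (by rw [mul_smul, inv_smul_eq_iff]; exact e1.symm))), Finset.card_univ,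
        ← Nat.card_eq_fintype_card, h.sp.card, Finset.card_erase_of_mem (Finset.mem_univ R),
        Finset.card_univ, ← Nat.card_eq_fintype_card, h.sp.n]
      omega
  obtain ⟨a, -, e1⟩ := Finset.mem_image.1 (h2.ge (Finset.mem_erase.2 ⟨hT, Finset.mem_univ _⟩))
  exact ⟨a, a.2, e1⟩

theorem card_D {R S : Sylow p G} (hne : S ≠ R) : Nat.card (Dp R S) = e := by
  have h1 : Dp R S ≤ 𝐍((R : Subgroup G)) := fun d hd => Sylow.smul_eq_iff_mem_normalizer.1 hd.1
  have h2 : (R : Subgroup G) ≤ stabilizer G R := fun u hu =>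
    Sylow.smul_eq_iff_mem_normalizer.2 (le_normalizer hu)
  have h3 : Dp R S ⊔ R = stabilizer G R := le_antisymm (sup_le inf_le_left h2) fun n hn => by
    obtain ⟨u, hu, e1⟩ := h.trans1 (T := S) (S := n • S)
      (fun e => hne (by rw [← inv_smul_smul n S, e]; exact inv_mem hn)) hne
    exact (mul_mem_cancel_left (mem_sup_right hu)).1 (mem_sup_left
      (mem_Dp.2 ⟨mul_mem (h2 hu) hn, by rw [mul_smul, e1]⟩))
  have h4 := card_sup_of_disjoint h1 (eq_bot_of_forall fun u hu => h.sp.eq_one hne hu.2 hu.1.2)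
  rw [h3, h.norm, h.sp.card] at h4
  exact (Nat.eq_of_mul_eq_mul_right hp.out.pos h4).symm

omit [Finite G] [Fintype (Sylow p G)] [DecidableEq (Sylow p G)] in
theorem cyc_D {R S : Sylow p G} (hne : S ≠ R) : IsCyclic (Dp R S) := by
  have h1 : Dp R S ≤ 𝐍((R : Subgroup G)) := fun d hd => Sylow.smul_eq_iff_mem_normalizer.1 hd.1
  haveI := isCyclic_of_prime_card (h.sp.card R)
  haveI : IsCyclic (ZMod (Nat.card (R : Subgroup G)))ˣ := by
    rw [h.sp.card]; exact ZMod.isCyclic_units_prime hp.out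
  haveI := isCyclic_of_surjective _ (IsCyclic.mulAutMulEquiv (R : Subgroup G)).symm.surjective
  refine isCyclic_of_injective ((R : Subgroup G).normalizerMonoidHom.comp (inclusion h1))
    ((injective_iff_map_eq_one _).2 fun d hd => Subtype.ext (h.sp.eq_one hne ?_ d.2.2))
  have : inclusion h1 d ∈ (R : Subgroup G).normalizerMonoidHom.ker := hd
  rw [normalizerMonoidHom_ker, h.cent] at this
  exact this

theorem swap {R S : Sylow p G} (hne : S ≠ R) : ∃ g : G, g • R = S ∧ g • S = R := by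
  obtain ⟨x, rfl⟩ := exists_smul_eq G R S
  obtain ⟨u, hu, e1⟩ := h.trans1 (R := x • R) (S := x • x • R) (T := R)
    (fun e => hne (smul_left_cancel x e)) hne.symm
  exact ⟨u * x, by
    rw [mul_smul]; exact Sylow.smul_eq_iff_mem_normalizer.2 (le_normalizer hu), by
    rw [mul_smul, e1]⟩

theorem norm_cases {R S : Sylow p G} (hne : S ≠ R) {T : Subgroup G} (hT : T ≤ Dp R S) (h1 : T ≠ ⊥)
    {n : G} (hn : n ∈ 𝐍(T)) : n ∈ Dp R S ∨ (n • R = S ∧ n • S = R) := by
  obtain ⟨t, ht, ht1⟩ := exists_ne_one h1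
  have h2 := hT (conj_mem_of_mem_normalizer' hn ht)
  have key : ∀ U : Sylow p G, (n⁻¹ * t * n) • U = U → n • U = R ∨ n • U = S := fun U hU =>
    h.fix3 ht1 (hT ht) hne (by rwa [mul_smul, mul_smul, inv_smul_eq_iff] at hU)
  rcases key R h2.1 with h3 | h3 <;> rcases key S h2.2 with h4 | h4
  · exact absurd (smul_left_cancel n (h4.trans h3.symm)) hne
  · exact Or.inl ⟨h3, h4⟩
  · exact Or.inr ⟨h3, h4⟩
  · exact absurd (smul_left_cancel n (h4.trans h3.symm)) hne

theorem even_case (he : 2 ∣ e) {R S : Sylow p G} (hne : S ≠ R) :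
    ∃ w : G, w • R = S ∧ w * w = 1 ∧ ∀ d ∈ Dp R S, w * d * w⁻¹ = d⁻¹ := by
  classical
  have inv : ∀ R S : Sylow p G, S ≠ R → ∃ z ∈ Dp R S, orderOf z = 2 := fun R S hne =>
    exists_inv_of_not_odd (by rw [h.card_D hne, Nat.not_odd_iff_even]; exact even_iff_two_dvd.2 he)
  obtain ⟨z, hz, hz2⟩ := inv R S hne
  have key : ∀ c ∈ (Finset.univ.erase R).erase S,
      ∃ j : G, (j • R = S ∧ j • S = R) ∧ j * j = 1 ∧ j ≠ 1 ∧ ∃ d, d ≠ c ∧ j ∈ Dp c d := fun c hc => by
    simp only [Finset.mem_erase, Finset.mem_univ, and_true] at hc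
    have h1 : z • c ≠ c := fun e => (h.fix3 (ne_one_of_inv hz2) hz hne e).elim hc.2 hc.1
    obtain ⟨j, hj, hj2⟩ := inv c _ h1
    have h2 := eq_of_le_cyclic (h.cyc_D h1) (zpowers_le.2 (conj_mem_of_mem_normalizer
      (swap_norm rfl (by rw [← mul_smul, mul_self_of_inv hz2, one_smul])) hj)) (zpowers_le.2 hj)
      (by rw [Nat.card_zpowers, Nat.card_zpowers, orderOf_conj])
    have h3 := ((mem_zpowers_inv hj2).1 (h2.le (mem_zpowers _))).resolve_left
      (conj_ne_one_iff.2 (ne_one_of_inv hj2))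
    refine ⟨j, (h.norm_cases hne (zpowers_le.2 hz) (zpowers_ne_bot.2 (ne_one_of_inv hz2))
      (cent_le_norm _ ((cent_zpowers z).ge (mem_cent1_comm.1
        (mem_cent1_of_conj_eq h3))))).resolve_left fun e =>
        (h.fix3 (ne_one_of_inv hj2) e hne hj.1).elim hc.2 hc.1,
      mul_self_of_inv hj2, ne_one_of_inv hj2, _, h1, hj⟩
  choose! j hj using key
  have h1 : ((Finset.univ.erase R).erase S).card = 2 * e := by
    rw [Finset.card_erase_of_mem (Finset.mem_erase.2 ⟨hne, Finset.mem_univ _⟩),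
      Finset.card_erase_of_mem (Finset.mem_univ _), Finset.card_univ, ← Nat.card_eq_fintype_card,
      h.sp.n]
    have := h.pe
    omega
  obtain ⟨c₀, hc₀⟩ := Finset.card_pos.1 (h1 ▸ (by
    have := h.pe
    have := hp.out.one_lt
    omega) : 0 < ((Finset.univ.erase R).erase S).card)
  obtain ⟨⟨hw1, hw2⟩, ww, -⟩ := hj c₀ hc₀
  generalize j c₀ = w at hw1 hw2 ww
  have wi := inv_eq_of_mul_eq_one_right ww
  have hc : ∀ a ∈ Dp R S, ∀ b ∈ Dp R S, a * b = b * a := fun a ha b hb =>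
    mem_cent.1 (le_cent_of_isCyclic (h.cyc_D hne) hb) a ha
  let I : Subgroup G :=
    { carrier := {d | d ∈ Dp R S ∧ w * d * w⁻¹ = d⁻¹}
      one_mem' := ⟨one_mem _, by simp⟩
      mul_mem' := fun {a b} ha hb => ⟨mul_mem ha.1 hb.1, by
        rw [← conj_mul, ha.2, hb.2, ← mul_inv_rev, hc a ha.1 b hb.1]⟩
      inv_mem' := fun {a} ha => ⟨inv_mem ha.1, by rw [← conj_inv, ha.2]⟩ }
  haveI := Fintype.ofFinite G
  have h2 := Finset.card_le_mul_card_image_of_maps_to (s := (Finset.univ.erase R).erase S)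
    (t := Finset.univ.filter (· ∈ I)) (f := fun c => w * j c) (fun c hc => by
      obtain ⟨⟨h2, h3⟩, h4, -⟩ := hj c hc
      refine Finset.mem_filter.2 ⟨Finset.mem_univ _, swap_mul hw1 hw2 h2 h3, ?_⟩
      rw [← mul_assoc, ww, one_mul, mul_inv_rev, inv_eq_of_mul_eq_one_right h4]) 2 fun b _ => by
      rcases (((Finset.univ.erase R).erase S).filter fun c => w * j c = b).eq_empty_or_nonempty
        with h2 | ⟨c, h2⟩
      · simp [h2]
      · obtain ⟨h2, h3⟩ := Finset.mem_filter.1 h2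
        obtain ⟨-, -, h4, d, h5, h6⟩ := hj c h2
        refine le_trans (Finset.card_le_card fun c' hc' => ?_) (h.fix_le h4 h6 h5)
        obtain ⟨h7, h8⟩ := Finset.mem_filter.1 hc'
        obtain ⟨-, -, -, d', -, h9⟩ := hj c' h7
        exact Finset.mem_filter.2 ⟨Finset.mem_univ _, mul_left_cancel (h8.trans h3.symm) ▸ h9.1⟩
  rw [h1, ← Fintype.card_subtype, ← Nat.card_eq_fintype_card] at h2
  have h3 : I = Dp R S := eq_of_le_of_card_le (fun d hd => hd.1) (by
    rw [h.card_D hne]; exact Nat.le_of_mul_le_mul_left h2 two_pos)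
  exact ⟨w, hw1, ww, fun d hd => (h3.ge hd).2⟩

theorem odd_case (hs : ∀ K : Subgroup G, K.Normal → K = ⊥ ∨ K = ⊤) (he : Odd e) {R S : Sylow p G}
    (hne : S ≠ R) : ∃ w : G, w • R = S ∧ w * w = 1 ∧ ∀ d ∈ Dp R S, w * d * w⁻¹ = d⁻¹ := by
  obtain ⟨g, hg1, hg2⟩ := h.swap hne
  have hD := h.card_D hne
  have hcy := h.cyc_D hne
  have hc : ∀ a ∈ Dp R S, ∀ b ∈ Dp R S, a * b = b * a := fun a ha b hb =>
    mem_cent.1 (le_cent_of_isCyclic hcy hb) a ha
  obtain ⟨w, hw1, hw2, ww⟩ : ∃ w : G, w • R = S ∧ w • S = R ∧ w * w = 1 := by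
    obtain ⟨k, hk⟩ := he
    have h1 := pow_mem (swap_mul hg1 hg2 hg1 hg2) k
    refine ⟨g * (g * g) ^ k, by rw [mul_smul, h1.1, hg1], by rw [mul_smul, h1.2, hg2], ?_⟩
    have h2 : (g * g) ^ e = 1 := by
      rw [← orderOf_dvd_iff_pow_eq_one, ← hD]
      exact orderOf_dvd_natCard _ (swap_mul hg1 hg2 hg1 hg2)
    rw [← h2, hk, ← sq g, ← pow_mul, ← pow_mul, ← pow_succ', ← pow_add]
    congr 1
    ring
  refine ⟨w, hw1, ww, fun d hd => eq_inv_of_mul_eq_one_right (by_contra fun h1 => ?_)⟩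
  have wi := inv_eq_of_mul_eq_one_right ww
  have hwD := swap_norm hw1 hw2
  have cc : ∀ y : G, w * (w * y * w⁻¹) * w⁻¹ = y := fun y => by
    rw [wi, ← mul_assoc, ← mul_assoc, ww, one_mul, mul_assoc, ww, mul_one]
  have hd' := conj_mem_of_mem_normalizer hwD hd
  have h2 : w ∈ 𝐂[d * (w * d * w⁻¹)] :=
    mem_cent1_of_conj_eq (by rw [← conj_mul, cc, hc d hd _ hd'])
  obtain ⟨X, hX, hq⟩ := exists_prime_sub_zpowers h1
  have hXD := hX.trans (zpowers_le.2 (mul_mem hd hd'))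
  obtain ⟨q, hq'⟩ : ∃ q, Nat.card X = q := ⟨_, rfl⟩
  rw [hq'] at hq
  haveI := Fact.mk hq
  have hqe : q ∣ e := hq' ▸ hD ▸ card_dvd_of_le hXD
  obtain ⟨T, hT⟩ := IsSylowIn.exists_in (p := q) (Dp R S)
  have hT1 := hT.ne_bot (hD ▸ hqe)
  have h3 : ¬ q ∣ T.index := by
    have h3 := (stabilizer G R).card_mul_index
    rw [h.norm, index_stabilizer_of_transitive, h.sp.n, ← (Dp R S).card_mul_index, hD,
      mul_assoc] at h3
    rw [← relIndex_mul_index hT.le, ← Nat.eq_of_mul_eq_mul_left he.pos h3, hq.dvd_mul, hq.dvd_mul]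
    rintro (h4 | h4 | h4)
    · exact hT.not_dvd h4
    · rw [h.pe, Nat.dvd_add_right (hqe.mul_right 2), Nat.dvd_one] at h4
      exact hq.one_lt.ne' h4
    · rw [h.pe, show 1 + 1 * (e * 2 + 1) = e * 2 + 2 by ring, Nat.dvd_add_right (hqe.mul_right 2),
        Nat.prime_dvd_prime_iff_eq hq Nat.prime_two] at h4
      exact absurd (he.of_dvd_nat (h4 ▸ hqe)) (by decide)
  have h4 : w ∈ 𝐂(T) := mem_cent.2 fun y hy => by
    have hy' := conj_mem_of_mem_normalizer (norm_le_norm_of_le_cyclic hcy hT.le hwD) hy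
    by_contra h4
    have h5 : y * (w * y * w⁻¹)⁻¹ ≠ 1 := fun e =>
      h4 (by rw [mul_inv_eq_one, eq_mul_inv_iff_mul_eq] at e; exact e)
    have h6 := mul_mem hy (inv_mem hy')
    have h7 : w * (y * (w * y * w⁻¹)⁻¹) * w⁻¹ = (y * (w * y * w⁻¹)⁻¹)⁻¹ := by
      rw [← conj_mul, ← conj_inv, cc, mul_inv_rev, inv_inv]
    obtain ⟨Y, hY, hYq⟩ := exists_card_prime (H := zpowers (y * (w * y * w⁻¹)⁻¹)) hq
      ((hT.isPGroup.to_le (zpowers_le.2 h6)).card_eq_or_dvd.resolve_left fun e =>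
        h5 (by simpa using card_eq_one.1 e))
    obtain rfl := eq_of_le_cyclic hcy hXD (hY.trans (zpowers_le.2 (hT.le h6))) (hq'.trans hYq.symm)
    obtain ⟨u, hu, hu1⟩ := exists_ne_one (ne_bot_of_card_prime (hq' ▸ hq))
    obtain ⟨k, rfl⟩ := mem_zpowers_iff.1 (hY hu)
    exact hu1 (eq_one_of_inv_of_comm (odd_orderOf_of_mem (hD ▸ he) (hXD hu))
      (by rw [← conj_zpow, h7, inv_zpow]) (mem_cent1'.1 (cent1_le_cent1 (hX hu) h2)))
  let Q : Sylow q G := hT.isPGroup.toSylow h3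
  have hle : 𝐍((Q : Subgroup G)) ≤ 𝐂((Q : Subgroup G)) := fun n hn => by
    have key : ∀ a ∈ Dp R S, a ∈ 𝐂(T) := fun a ha => mem_cent.2 fun y hy => hc y (hT.le hy) a ha
    rcases h.norm_cases hne hT.le hT1 hn with h5 | h5
    · exact key n h5
    · exact (mul_mem_cancel_right h4).1 (key _ (swap_mul h5.1 h5.2 hw1 hw2))
  have h5 := MonoidHom.ker_transferSylow_isComplement' Q hle
  rcases hs (MonoidHom.transferSylow Q hle).ker inferInstance with h6 | h6 <;> rw [h6] at h5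
  · exact hne (hw1.symm.trans (hT.le ((isComplement'_bot_left.1 h5).ge (mem_top w))).1)
  · exact hT1 (isComplement'_top_left.1 h5)

end Z1

end

open Cfsg Subgroup CfsgLib.FT CfsgLib.Blk
open scoped ComplexConjugate

variable {G : Type*} [Group G] [Fintype G] {p r e t : ℕ} {P : Subgroup G}
  {𝒩 𝒳 : Finset (Irr (⊤ : Subgroup G))} {δ : Irr (⊤ : Subgroup G) → ℤ} {δ0 : ℤ} {χ0 : G → ℂ}

theorem Hyp.l2p (h : Hyp p P 1 e 2) (hC : centralizer (P : Set G) = P) :
    ∃ (F : Type) (_ : Field F) (_ : Fintype F), Fintype.card F = p ∧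
      Nonempty (G ≃* Matrix.ProjectiveSpecialLinearGroup (Fin 2) F) := by
  classical
  haveI := Fact.mk h.prime
  obtain ⟨A, rfl, hs⟩ := h.exists_sylow
  haveI := Fintype.ofFinite (Sylow p G)
  have hN : Nat.card (normalizer ((A : Subgroup G) : Set G)) = e * p := by
    rw [← card_mul_relIndex (centralizer_le_normalizer _), h.rel, hC, h.card, mul_comm]
  have z : Z1 p G e := ⟨hs, fun R => by
    obtain ⟨g, rfl⟩ := MulAction.exists_smul_eq G A R
    rw [coe_smul', centralizer_map_conj, hC], fun R => by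
    obtain ⟨g, rfl⟩ := MulAction.exists_smul_eq G A R
    rw [MulAction.stabilizer_smul_eq_stabilizer_map_conj, card_map_conj,
      Sylow.stabilizer_eq_normalizer]
    exact hN, h.pe⟩
  obtain ⟨B, hB⟩ : ∃ B : Sylow p G, B ≠ A := by
    haveI : Nontrivial (Sylow p G) := Finite.one_lt_card_iff_nontrivial.1 (by
      rw [hs.n]; have := h.prime.pos; omega)
    exact exists_ne A
  obtain ⟨w, rfl, ww, hw⟩ : ∃ w : G, w • A = B ∧ w * w = 1 ∧ ∀ d ∈ Dp A B, w * d * w⁻¹ = d⁻¹ :=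
    (Nat.even_or_odd e).elim (fun he => z.even_case he.two_dvd hB) fun he =>
      z.odd_case h.simple.eq_bot_or_eq_top_of_normal he hB
  have hD : BSW.twoPt (A : Subgroup G) w = Dp A (w • A) := by
    ext d
    rw [BSW.mem_twoPt, mem_Dp, ← inv_smul_eq_iff, ← mul_smul, ← mul_smul,
      Sylow.smul_eq_iff_mem_normalizer, Sylow.smul_eq_iff_mem_normalizer]
    rfl
  have Z : BSW.ZAb (A : Subgroup G) w := ⟨⟨fun x hx h1 g hg => by
      rw [← hC, ← hs.zpowers_eq hx h1, U4.cent_zpowers]; exact U4.mem_cent1.2 hg,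
    fun g hg x hx hx' => by
      by_contra h1
      exact U4.conj_ne_one_iff.2 h1 (hs.eq_one (Q := g • A)
        (fun e => hg (Sylow.smul_eq_iff_mem_normalizer.1 e)) hx' (by
          rw [mul_smul, mul_smul, inv_smul_smul,
            Sylow.smul_eq_iff_mem_normalizer.2 (le_normalizer hx)]))⟩,
    fun a ha b hb => U4.mem_cent.1 (hC.ge hb) a ha, h.ne_bot, by rw [h.index, h.card]; ring, ww,
    fun e => hB (Sylow.smul_eq_iff_mem_normalizer.2 e), hD ▸ hw⟩
  obtain ⟨F, i1, i2, h1, h2⟩ := Z.psl (by rw [hD, z.card_D hB, h.card, h.pe]; ring)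
  exact ⟨F, i1, i2, h1.trans h.card, h2⟩

theorem l2_of_elemCent [IsSimpleGroup G] (hn : ¬ IsMulCommutative G) (S : Sylow 2 G)
    (hS : ElemCent S.1) :
    ∃ (F : Type) (_ : Field F) (_ : Fintype F), Fintype.card F = Nat.card S ∧
      Nonempty (G ≃* Matrix.ProjectiveSpecialLinearGroup (Fin 2) F) := by
  have h1 : ∀ a ∈ (S : Subgroup G), a⁻¹ = a := fun a ha => by
    by_cases e : a = 1
    · simp [e]
    · exact inv_eq_of_mul_eq_one_right (hS a ha e).1
  have h2 : IsMulCommutative (S : Subgroup G) := H5.isMulCommutative_iff'.2 fun a ha b hb => by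
    rw [← h1 _ (mul_mem ha hb), mul_inv_rev, h1 a ha, h1 b hb]
  obtain ⟨n, hn2, ⟨e⟩⟩ := AbTI.sl2_of_ti (BSW.not_isSolvable_of_simple hn) (fun Q hQ => by
    obtain ⟨g, -, h3⟩ := (IsSylowIn.sylow_top S).exists_conj_le hQ le_top
    have := U4.isMulCommutative_conj h2 g⁻¹
    exact H5.isMulCommutative_iff'.2 fun a ha b hb => H5.isMulCommutative_iff'.1 this a
      (U4.conj_le_iff.1 h3 ha) b (U4.conj_le_iff.1 h3 hb)) S
    fun t ht hi => (hS t ht hi.2).2.trans le_normalizer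
  haveI := Fintype.ofFinite (GaloisField 2 n)
  refine ⟨GaloisField 2 n, inferInstance, inferInstance, ?_, ⟨e.trans (BSW.pslEquiv _).symm⟩⟩
  have h3 := GaloisField.card 2 n (by omega)
  rw [← Nat.card_eq_fintype_card, h3, S.card_eq_multiplicity, Nat.card_congr e.toEquiv,
    SL2C.card_SL2, h3]
  have h4 : ¬ 2 ∣ (2 ^ n) ^ 2 - 1 := by
    have : 2 ∣ (2 ^ n) ^ 2 := (dvd_pow_self 2 (by omega)).pow two_ne_zero
    have : 0 < (2 ^ n) ^ 2 := by positivity
    omega
  rw [Nat.factorization_mul (by positivity) (fun e => h4 (by rw [e]; exact dvd_zero 2)), Finsupp.add_apply,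
    Nat.factorization_eq_zero_of_not_dvd h4, Nat.Prime.factorization_pow Nat.prime_two]
  simp

end CfsgLib.Sy
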