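import Cfsg.Agent.Lib.Sy.L33d

/-!
# Recognition of `PSL(3, 3)` from an action on a cyclic plane of order three
-/

set_option autoImplicit false

namespace CfsgLib.Sy.Plane

open Equiv
open scoped Pointwise

set_option synthInstance.maxSize 1000 in
theorem diffset : ∀ c d : ZMod 13, c ≠ 0 → c ≠ 1 → d ≠ 0 → d ≠ 1 → c ≠ d →
    (∀ k, ∀ x ∈ [0, 1, c, d], ∀ y ∈ [0, 1, c, d], x ≠ y → x - k ∈ [0, 1, c, d] →
      y - k ∈ [0, 1, c, d] → ∀ z ∈ [0, 1, c, d], z - k ∈ [0, 1, c, d]) →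
    ∃ m m' t, m * m' = 1 ∧ ∀ z, z ∈ D0 ↔ m * z + t ∈ [0, 1, c, d] := by
  decide +kernel

theorem exists_line : ∀ a b : ZMod 13, ∃ i, a - i ∈ D0 ∧ b - i ∈ D0 := by decide +kernel

theorem col_of_lines (𝓜 : Set (Set (ZMod 13))) (card : ∀ L ∈ 𝓜, L.ncard = 4)
    (uniq : ∀ L ∈ 𝓜, ∀ L' ∈ 𝓜, ∀ a b, a ≠ b → a ∈ L → b ∈ L → a ∈ L' → b ∈ L' → L = L')
    (tr : ∀ L ∈ 𝓜, ∀ k, {x | x - k ∈ L} ∈ 𝓜) {L : Set (ZMod 13)} (hL : L ∈ 𝓜) (h0 : 0 ∈ L)
    (h1 : 1 ∈ L) : ∃ m m' : ZMod 13, m * m' = 1 ∧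
      ∀ a b c, Col a b c ↔ ∃ L ∈ 𝓜, m * a ∈ L ∧ m * b ∈ L ∧ m * c ∈ L := by
  have h01 : (0 : ZMod 13) ≠ 1 := by decide
  have k2 : (L \ {0, 1}).ncard = 2 := by
    rw [Set.ncard_sdiff (by simp [Set.insert_subset_iff, h0, h1]), card L hL, Set.ncard_pair h01]
  obtain ⟨c, d, hcd, e⟩ := Set.ncard_eq_two.1 k2
  have hc : c ∈ L \ {0, 1} := by simp [e]
  have hd : d ∈ L \ {0, 1} := by simp [e]
  have mem : ∀ x, x ∈ [0, 1, c, d] ↔ x ∈ L := fun x => by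
    have := Set.ext_iff.1 e x
    simp only [Set.mem_sdiff, Set.mem_insert_iff, Set.mem_singleton_iff, List.mem_cons,
      List.not_mem_nil, or_false] at this ⊢
    constructor
    · rintro (rfl | rfl | rfl | rfl)
      exacts [h0, h1, hc.1, hd.1]
    · tauto
  simp only [Set.mem_sdiff, Set.mem_insert_iff, Set.mem_singleton_iff, not_or] at hc hd
  obtain ⟨m, m', t, hm, ht⟩ := diffset c d hc.2.1 hc.2.2 hd.2.1 hd.2.2 hcd
    fun k x hx y hy hxy hx' hy' z hz => by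
      rw [mem] at *
      exact (Set.ext_iff.1 (uniq L hL _ (tr L hL k) x y hxy hx hy hx' hy') z).1 hz
  simp only [mem] at ht
  have key : ∀ a i, a - i ∈ D0 ↔ m * a ∈ {x | x - (m * i - t) ∈ L} := fun a i => by
    rw [ht, Set.mem_ofPred_eq, show m * (a - i) + t = m * a - (m * i - t) by ring]
  refine ⟨m, m', hm, fun a b c => ⟨fun ⟨i, ha, hb, hc⟩ =>
    ⟨_, tr L hL (m * i - t), (key a i).1 ha, (key b i).1 hb, (key c i).1 hc⟩, ?_⟩⟩
  rintro ⟨L', hL', ha, hb, hc⟩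
  obtain ⟨x, y, hx, hy, hxy⟩ := (Set.one_lt_ncard_iff (Set.toFinite L')).1
    (by rw [card L' hL']; norm_num)
  obtain ⟨i, k1, k2⟩ := exists_line (m' * x) (m' * y)
  rw [key, ← mul_assoc, hm, one_mul] at k1 k2
  obtain rfl := uniq L' hL' _ (tr L hL (m * i - t)) x y hxy hx hy k1 k2
  exact ⟨i, (key a i).2 ha, (key b i).2 hb, (key c i).2 hc⟩

theorem iso_of_lines {G Ω : Type*} [Group G] [Finite G] [MulAction G Ω] [FaithfulSMul G Ω]
    (hG : Nat.card G = 5616) (hΩ : Nat.card Ω = 13) {P : Subgroup G} (hP : Nat.card P = 13)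
    (free : ∀ x ∈ P, ∀ ω : Ω, x • ω = ω → x = 1) (𝓛 : Set (Set Ω)) (ne : 𝓛.Nonempty)
    (card : ∀ L ∈ 𝓛, L.ncard = 4)
    (uniq : ∀ L ∈ 𝓛, ∀ L' ∈ 𝓛, ∀ a b, a ≠ b → a ∈ L → b ∈ L → a ∈ L' → b ∈ L' → L = L')
    (inv : ∀ (g : G), ∀ L ∈ 𝓛, {x | g⁻¹ • x ∈ L} ∈ 𝓛) :
    Nonempty (G ≃* Matrix.ProjectiveSpecialLinearGroup (Fin 3) (ZMod 3)) := by
  have : Finite Ω := Nat.finite_of_card_ne_zero (by omega)
  obtain ⟨L, hL⟩ := ne
  obtain ⟨a, b, ha, hb, hab⟩ := (Set.one_lt_ncard_iff (Set.toFinite L)).1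
    (by rw [card L hL]; norm_num)
  have inj : Function.Injective fun x : P => (x : G) • a := fun x y e =>
    Subtype.ext (inv_mul_eq_one.1 (free _ (mul_mem (inv_mem y.2) x.2) a
      (by rw [mul_smul, inv_smul_eq_iff]; exact e))).symm
  obtain ⟨⟨u, hu⟩, e⟩ := ((Nat.bijective_iff_injective_and_card _).2
    ⟨inj, hP.trans hΩ.symm⟩).2 b
  replace e : u • a = b := e
  have ho : orderOf u = 13 := by
    refine ((Nat.dvd_prime (by norm_num)).1 (hP ▸ P.orderOf_dvd_natCard hu)).resolve_left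
      fun h => hab ?_
    rw [← e, orderOf_eq_one_iff.1 h, one_smul]
  have add : ∀ i k : ZMod 13, u ^ (i + k).val = u ^ i.val * u ^ k.val := fun i k => by
    rw [ZMod.val_add, ← pow_add, ← pow_mod_orderOf u (i.val + k.val), ho]
  have inj' : Function.Injective fun i : ZMod 13 => u ^ i.val • a := fun i j e => by
    have := congrArg Subtype.val (@inj ⟨_, pow_mem hu i.val⟩ ⟨_, pow_mem hu j.val⟩ e)
    exact ZMod.val_injective 13 (pow_injOn_Iio_orderOf (by simpa [ho] using i.val_lt)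
      (by simpa [ho] using j.val_lt) this)
  let E := Equiv.ofBijective _ ((Nat.bijective_iff_injective_and_card _).2
    ⟨inj', by rw [hΩ, Nat.card_zmod]⟩)
  have hE : ∀ i, E i = u ^ i.val • a := fun _ => rfl
  obtain ⟨m, m', hm, hc⟩ := col_of_lines ((fun L => E ⁻¹' L) '' 𝓛)
    (by
      rintro _ ⟨L, hL, rfl⟩
      rw [← card L hL, ← Set.ncard_image_of_injective _ E.injective, E.image_preimage])
    (by
      rintro _ ⟨L, hL, rfl⟩ _ ⟨L', hL', rfl⟩ x y hxy h1 h2 h3 h4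
      rw [uniq L hL L' hL' _ _ (E.injective.ne hxy) h1 h2 h3 h4])
    (by
      rintro _ ⟨L, hL, rfl⟩ k
      refine ⟨_, inv (u ^ k.val) L hL, Set.ext fun x => ?_⟩
      have : (u ^ k.val)⁻¹ • E x = E (x - k) := by
        rw [inv_smul_eq_iff, hE, hE, ← mul_smul, ← add, add_sub_cancel]
      simp [this])
    (Set.mem_image_of_mem _ hL) (by simpa [hE] using ha)
    (by simpa [hE, show (1 : ZMod 13).val = 1 from rfl, e] using hb)
  let M : ZMod 13 ≃ ZMod 13 := ⟨(m * ·), (m' * ·), fun x => by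
    simp only [← mul_assoc, mul_comm m' m, hm, one_mul], fun x => by simp [← mul_assoc, hm]⟩
  let F := M.trans E
  have hF : ∀ a b c, Col a b c ↔ ∃ L ∈ 𝓛, F a ∈ L ∧ F b ∈ L ∧ F c ∈ L := fun a b c => by
    rw [hc]
    simp [F, M]
  refine iso_of_col hG (F.symm.permCongrHom.toMonoidHom.comp (MulAction.toPermHom G Ω))
    (F.symm.permCongrHom.injective.comp MulAction.toPerm_injective) fun g a b c h => ?_
  obtain ⟨L, hL, h⟩ := (hF a b c).1 h
  exact (hF _ _ _).2 ⟨_, inv g L hL, by simpa [permCongrHom] using h⟩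

end CfsgLib.Sy.Plane
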