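import Cfsg.Agent.Lib.Sy.L33b
import Cfsg.Agent.Lib.Sy.L33c
import Cfsg.Agent.Lib.SylowAction

set_option autoImplicit false
set_option linter.unusedSectionVars false

namespace CfsgLib.Sy

open Cfsg Subgroup CfsgLib.FT CfsgLib.Blk MulAction
open scoped ComplexConjugate

variable {G : Type*} [Group G] [Fintype G] {p r e t : ℕ} {P : Subgroup G}
  {𝒩 𝒳 : Finset (Irr (⊤ : Subgroup G))} {δ : Irr (⊤ : Subgroup G) → ℤ} {δ0 : ℤ} {χ0 : G → ℂ}
  {χ : Irr (⊤ : Subgroup G)}

namespace L3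

variable {Ω : Type*} [MulAction G Ω] [IsPretransitive G Ω] [Fintype Ω] (h : L3 P χ)
  (hΩ : Nat.card Ω = 13)
include h hΩ

theorem card_stab (a : Ω) : Nat.card (stabilizer G a) = 432 := by
  have := (stabilizer G a).card_mul_index
  rw [index_stabilizer_of_transitive, h.card, hΩ] at this
  omega

theorem not_fix {g : G} (hg : 13 ∣ orderOf g) (a : Ω) : g • a ≠ a := fun e =>
  absurd (hg.trans (h.card_stab hΩ a ▸ orderOf_dvd_card_of_mem (mem_stabilizer_iff.2 e)))
    (by norm_num)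

theorem perm_eq : (fun g => ((fixedBy Ω g).ncard : ℂ)) = cf1 ⊤ + (χ : G → ℂ) := by
  have h1 : (fixedBy Ω (1 : G)).ncard = 13 := by rw [fixedBy_one_eq_univ, Set.ncard_univ, hΩ]
  refine h.perm _ (isChar_top.2 (isCharacter_perm Ω)) (by rw [h1]; rfl) (fun g hg => ?_) ?_
  · rw [Set.eq_empty_of_forall_notMem (s := fixedBy Ω g) (h.not_fix hΩ hg), Set.ncard_empty, Nat.cast_zero]
  · rw [cfdot_cf1_right, ← Nat.cast_sum]
    refine mul_ne_zero (inv_ne_zero (card_ne_zero _)) (Nat.cast_ne_zero.2 fun e => ?_)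
    have := Finset.sum_eq_zero_iff.1 e 1 (by simp)
    omega

theorem fix_four {x : G} {k : ℕ} (h1 : x ≠ 1) (hx : x ^ 3 ^ k = 1) {a b : Ω} (hab : a ≠ b)
    (ha : x • a = a) (hb : x • b = b) : (fixedBy Ω x).ncard = 4 := by
  have k1 := congrFun (h.perm_eq hΩ) x
  have k2 := (Set.one_lt_ncard_iff (Set.toFinite (fixedBy Ω x))).2 ⟨a, b, ha, hb, hab⟩
  rw [Pi.add_apply, cf1_apply (mem_top _)] at k1
  rcases h.three x k h1 hx with e | e <;> rw [e.1] at k1
  · exact_mod_cast k1.trans (by norm_num : _ = (4 : ℂ))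
  · have : (fixedBy Ω x).ncard = 1 := by exact_mod_cast k1.trans (add_zero _)
    omega

theorem card_two {a b : Ω} (hab : a ≠ b) : Nat.card ↥(stabilizer G a ⊓ stabilizer G b) = 36 := by
  classical
  have k1 : ∑ g : G, (fixedBy Ω g).ncard * (fixedBy Ω g).ncard = 11232 := by
    have ne : cf1 ⊤ ≠ (χ : G → ℂ) := fun e => by
      have := h.one
      rw [← e, cf1_apply (mem_top _)] at this
      norm_num at this
    have : cfdot ⊤ (cf1 ⊤ + (χ : G → ℂ)) (cf1 ⊤ + (χ : G → ℂ)) = 2 := by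
      rw [cfdot_add_left, cfdot_add_right, cfdot_add_right, cfdot_cf1, χ.irr.cfdot_self,
        (isIrr_cf1 ⊤).cfdot_ne χ.irr ne, χ.irr.cfdot_ne (isIrr_cf1 ⊤) ne.symm]
      norm_num
    rw [← h.perm_eq hΩ, cfdot, inv_mul_eq_iff_eq_mul₀ (card_ne_zero _), card_top, h.card,
      elems_top] at this
    simp only [map_natCast] at this
    exact_mod_cast this
  have k2 : ∀ g : G, (fixedBy Ω g).ncard = ∑ a : Ω, if g • a = a then 1 else 0 := fun g => by
    rw [← Finset.card_filter, ← Set.ncard_coe_finset]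
    congr 1
    ext
    simp
  have k3 : ∀ q : Ω × Ω, Nat.card ↥(stabilizer G q.1 ⊓ stabilizer G q.2) =
      ∑ g : G, (if g • q.1 = q.1 then 1 else 0) * if g • q.2 = q.2 then 1 else 0 := fun q => by
    simp only [ite_zero_mul_ite_zero, mul_one]
    rw [← Finset.card_filter, ← card_elems]
    congr 1
    ext
    simp
  have k4 : ∑ q : Ω × Ω, Nat.card ↥(stabilizer G q.1 ⊓ stabilizer G q.2) = 11232 := by
    simp only [k3]
    rw [Finset.sum_comm, ← k1]
    refine Finset.sum_congr rfl fun g _ => ?_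
    rw [k2, Finset.sum_mul_sum, Fintype.sum_prod_type]
  have k5 : ∑ q : Ω × Ω, (36 + if q.1 = q.2 then 396 else 0) = 11232 := by
    rw [Nat.card_eq_fintype_card] at hΩ
    simp [Fintype.sum_prod_type, Finset.sum_add_distrib, hΩ]
  have k6 := (Finset.sum_eq_sum_iff_of_le fun q _ => ?_).1 (k5.trans k4.symm) (a, b)
    (Finset.mem_univ _)
  · simpa only [if_neg hab, add_zero] using k6.symm
  obtain ⟨a, b⟩ := q
  split_ifs with e
  · obtain rfl : a = b := e
    rw [inf_idem, h.card_stab hΩ]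
  have l1 := card_eq_relIndex_mul (inf_le_left : stabilizer G a ⊓ stabilizer G b ≤ _)
  have l2 : (stabilizer G b).relIndex (stabilizer G a) = (orbit (stabilizer G a) b).ncard := by
    rw [← index_stabilizer]; rfl
  have l3 : (orbit (stabilizer G a) b).ncard ≤ ({a}ᶜ : Set Ω).ncard := Set.ncard_le_ncard (by
    rintro _ ⟨n, rfl⟩ e'
    exact e (smul_left_cancel (n : G) ((mem_stabilizer_iff.1 n.2).trans (Eq.symm e'))))
  have l4 := Set.ncard_add_ncard_compl ({a} : Set Ω)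
  rw [inf_relIndex_left, h.card_stab hΩ] at l1
  rw [Set.ncard_singleton, hΩ] at l4
  have l5 : (stabilizer G b).relIndex (stabilizer G a) ≤ 12 := by omega
  have := Nat.mul_le_mul_right (Nat.card ↥(stabilizer G a ⊓ stabilizer G b)) l5
  simp only
  omega

theorem fix_eq {x y : G} (ox : orderOf x = 3) (oy : orderOf y = 3) {a b : Ω} (hab : a ≠ b)
    (xa : x • a = a) (xb : x • b = b) (ya : y • a = a) (yb : y • b = b) :
    fixedBy Ω x = fixedBy Ω y := by
  have := Fact.mk Nat.prime_three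
  have cH := h.card_two hΩ hab
  obtain ⟨H, hH⟩ : ∃ H, H = stabilizer G a ⊓ stabilizer G b := ⟨_, rfl⟩
  have mem : ∀ z, z ∈ H ↔ z • a = a ∧ z • b = b := fun z => by simp [hH]
  rw [← hH] at cH
  have syl : ∀ z, orderOf z = 3 → z ∈ H → ∃ R ≤ H, Nat.card R = 9 ∧
      ∀ w ∈ R, w ≠ 1 → fixedBy Ω z = fixedBy Ω w := fun z oz hz => by
    obtain ⟨R, zR, hR⟩ := IsSylowIn.exists_ge
      (U4.isPGroup_of_card_eq ((Nat.card_zpowers z).trans oz)) (zpowers_le.2 hz)
    have cR : Nat.card R = 3 ^ 2 := by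
      rw [hR.card_eq_ordProj, cH, show 36 = 4 * 3 ^ 2 from rfl,
        Nat.factorization_mul (by norm_num) (by norm_num), Nat.prime_three.factorization_pow]
      simp [Nat.factorization_eq_zero_of_not_dvd (by norm_num : ¬ 3 ∣ 4)]
    refine ⟨R, hR.le, cR, fun w hw w1 => ?_⟩
    have z1 : z ≠ 1 := by rintro rfl; simp at oz
    have c : Commute w z := congrArg Subtype.val
      ((IsPGroup.isMulCommutative_of_card_eq_prime_sq cR).is_comm.comm (⟨w, hw⟩ : R)
        ⟨z, zR (mem_zpowers z)⟩)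
    obtain ⟨za, zb⟩ := (mem z).1 hz
    obtain ⟨wa, wb⟩ := (mem w).1 (hR.le hw)
    have f1 := h.fix_four hΩ z1 (k := 1) (by rw [pow_one, ← oz, pow_orderOf_eq_one]) hab za zb
    have f2 := h.fix_four hΩ w1 (cR ▸ pow_card_eq_one_of_mem hw) hab wa wb
    obtain ⟨k, -, hk⟩ := (Nat.dvd_prime_pow Nat.prime_three).1 (cR ▸ orderOf_dvd_card_of_mem hw)
    have f3 := H4.ncard_modEq_ncard_fixedBy hk (fixedBy Ω z)
      fun _ e => H4.smul_mem_fixedBy_of_commute c e
    have f4 := (Set.one_lt_ncard_iff (Set.toFinite (fixedBy Ω z ∩ fixedBy Ω w))).2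
      ⟨a, b, ⟨za, wa⟩, ⟨zb, wb⟩, hab⟩
    have f5 := Set.ncard_le_ncard (Set.inter_subset_left : fixedBy Ω z ∩ fixedBy Ω w ⊆ _)
    rw [Nat.ModEq] at f3
    exact (Set.eq_of_subset_of_ncard_le Set.inter_subset_left (by omega)).symm.trans
      (Set.eq_of_subset_of_ncard_le Set.inter_subset_right (by omega))
  obtain ⟨R, hR, cR, fR⟩ := syl x ox ((mem x).2 ⟨xa, xb⟩)
  obtain ⟨R', hR', cR', fR'⟩ := syl y oy ((mem y).2 ⟨ya, yb⟩)
  obtain ⟨w, hw, w1⟩ : ∃ w ∈ R ⊓ R', w ≠ 1 := U4.exists_ne_one fun e => by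
    have l1 := relIndex_le_of_le_right (H := R) hR' (relIndex_ne_zero' _ _)
    have l2 := card_eq_relIndex_mul hR
    rw [← inf_relIndex_right, e, relIndex_bot_left, cR'] at l1
    rw [cH, cR] at l2
    omega
  rw [fR w hw.1 w1, fR' w hw.2 w1]

theorem iso' : Nonempty (G ≃* Matrix.ProjectiveSpecialLinearGroup (Fin 3) (ZMod 3)) := by
  have free : ∀ x ∈ P, ∀ a : Ω, x • a = a → x = 1 := fun x hx a e => orderOf_eq_one_iff.1
    (((Nat.dvd_prime (by norm_num)).1 (h.cardP ▸ orderOf_dvd_card_of_mem hx)).resolve_right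
      fun o => h.not_fix hΩ o.symm.dvd a e)
  have : FaithfulSMul G Ω := by
    refine ⟨fun e => (toPermHom G Ω).ker_eq_bot_iff.1 ((h.simple.eq_bot_or_eq_top_of_normal _
      inferInstance).resolve_right fun k => ?_) (Equiv.ext e)⟩
    obtain ⟨a⟩ := (Nat.card_pos_iff.1 (by omega : 0 < Nat.card Ω)).1
    have : P = ⊥ := U4.eq_bot_of_forall fun x hx =>
      free x hx a (Equiv.congr_fun
        (MonoidHom.mem_ker.1 (k.ge (mem_top x)) : toPermHom G Ω x = 1) a)
    have := h.cardP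
    simp_all
  refine Plane.iso_of_lines h.card hΩ h.cardP free
    {L | L.ncard = 4 ∧ ∃ x : G, orderOf x = 3 ∧ L = fixedBy Ω x} ?_ (fun _ e => e.1) ?_ ?_
  · obtain ⟨g, og, hg, -⟩ := h.exists_g
    have := congrFun (h.perm_eq hΩ) g
    rw [Pi.add_apply, cf1_apply (mem_top _), hg] at this
    exact ⟨_, by exact_mod_cast this.trans (by norm_num : _ = (4 : ℂ)), g, og, rfl⟩
  · rintro _ ⟨-, x, ox, rfl⟩ _ ⟨-, y, oy, rfl⟩ a b hab xa xb ya yb
    exact h.fix_eq hΩ ox oy hab xa xb ya yb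
  · rintro g _ ⟨c, x, ox, rfl⟩
    refine ⟨?_, g * x * g⁻¹, by rw [U4.orderOf_conj, ox], Set.ext fun a => ?_⟩
    · rw [← c]
      exact Set.ncard_preimage_of_injective_subset_range (MulAction.injective g⁻¹)
        (by rw [(MulAction.surjective g⁻¹).range_eq]; exact Set.subset_univ _)
    · simp only [Set.mem_ofPred_eq, mem_fixedBy, mul_smul]
      rw [smul_eq_iff_eq_inv_smul g]

end L3

theorem EData.l33 {St : Irr (⊤ : Subgroup G)} (h : EData 3 p P r 𝒩 𝒳 δ χ0 St) :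
    Nonempty (G ≃* Matrix.ProjectiveSpecialLinearGroup (Fin 3) (ZMod 3)) := by
  obtain ⟨χ, h⟩ := h.exists_L3
  obtain ⟨N, hN⟩ := h.exists_N
  have := Fintype.ofFinite (G ⧸ N)
  exact h.iso' (Ω := G ⧸ N) hN

end CfsgLib.Sy
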