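import Cfsg.Agent.Lib.Sy.Final
import Cfsg.Agent.Lib.Sy.IdL2
import Cfsg.Agent.Lib.Sy.IdL33
import Cfsg.Agent.Lib.SL2Card

/-!
# Simple groups with fewer than `p ^ 2` Sylow `p`-subgroups: the classification
-/

set_option autoImplicit false

namespace CfsgLib.Sy

open Cfsg Subgroup

variable {p : ℕ} [hp : Fact p.Prime] {S : Type*} [Group S] [Finite S]

omit [Finite S] in
theorem card_dvd_SL {n : ℕ} {F : Type*} [Field F]
    (e : S ≃* Matrix.ProjectiveSpecialLinearGroup (Fin n) F) :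
    Nat.card S ∣ Nat.card (Matrix.SpecialLinearGroup (Fin n) F) :=
  (dvd_of_eq (Nat.card_congr e.toEquiv)).trans (card_quotient_dvd_card _)

omit [Finite S] in
theorem card_dvd_L2 {F : Type*} [Field F] [Fintype F] {q : ℕ} (hq : Fintype.card F = q + 1)
    (e : S ≃* Matrix.ProjectiveSpecialLinearGroup (Fin 2) F) :
    Nat.card S ∣ q * ((q + 1) * (q + 2)) := by
  have := card_dvd_SL e
  rwa [SL2C.card_SL2, Nat.card_eq_fintype_card (α := F), hq,
    show (q + 1) ^ 2 - 1 = q * (q + 2) by rw [Nat.sub_eq_iff_eq_add (by nlinarith)]; ring,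
    mul_left_comm] at this

theorem card_SL33 {F : Type*} [Field F] [Fintype F] (hq : Fintype.card F = 3) :
    Nat.card (Matrix.SpecialLinearGroup (Fin 3) F) = 13 * 432 := by
  have := SL2C.card_SL_mul F 3
  rw [Matrix.card_GL_field, Nat.card_eq_fintype_card (α := F), hq, Fin.prod_univ_three] at this
  simp only [Fin.val_zero, Fin.val_one, Fin.val_two] at this
  omega

theorem simple_iff [IsSimpleGroup S] (hS : ¬ IsMulCommutative S) (hd : p ∣ Nat.card S) :
    Nat.card (Sylow p S) < p ^ 2 ↔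
      ((∃ (F : Type) (_ : Field F) (_ : Fintype F), Fintype.card F = p ∧
          Nonempty (S ≃* Matrix.ProjectiveSpecialLinearGroup (Fin 2) F)) ∨
       (p = 13 ∧ ∃ (F : Type) (_ : Field F) (_ : Fintype F), Fintype.card F = 3 ∧
          Nonempty (S ≃* Matrix.ProjectiveSpecialLinearGroup (Fin 3) F)) ∨
       (3 < p ∧ (∃ k : ℕ, p = 2 ^ k + 1) ∧ ∃ (F : Type) (_ : Field F) (_ : Fintype F),
          Fintype.card F = p - 1 ∧ Nonempty (S ≃* Matrix.ProjectiveSpecialLinearGroup (Fin 2) F)) ∨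
       (3 < p ∧ (∃ k : ℕ, p + 1 = 2 ^ k) ∧ ∃ (F : Type) (_ : Field F) (_ : Fintype F),
          Fintype.card F = p + 1 ∧
            Nonempty (S ≃* Matrix.ProjectiveSpecialLinearGroup (Fin 2) F))) := by
  have h2 := hp.out.two_le
  constructor
  · intro hn
    haveI := Fintype.ofFinite S
    obtain ⟨P, r, e, t, h, -⟩ := exists_hyp hS hd hn
    obtain ⟨hC, h1⟩ := h.classify
    rcases h1 with ⟨rfl, rfl⟩ | ⟨-, -, h3, T, h4, h5⟩ | ⟨-, -, h3, T, h4, h5⟩ |
      ⟨h3, -, _, _, _, _, _, h4⟩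
    · exact Or.inl (h.l2p hC)
    · obtain ⟨k, hk⟩ := IsPGroup.iff_card.1 T.isPGroup'
      obtain ⟨F, i1, i2, h6, h7⟩ := l2_of_elemCent hS T h5
      exact Or.inr (Or.inr (Or.inl ⟨h3, ⟨k, by rw [← hk]; exact h4.symm⟩, F, i1, i2, by omega, h7⟩))
    · obtain ⟨k, hk⟩ := IsPGroup.iff_card.1 T.isPGroup'
      obtain ⟨F, i1, i2, h6, h7⟩ := l2_of_elemCent hS T h5
      exact Or.inr (Or.inr (Or.inr ⟨h3, ⟨k, by rw [← hk]; exact h4.symm⟩, F, i1, i2, by omega, h7⟩))
    · exact Or.inr (Or.inl ⟨h3, ZMod 3, inferInstance, inferInstance, rfl, h4.l33⟩)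
  · have hm := sylow_mod (p := p) S
    rintro (⟨F, _, _, hF, ⟨e⟩⟩ | ⟨rfl, F, _, _, hF, ⟨e⟩⟩ | ⟨h3, -, F, _, _, hF, ⟨e⟩⟩ |
      ⟨h3, -, F, _, _, hF, ⟨e⟩⟩)
    · obtain ⟨q, rfl⟩ : ∃ q, p = q + 1 := ⟨p - 1, by omega⟩
      have := Nat.le_of_dvd (Nat.mul_pos (by omega) (by omega)) (card_sylow_dvd hd (m := q * (q + 2))
        (mul_left_comm q _ _ ▸ card_dvd_L2 hF e))
      nlinarith
    · have h1 := card_sylow_dvd hd (card_SL33 hF ▸ card_dvd_SL e)
      generalize Nat.card (Sylow 13 S) = n at h1 hm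
      have h3 := Nat.le_of_dvd (by norm_num) h1
      by_contra h4
      obtain ⟨c, hc⟩ := h1
      have h5 : c ≤ 2 := by nlinarith
      interval_cases c <;> omega
    · obtain ⟨q, rfl⟩ : ∃ q, p = q + 2 := ⟨p - 2, by omega⟩
      have := Nat.le_of_dvd (Nat.mul_pos (by omega) (by omega)) (card_sylow_dvd hd (m := q * (q + 1))
        ((card_dvd_L2 (q := q) hF e).trans (dvd_of_eq (by ring))))
      nlinarith
    · obtain ⟨c, hc⟩ := card_sylow_dvd hd (card_dvd_L2 hF e)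
      generalize Nat.card (Sylow p S) = n at hc hm
      rcases c with _ | _ | c
      · simp at hc
      · rw [zero_add, mul_one] at hc
        rw [← hc, show (p + 1) * (p + 2) = 2 + p * (p + 3) by ring, Nat.add_mul_mod_self_left,
          Nat.mod_eq_of_lt (by omega)] at hm
        omega
      · nlinarith [Nat.zero_le (n * c)]

end CfsgLib.Sy
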