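import Cfsg.Agent.Lib.Sy.CaseE
import Cfsg.Agent.Lib.Blk.BrauerInd

/-!
# The configuration `EData 3`: character values
-/

set_option autoImplicit false
set_option linter.unusedSectionVars false

namespace CfsgLib.Sy

open Cfsg Subgroup CfsgLib.FT CfsgLib.Blk CfsgLib.FT.BGN CfsgLib.FT.U4
open scoped ComplexConjugate

variable {G : Type*} [Group G] [Fintype G] {p r : ℕ} {P : Subgroup G}
  {𝒩 𝒳 : Finset (Irr (⊤ : Subgroup G))} {δ : Irr (⊤ : Subgroup G) → ℤ} {χ0 : G → ℂ}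
  {St χ : Irr (⊤ : Subgroup G)}

theorem int_dvd_of_pelt {φ : G → ℂ} (hφ : φ ∈ ZIrr (⊤ : Subgroup G)) {q k : ℕ} (hq : q.Prime)
    {u : G} (hu : u ^ q ^ k = 1) {a b : ℤ} (ha : φ u = a) (hb : φ 1 = b) : (q : ℤ) ∣ a - b := by
  obtain ⟨R, hv⟩ := exists_val hq
  have h1 := val_ZIrr_mul_sub_lt hq hv hφ (mem_top u) (mem_top 1) hu (by simp)
  rw [mul_one, ha, hb, ← Int.cast_sub] at h1
  by_contra hn
  have h2 := val_natCast_eq_one hv
    ((hq.coprime_iff_not_dvd.2 (mt Int.natCast_dvd.2 hn)).symm)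
  rcases Int.natAbs_eq (a - b) with e | e
  · rw [e, Int.cast_natCast, h2] at h1
    exact h1.false
  · rw [e, Int.cast_neg, Valuation.map_neg, Int.cast_natCast, h2] at h1
    exact h1.false

theorem index_mul_le {x : G} {F : G → ℤ} {S : Finset G} (h0 : ∀ g, 0 ≤ F g)
    (hS : ∀ z, z * x * z⁻¹ ∈ S) (hF : ∀ z g, F (z * g * z⁻¹) = F g) :
    (𝐂[x]).index * F x ≤ ∑ g ∈ S, F g := by
  have ti : NormedTI {x} ⊤ 𝐂[x] := ⟨⟨x, rfl⟩, le_top,
    fun z hz a ha => by rw [ha]; exact conj_eq_of_mem_cent1 hz,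
    fun z _ a ha e => mem_cent1_of_conj_eq (by rwa [ha] at e)⟩
  have h1 := ti.sum_classSupport (f := fun g => (F g : ℚ)) fun z _ g => by rw [hF]
  have h2 : elems ({x} : Set G) = {x} := by ext; simp
  rw [h2, Finset.sum_singleton, relIndex_top_right, nsmul_eq_mul] at h1
  have h3 : ∑ g ∈ elems (classSupport {x} ⊤), (F g : ℚ) ≤ ∑ g ∈ S, (F g : ℚ) := by
    refine Finset.sum_le_sum_of_subset_of_nonneg (fun g hg => ?_) fun g _ _ => by
      exact_mod_cast h0 g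
    obtain ⟨a, rfl, z, -, rfl⟩ := mem_elems.1 hg
    exact hS z
  rw [h1] at h3
  exact_mod_cast h3

/-- The facts about a group of order `5616` needed for the identification. -/
structure L3 (P : Subgroup G) (χ : Irr (⊤ : Subgroup G)) : Prop where
  card : Nat.card G = 5616
  simple : IsSimpleGroup G
  cardP : Nat.card P = 13
  one : χ 1 = 12
  three : ∀ x k, x ≠ 1 → x ^ 3 ^ k = 1 →
    (χ x = 3 ∧ Nat.card 𝐂[x] = 54) ∨ (χ x = 0 ∧ Nat.card 𝐂[x] ∣ 9)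
  two : ∀ j : G, orderOf j = 2 → ¬ 9 ∣ Nat.card 𝐂[j]
  perm : ∀ π : G → ℂ, IsChar ⊤ π → π 1 = 13 → (∀ g, 13 ∣ orderOf g → π g = 0) →
    cfdot ⊤ π (cf1 ⊤) ≠ 0 → π = cf1 ⊤ + (χ : G → ℂ)

namespace EData

variable (h : EData 3 p P r 𝒩 𝒳 δ χ0 St) (hχ : Ls 𝒩 St = {χ})
include h

theorem p13 : p = 13 := h.p_eq

theorem card3 : Nat.card G = 5616 := by rw [h.card, h.p13]; rfl

include hχ

theorem chi_one : χ 1 = 12 := by
  rw [irr_one, (h.Ls_spec (hχ ▸ Finset.mem_singleton_self χ)).2.2]; norm_num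

theorem rel3 {g : G} (hg : ¬ p ∣ orderOf g) : χ g = 1 + St g - χ0 g := by
  rw [h.rel hg, hχ, Finset.sum_singleton]; ring

theorem cm3 {g : G} (hg : ¬ p ∣ orderOf g) {a b : ℤ} (ha : St g = a) (hb : χ0 g = b) :
    ∃ n : ℕ, (Nat.card 𝐂[g] : ℤ) ^ 2 * n =
      13 * (432 + 16 * a ^ 2 - 36 * (1 + a - b) ^ 2 - 27 * b ^ 2) := by
  obtain ⟨n, hn⟩ := h.cm hg
  rw [hχ, Finset.sum_singleton, h.rel3 hχ hg, ha, hb, h.p13, ← Int.cast_one (R := ℂ),
    ← Int.cast_add, ← Int.cast_sub] at hn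
  simp only [Complex.norm_intCast, sq_abs] at hn
  refine ⟨n, ?_⟩
  have : (Nat.card 𝐂[g] : ℝ) ^ 2 * n =
      13 * (432 + 16 * a ^ 2 - 36 * (1 + a - b) ^ 2 - 27 * b ^ 2) := by
    rw [hn]; push_cast; ring
  exact_mod_cast this

theorem two3 {j : G} (hj : orderOf j = 2) : ¬ 9 ∣ Nat.card 𝐂[j] := by
  rintro ⟨c, hc⟩
  have hr : ¬ p ∣ orderOf j := by rw [h.p13, hj]; norm_num
  obtain ⟨ψ, hψ⟩ := h.exists_X
  have e1 : χ0 j = (0 : ℤ) := by
    rw [← h.w.bd.valX ψ hψ j hr, Int.cast_zero]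
    exact defect_zero ψ (m := 351) Nat.prime_two (by rw [card_top, h.card3, h.dg_X hψ]; rfl)
      (by norm_num) hj.symm.dvd
  obtain ⟨a, ha⟩ := ZIrr_int_of_pow_eq St.mem_ZIrr (x := j) fun k hk => by
    rw [hj] at hk
    rw [← pow_mod_orderOf, hj, Nat.odd_iff.1 (Nat.coprime_two_right.1 hk), pow_one]
  obtain ⟨n, hn⟩ := h.cm3 hχ hr ha e1
  have k1 := cent_int St j
  rw [ha, h.St_dg] at k1
  have k2 := int_dvd_of_isIntegral (a := (𝐂[j]).index * a) (b := 27) (by norm_num)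
    (by simpa using k1)
  have k3 := (𝐂[j]).card_mul_index
  rw [h.card3, hc] at k3
  have k4 : (c : ℤ) * (𝐂[j]).index = 624 := by exact_mod_cast (by nlinarith : c * (𝐂[j]).index = 624)
  have k5 := k2.mul_left c
  rw [← mul_assoc, k4] at k5
  rw [hc] at hn
  have k6 : (0 : ℤ) ≤ (9 * c : ℕ) ^ 2 * n := by positivity
  have k7 : a = 0 := by
    have : a ≤ 8 := by nlinarith
    have : -8 ≤ a := by nlinarith
    omega
  rw [k7, Nat.cast_mul, mul_pow, mul_assoc] at hn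
  omega

theorem three3 {x : G} {k : ℕ} (h1 : x ≠ 1) (hx : x ^ 3 ^ k = 1) :
    (χ x = 3 ∧ Nat.card 𝐂[x] = 54) ∨ (χ x = 0 ∧ Nat.card 𝐂[x] ∣ 9) := by
  have ho := orderOf_dvd_of_pow_eq_one hx
  have hr : ¬ p ∣ orderOf x := h.reg_of_dvd ho
  obtain ⟨q, hq, hqx⟩ := exists_prime_dvd_orderOf h1
  have e1 : St x = (0 : ℤ) := by
    rw [Int.cast_zero]
    exact h.St_zero hq (hq.dvd_of_dvd_pow (hqx.trans ho)) hqx
  obtain ⟨ψ, hψ⟩ := h.exists_X
  have : ∀ g, ∃ k : ℤ, ¬ p ∣ orderOf g → ψ g = k := fun g => by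
    by_cases hg : p ∣ orderOf g
    · exact ⟨0, fun e => absurd hg e⟩
    · obtain ⟨k, hk⟩ := h.int0 hg
      exact ⟨k, fun _ => (h.w.bd.valX ψ hψ g hg).trans hk⟩
  choose κ hκ using this
  have hκ' : ∀ g, ¬ p ∣ orderOf g → χ0 g = κ g := fun g hg =>
    (h.w.bd.valX ψ hψ g hg).symm.trans (hκ g hg)
  obtain ⟨n, hn⟩ := h.cm3 hχ hr e1 (hκ' x hr)
  have e2 := int_dvd_of_pelt ψ.mem_ZIrr Nat.prime_three hx (hκ x hr) (b := 16)
    (by rw [irr_one, h.dg_X hψ]; norm_num)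
  have e3 : χ x = 1 - κ x := by rw [h.rel3 hχ hr, e1, hκ' x hr]; simp
  have n13 := h.w.not_dvd_cent hr h1
  rw [h.p13] at n13
  have k3 := (𝐂[x]).card_mul_index
  rw [h.card3] at k3
  have k6 : (0 : ℤ) ≤ (Nat.card 𝐂[x] : ℤ) ^ 2 * n := by positivity
  have l1 : κ x ≤ 3 := by nlinarith
  have l2 : -2 ≤ κ x := by nlinarith
  rcases (by omega : κ x = -2 ∨ κ x = 1) with e | e
  · refine Or.inl ⟨by rw [e3, e]; norm_num, ?_⟩
    have k1 := cent_int ψ x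
    rw [hκ x hr, e, h.dg_X hψ] at k1
    have k2 := int_dvd_of_isIntegral (a := (𝐂[x]).index * (-2)) (b := 16) (by norm_num)
      (by simpa using k1)
    have k4 : 13 ∣ (𝐂[x]).index := ((Nat.Prime.dvd_mul (by norm_num)).1
      (by rw [k3]; norm_num)).resolve_left n13
    classical
    have k5 := index_mul_le (x := x) (S := reg1 G p)
      (F := fun g => if p ∣ orderOf g then 0 else κ g ^ 2 - κ g) (fun g => by
        split_ifs
        · exact le_rfl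
        · rcases (by omega : κ g ≤ 0 ∨ 1 ≤ κ g) with l | l <;> nlinarith)
      (fun z => mem_reg1.2 ⟨by rwa [orderOf_conj], conj_ne_one_iff.2 h1⟩) fun z g => by
        rw [orderOf_conj]
        split_ifs with hg
        · rfl
        · have := hκ (z * g * z⁻¹) (by rwa [orderOf_conj])
          rw [CF_conj ψ.mem_CF (mem_top z), hκ g hg, Int.cast_inj] at this
          rw [this]
    have s1 := h.w.sum_reg_00
    have s2 := h.w.sum_reg_N0 h.w.bd.one_mem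
    rw [sum_reg_eq h.prime, h.w.bd.one_eq_dg0 h.w.hyp, h.dg0, h.n_eq] at s1 s2
    rw [map_natCast] at s1
    simp only [h.δ_one, Irr.coe_one, cf1_apply (mem_top _), map_one, mul_one] at s2
    have s3 : ∑ g ∈ reg1 G p, (if p ∣ orderOf g then 0 else κ g ^ 2 - κ g) = 624 := by
      have : ((∑ g ∈ reg1 G p, (if p ∣ orderOf g then 0 else κ g ^ 2 - κ g) : ℤ) : ℂ) =
          ∑ g ∈ reg1 G p, χ0 g * conj (χ0 g) - ∑ g ∈ reg1 G p, χ0 g := by
        rw [← Finset.sum_sub_distrib, Int.cast_sum]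
        refine Finset.sum_congr rfl fun g hg => ?_
        rw [if_neg (mem_reg1.1 hg).1, hκ' g (mem_reg1.1 hg).1, map_intCast]
        push_cast
        ring
      push_cast at s1 s2
      exact_mod_cast this.trans (by linear_combination s1 - s2 : _ = (624 : ℂ))
    rw [s3, if_neg hr, e] at k5
    have k7 : (𝐂[x]).index ≠ 0 := index_ne_zero_of_finite
    have k8 : (𝐂[x]).index = 104 := by omega
    rw [k8] at k3
    omega
  · refine Or.inr ⟨by rw [e3, e]; norm_num, ?_⟩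
    have d1 : Nat.card 𝐂[x] ^ 2 * n = 9 ^ 2 * 65 := by
      rw [e] at hn
      exact_mod_cast hn.trans (by norm_num : _ = (9 ^ 2 * 65 : ℤ))
    have c1 : (Nat.card 𝐂[x]).Coprime 13 :=
      (((by norm_num : Nat.Prime 13).coprime_iff_not_dvd).2 n13).symm
    have c2 : (Nat.card 𝐂[x]).Coprime 5 := Nat.Coprime.coprime_dvd_left ⟨_, k3.symm⟩ (by norm_num)
    exact (Nat.pow_dvd_pow_iff two_ne_zero).1
      (((c1.mul_right c2).pow_left 2).dvd_of_dvd_mul_right ⟨n, d1.symm⟩)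

theorem perm3 {π : G → ℂ} (hπ : IsChar ⊤ π) (h1 : π 1 = 13)
    (h0 : ∀ g, 13 ∣ orderOf g → π g = 0) (hne : cfdot ⊤ π (cf1 ⊤) ≠ 0) : π = cf1 ⊤ + (χ : G → ℂ) := by
  obtain ⟨ψ, hψ⟩ := h.exists_X
  have k1 : cfdot ⊤ π (cf1 ⊤ + (St : G → ℂ) - (χ : G → ℂ) - (ψ : G → ℂ)) = 0 := cfdot_eq_zero_of_supp fun g _ => by
    by_cases hg : p ∣ orderOf g
    · exact Or.inl (h0 g (h.p13 ▸ hg))
    · refine Or.inr ?_
      simp [h.rel3 hχ hg, h.w.bd.valX ψ hψ g hg, cf1_top]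
  have k2 : ∀ ξ : Irr (⊤ : Subgroup G), 13 < dg (ξ : G → ℂ) → cfdot ⊤ π ξ = 0 := fun ξ l => by
    by_contra e
    have := hπ.constt_one_le ξ.irr e
    rw [h1, irr_one] at this
    simp only [Complex.natCast_re, Complex.re_ofNat] at this
    exact absurd l (not_lt.2 (by exact_mod_cast this))
  rw [cfdot_sub_right, cfdot_sub_right, cfdot_add_right, k2 St (by rw [h.St_dg]; norm_num),
    k2 ψ (by rw [h.dg_X hψ]; norm_num), add_zero, sub_zero, sub_eq_zero] at k1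
  have k3 : cf1 ⊤ ≠ (χ : G → ℂ) := fun e => by
    have := h.chi_one hχ
    rw [← e, cf1_apply (mem_top _)] at this
    norm_num at this
  have k4 := (hπ.sub_constt (isIrr_cf1 ⊤) hne).eq_of_constt_of_one χ.irr (by
    rwa [cfdot_sub_left, (isIrr_cf1 ⊤).cfdot_ne χ.irr k3, sub_zero, ← k1]) (by
    rw [Pi.sub_apply, h1, h.chi_one hχ, cf1_apply (mem_top _)]; norm_num)
  rw [← k4, add_sub_cancel]

end EData

theorem EData.exists_L3 (h : EData 3 p P r 𝒩 𝒳 δ χ0 St) : ∃ χ, L3 P χ := by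
  obtain ⟨χ, hχ⟩ := Finset.card_eq_one.1 (by have := h.card_Ls; omega : (Ls 𝒩 St).card = 1)
  exact ⟨χ, h.card3, h.w.hyp.simple, h.w.hyp.card.trans h.p13, h.chi_one hχ,
    fun _ _ => h.three3 hχ, fun _ => h.two3 hχ, fun _ => h.perm3 hχ⟩

end CfsgLib.Sy
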