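import Cfsg.Agent.Lib.Sy.L33a

/-!
# The configuration `EData 3`: a subgroup of index `13`
-/

set_option autoImplicit false
set_option linter.unusedSectionVars false

namespace CfsgLib.Sy

open Cfsg Subgroup CfsgLib.FT CfsgLib.Blk CfsgLib.FT.BGN CfsgLib.FT.U4

variable {G : Type*} [Group G] [Fintype G] {P : Subgroup G} {χ : Irr (⊤ : Subgroup G)}
  {g x j : G}

theorem dvd27 {n : ℕ} (h : n ∣ 27) : n = 1 ∨ n = 3 ∨ n = 9 ∨ n = 27 := by
  have := Nat.le_of_dvd (by norm_num) h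
  interval_cases n <;> omega

theorem exists_Q {C : Subgroup G} (hc : Nat.card C = 54) : ∃ Q ≤ C, Nat.card Q = 27 ∧ C ≤ 𝐍(Q) ∧
    ∀ T ≤ C, IsPGroup 3 T → T ≤ Q := by
  have := Fact.mk Nat.prime_three
  obtain ⟨Q0, hQ⟩ := Sylow.exists_subgroup_card_pow_prime (G := C) 3 (n := 3) (by rw [hc]; norm_num)
  have h1 : Nat.card (Q0.map C.subtype) = 27 := (card_map_of_injective C.subtype_injective).trans hQ
  have h2 := card_eq_relIndex_mul (map_subtype_le Q0)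
  have h3 : (Q0.map C.subtype).relIndex C = 2 := by
    rw [h1, hc] at h2
    omega
  have h4 : C ≤ 𝐍(Q0.map C.subtype) :=
    (normal_subgroupOf_iff_le_normalizer (map_subtype_le Q0)).1 (normal_of_index_eq_two h3)
  refine ⟨_, map_subtype_le Q0, h1, h4, fun T hT h => ?_⟩
  obtain ⟨y, hy, e⟩ := IsSylowIn.exists_conj_le
    ⟨map_subtype_le Q0, IsPGroup.of_card (n := 3) h1, by rw [h3]; norm_num⟩ h hT
  rwa [← map_conj_eq_of_mem_normalizer (h4 hy), conj_le_conj_iff] at e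

theorem sum_three {H : Subgroup G} (h1 : χ 1 = 12) (hH : ∀ y ∈ H, y ≠ 1 → χ y = 3) :
    ∑ y ∈ elems (H : Set G), χ y = 9 + 3 * Nat.card H := by
  classical
  have := sum_elems_const (L := H) (3 : ℂ)
  rw [← Finset.add_sum_erase _ _ (mem_elems.2 H.one_mem)] at this ⊢
  rw [h1, Finset.sum_congr rfl (g := fun _ => 3) fun y hy =>
    hH y (mem_elems.1 (Finset.mem_erase.1 hy).2) (Finset.mem_erase.1 hy).1]
  rw [nsmul_eq_mul] at this
  linear_combination this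

theorem sum_dvd (χ : Irr (⊤ : Subgroup G)) (H : Subgroup G) :
    ∃ n : ℕ, ∑ y ∈ elems (H : Set G), χ y = Nat.card H * n := by
  obtain ⟨n, hn⟩ := (χ.isChar.cfRes le_top).cfdot_nat (isChar_cf1 (L := H))
  rw [cfdot_cfRes_left, cfdot_cf1_right, inv_mul_eq_iff_eq_mul₀ (card_ne_zero H)] at hn
  exact ⟨n, hn⟩

namespace L3

variable (h : L3 P χ)
include h

theorem card_le {T : Subgroup G} (hj : orderOf j = 2) (hT : IsPGroup 3 T) (hle : T ≤ 𝐂[j]) :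
    Nat.card T ∣ 3 := by
  have := Fact.mk Nat.prime_three
  obtain ⟨k, hk⟩ := hT.exists_card_eq
  have h1 : ¬ 9 ∣ Nat.card T := fun e => h.two j hj (e.trans (card_dvd_of_le hle))
  rw [hk] at h1 ⊢
  exact pow_dvd_pow 3 (n := 1) (by
    by_contra l
    exact h1 (pow_dvd_pow 3 (by omega : 2 ≤ k)))

theorem le_zp {T : Subgroup G} (hj : orderOf j = 2) (og : orderOf g = 3) (hT : IsPGroup 3 T)
    (gT : g ∈ T) (hle : T ≤ 𝐂[j]) : T ≤ zpowers g :=
  (eq_of_le_of_card_ge (zpowers_le.2 gT) (by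
    rw [Nat.card_zpowers, og]
    exact Nat.le_of_dvd (by norm_num) (h.card_le hj hT hle))).ge

theorem val {Q : Subgroup G} (hQ : Nat.card Q = 27) {y : G} (hy : y ∈ Q) (h1 : y ≠ 1) :
    (χ y = 3 ∧ Nat.card 𝐂[y] = 54) ∨ (χ y = 0 ∧ Nat.card 𝐂[y] ∣ 9) :=
  h.three y 3 h1 (by simpa [hQ] using pow_card_eq_one_of_mem hy)

theorem pair (og : orderOf g = 3) (cg : Nat.card 𝐂[g] = 54) (ox : orderOf x = 3) (hx : x ∈ 𝐂[g])
    (hx' : x ∉ zpowers g) : Nat.card ↥(𝐂[g] ⊓ 𝐂[x]) = 9 ∧ 𝐂[g] ≤ 𝐍(𝐂[g] ⊓ 𝐂[x]) := by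
  have := Fact.mk Nat.prime_three
  obtain ⟨Q, hQ, cQ, nQ, mQ⟩ := exists_Q cg
  have pQ : IsPGroup 3 Q := IsPGroup.of_card (n := 3) cQ
  have zp : ∀ y ∈ 𝐂[g], orderOf y = 3 → y ∈ Q := fun y hy oy => zpowers_le.1
    (mQ _ (zpowers_le.2 hy) (isPGroup_of_card_eq ((Nat.card_zpowers y).trans oy)))
  have gQ := zp g (self_mem_cent1 g) og
  have xQ := zp x hx ox
  obtain ⟨D, hD⟩ : ∃ D, D = 𝐂[g] ⊓ 𝐂[x] := ⟨_, rfl⟩
  have Dg : D ≤ 𝐂[g] := hD ▸ inf_le_left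
  have gD : g ∈ D := hD ▸ ⟨self_mem_cent1 g, mem_cent1_comm.1 hx⟩
  have xD : x ∈ D := hD ▸ ⟨hx, self_mem_cent1 x⟩
  have big : ∀ T : Subgroup G, g ∈ T → x ∈ T → 3 < Nat.card T := fun T h1 h2 => by
    rw [← og, ← Nat.card_zpowers]
    exact card_lt_card_of_lt (lt_of_le_of_ne (zpowers_le.2 h1) fun e => hx' (e ▸ h2))
  have oD : Odd (Nat.card D) := GW.odd_card_of_forall fun i hi oi => by
    rw [hD] at hi
    exact hx' (h.le_zp oi og (pQ.to_inf_left (K := 𝐂[i])) ⟨gQ, mem_cent1_comm.1 hi.1⟩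
      inf_le_right ⟨xQ, mem_cent1_comm.1 hi.2⟩)
  have dD : Nat.card D ∣ 27 := (Nat.coprime_two_right.2 oD).dvd_of_dvd_mul_left
    (by simpa [cg] using card_dvd_of_le Dg)
  have pD : IsPGroup 3 D := by
    obtain ⟨k, -, hk⟩ := (Nat.dvd_prime_pow Nat.prime_three (m := 3)).1 dD
    exact IsPGroup.of_card hk
  have DQ := mQ D Dg pD
  have cD : Nat.card D = 9 := by
    have b1 := big D gD xD
    have : Nat.card D ≠ 27 := fun e => by
      obtain rfl : D = Q := eq_of_le_of_card_ge DQ (by omega)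
      obtain ⟨n, hn⟩ := sum_dvd χ D
      rw [sum_three h.one fun y hy y1 => ?_, cQ] at hn
      · have : 9 + 3 * 27 = 27 * n := by exact_mod_cast hn
        omega
      refine ((h.val cQ hy y1).resolve_right fun ⟨_, e⟩ => ?_).1
      have l1 : D ⊓ 𝐂(D) ≤ 𝐂[y] := inf_le_right.trans (U4.cent_le_cent1 hy)
      have l2 := big (D ⊓ 𝐂(D)) ⟨gD, mem_cent.2 fun z hz => mem_cent1.1 (Dg hz)⟩
        ⟨xD, mem_cent.2 fun z hz => mem_cent1.1 (hD ▸ hz : z ∈ 𝐂[g] ⊓ 𝐂[x]).2⟩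
      have l3 := dvd27 (cQ ▸ card_dvd_of_le (inf_le_left : D ⊓ 𝐂(D) ≤ D))
      have l4 := Nat.le_of_dvd (by norm_num) e
      have l5 := eq_of_le_of_card_ge l1 (by omega)
      have l6 : D ≤ 𝐂[y] := fun z hz =>
        mem_cent1.2 (mem_cent.1 (l5 ▸ self_mem_cent1 y : y ∈ D ⊓ 𝐂(D)).2 z hz)
      have := card_le_of_le l6
      omega
    have := dvd27 dD
    omega
  rw [← hD]
  refine ⟨cD, ?_⟩
  have n1 : Q ≤ 𝐍(D) := by
    have l1 := card_lt_card_of_lt (lt_inf_normalizer_of_isPGroup pQ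
      (lt_of_le_of_ne DQ fun e => by rw [e] at cD; omega))
    have l2 := dvd27 (cQ ▸ card_dvd_of_le (inf_le_left : Q ⊓ 𝐍(D) ≤ Q))
    exact inf_eq_left.1 (eq_of_le_of_card_ge inf_le_left (by omega))
  obtain ⟨i, hi, oi⟩ := GW.exists_inv_of_not_odd (H := 𝐂[g]) (by rw [cg]; decide)
  have n2 : i ∈ 𝐍(D) := by
    refine mem_normalizer_fintype fun d hd => ?_
    obtain ⟨c, hc, t, -, ht, rfl⟩ := GW.exists_cent_mul_inv (GW.mul_self_of_inv oi)
      (by rw [cQ]; decide) (nQ hi) (DQ hd)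
    have cD : c ∈ D := zpowers_le.2 gD (h.le_zp oi og (pQ.to_inf_left (K := 𝐂[i]))
      ⟨gQ, mem_cent1_comm.1 hi⟩ inf_le_right hc)
    rw [show i * (c * t) * i⁻¹ = i * c * i⁻¹ * (i * t * i⁻¹) by group, ht,
      conj_eq_of_mem_cent1 (mem_cent1_comm.1 hc.2)]
    exact mul_mem cD (inv_mem ((mul_mem_cancel_left cD).1 hd))
  have l1 := card_lt_card_of_lt (lt_of_le_of_ne (le_inf hQ n1) fun e => by
    have := orderOf_dvd_card_of_mem (e ▸ ⟨hi, n2⟩ : i ∈ Q)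
    rw [oi, cQ] at this
    omega)
  have l2 := card_dvd_of_le (inf_le_left : 𝐂[g] ⊓ 𝐍(D) ≤ 𝐂[g])
  refine inf_eq_left.1 (eq_of_le_of_card_ge inf_le_left ?_)
  rw [cg] at l2 ⊢
  obtain ⟨m, hm⟩ := l2
  rcases (by omega : m = 0 ∨ m = 1 ∨ 2 ≤ m) with rfl | rfl | l
  · omega
  · omega
  · nlinarith

theorem exists_g : ∃ g : G, orderOf g = 3 ∧ χ g = 3 ∧ Nat.card 𝐂[g] = 54 := by
  obtain ⟨g, og, hg⟩ := exists_central (G := G) Nat.prime_three (k := 3) (by norm_num)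
    (by rw [h.card]; norm_num)
  refine ⟨g, og, (h.three g 1 (by rintro rfl; simp at og)
    (by rw [pow_one, ← og, pow_orderOf_eq_one])).resolve_right fun e => ?_⟩
  exact absurd (hg.trans e.2) (by norm_num)

theorem exists_N : ∃ N : Subgroup G, N.index = 13 := by
  classical
  have := Fact.mk Nat.prime_three
  obtain ⟨g, og, -, cg⟩ := h.exists_g
  obtain ⟨Q, hQ, cQ, -, mQ⟩ := exists_Q cg
  have gQ := mQ _ (zpowers_le_cent1 g) (isPGroup_of_card_eq ((Nat.card_zpowers g).trans og))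
  obtain ⟨x, xQ, hx', cx⟩ : ∃ x ∈ Q, x ∉ zpowers g ∧ Nat.card 𝐂[x] = 54 := by
    by_contra! k
    obtain ⟨n, hn⟩ := sum_dvd χ Q
    rw [← Finset.sum_subset (s₁ := elems (zpowers g : Set G))
      (fun y hy => mem_elems.2 (gQ (mem_elems.1 hy))) fun y hy hy' => ?_,
      sum_three h.one fun y hy y1 => ?_, cQ, Nat.card_zpowers, og] at hn
    · have : 9 + 3 * 3 = 27 * n := by exact_mod_cast hn
      omega
    · refine ((h.val cQ (gQ hy) y1).resolve_right fun e => ?_).1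
      exact absurd (cg ▸ (card_dvd_of_le (cent1_le_cent1 hy)).trans e.2) (by norm_num)
    · rw [mem_elems] at hy hy'
      exact ((h.val cQ hy fun e => hy' (e ▸ one_mem _)).resolve_left fun e => k y hy hy' e.2).1
  have ox : orderOf x = 3 := by
    obtain ⟨i, hi, oi⟩ := GW.exists_inv_of_not_odd (H := 𝐂[x]) (by rw [cx]; decide)
    have := h.card_le oi ((IsPGroup.of_card (n := 3) cQ).to_le (zpowers_le.2 xQ))
      (zpowers_le.2 (mem_cent1_comm.1 hi))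
    rw [Nat.card_zpowers] at this
    refine ((Nat.dvd_prime Nat.prime_three).1 this).resolve_left fun e => hx' ?_
    rw [orderOf_eq_one_iff.1 e]
    exact one_mem _
  have g1 : g ≠ 1 := by rintro rfl; simp at og
  obtain ⟨c1, n1⟩ := h.pair og cg ox (hQ xQ) hx'
  obtain ⟨-, n2⟩ := h.pair ox cx og (mem_cent1_comm.1 (hQ xQ)) fun e => hx' (by
    rw [U4.zpowers_eq_of_card_prime (by rw [Nat.card_zpowers, ox]; norm_num) e g1]
    exact mem_zpowers x)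
  rw [inf_comm 𝐂[x]] at n2
  obtain ⟨B, hB⟩ : ∃ B, B = 𝐂[g] ⊓ 𝐂[x] := ⟨_, rfl⟩
  have gB : g ∈ B := hB ▸ ⟨self_mem_cent1 g, mem_cent1_comm.1 (hQ xQ)⟩
  have l1 := card_eq_relIndex_mul (inf_le_right : 𝐂[g] ⊓ 𝐂[x] ≤ 𝐂[x])
  rw [inf_relIndex_right, c1, cx] at l1
  rw [← hB] at c1 n1 n2
  have l2 := relIndex_le_of_le_right (H := 𝐂[g]) n2 (relIndex_ne_zero' _ _)
  have ti : NormedTI {g} 𝐍(B) 𝐂[g] := ⟨⟨g, rfl⟩, n1,
    fun z hz a ha => by rw [ha]; exact conj_eq_of_mem_cent1 hz,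
    fun z _ a ha e => mem_cent1_of_conj_eq (by rwa [ha] at e)⟩
  have l3 := ti.card_classSupport
  have l4 : (classSupport {g} 𝐍(B)).ncard ≤ (sharp B).ncard := Set.ncard_le_ncard (by
    rintro _ ⟨a, rfl, z, hz, rfl⟩
    exact sharp_conj le_rfl z hz a (mem_sharp.2 ⟨gB, g1⟩))
  rw [l3, ncard_sharp_eq, c1, Set.ncard_singleton, mul_one] at l4
  have l5 := relIndex_mul_index n1
  have l6 := (𝐂[g]).card_mul_index
  rw [cg, h.card] at l6
  refine ⟨𝐍(B), ?_⟩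
  generalize (𝐂[g]).relIndex 𝐍(B) = m at *
  have : 6 ≤ m := by omega
  interval_cases m <;> omega

end L3

end CfsgLib.Sy
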