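import Cfsg.Agent.Lib.SL2Card

/-!
# The projective plane of order three and its collineation group
-/

set_option autoImplicit false

namespace CfsgLib.Sy.Plane

open Matrix Equiv

/-- The difference set `{0, 1, 3, 9}`. -/
def D0 : Finset (ZMod 13) := {0, 1, 3, 9}

/-- Collinearity in the cyclic plane. -/
def Col (a b c : ZMod 13) : Prop := ∃ i, a - i ∈ D0 ∧ b - i ∈ D0 ∧ c - i ∈ D0

instance (a b c : ZMod 13) : Decidable (Col a b c) := by unfold Col; infer_instance

/-- The table of `Col`. -/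
def tab : ℕ := 23061527285722292584705552060164143622675251320434403400384174088677925269595060659790049505028555246363615516848851152700638727381411544463179295816745116639408419843650542896151226442332892573586421885795153245020482360108281032489928258974331175346196762189667849494513584374076919744392571949260566586977406956937827211918777808594297503273440513490378243683727923035974864217404373841096743012661622062110623082668044698793130885654829407369013451619079698813190605432058815104659111877058101790000239202376276129549059914097576445558237029397437547625042680664918153839155936396097634594142311657608083773823023511956547433458335443539610702100819823656959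

/-- A fast version of `Col`. -/
def col (a b c : ZMod 13) : Bool := tab.testBit (169 * a.val + 13 * b.val + c.val)

theorem col_iff : ∀ a b c, Col a b c ↔ col a b c = true := by decide +kernel

/-- Four points in general position. -/
def frame (a b c d : ZMod 13) : Bool :=
  !col a b c && !col a b d && !col a c d && !col b c d

theorem card_frame :
    ∑ a, ∑ b, ∑ c, ∑ d, (if frame a b c d = true then 1 else 0) = 5616 := by decide +kernel

/-- The collineation group. -/
def Aut : Subgroup (Perm (ZMod 13)) where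
  carrier := {σ | ∀ a b c, col (σ a) (σ b) (σ c) = col a b c}
  mul_mem' := fun {σ τ} h h' a b c => (h _ _ _).trans (h' a b c)
  one_mem' := fun _ _ _ => rfl
  inv_mem' := fun {σ} h a b c => by rw [← h]; simp

theorem fix_step {σ : Perm (ZMod 13)} (h : σ ∈ Aut) {a b c d x : ZMod 13} (ha : σ a = a)
    (hb : σ b = b) (hc : σ c = c) (hd : σ d = d)
    (hx : ∀ y, (col a b y && col c d y) = decide (y = x)) : σ x = x := by
  have := hx (σ x)
  nth_rw 1 [← ha, ← hb, ← hc, ← hd] at this
  rw [h, h, hx x] at this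
  simpa using this

theorem eq_one_of_frame {σ : Perm (ZMod 13)} (h : σ ∈ Aut) (h0 : σ 0 = 0) (h1 : σ 1 = 1)
    (h2 : σ 2 = 2) (h5 : σ 5 = 5) : σ = 1 := by
  have h3 : σ 3 = 3 := fix_step h h0 h1 h2 h5 (by decide +kernel)
  have h4 : σ 4 = 4 := fix_step h h0 h5 h1 h2 (by decide +kernel)
  have h6 : σ 6 = 6 := fix_step h h1 h5 h3 h4 (by decide +kernel)
  have h7 : σ 7 = 7 := fix_step h h0 h5 h2 h6 (by decide +kernel)
  have h8 : σ 8 = 8 := fix_step h h0 h2 h1 h5 (by decide +kernel)
  have h9 : σ 9 = 9 := fix_step h h0 h1 h2 h6 (by decide +kernel)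
  have h10 : σ 10 = 10 := fix_step h h0 h6 h1 h2 (by decide +kernel)
  have h11 : σ 11 = 11 := fix_step h h0 h6 h1 h7 (by decide +kernel)
  have h12 : σ 12 = 12 := fix_step h h0 h2 h1 h7 (by decide +kernel)
  ext x
  fin_cases x
  exacts [h0, h1, h2, h3, h4, h5, h6, h7, h8, h9, h10, h11, h12]

theorem card_Aut_le : Nat.card Aut ≤ 5616 := by
  let f : Aut → {q : ZMod 13 × ZMod 13 × ZMod 13 × ZMod 13 // frame q.1 q.2.1 q.2.2.1 q.2.2.2} :=
    fun σ => ⟨(σ.1 0, σ.1 1, σ.1 2, σ.1 5), by
      simp only [frame, σ.2 _ _ _]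
      decide +kernel⟩
  have hf : Function.Injective f := fun σ τ e => by
    simp only [f, Subtype.mk.injEq, Prod.mk.injEq] at e
    have := eq_one_of_frame (mul_mem (inv_mem τ.2) σ.2) (by simp [e.1]) (by simp [e.2.1])
      (by simp [e.2.2.1]) (by simp [e.2.2.2])
    exact Subtype.ext (inv_mul_eq_one.1 this).symm
  refine (Nat.card_le_card_of_injective f hf).trans_eq ?_
  rw [Nat.card_eq_fintype_card, Fintype.card_subtype, Finset.card_filter, ← card_frame]
  simp only [Fintype.sum_prod_type]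

/-- The table of coordinates. -/
def v' (i : Fin 13) : Fin 3 → ZMod 3 :=
  ![![1, 0, 0], ![0, 1, 0], ![0, 0, 1], ![1, 1, 0], ![0, 1, 1], ![1, 1, 1], ![1, 2, 1], ![1, 2, 2],
    ![1, 0, 1], ![1, 2, 0], ![0, 1, 2], ![1, 1, 2], ![1, 0, 2]] i

/-- Coordinates of the points. -/
def v (i : ZMod 13) : Fin 3 → ZMod 3 := v' i

/-- The table of points. -/
def pt' (x y z : Fin 3) : ZMod 13 :=
  ![![![0, 2, 2], ![1, 4, 10], ![1, 10, 4]], ![![0, 8, 12], ![3, 5, 11], ![9, 6, 7]],
    ![![0, 12, 8], ![9, 7, 6], ![3, 11, 5]]] x y z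

/-- The point represented by a vector. -/
def pt (w : Fin 3 → ZMod 3) : ZMod 13 := pt' (w 0) (w 1) (w 2)

/-- The determinant of three vectors. -/
def dt (a b c : Fin 3 → ZMod 3) : ZMod 3 :=
  a 0 * (b 1 * c 2 - b 2 * c 1) - a 1 * (b 0 * c 2 - b 2 * c 0) + a 2 * (b 0 * c 1 - b 1 * c 0)

theorem col_eq : ∀ a b c : ZMod 13, col a b c = decide (dt (v a) (v b) (v c) = 0) := by
  decide +kernel

theorem pt_v : ∀ i : ZMod 13, pt (v i) = i := by decide +kernel

theorem v_ne : ∀ i : ZMod 13, v i ≠ 0 := by decide +kernel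

theorem pt_smul : ∀ c : ZMod 3, c ≠ 0 → ∀ w, pt (c • w) = pt w := by decide +kernel

theorem eq_smul : ∀ w, w ≠ 0 → ∃ c : ZMod 3, c ≠ 0 ∧ w = c • v (pt w) := by decide +kernel

theorem mulVec_v (A : Matrix.SpecialLinearGroup (Fin 3) (ZMod 3)) (i : ZMod 13) :
    ∃ c : ZMod 3, c ≠ 0 ∧ A.1 *ᵥ v i = c • v (pt (A.1 *ᵥ v i)) := by
  refine eq_smul _ fun e => v_ne i ?_
  have := congrArg ((A⁻¹).1 *ᵥ ·) e
  simpa only [mulVec_mulVec, ← Matrix.SpecialLinearGroup.coe_mul, inv_mul_cancel,
    Matrix.SpecialLinearGroup.coe_one, one_mulVec, mulVec_zero] using this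

/-- The action of `SL(3, 3)` on the points. -/
def rho : Matrix.SpecialLinearGroup (Fin 3) (ZMod 3) →* Function.End (ZMod 13) where
  toFun A := fun i => pt (A.1 *ᵥ v i)
  map_one' := funext fun i => by
    rw [Matrix.SpecialLinearGroup.coe_one, one_mulVec, pt_v]; rfl
  map_mul' A B := funext fun i => by
    obtain ⟨c, hc, e⟩ := mulVec_v B i
    change pt ((A * B).1 *ᵥ v i) = pt (A.1 *ᵥ v (pt (B.1 *ᵥ v i)))
    rw [Matrix.SpecialLinearGroup.coe_mul, ← mulVec_mulVec, ← pt_smul c hc (A.1 *ᵥ v _), ← mulVec_smul,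
      ← e]

theorem rho_apply (A : Matrix.SpecialLinearGroup (Fin 3) (ZMod 3)) (i : ZMod 13) :
    rho.toHomPerm A i = pt (A.1 *ᵥ v i) := rfl

theorem rho_mem (A : Matrix.SpecialLinearGroup (Fin 3) (ZMod 3)) : rho.toHomPerm A ∈ Aut := by
  intro a b c
  obtain ⟨x, hx, ea⟩ := mulVec_v A a
  obtain ⟨y, hy, eb⟩ := mulVec_v A b
  obtain ⟨z, hz, ec⟩ := mulVec_v A c
  have h1 : dt (A.1 *ᵥ v a) (A.1 *ᵥ v b) (A.1 *ᵥ v c) = A.1.det * dt (v a) (v b) (v c) := by
    simp only [dt, mulVec, dotProduct, Fin.sum_univ_three, det_fin_three]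
    ring
  have h2 : ∀ a b c, dt (x • a) (y • b) (z • c) = x * y * z * dt a b c := fun a b c => by
    simp only [dt, Pi.smul_apply, smul_eq_mul]
    ring
  rw [A.2, one_mul, ea, eb, ec, h2] at h1
  have : Fact (Nat.Prime 3) := ⟨Nat.prime_three⟩
  simp only [col_eq, rho_apply, ← h1, mul_eq_zero, hx, hy, hz, false_or]

theorem rho_injective : Function.Injective rho.toHomPerm := by
  refine (injective_iff_map_eq_one _).2 fun A h => ?_
  have k : ∀ i, ∃ c : ZMod 3, A.1 *ᵥ v i = c • v i := fun i => by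
    obtain ⟨c, -, e⟩ := mulVec_v A i
    rw [← rho_apply, h] at e
    exact ⟨c, e⟩
  obtain ⟨a, ha⟩ := k 0
  obtain ⟨b, hb⟩ := k 1
  obtain ⟨c, hc⟩ := k 2
  obtain ⟨d, hd⟩ := k 5
  have hA := A.2
  simp only [funext_iff, Fin.forall_fin_succ, mulVec, dotProduct, Fin.sum_univ_three,
    show v 0 = ![1, 0, 0] from rfl, show v 1 = ![0, 1, 0] from rfl, show v 2 = ![0, 0, 1] from rfl,
    show v 5 = ![1, 1, 1] from rfl] at ha hb hc hd
  simp at ha hb hc hd
  obtain ⟨a0, a1, a2⟩ := ha
  obtain ⟨b0, b1, b2⟩ := hb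
  obtain ⟨c0, c1, c2⟩ := hc
  simp only [a0, a1, a2, b0, b1, b2, c0, c1, c2, add_zero, zero_add, det_fin_three] at hd hA
  obtain ⟨rfl, rfl, rfl⟩ := hd
  have : ∀ x : ZMod 3, x * x * x - x * 0 * 0 - 0 * 0 * x + 0 * 0 * 0 + 0 * 0 * 0 - 0 * x * 0 = 1 →
    x = 1 := by decide
  obtain rfl := this _ hA
  ext i j
  fin_cases i <;> fin_cases j <;> simp [*]

theorem card_SL : Nat.card (Matrix.SpecialLinearGroup (Fin 3) (ZMod 3)) = 5616 := by
  have : Fact (Nat.Prime 3) := ⟨Nat.prime_three⟩
  have := SL2C.card_SL_mul (ZMod 3) 3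
  rw [Matrix.card_GL_field, Nat.card_zmod, ZMod.card, Fin.prod_univ_three] at this
  simp only [Fin.val_zero, Fin.val_one, Fin.val_two] at this
  omega

theorem center_SL : Subgroup.center (Matrix.SpecialLinearGroup (Fin 3) (ZMod 3)) = ⊥ := by
  refine (Subgroup.eq_bot_iff_forall _).2 fun A h => ?_
  obtain ⟨r, hr, e⟩ := Matrix.SpecialLinearGroup.mem_center_iff.1 h
  have : ∀ x : ZMod 3, x ^ Fintype.card (Fin 3) = 1 → x = 1 := by decide
  obtain rfl := this r hr
  exact Subtype.ext (by rw [← e]; simp)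

theorem iso_of_col {G : Type*} [Group G] (hG : Nat.card G = 5616) (f : G →* Perm (ZMod 13))
    (hf : Function.Injective f) (hc : ∀ g a b c, Col a b c → Col (f g a) (f g b) (f g c)) :
    Nonempty (G ≃* ProjectiveSpecialLinearGroup (Fin 3) (ZMod 3)) := by
  have h1 : f.range = Aut := by
    refine Subgroup.eq_of_le_of_card_ge ?_ (card_Aut_le.trans_eq ?_)
    · rintro _ ⟨g, rfl⟩ a b c
      rw [Bool.eq_iff_iff, ← col_iff, ← col_iff]
      exact ⟨fun h => by simpa using hc g⁻¹ _ _ _ h, hc g a b c⟩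
    · rw [← hG, Nat.card_congr (MonoidHom.ofInjective hf).toEquiv]
  have h2 : rho.toHomPerm.range = Aut := by
    refine Subgroup.eq_of_le_of_card_ge ?_ (card_Aut_le.trans_eq ?_)
    · rintro _ ⟨g, rfl⟩
      exact rho_mem g
    · rw [← card_SL, Nat.card_congr (MonoidHom.ofInjective rho_injective).toEquiv]
  exact ⟨(MonoidHom.ofInjective hf).trans ((MulEquiv.subgroupCongr (h1.trans h2.symm)).trans
    ((MonoidHom.ofInjective rho_injective).symm.trans (QuotientGroup.quotientBot.symm.trans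
      (QuotientGroup.quotientMulEquivOfEq center_SL.symm))))⟩

end CfsgLib.Sy.Plane
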