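import Cfsg.Agent.Lib.Sy.LatC

/-!
# `p`-adically irreducible characters in the principal block of defect one
-/

set_option autoImplicit false

namespace CfsgLib.Sy

open Cfsg Subgroup CfsgLib.FT CfsgLib.Blk Polynomial
open scoped ComplexConjugate

universe u

variable {G : Type u} [Group G] [Fintype G] {p : ℕ} {P : Subgroup G}

/-- The normal `p`-complement of `C(P)`. -/
theorem exists_K (hp : p.Prime) (hP : Nat.card P = p) (hi : ¬ p ∣ P.index) :
    ∃ K : Subgroup G, K ≤ centralizer (P : Set G) ∧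
      centralizer (P : Set G) ≤ normalizer (K : Set G) ∧ (Nat.card K).Coprime p ∧
      (∀ x ∈ centralizer (P : Set G), (orderOf x).Coprime p → x ∈ K) ∧
      ∀ c ∈ centralizer (P : Set G), ∃ v ∈ K, ∃ x ∈ P, v * x = c := by
  have := Fact.mk hp
  generalize hC : centralizer (P : Set G) = C
  have hPC : P ≤ C := hC ▸ D1.le_cent hp hP
  have hPi : ¬ p ∣ P.relIndex C := fun hd => hi (hd.trans (relIndex_dvd_index_of_le hPC))
  have hPc : Nat.card (P.subgroupOf C) = p ^ 1 := by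
    rw [pow_one, ← hP]; exact Nat.card_congr (subgroupOfEquivOfLe hPC).toEquiv
  let Q : Sylow p C := (IsPGroup.of_card hPc).toSylow hPi
  have hnpc : HasNormalPComplement p C := PCompl.hnpc_of_sylow_le_center Q (by
    intro x hx
    refine mem_center_iff.mpr fun y => Subtype.ext ?_
    have hy : (y : G) ∈ centralizer (P : Set G) := hC ▸ y.2
    exact (hy x hx).symm)
  have hVC : (pResidual p C).map C.subtype ≤ C := map_subtype_le _
  refine ⟨(pResidual p C).map C.subtype, hVC, ?_, ?_, fun x hx ho => ?_, fun c hc => ?_⟩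
  · have : (((pResidual p C).map C.subtype).subgroupOf C).Normal := by
      rw [subgroupOf, comap_map_eq_self_of_injective C.subtype_injective]
      exact PRes.pResidual_normal
    exact le_normalizer_of_normal_subgroupOf hVC
  · rw [card_map_of_injective C.subtype_injective]
    exact PCompl.hnpc_iff_coprime_pResidual.mp hnpc
  · exact ⟨⟨x, hx⟩, (PCompl.hnpc_mem_pResidual_iff hnpc).mpr (by rwa [orderOf_mk]), rfl⟩
  · obtain ⟨⟨v, x⟩, h, -⟩ := (PCompl.hnpc_isComplement' hnpc Q).existsUnique ⟨c, hc⟩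
    exact ⟨_, ⟨v, v.2, rfl⟩, x, x.2, congrArg Subtype.val h⟩

section Lattice

open LinearMap Module

variable [hp : Fact p.Prime] (ι : ℤ_[p] →+* ℂ)
variable {L : Type*} [AddCommGroup L] [Module ℤ_[p] L] [Module.Free ℤ_[p] L]
  [Module.Finite ℤ_[p] L] (ρ : G →* End ℤ_[p] L)

/-- The function `g ↦ tr (T g)`. -/
noncomputable def trf (T : End ℤ_[p] L) : G → ℂ := fun g => ι (trace ℤ_[p] L (T * ρ g))

theorem isChar_trf : IsChar ⊤ (trf ι ρ 1) := by
  let b := Module.finBasis ℤ_[p] L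
  let ρ' : Representation ℂ G (Fin (finrank ℤ_[p] L) → ℂ) :=
    (Matrix.toLinAlgEquiv' (R := ℂ)).toRingEquiv.toMonoidHom.comp
      ((RingHom.mapMatrix ι).toMonoidHom.comp
        ((LinearMap.toMatrixAlgEquiv b).toRingEquiv.toMonoidHom.comp ρ))
  refine isChar_top.mpr ⟨_, ρ', funext fun x => ?_⟩
  change trace ℂ _ (Matrix.toLin' ((LinearMap.toMatrix b b (ρ x)).map ι)) = _
  rw [Matrix.trace_toLin'_eq, trf, one_mul, trace_eq_matrix_trace ℤ_[p] b]
  simp [Matrix.trace]

omit [Module.Free ℤ_[p] L] [Module.Finite ℤ_[p] L] in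
theorem trf_aeval {b : G → ℂ} (hb : b ∈ CF (⊤ : Subgroup G)) {k : G → ℤ} (hk : ∀ g, b g = k g)
    (α β : ℤ) {n : Irr (⊤ : Subgroup G) → ℂ} (hn : trf ι ρ 1 = ∑ ψ, n ψ • (ψ : G → ℂ))
    (q : ℤ_[p][X]) :
    trf ι ρ (aeval (β • ∑ g, k g • ρ g - α • (1 : End ℤ_[p] L)) q) =
      ∑ ψ, (n ψ * eval₂ ι (β * om ψ b - α) q) • (ψ : G → ℂ) := by
  set c : End ℤ_[p] L := β • ∑ g, k g • ρ g - α • (1 : End ℤ_[p] L)
  have hpow : ∀ m : ℕ, trf ι ρ (c ^ m) = ∑ ψ, (n ψ * (β * om ψ b - α) ^ m) • (ψ : G → ℂ) := by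
    intro m
    induction m with
    | zero => simpa using hn
    | succ m ih =>
      ext g
      have e : trf ι ρ (c ^ (m + 1)) g =
          β * ∑ x, b x * trf ι ρ (c ^ m) (x * g) - α * trf ι ρ (c ^ m) g := by
        have : c ^ (m + 1) * ρ g = β • ∑ x, k x • (c ^ m * ρ (x * g)) - α • (c ^ m * ρ g) := by
          rw [pow_succ, mul_assoc]
          generalize c ^ m = T
          simp only [c, sub_mul, mul_sub, smul_mul_assoc, mul_smul_comm, Finset.sum_mul,
            Finset.mul_sum, one_mul, map_mul]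
        simp only [trf, this, map_sub, map_zsmul, map_sum]
        simp only [hk, zsmul_eq_mul]
      rw [e, ih]
      simp only [Finset.sum_apply, Pi.smul_apply, smul_eq_mul, Finset.mul_sum]
      rw [Finset.sum_comm, ← Finset.sum_sub_distrib]
      refine Finset.sum_congr rfl fun ψ _ => ?_
      have := sum_mul_irr ψ.irr hb g
      calc _ = β * (n ψ * (β * om ψ b - α) ^ m) * ∑ x, b x * ψ (x * g) -
          α * (n ψ * (β * om ψ b - α) ^ m * ψ g) := by
            rw [Finset.mul_sum]; congr 1; exact Finset.sum_congr rfl fun _ _ => by ring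
        _ = _ := by rw [this]; ring
  induction q using Polynomial.induction_on' with
  | add f g hf hg =>
    rw [map_add]
    ext x
    have := congrArg₂ (· + ·) (congrFun hf x) (congrFun hg x)
    simpa [trf, add_mul, mul_add, Finset.sum_add_distrib, eval₂_add] using this
  | monomial m a =>
    ext x
    have := congrArg (ι a * ·) (congrFun (hpow m) x)
    simp only [trf, Finset.sum_apply, Pi.smul_apply, smul_eq_mul, Finset.mul_sum] at this
    simp only [trf, aeval_monomial, Algebra.algebraMap_eq_smul_one, smul_mul_assoc, one_mul,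
      map_smul, smul_eq_mul, map_mul, this, eval₂_monomial, Finset.sum_apply, Pi.smul_apply]
    exact Finset.sum_congr rfl fun _ _ => by ring

theorem om_eq_of_simple (hι : Function.Injective ι)
    (hs : ∀ c : End ℤ_[p] L, (∀ g, ρ g * c = c * ρ g) → c = 0 ∨ Function.Injective c)
    {b : G → ℂ} (hb : b ∈ CF (⊤ : Subgroup G)) (hk : ∀ g, ∃ k : ℤ, b g = k) (q : ℚ)
    {ψ ψ' : Irr (⊤ : Subgroup G)} (h : cfdot ⊤ (trf ι ρ 1) ψ ≠ 0)
    (h' : cfdot ⊤ (trf ι ρ 1) ψ' ≠ 0) (hq : om ψ b = q) : om ψ' b = q := by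
  choose k hk using hk
  have hn := cfun_sum_cfdot (isChar_trf ι ρ).mem_CF
  have key := trf_aeval ι ρ hb hk q.num q.den hn
  set c : End ℤ_[p] L := (q.den : ℤ) • ∑ g, k g • ρ g - q.num • (1 : End ℤ_[p] L)
  have hd : (q.den : ℂ) ≠ 0 := by exact_mod_cast q.den_ne_zero
  have hq' : (q : ℂ) = q.num / q.den := Rat.cast_def q
  have key' : ∀ f : ℤ_[p][X], aeval c f = 0 → ∀ χ : Irr (⊤ : Subgroup G),
      cfdot ⊤ (trf ι ρ 1) χ ≠ 0 → eval₂ ι (((q.den : ℤ) : ℂ) * om χ b - q.num) f = 0 := by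
    intro f hf χ hχ
    have := congrArg (cfdot ⊤ · (χ : G → ℂ)) (key f)
    simp only [cfdot_sum_irr, hf] at this
    rw [show trf ι ρ 0 = 0 from funext fun g => by simp [trf], cfdot_zero_left] at this
    exact (mul_eq_zero.mp this.symm).resolve_left hχ
  have hc : ∀ g, ρ g * c = c * ρ g := fun g => by
    have : ρ g * ∑ x, k x • ρ x = (∑ x, k x • ρ x) * ρ g := by
      rw [Finset.mul_sum, Finset.sum_mul]
      refine Fintype.sum_equiv (MulAut.conj g).toEquiv _ _ fun x => ?_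
      have e : k (g * x * g⁻¹) = k x := by
        have := CF_conj hb (mem_top g) x
        rw [hk, hk] at this
        exact_mod_cast this
      change ρ g * k x • ρ x = k (g * x * g⁻¹) • ρ (g * x * g⁻¹) * ρ g
      rw [e, mul_smul_comm, smul_mul_assoc, ← map_mul, ← map_mul, inv_mul_cancel_right]
    simp only [c, mul_sub, sub_mul, mul_smul_comm, smul_mul_assoc, this, mul_one, one_mul]
  rcases hs c hc with h0 | h0
  · have := key' X (by rw [aeval_X, h0]) ψ' h'
    rw [eval₂_X, sub_eq_zero] at this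
    rw [hq', eq_div_iff hd, ← this]; push_cast; ring
  · exfalso
    have h1 := key' _ c.aeval_self_charpoly ψ h
    rw [hq, hq', Int.cast_natCast, mul_div_cancel₀ _ hd, sub_self, eval₂_at_zero,
      map_eq_zero_iff ι hι] at h1
    have h2 : LinearMap.det c = 0 := by
      rw [← LinearMap.det_toMatrix (Module.Free.chooseBasis ℤ_[p] L),
        Matrix.det_eq_sign_charpoly_coeff, LinearMap.charpoly_toMatrix, h1, mul_zero]
    exact det_eq_zero_iff_ker_ne_bot.mp h2 (ker_eq_bot.mpr h0)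

/-- Restriction of a representation to an invariant submodule. -/
noncomputable def resRep (X : Submodule ℤ_[p] L) (h : ∀ g, ∀ x ∈ X, ρ g x ∈ X) : G →* End ℤ_[p] X where
  toFun g := (ρ g).restrict (h g)
  map_one' := LinearMap.ext fun x => Subtype.ext (by simp)
  map_mul' a b := LinearMap.ext fun x => Subtype.ext (by simp)

theorem exists_simple (χ : G → ℂ) (d : ℕ) : ∀ (L : Type u) [AddCommGroup L] [Module ℤ_[p] L]
    [Module.Free ℤ_[p] L] [Module.Finite ℤ_[p] L] (ρ : G →* End ℤ_[p] L), finrank ℤ_[p] L = d →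
    cfdot ⊤ (trf ι ρ 1) χ ≠ 0 → ∃ (L : Type u) (_ : AddCommGroup L) (_ : Module ℤ_[p] L)
    (_ : Module.Free ℤ_[p] L) (_ : Module.Finite ℤ_[p] L) (ρ : G →* End ℤ_[p] L),
    cfdot ⊤ (trf ι ρ 1) χ ≠ 0 ∧
    ∀ c : End ℤ_[p] L, (∀ g, ρ g * c = c * ρ g) → c = 0 ∨ Function.Injective c := by
  induction d using Nat.strong_induction_on with
  | _ d ih =>
  intro L _ _ _ _ ρ hd h
  by_cases hs : ∀ c : End ℤ_[p] L, (∀ g, ρ g * c = c * ρ g) → c = 0 ∨ Function.Injective c
  · exact ⟨L, _, _, inferInstance, inferInstance, ρ, h, hs⟩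
  push Not at hs
  obtain ⟨c, hc, h0, h1⟩ := hs
  have k1 : ∀ g, ∀ x ∈ ker c, ρ g x ∈ ker c := fun g x hx => by
    rw [mem_ker, ← Module.End.mul_apply, ← hc, Module.End.mul_apply, mem_ker.mp hx, map_zero]
  have k2 : ∀ g, ∀ x ∈ range c, ρ g x ∈ range c := by
    rintro g _ ⟨x, rfl⟩
    exact ⟨ρ g x, (LinearMap.congr_fun (hc g) x).symm⟩
  have e : trf ι ρ 1 = trf ι (resRep ρ _ k1) 1 + trf ι (resRep ρ _ k2) 1 := funext fun g => by
    simp only [trf, one_mul, Pi.add_apply, ← map_add]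
    rw [trace_eq_ker_add_range c (ρ g) (k1 g) (k2 g) (hc g).symm]; rfl
  have hr : finrank ℤ_[p] L = finrank ℤ_[p] (ker c) + finrank ℤ_[p] (range c) := by
    have := trace_eq_ker_add_range c 1 (fun _ h => h) (fun _ h => h) (by simp)
    rw [trace_one, show LinearMap.restrict (1 : End ℤ_[p] L) _ = 1 from rfl, trace_one,
      show LinearMap.restrict (1 : End ℤ_[p] L) _ = 1 from rfl, trace_one] at this
    exact_mod_cast this
  have p1 : finrank ℤ_[p] (ker c) ≠ 0 := fun h => h1 (ker_eq_bot.mp (Submodule.finrank_eq_zero.mp h))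
  have p2 : finrank ℤ_[p] (range c) ≠ 0 := fun h => h0 (range_eq_bot.mp
    (Submodule.finrank_eq_zero.mp h))
  rw [e, cfdot_add_left] at h
  by_cases h' : cfdot ⊤ (trf ι (resRep ρ _ k1) 1) χ = 0
  · exact ih _ (by omega) _ (resRep ρ _ k2) rfl (by rwa [h', zero_add] at h)
  · exact ih _ (by omega) _ (resRep ρ _ k1) rfl h'

/-- The regular representation. -/
noncomputable def regRep (G : Type u) [Group G] (p : ℕ) [Fact p.Prime] : G →* End ℤ_[p] (G → ℤ_[p]) where
  toFun g := LinearMap.funLeft ℤ_[p] ℤ_[p] fun x => x * g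
  map_one' := by ext; simp
  map_mul' a b := LinearMap.ext fun f => funext fun x => by simp [mul_assoc]

theorem cfdot_regRep {χ : G → ℂ} (hχ : IsIrr ⊤ χ) : cfdot ⊤ (trf ι (regRep G p) 1) χ ≠ 0 := by
  classical
  have h : ∀ g, trf ι (regRep G p) 1 g = if g = 1 then (Fintype.card G : ℂ) else 0 := fun g => by
    rw [trf, one_mul, trace_eq_matrix_trace ℤ_[p] (Pi.basisFun ℤ_[p] G)]
    simp only [Matrix.trace, Matrix.diag, LinearMap.toMatrix_apply, regRep, MonoidHom.coe_mk,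
      OneHom.coe_mk, Pi.basisFun_apply, Pi.basisFun_repr, funLeft_apply, Pi.single_apply,
      mul_eq_left]
    split_ifs <;> simp
  rw [cfdot, Finset.sum_eq_single 1 (fun g _ hg => by rw [h, if_neg hg, zero_mul]) (by simp), h,
    if_pos rfl, hχ.isChar.conj_one]
  exact mul_ne_zero (inv_ne_zero (card_ne_zero _))
    (mul_ne_zero (by exact_mod_cast Fintype.card_ne_zero) hχ.one_ne_zero)

theorem norm_sum_le (hP : Nat.card P = p) (hi : ¬ p ∣ P.index)
    (hloc : ∀ c : End ℤ_[p] L, (∀ g, ρ g * c = c * ρ g) → IsUnit c ∨ IsUnit (1 - c))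
    (hK : ∀ u ∈ P, u ≠ 1 → ∀ v ∈ centralizer (P : Set G), (orderOf v).Coprime p →
      trf ι ρ 1 (u * v) = trf ι ρ 1 u) :
    ∃ k : ℤ, |k| ≤ 1 ∧ ∑ u ∈ elems (sharp P), trf ι ρ 1 u = (p - 1) * k := by
  classical
  obtain ⟨K, hKC, -, hcop, -, hdec⟩ := exists_K hp.out hP hi
  obtain ⟨u, hu⟩ := (D1.normedTI hp.out hP).nonempty
  obtain ⟨hu, h1⟩ := mem_sharp.mp hu
  obtain ⟨w, hw⟩ : IsUnit (Nat.card K : ℤ_[p]) := by
    by_contra hn
    rw [← mem_nonunits_iff, ← IsLocalRing.mem_maximalIdeal, ← PadicInt.ker_toZMod,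
      RingHom.mem_ker, map_natCast, ZMod.natCast_eq_zero_iff] at hn
    exact (hp.out.coprime_iff_not_dvd.mp hcop.symm) hn
  let e : End ℤ_[p] L := (↑w⁻¹ : ℤ_[p]) • ∑ v ∈ elems (K : Set G), ρ v
  have hve : ∀ v ∈ K, ρ v * e = e := fun v hv => by
    rw [mul_smul_comm, Finset.mul_sum]
    congr 1
    refine Finset.sum_bij (fun x _ => v * x) (fun x hx => mem_elems.mpr (K.mul_mem hv
      (mem_elems.mp hx))) (fun x _ y _ h => by simpa using h) (fun x hx => ⟨v⁻¹ * x,
      mem_elems.mpr (K.mul_mem (K.inv_mem hv) (mem_elems.mp hx)), by group⟩)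
      fun x _ => (map_mul _ _ _).symm
  have hee : e * e = e := by
    conv_lhs => rw [show e * e = (↑w⁻¹ : ℤ_[p]) • ∑ v ∈ elems (K : Set G), ρ v * e by
      rw [← Finset.sum_mul, smul_mul_assoc]]
    rw [Finset.sum_congr rfl fun v hv => hve v (mem_elems.mp hv), Finset.sum_const, card_elems,
      ← Nat.cast_smul_eq_nsmul ℤ_[p], smul_smul, ← hw, w.inv_mul, one_smul]
  have hue : Commute (ρ u) e := (Commute.sum_right _ _ _ fun v hv =>
    Commute.map (hKC (mem_elems.mp hv) u hu) ρ).smul_right _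
  have hfix : ∀ x ∈ range e, e x = x := by
    rintro _ ⟨y, rfl⟩; exact LinearMap.congr_fun hee y
  have hst : ∀ {f : End ℤ_[p] L}, Commute f e → ∀ x ∈ range e, f x ∈ range e := by
    rintro f hf _ ⟨y, rfl⟩; exact ⟨f y, (LinearMap.congr_fun hf.eq y).symm⟩
  let U : End ℤ_[p] (range e) := (ρ u).restrict (hst hue)
  have hU : ∀ (i : ℕ) x, ((U ^ i) x : L) = (ρ u ^ i) x := fun i x => by
    rw [Module.End.pow_restrict]; rfl
  have hUp : U ^ p = 1 := LinearMap.ext fun x => Subtype.ext (by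
    rw [hU, ← map_pow, upow hP hu, map_one]; rfl)
  have hσ : ∀ x, (sg U x : L) = sg (ρ u) x := fun x => by
    change (((∑ i ∈ Finset.range p, U ^ i) x : range e) : L) = (∑ i ∈ Finset.range p, ρ u ^ i) x
    rw [LinearMap.sum_apply, Submodule.coe_sum, LinearMap.sum_apply]
    exact Finset.sum_congr rfl fun i _ => hU i x
  have hσe : Commute (sg (ρ u)) e := Commute.sum_left _ _ _ fun i _ => hue.pow_left i
  have hτe : Commute (1 - ρ u) e := (Commute.one_left _).sub_left hue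
  have main : ∀ (a b : End ℤ_[p] L) (a' b' : End ℤ_[p] (range e)), Commute a e → Commute b e →
      (∀ x, (a' x : L) = a x) → (∀ x, (b' x : L) = b x) → TD ρ P u (ker a) (range b) →
      (∀ x ∈ P, ∀ l ∈ ker a, ρ x l - l ∈ range b) → ri (range b') (ker a') ≤ p := by
    intro a b a' b' ha hb ha' hb' td hx
    obtain ⟨m, hm, hcyc⟩ := td.cyclic hP hi hu h1 hloc
    have hdown : ∀ x : range e, (x : L) ∈ range b → x ∈ range b' := by
      rintro x ⟨y, hy⟩
      refine ⟨⟨e y, y, rfl⟩, Subtype.ext ?_⟩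
      rw [hb', ← Module.End.mul_apply, hb.eq, Module.End.mul_apply, hy, hfix x x.2]
    have hem : e m ∈ ker a := by
      rw [mem_ker, ← Module.End.mul_apply, ha.eq, Module.End.mul_apply, mem_ker.mp hm, map_zero]
    refine ri_le_of_cyclic (m := ⟨e m, m, rfl⟩) (Subtype.ext ((ha' _).trans hem))
      (hdown _ (td.pX _ hem)) fun x hxa => ?_
    have hxa' : (x : L) ∈ ker a := (ha' x).symm.trans (congrArg Subtype.val hxa)
    obtain ⟨c, y, hy⟩ := hcyc x hxa' fun g hg => by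
      obtain ⟨v, hv, z, hz, rfl⟩ := hdec g hg
      rw [← hKC hv z hz, map_mul, Module.End.mul_apply, ← hfix x x.2, ← Module.End.mul_apply (ρ v),
        hve v hv, hfix x x.2]
      exact hx z hz x hxa'
    refine ⟨c, hdown _ ⟨e y, ?_⟩⟩
    rw [← Module.End.mul_apply, hb.eq, Module.End.mul_apply, hy, map_sub, map_smul, hfix x x.2]
    rfl
  obtain ⟨a, j, ha, hd, i1, i2⟩ := herbrand hUp
    (main _ _ _ _ hτe hσe (fun _ => rfl) hσ (td_zero ρ hP hu h1) fun x hx l hl => by
      obtain ⟨k, rfl⟩ := exists_pow hP hu h1 hx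
      rw [map_pow, pow_apply_of_fixed hl, sub_self]; exact zero_mem _)
    (main _ _ _ _ hσe hτe hσ (fun _ => rfl) (td_one ρ hP hu h1) fun x hx l _ => by
      simpa using neg_mem (sub_mem_range ρ hP hu h1 hx l))
  have htr : ∀ (f : End ℤ_[p] L) (f' : End ℤ_[p] (range e)), Commute f e →
      (∀ x, (f' x : L) = f x) → trace ℤ_[p] _ f' = trace ℤ_[p] L (f * e) := by
    intro f f' hf hf'
    rw [trace_eq_ker_add_range e (f * e)
      (fun x hx => by rw [Module.End.mul_apply, mem_ker.mp hx, map_zero]; exact zero_mem _)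
      (hst (hf.mul_left (Commute.refl e))) (hf.mul_left (Commute.refl e)).symm.eq,
      show (f * e).restrict _ = (0 : End ℤ_[p] (ker e)) from LinearMap.ext fun x => Subtype.ext
        (by change f (e x) = 0; rw [mem_ker.mp x.2, map_zero]), map_zero, zero_add]
    congr 1
    exact LinearMap.ext fun x => Subtype.ext (by
      change _ = f (e x); rw [hfix x x.2, hf'])
  have hval : ∀ x ∈ sharp P, ι (trace ℤ_[p] L (ρ x * e)) = trf ι ρ 1 x := by
    intro x hx
    obtain ⟨hx, hx1⟩ := mem_sharp.mp hx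
    have : ∀ v ∈ elems (K : Set G), ι (trace ℤ_[p] L (ρ x * ρ v)) = trf ι ρ 1 x := fun v hv => by
      rw [← hK x hx hx1 v (hKC (mem_elems.mp hv)) (Nat.Coprime.coprime_dvd_left
        (K.orderOf_dvd_natCard (mem_elems.mp hv)) hcop), trf, one_mul, ρ.map_mul]
    rw [mul_smul_comm, Finset.mul_sum, map_smul, map_sum, smul_eq_mul, map_mul, map_sum,
      Finset.sum_congr rfl this, Finset.sum_const, card_elems, nsmul_eq_mul, ← mul_assoc,
      ← map_natCast ι, ← map_mul, ← hw, w.inv_mul, map_one, one_mul]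
  have hsum : ∑ x ∈ elems (sharp P), trf ι ρ 1 x = ((a * p : ℕ) : ℂ) - finrank ℤ_[p] (range e) := by
    have e1 := congrArg ι (ha.symm.trans (htr _ _ hσe hσ))
    have e2 := congrArg ι ((trace_one ℤ_[p] (range e)).symm.trans
      (htr 1 1 (Commute.one_left e) fun _ => rfl))
    have e3 : elems (sharp P) = (elems (P : Set G)).erase 1 := by
      ext x; simp [mem_sharp, and_comm]
    rw [sg_eq ρ hP hu h1, ← Finset.add_sum_erase _ _ (mem_elems.mpr P.one_mem), ← e3, add_mul,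
      Finset.sum_mul, map_add, map_add, map_sum, map_sum, map_one, ← e2,
      Finset.sum_congr rfl fun x hx => hval x (mem_elems.mp hx)] at e1
    simp only [map_mul, map_natCast] at e1
    push_cast
    linear_combination -e1
  refine ⟨a - j, by rw [abs_le]; omega, ?_⟩
  rw [hsum, hd]
  push_cast [Nat.cast_sub hp.out.one_le]
  ring

end Lattice

/-- A `p`-adically irreducible character containing `χ`. -/
theorem exists_padic (hp : p.Prime) (hP : Nat.card P = p) (hi : ¬ p ∣ P.index)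
    {χ : Irr (⊤ : Subgroup G)} (hχ : χ ∈ B0 p ⊤) :
    ∃ n : Irr (⊤ : Subgroup G) → ℕ, n χ ≠ 0 ∧ (∀ ψ, n ψ ≠ 0 → ψ ∈ B0 p ⊤) ∧
      (∀ b ∈ CF (⊤ : Subgroup G), (∀ g, ∃ k : ℤ, b g = k) → ∀ (q : ℚ) (ψ ψ' : Irr ⊤), n ψ ≠ 0 →
        n ψ' ≠ 0 → om ψ b = q → om ψ' b = q) ∧
      ∃ k : ℤ, |k| ≤ 1 ∧ ∑ ψ, (n ψ : ℂ) * ∑ u ∈ elems (sharp P), ψ u = (p - 1) * k := by
  classical
  have := Fact.mk hp
  obtain ⟨ι, hι⟩ := exists_embedding p
  obtain ⟨L, _, _, _, _, ρ, h0, hs⟩ := exists_simple ι χ _ _ (regRep G p) rfl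
    (cfdot_regRep ι χ.irr)
  choose n hn using fun ψ : Irr (⊤ : Subgroup G) => (isChar_trf ι ρ).cfdot_nat ψ.isChar
  have hn0 : ∀ ψ, n ψ ≠ 0 ↔ cfdot ⊤ (trf ι ρ 1) ψ ≠ 0 := fun ψ => by rw [hn]; simp
  have hom : ∀ b ∈ CF (⊤ : Subgroup G), (∀ g, ∃ k : ℤ, b g = k) → ∀ (q : ℚ) (ψ ψ' : Irr ⊤),
      n ψ ≠ 0 → n ψ' ≠ 0 → om ψ b = q → om ψ' b = q := fun b hb hk q ψ ψ' h h' hq =>
    om_eq_of_simple ι ρ hι hs hb hk q ((hn0 ψ).mp h) ((hn0 ψ').mp h') hq
  have hB : ∀ ψ, n ψ ≠ 0 → ψ ∈ B0 p ⊤ := fun ψ hψ => by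
    by_contra hn'
    rw [mem_B0, not_not] at hn'
    have := hom _ (regInd_mem_CF (p := p)) (fun g => by
      by_cases hg : g ∈ regSet p ⊤
      · exact ⟨1, by rw [cfInd1_apply hg]; simp⟩
      · exact ⟨0, by rw [cfInd1_apply_of_notMem hg]; simp⟩) 0 ψ χ hψ ((hn0 χ).mpr h0)
      (by rw [om_cfInd1, hn']; simp)
    rw [om_cfInd1, Rat.cast_zero, div_eq_zero_iff] at this
    exact this.elim (mem_B0.mp hχ) χ.irr.one_ne_zero
  have hdec : ∀ g, trf ι ρ 1 g = ∑ ψ, (n ψ : ℂ) * ψ g := fun g => by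
    conv_lhs => rw [cfun_sum_cfdot (isChar_trf ι ρ).mem_CF]
    simp [hn]
  refine ⟨n, (hn0 χ).mpr h0, hB, hom, ?_⟩
  have hnt : Nontrivial L := by
    by_contra hc
    rw [not_nontrivial_iff_subsingleton] at hc
    refine h0 ?_
    rw [show trf ι ρ 1 = 0 from funext fun g => by
      rw [trf, Subsingleton.elim (1 * ρ g) 0]; simp, cfdot_zero_left]
  have := norm_sum_le ι ρ hP hi (fun c hc => isUnit_or_of_injective c fun f => hs _ fun g => by
    have : Commute (ρ g) c := hc g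
    rw [aeval_eq_sum_range]
    exact Commute.sum_right _ _ _ fun i _ => (this.pow_right i).smul_right _) fun u hu h1 v hv ho => by
      obtain ⟨K, hKC, hCK, hcop, hmem, -⟩ := exists_K hp hP hi
      rw [hdec, hdec]
      refine Finset.sum_congr rfl fun ψ _ => ?_
      by_cases h : n ψ = 0
      · simp [h]
      · rw [apply_mul_of_mem_B0 (N := K) hp (D1.pow_eq_one hP hu) (mem_top _)
          (by rwa [top_inf_eq, D1.cent_eq hp hP hu h1]) (by rwa [top_inf_eq, D1.cent_eq hp hP hu h1])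
          hcop (hmem v hv ho) (hB ψ h)]
  simpa only [hdec, Finset.mul_sum, Finset.sum_comm (s := elems (sharp P))] using this

end CfsgLib.Sy
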