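import Mathlib

/-!
# `p`-adic preliminaries: an embedding into `ℂ` and local endomorphism rings
-/

set_option autoImplicit false

namespace CfsgLib.Sy

open Polynomial Cardinal

variable {p : ℕ} [hp : Fact p.Prime]

theorem mk_padicInt_le : #ℤ_[p] ≤ 𝔠 := by
  have h : Function.Injective fun (x : ℤ_[p]) (n : ℕ) => (PadicInt.toZModPow n x).val := by
    intro x y h
    refine PadicInt.ext_of_toZModPow.mp fun n => ?_
    have : NeZero (p ^ n) := ⟨pow_ne_zero _ hp.out.ne_zero⟩
    exact ZMod.val_injective _ (congrFun h n)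
  refine (mk_le_of_injective h).trans ?_
  simp

theorem exists_embedding (p : ℕ) [Fact p.Prime] : ∃ ι : ℤ_[p] →+* ℂ, Function.Injective ι := by
  have h1 : #ℚ_[p] ≤ 𝔠 := by
    rw [IsFractionRing.cardinalMk ℤ_[p] ℚ_[p]]
    exact mk_padicInt_le
  have h2 : #(PadicAlgCl p) = 𝔠 := by
    refine le_antisymm ?_ ?_
    · refine (Algebra.IsAlgebraic.cardinalMk_le_max ℚ_[p] _).trans (max_le h1 aleph0_le_continuum)
    · exact (continuum_le_cardinal_of_nontriviallyNormedField ℚ_[p]).trans
        (mk_le_of_injective (algebraMap ℚ_[p] (PadicAlgCl p)).injective)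
  obtain ⟨e⟩ := IsAlgClosed.ringEquiv_of_equiv_of_charZero (K := PadicAlgCl p) (L := ℂ)
    (h2 ▸ aleph0_lt_continuum) (Cardinal.eq.mp (h2.trans mk_complex.symm))
  exact ⟨(e.toRingHom.comp (algebraMap ℚ_[p] _)).comp (algebraMap ℤ_[p] ℚ_[p]),
    (e.injective.comp (algebraMap ℚ_[p] _).injective).comp (IsFractionRing.injective _ _)⟩

/-- A weak form of Hensel's lemma. -/
theorem isUnit_eval_or {μ : ℤ_[p][X]} (hm : μ.Monic) (hi : Irreducible μ) :
    IsUnit (μ.eval 0) ∨ IsUnit (μ.eval 1) := by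
  by_contra hc
  push Not at hc
  obtain ⟨h0, h1⟩ := hc
  rw [PadicInt.not_isUnit_iff] at h0 h1
  set ν := μ.map (algebraMap ℤ_[p] ℚ_[p]) with hν
  have hνm : ν.Monic := hm.map _
  have hνi : Irreducible ν := (hm.irreducible_iff_irreducible_map_fraction_map).mp hi
  set κ := ν.map (algebraMap ℚ_[p] (PadicAlgCl p)) with hκ
  have hκm : κ.Monic := hνm.map _
  have hs : κ.Splits := IsAlgClosed.splits κ
  have hroot : ∀ a ∈ κ.roots, ‖a‖ = spectralValue ν := by
    intro a ha
    have : aeval a ν = 0 := by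
      have := (mem_roots hκm.ne_zero).mp ha
      rwa [IsRoot, hκ, eval_map_algebraMap] at this
    rw [← PadicAlgCl.spectralNorm_eq, spectralNorm, ← minpoly.eq_of_irreducible_of_monic hνi this hνm]
  have hev : ∀ x : ℤ_[p], ‖μ.eval x‖ =
      (κ.roots.map fun a => ‖algebraMap ℚ_[p] (PadicAlgCl p) (algebraMap ℤ_[p] ℚ_[p] x) - a‖).prod := by
    intro x
    have e1 : κ.eval (algebraMap ℚ_[p] (PadicAlgCl p) (algebraMap ℤ_[p] ℚ_[p] x)) =
        algebraMap ℚ_[p] (PadicAlgCl p) (algebraMap ℤ_[p] ℚ_[p] (μ.eval x)) := by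
      rw [hκ, hν, eval_map_apply, eval_map_apply]
    have e2 := hs.eval_eq_prod_roots_of_monic hκm
      (algebraMap ℚ_[p] (PadicAlgCl p) (algebraMap ℤ_[p] ℚ_[p] x))
    have e3 := congrArg (normHom : PadicAlgCl p →*₀ ℝ) (e1.symm.trans e2)
    rw [map_multiset_prod, Multiset.map_map] at e3
    refine Eq.trans ?_ e3
    exact (PadicAlgCl.norm_extends p _).symm
  have hlt : spectralValue ν < 1 := by
    by_contra hge
    push Not at hge
    rw [hev] at h0
    refine absurd h0 (not_lt.mpr (Multiset.prod_induction (fun x : ℝ => 1 ≤ x) _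
      (fun a b ha hb => one_le_mul_of_one_le_of_one_le ha hb) le_rfl fun x hx => ?_))
    obtain ⟨a, ha, rfl⟩ := Multiset.mem_map.mp hx
    simpa [hroot a ha] using hge
  rw [hev, Multiset.prod_eq_one] at h1
  · exact lt_irrefl _ h1
  · intro x hx
    obtain ⟨a, ha, rfl⟩ := Multiset.mem_map.mp hx
    have h2 : ‖-a‖ < ‖(1 : PadicAlgCl p)‖ := by rw [norm_neg, hroot a ha, norm_one]; exact hlt
    rw [map_one, map_one, sub_eq_add_neg, IsUltrametricDist.norm_add_eq_max_of_norm_ne_norm h2.ne',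
      max_eq_left h2.le, norm_one]

/-- An endomorphism all of whose polynomials are zero or injective generates a local ring. -/
theorem isUnit_or_of_injective {L : Type*} [AddCommGroup L] [Module ℤ_[p] L]
    [Module.Finite ℤ_[p] L] [Nontrivial L] (c : Module.End ℤ_[p] L)
    (hc : ∀ f : ℤ_[p][X], aeval c f = 0 ∨ Function.Injective (aeval c f)) :
    IsUnit c ∨ IsUnit (1 - c) := by
  let D := Algebra.adjoin ℤ_[p] {c}
  have hD : ∀ x ∈ D, ∃ f : ℤ_[p][X], aeval c f = x := fun x hx => by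
    have hx' : x ∈ Algebra.adjoin ℤ_[p] {c} := hx
    rwa [Algebra.adjoin_singleton_eq_range_aeval] at hx'
  have : NoZeroDivisors D := ⟨fun {x y} h => by
    obtain ⟨f, hf⟩ := hD x x.2
    rcases hc f with h0 | h0
    · exact Or.inl (Subtype.ext (hf.symm.trans h0))
    · refine Or.inr (Subtype.ext (LinearMap.ext fun l => h0 ?_))
      rw [hf, ← Module.End.mul_apply, ← Subalgebra.coe_mul, h]
      simp⟩
  have : IsDomain D := NoZeroDivisors.to_isDomain D
  let c' : D := ⟨c, Algebra.self_mem_adjoin_singleton _ _⟩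
  have hint : IsIntegral ℤ_[p] c' :=
    (isIntegral_algHom_iff D.val Subtype.val_injective).mp (Algebra.IsIntegral.isIntegral c)
  have h0 : aeval c (minpoly ℤ_[p] c') = 0 := by
    have := congrArg D.val (minpoly.aeval ℤ_[p] c')
    rwa [← aeval_algHom_apply, map_zero] at this
  have key : ∀ x : ℤ_[p], IsUnit ((minpoly ℤ_[p] c').eval x) →
      IsUnit (c - algebraMap ℤ_[p] _ x) := by
    intro x hx
    obtain ⟨q, hq⟩ := X_sub_C_dvd_sub_C_eval (p := minpoly ℤ_[p] c') (a := x)
    have e1 := congrArg (aeval c) hq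
    have e2 := congrArg (aeval c) (hq.trans (mul_comm _ _))
    rw [map_sub, h0, map_mul, map_sub, aeval_X, aeval_C, aeval_C, zero_sub] at e1 e2
    have hu := (hx.map (algebraMap ℤ_[p] (Module.End ℤ_[p] L))).neg
    obtain ⟨w, hw⟩ := hu
    have hc : Commute (c - algebraMap ℤ_[p] _ x) (aeval c q) := e1.symm.trans e2
    exact (hc.isUnit_mul_iff.mp ⟨w, hw.trans e1⟩).1
  rcases isUnit_eval_or (minpoly.monic hint) (minpoly.irreducible hint) with h | h
  · exact Or.inl (by simpa using key 0 h)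
  · exact Or.inr (by simpa using (key 1 h).neg)

end CfsgLib.Sy
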