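import Cfsg.Agent.Lib.Sy.LatA

/-!
# Herbrand quotient computation for a `ℤ_p`-lattice with an operator of order `p`
-/

set_option autoImplicit false

namespace CfsgLib.Sy

open Polynomial LinearMap Module

variable {p : ℕ} [hp : Fact p.Prime]
variable {M : Type*} [AddCommGroup M] [Module ℤ_[p] M]

/-- Additivity of the trace along the kernel and image of a commuting endomorphism. -/
theorem trace_eq_ker_add_range [Module.Free ℤ_[p] M] [Module.Finite ℤ_[p] M]
    (c g : End ℤ_[p] M) (h1 : ∀ x ∈ ker c, g x ∈ ker c)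
    (h2 : ∀ x ∈ range c, g x ∈ range c) (hc : c * g = g * c) :
    trace ℤ_[p] M g = trace ℤ_[p] _ (g.restrict h1) + trace ℤ_[p] _ (g.restrict h2) := by
  obtain ⟨s, hs⟩ := c.rangeRestrict.exists_rightInverse_of_surjective c.range_rangeRestrict
  have hs' : ∀ y, c (s y) = y := fun y => congrArg Subtype.val (LinearMap.congr_fun hs y)
  let r : M →ₗ[ℤ_[p]] ker c := (LinearMap.id - s ∘ₗ c.rangeRestrict).codRestrict _ fun x => by
    simp [mem_ker, hs']
  have e : g = (g ∘ₗ (ker c).subtype) ∘ₗ r + (g ∘ₗ s) ∘ₗ c.rangeRestrict := by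
    ext x; simp [r]
  conv_lhs => rw [e]
  rw [map_add, trace_comp_comm' r, trace_comp_comm' c.rangeRestrict]
  congr 2
  · ext x
    have : c.rangeRestrict (g x) = 0 := Subtype.ext (h1 x x.2)
    simp [r, this]
  · ext y
    have := LinearMap.congr_fun hc (s y)
    simpa [hs'] using this

/-- The relative index of submodules. -/
noncomputable def ri (A B : Submodule ℤ_[p] M) : ℕ := A.toAddSubgroup.relIndex B.toAddSubgroup

theorem ri_mul {A B C : Submodule ℤ_[p] M} (h1 : A ≤ B) (h2 : B ≤ C) :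
    ri A B * ri B C = ri A C :=
  AddSubgroup.relIndex_mul_relIndex _ _ _ h1 h2

theorem ri_map {N : Type*} [AddCommGroup N] [Module ℤ_[p] N] (f : M →ₗ[ℤ_[p]] N)
    (A B : Submodule ℤ_[p] M) : ri (A.map f) (B.map f) = ri (A ⊔ ker f) (B ⊔ ker f) := by
  have := AddSubgroup.relIndex_map_map f.toAddMonoidHom A.toAddSubgroup B.toAddSubgroup
  rw [ri, ri, Submodule.sup_toAddSubgroup, Submodule.sup_toAddSubgroup]
  exact this

theorem ri_map_inj {N : Type*} [AddCommGroup N] [Module ℤ_[p] N] {f : M →ₗ[ℤ_[p]] N}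
    (hf : Function.Injective f) (A B : Submodule ℤ_[p] M) : ri (A.map f) (B.map f) = ri A B := by
  rw [ri_map, ker_eq_bot.mpr hf, sup_bot_eq, sup_bot_eq]

/-- Multiplication by `p`. -/
noncomputable abbrev mp (p : ℕ) [Fact p.Prime] (M : Type*) [AddCommGroup M] [Module ℤ_[p] M] :
    End ℤ_[p] M := (p : ℤ_[p]) • LinearMap.id

theorem mp_injective [Module.Free ℤ_[p] M] : Function.Injective (mp p M) :=
  smul_right_injective M (by exact_mod_cast hp.out.ne_zero : (p : ℤ_[p]) ≠ 0)

theorem toZMod_eq_zero {x : ℤ_[p]} : PadicInt.toZMod x = 0 ↔ ∃ y, p * y = x := by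
  rw [← RingHom.mem_ker, PadicInt.ker_toZMod, PadicInt.maximalIdeal_eq_span_p,
    Ideal.mem_span_singleton]
  exact ⟨fun ⟨y, h⟩ => ⟨y, h.symm⟩, fun ⟨y, h⟩ => ⟨y, h.symm⟩⟩

theorem toZMod_surj : Function.Surjective (PadicInt.toZMod : ℤ_[p] → ZMod p) :=
  ZMod.ringHom_surjective _

theorem ri_mp_top [Module.Free ℤ_[p] M] [Module.Finite ℤ_[p] M] :
    ri (range (mp p M)) ⊤ = p ^ finrank ℤ_[p] M := by
  let b := Module.finBasis ℤ_[p] M
  let f : M →+ (Fin (finrank ℤ_[p] M) → ZMod p) :=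
    { toFun := fun x i => PadicInt.toZMod (b.repr x i)
      map_zero' := by ext; simp
      map_add' := fun x y => by ext; simp }
  have hk : (range (mp p M)).toAddSubgroup = f.ker := by
    ext x
    rw [AddMonoidHom.mem_ker, funext_iff]
    constructor
    · rintro ⟨y, rfl⟩ i
      exact toZMod_eq_zero.mpr ⟨b.repr y i, by simp⟩
    · intro h
      choose y hy using fun i => toZMod_eq_zero.mp (h i)
      refine ⟨b.equivFun.symm y, b.equivFun.injective (funext fun i => ?_)⟩
      rw [LinearMap.smul_apply, map_smul, LinearMap.id_apply, LinearEquiv.apply_symm_apply]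
      exact hy i
  have hr : f.range = ⊤ := AddMonoidHom.range_eq_top.mpr fun z => by
    choose y hy using fun i => toZMod_surj (z i)
    refine ⟨b.equivFun.symm y, funext fun i => ?_⟩
    change PadicInt.toZMod (b.equivFun (b.equivFun.symm y) i) = _
    rw [LinearEquiv.apply_symm_apply, hy]
  rw [ri, Submodule.top_toAddSubgroup, AddSubgroup.relIndex_top_right, hk, AddSubgroup.index_ker, hr,
    AddSubgroup.card_top, Nat.card_fun, Nat.card_zmod, Nat.card_fin]

theorem ri_mp [Module.Free ℤ_[p] M] [Module.Finite ℤ_[p] M] (A : Submodule ℤ_[p] M) :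
    ri (A.map (mp p M)) A = p ^ finrank ℤ_[p] A := by
  rw [← ri_mp_top, ← ri_map_inj A.subtype_injective, Submodule.map_top, Submodule.range_subtype]
  congr 1
  ext x
  constructor
  · rintro ⟨y, hy, rfl⟩
    exact ⟨_, ⟨⟨y, hy⟩, rfl⟩, rfl⟩
  · rintro ⟨_, ⟨y, rfl⟩, rfl⟩
    exact ⟨y, y.2, rfl⟩

theorem ri_pow {f : End ℤ_[p] M} (hf : Function.Injective f) (k : ℕ) :
    ri (range (f ^ k)) ⊤ = ri (range f) ⊤ ^ k := by
  induction k with
  | zero => simp [ri, Module.End.one_eq_id]
  | succ k ih =>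
    rw [pow_succ, pow_succ, ← ih, ← ri_mul (A := range (f ^ k * f)) (B := range (f ^ k))
      (range_comp_le_range _ _) le_top, mul_comm _ (ri (range f) ⊤), ← ri_map_inj (Module.End.iterate_injective hf k) (range f) ⊤, Submodule.map_top,
      ← range_comp]
    rfl

theorem ri_le_of_cyclic {X Y : Submodule ℤ_[p] M} {m : M} (hm : m ∈ X)
    (hpm : (p : ℤ_[p]) • m ∈ Y) (h : ∀ x ∈ X, ∃ c : ℤ_[p], x - c • m ∈ Y) : ri Y X ≤ p := by
  let f : ZMod p → X.toAddSubgroup ⧸ Y.toAddSubgroup.addSubgroupOf X.toAddSubgroup :=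
    fun z => QuotientAddGroup.mk ⟨((z.val : ℕ) : ℤ_[p]) • m, X.smul_mem _ hm⟩
  have hf : Function.Surjective f := by
    rintro ⟨x, hx⟩
    obtain ⟨c, hc⟩ := h x hx
    refine ⟨PadicInt.toZMod c, QuotientAddGroup.eq.mpr ?_⟩
    obtain ⟨y, hy⟩ := toZMod_eq_zero.mp (show PadicInt.toZMod
      (c - (((PadicInt.toZMod c).val : ℕ) : ℤ_[p])) = 0 by
        rw [map_sub, map_natCast, ZMod.natCast_zmod_val, sub_self])
    change -((((PadicInt.toZMod c).val : ℕ) : ℤ_[p]) • m) + x ∈ Y
    have : -((((PadicInt.toZMod c).val : ℕ) : ℤ_[p]) • m) + x =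
        (x - c • m) + y • ((p : ℤ_[p]) • m) := by
      rw [smul_smul, mul_comm, hy, sub_smul]; abel
    rw [this]
    exact Y.add_mem hc (Y.smul_mem _ hpm)
  exact (Nat.card_le_card_of_surjective f hf).trans (Nat.card_zmod p).le

/-- The norm operator. -/
noncomputable def sg (u : End ℤ_[p] M) : End ℤ_[p] M := ∑ i ∈ Finset.range p, u ^ i

variable {u : End ℤ_[p] M}

theorem sg_mul (hu : u ^ p = 1) : sg u * (1 - u) = 0 := by
  rw [sg, geom_sum_mul_neg, hu, sub_self]

theorem mul_sg (hu : u ^ p = 1) : (1 - u) * sg u = 0 := by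
  rw [sg, mul_neg_geom_sum, hu, sub_self]

theorem pow_apply_of_fixed {x : M} (hx : x ∈ ker (1 - u)) (i : ℕ) : (u ^ i) x = x := by
  have : u x = x := by
    rw [mem_ker, LinearMap.sub_apply, Module.End.one_apply, sub_eq_zero] at hx; exact hx.symm
  induction i with
  | zero => rfl
  | succ i ih => rw [pow_succ, Module.End.mul_apply, this, ih]

theorem sg_of_fixed {x : M} (hx : x ∈ ker (1 - u)) : sg u x = (p : ℤ_[p]) • x := by
  simp [sg, LinearMap.sum_apply, pow_apply_of_fixed hx, Nat.cast_smul_eq_nsmul]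

theorem range_sg_le (hu : u ^ p = 1) : range (sg u) ≤ ker (1 - u) :=
  range_le_ker_iff.mpr (mul_sg hu)

theorem range_le_ker_sg (hu : u ^ p = 1) : range (1 - u) ≤ ker (sg u) :=
  range_le_ker_iff.mpr (sg_mul hu)

theorem exists_poly (p : ℕ) [hp : Fact p.Prime] : ∃ h k : ℤ_[p][X],
    (1 - X) ^ (p - 1) = ∑ i ∈ Finset.range p, X ^ i + C (p : ℤ_[p]) * h ∧
      h = -1 + (1 - X) * k := by
  have h1 : ((1 - X) ^ (p - 1) - ∑ i ∈ Finset.range p, X ^ i : ℤ_[p][X]).map PadicInt.toZMod = 0 := by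
    have hne : (1 - X : (ZMod p)[X]) ≠ 0 := fun h => by simpa using congrArg (eval 0) h
    refine mul_right_cancel₀ hne ?_
    simp only [Polynomial.map_sub, Polynomial.map_pow, Polynomial.map_one, map_X,
      Polynomial.map_sum]
    rw [sub_mul, geom_sum_mul_neg, ← pow_succ, Nat.sub_add_cancel hp.out.one_le, sub_pow_char,
      one_pow, sub_self, zero_mul]
  obtain ⟨h, hh⟩ : C (p : ℤ_[p]) ∣ (1 - X) ^ (p - 1) - ∑ i ∈ Finset.range p, X ^ i := by
    rw [C_dvd_iff_dvd_coeff]
    intro i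
    have := congrArg (coeff · i) h1
    simp only [coeff_map, coeff_zero] at this
    obtain ⟨y, hy⟩ := toZMod_eq_zero.mp this
    exact ⟨y, hy.symm⟩
  have h2 : h.eval 1 = -1 := by
    have := congrArg (eval 1) hh
    have hp1 : p - 1 ≠ 0 := by have := hp.out.two_le; omega
    simp only [eval_sub, eval_pow, eval_one, eval_X, sub_self, zero_pow hp1, eval_finsetSum,
      one_pow, Finset.sum_const, Finset.card_range, nsmul_eq_mul, mul_one, zero_sub, eval_mul,
      eval_C] at this
    exact mul_left_cancel₀ (by exact_mod_cast hp.out.ne_zero : (p : ℤ_[p]) ≠ 0)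
      (by rw [← this]; ring)
  obtain ⟨k, hk⟩ := X_sub_C_dvd_sub_C_eval (p := h) (a := 1)
  refine ⟨h, -k, by rw [← hh]; ring, ?_⟩
  rw [h2, map_neg, map_one] at hk
  linear_combination hk

/-- On a lattice killed by the norm, `(1 - u) ^ (p - 1)` and `p` have the same image. -/
theorem range_pow_eq [Module.Finite ℤ_[p] M] (h0 : sg u = 0) :
    range ((1 - u) ^ (p - 1)) = range (mp p M) := by
  obtain ⟨h, k, e1, e2⟩ := exists_poly p
  have f1 := congrArg (aeval u) e1
  have f2 := congrArg (aeval u) e2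
  simp only [map_pow, map_sub, map_one, aeval_X, map_add, map_sum, map_mul, aeval_C, map_neg]
    at f1 f2
  have f3 : (1 - u) ^ (p - 1) = mp p M * aeval u h := by
    rw [f1]; change sg u + _ = _
    rw [h0, zero_add]; rfl
  have hc : ∀ x, ∀ n : ℕ, ∃ y z, x = aeval u h y + ((1 - u) ^ n) z := by
    intro x n
    induction n with
    | zero => exact ⟨0, x, by simp⟩
    | succ n ih =>
      obtain ⟨y, z, rfl⟩ := ih
      refine ⟨y - ((1 - u) ^ n) z, aeval u k z, ?_⟩
      have hcm : Commute (aeval u h) ((1 - u) ^ n) := by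
        have : (1 - u) ^ n = aeval u ((1 - X) ^ n : ℤ_[p][X]) := by simp
        rw [this]; exact (Commute.all _ _).map _
      have : aeval u h (((1 - u) ^ n) z) = -((1 - u) ^ n) z + ((1 - u) ^ (n + 1)) (aeval u k z) := by
        rw [← Module.End.mul_apply, hcm.eq, Module.End.mul_apply, f2, pow_succ]
        simp
      rw [map_sub, this]; abel
  have hs : range (aeval u h) = ⊤ := by
    refine eq_top_iff.mpr (Submodule.le_of_le_smul_of_le_jacobson_bot (I := Ideal.span {(p : ℤ_[p])})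
      Module.Finite.fg_top ?_ fun x _ => ?_)
    · rw [← PadicInt.maximalIdeal_eq_span_p, IsLocalRing.jacobson_eq_maximalIdeal ⊥ bot_ne_top]
    · obtain ⟨y, z, rfl⟩ := hc x (p - 1)
      refine Submodule.add_mem_sup ⟨y, rfl⟩ ?_
      rw [f3]
      exact Submodule.smul_mem_smul (Ideal.mem_span_singleton_self _) Submodule.mem_top
  rw [f3]
  exact range_comp_of_range_eq_top _ hs

theorem herbrand [Module.Free ℤ_[p] M] [Module.Finite ℤ_[p] M] (hu : u ^ p = 1)
    (h0 : ri (range (sg u)) (ker (1 - u)) ≤ p) (h1 : ri (range (1 - u)) (ker (sg u)) ≤ p) :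
    ∃ a j : ℕ, trace ℤ_[p] M (sg u) = p * a ∧ finrank ℤ_[p] M = j * (p - 1) + a ∧
      a ≤ j + 1 ∧ j ≤ a + 1 := by
  have hp1 := hp.out.one_lt
  set a := finrank ℤ_[p] (range (sg u))
  set b := finrank ℤ_[p] (ker (sg u))
  have hd : finrank ℤ_[p] M = b + a := by
    have := trace_eq_ker_add_range (sg u) 1 (fun _ h => h) (fun _ h => h) (by simp)
    rw [trace_one, show LinearMap.restrict (1 : End ℤ_[p] M) _ = 1 from rfl, trace_one,
      show LinearMap.restrict (1 : End ℤ_[p] M) _ = 1 from rfl, trace_one] at this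
    exact_mod_cast this
  have ht : trace ℤ_[p] M (sg u) = p * a := by
    rw [trace_eq_ker_add_range (sg u) (sg u) (fun x h => by rw [mem_ker.mp h]; exact zero_mem _)
      (fun x _ => mem_range_self _ x) rfl]
    rw [show (sg u).restrict _ = (0 : End ℤ_[p] (ker (sg u))) from
        LinearMap.ext fun x => Subtype.ext x.2,
      show (sg u).restrict _ = (p : ℤ_[p]) • (1 : End ℤ_[p] (range (sg u))) from
        LinearMap.ext fun x => Subtype.ext (sg_of_fixed (range_sg_le hu x.2)),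
      map_zero, zero_add, map_smul, trace_one, smul_eq_mul]
  set J := ri (ker (1 - u) ⊔ ker (sg u)) ⊤
  have e0 : (ker (1 - u)).map (sg u) = (ker (1 - u)).map (mp p M) := by
    ext x
    exact ⟨fun ⟨y, hy, h⟩ => ⟨y, hy, (sg_of_fixed hy).symm.trans h⟩,
      fun ⟨y, hy, h⟩ => ⟨y, hy, (sg_of_fixed hy).trans h⟩⟩
  have e1 : ri (range (sg u)) (ker (1 - u)) * J = p ^ a := by
    have : J = ri ((ker (1 - u)).map (mp p M)) (range (sg u)) := by
      rw [← e0, ← Submodule.map_top, ri_map, top_sup_eq]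
    rw [this, ← ri_map_inj mp_injective, ri_mul (Submodule.map_mono (range_sg_le hu))
      (e0 ▸ LinearMap.map_le_range), ri_mp]
  have hst : ∀ x ∈ ker (sg u), u x ∈ ker (sg u) := fun x hx => by
    have := range_le_ker_sg hu ⟨x, rfl⟩
    simpa using sub_mem hx this
  let v : End ℤ_[p] (ker (sg u)) := u.restrict hst
  have hv : ∀ (i : ℕ) x, ((v ^ i) x : M) = (u ^ i) x := fun i x => by
    rw [Module.End.pow_restrict]; rfl
  have hv0 : sg v = 0 := LinearMap.ext fun x => Subtype.ext (by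
    have := mem_ker.mp x.2
    have h2 : (∑ i ∈ Finset.range p, u ^ i) (x : M) = 0 := this
    rw [LinearMap.sum_apply] at h2
    change (((∑ i ∈ Finset.range p, v ^ i) x : ker (sg u)) : M) = 0
    rw [LinearMap.sum_apply, Submodule.coe_sum, Finset.sum_congr rfl fun i _ => hv i x, h2])
  have hvi : Function.Injective (1 - v : End ℤ_[p] _) := by
    rw [← ker_eq_bot, eq_bot_iff]
    intro x hx
    have := sg_of_fixed hx
    rw [hv0] at this
    exact mp_injective (p := p) (this.symm.trans (map_zero (mp p _)).symm)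
  have e2 : J * ri (range (1 - u)) (ker (sg u)) = ri (range (1 - v)) ⊤ := by
    have : J = ri ((ker (sg u)).map (1 - u)) (range (1 - u)) := by
      rw [← Submodule.map_top, ri_map, top_sup_eq, sup_comm]
    rw [this, ri_mul LinearMap.map_le_range (range_le_ker_sg hu),
      ← ri_map_inj (ker (sg u)).subtype_injective, Submodule.map_top, Submodule.range_subtype]
    congr 1
    ext x
    constructor
    · rintro ⟨y, hy, rfl⟩
      exact ⟨_, ⟨⟨y, hy⟩, rfl⟩, rfl⟩
    · rintro ⟨_, ⟨y, rfl⟩, rfl⟩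
      exact ⟨y, y.2, rfl⟩
  have e3 : (J * ri (range (1 - u)) (ker (sg u))) ^ (p - 1) = p ^ b := by
    rw [e2, ← ri_pow hvi, range_pow_eq hv0, ri_mp_top]
  generalize ri (range (sg u)) (ker (1 - u)) = x at *
  generalize ri (range (1 - u)) (ker (sg u)) = y at *
  have hx : 1 ≤ x := Nat.pos_of_ne_zero fun h => by
    rw [h, zero_mul] at e1; exact (pow_ne_zero _ hp.out.ne_zero) e1.symm
  have hy : 1 ≤ y := Nat.pos_of_ne_zero fun h => by
    rw [h, mul_zero, zero_pow (by omega)] at e3; exact (pow_ne_zero _ hp.out.ne_zero) e3.symm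
  obtain ⟨j, -, hj⟩ := (Nat.dvd_prime_pow hp.out).mp
    (e3 ▸ dvd_pow_self (J * y) (by omega : p - 1 ≠ 0))
  rw [hj, ← pow_mul] at e3
  have e4 := Nat.pow_right_injective hp1 e3
  have i1 : p ^ a ≤ p ^ (j + 1) := by
    rw [← e1, pow_succ, ← hj, mul_comm]
    exact Nat.mul_le_mul (Nat.le_mul_of_pos_right J hy) h0
  have i2 : p ^ j ≤ p ^ (a + 1) := by
    rw [pow_succ, ← e1, ← hj]
    exact Nat.mul_le_mul (Nat.le_mul_of_pos_left J hx) h1
  rw [Nat.pow_le_pow_iff_right hp1] at i1 i2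
  exact ⟨a, j, ht, by omega, i1, i2⟩

end CfsgLib.Sy
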