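import Cfsg.Agent.Lib.Sy.LatB
import Cfsg.Agent.Lib.Sy.Defs

/-!
# Tate cohomology of a lattice with local endomorphism ring
-/

set_option autoImplicit false

namespace CfsgLib.Sy

open Polynomial LinearMap Module Subgroup

variable {p : ℕ} [hp : Fact p.Prime]

theorem sum_free {X A : Type*} [AddCommMonoid A] (π : X → X) (hπ : ∀ x, π^[p] x = x) (a : ℕ → A →+ A)
    (F : X → A) (hF : ∀ i x, F (π^[i] x) = a i (F x)) (S : Finset X)
    (hS : ∀ x ∈ S, π x ∈ S ∧ π x ≠ x) : ∃ ψ, ∑ x ∈ S, F x = ∑ i ∈ Finset.range p, a i ψ := by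
  classical
  induction S using Finset.strongInduction with
  | H S ih =>
  rcases S.eq_empty_or_nonempty with rfl | ⟨x, hx⟩
  · exact ⟨0, by simp⟩
  have hm : Function.minimalPeriod π x = p := Function.minimalPeriod_eq_prime (hπ x) (hS x hx).2
  let O := (Finset.range p).image fun i => π^[i] x
  have hO : ∀ i, π^[i] x ∈ O := fun i => Finset.mem_image.mpr
    ⟨i % p, Finset.mem_range.mpr (Nat.mod_lt _ hp.out.pos), by
      rw [← hm, Function.iterate_mod_minimalPeriod_eq]⟩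
  have hOS : O ⊆ S := by
    intro y hy
    obtain ⟨i, -, rfl⟩ := Finset.mem_image.mp hy
    induction i with
    | zero => exact hx
    | succ i ih => rw [Function.iterate_succ_apply']; exact (hS _ (ih (hO i))).1
  obtain ⟨ψ, hψ⟩ := ih (S \ O) (Finset.sdiff_ssubset hOS ⟨x, hO 0⟩) fun y hy => by
    obtain ⟨h1, h2⟩ := Finset.mem_sdiff.mp hy
    refine ⟨Finset.mem_sdiff.mpr ⟨(hS y h1).1, fun h => h2 ?_⟩, (hS y h1).2⟩
    obtain ⟨i, -, hi⟩ := Finset.mem_image.mp h
    have : y = π^[p - 1 + i] x := by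
      rw [Function.iterate_add_apply, hi, ← Function.iterate_succ_apply, Nat.succ_eq_add_one,
        Nat.sub_add_cancel hp.out.one_le, hπ]
    exact this ▸ hO _
  refine ⟨ψ + F x, ?_⟩
  rw [← Finset.sum_sdiff hOS, hψ, Finset.sum_image fun i hi j hj h =>
    Function.iterate_injOn_Iio_minimalPeriod (f := π) (x := x) (by simpa [hm] using hi)
      (by simpa [hm] using hj) h]
  simp [hF, Finset.sum_add_distrib]

variable {G : Type*} [Group G] [Fintype G] {P : Subgroup G} {u : G}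
variable {L : Type*} [AddCommGroup L] [Module ℤ_[p] L]

omit hp [Fintype G] in
theorem exists_gen_norm [Finite G] (hp : p.Prime) (hP : Nat.card P = p) :
    ∃ y ∈ normalizer (P : Set G), y ^ (p - 1) ∈ centralizer (P : Set G) ∧
      ∀ g ∈ normalizer (P : Set G), ∃ k : ℕ, ∃ c ∈ centralizer (P : Set G), g = y ^ k * c := by
  have := Fact.mk hp
  have hc : IsCyclic P := isCyclic_of_prime_card hP
  have hF : Fact (Nat.card P).Prime := ⟨hP ▸ hp⟩
  have hA : IsCyclic (MulAut P) := isCyclic_of_surjective _ (IsCyclic.mulAutMulEquiv P).symm.surjective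
  obtain ⟨⟨_, y, rfl⟩, hy⟩ := IsCyclic.exists_monoid_generator (α := P.normalizerMonoidHom.range)
  have hk : ∀ z : normalizer (P : Set G), P.normalizerMonoidHom z = 1 →
      (z : G) ∈ centralizer (P : Set G) := fun z hz => by
    have : z ∈ P.normalizerMonoidHom.ker := hz
    rwa [normalizerMonoidHom_ker] at this
  refine ⟨y, y.2, hk (y ^ (p - 1)) ?_, fun g hg => ?_⟩
  · rw [map_pow, ← Nat.totient_prime hp, ← hP, ← IsCyclic.card_mulAut, pow_card_eq_one']
  · obtain ⟨k, hk'⟩ := hy ⟨_, ⟨g, hg⟩, rfl⟩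
    refine ⟨k, _, hk ((y ^ k)⁻¹ * ⟨g, hg⟩) ?_, by simp⟩
    have := congrArg Subtype.val hk'
    simp only [SubmonoidClass.coe_pow] at this
    rw [map_mul, map_inv, map_pow, this, inv_mul_cancel]

theorem exists_eigen {T : End ℤ_[p] L} {Z Y : Submodule ℤ_[p] L} (hZ : ∀ l ∈ Z, T l ∈ Z)
    (hpZ : ∀ l ∈ Z, (p : ℤ_[p]) • l ∈ Y) (hT : ∀ l ∈ Z, (T ^ p) l - T l ∈ Y) {m : L}
    (hm : m ∈ Z) (hY : m ∉ Y) : ∃ m ∈ Z, m ∉ Y ∧ ∃ a : ℤ_[p], T m - a • m ∈ Y := by
  by_contra hc
  push Not at hc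
  have hf : ∀ (f : ℤ_[p][X]), ∀ l ∈ Z, aeval T f l ∈ Z := by
    intro f l hl
    induction f using Polynomial.induction_on' with
    | add f g hf hg => rw [map_add]; exact Z.add_mem hf hg
    | monomial n a =>
      rw [aeval_monomial, Module.End.mul_apply, Module.algebraMap_end_apply]
      exact Z.smul_mem _ (Module.End.pow_apply_mem_of_forall_mem n hZ l hl)
  have key : ∀ s : Finset (ZMod p), aeval T (∏ a ∈ s, (X - C ((a.val : ℕ) : ℤ_[p]))) m ∉ Y := by
    intro s
    induction s using Finset.induction_on with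
    | empty => simpa using hY
    | insert a s ha ih =>
      rw [Finset.prod_insert ha, map_mul, Module.End.mul_apply]
      have := hc _ (hf _ m hm) ih ((a.val : ℕ) : ℤ_[p])
      simpa [Module.algebraMap_end_apply] using this
  obtain ⟨h, hh⟩ : C (p : ℤ_[p]) ∣ ∏ a : ZMod p, (X - C ((a.val : ℕ) : ℤ_[p])) - (X ^ p - X) := by
    have h1 : (∏ a : ZMod p, (X - C ((a.val : ℕ) : ℤ_[p])) - (X ^ p - X)).map PadicInt.toZMod = 0 := by
      have hr := FiniteField.roots_X_pow_card_sub_X (ZMod p)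
      have hd := FiniteField.X_pow_card_sub_X_natDegree_eq (ZMod p) hp.out.one_lt
      rw [ZMod.card] at hr
      have hmon : (X ^ p - X : (ZMod p)[X]).Monic := monic_X_pow_sub (by
        rw [degree_X]; exact_mod_cast hp.out.one_lt)
      have := prod_multiset_X_sub_C_of_monic_of_roots_card_eq hmon (by rw [hr, hd]; simp)
      rw [hr] at this
      simp only [Polynomial.map_sub, Polynomial.map_prod, map_X, map_natCast,
        Polynomial.map_pow, Polynomial.map_natCast]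
      rw [← this, sub_eq_zero]
      refine Finset.prod_congr rfl fun a _ => ?_
      rw [← C_eq_natCast, ZMod.natCast_zmod_val]
    rw [C_dvd_iff_dvd_coeff]
    intro i
    have := congrArg (coeff · i) h1
    simp only [coeff_map, coeff_zero] at this
    obtain ⟨y, hy⟩ := toZMod_eq_zero.mp this
    exact ⟨y, hy.symm⟩
  refine key Finset.univ ?_
  rw [sub_eq_iff_eq_add.mp hh, map_add, map_mul, aeval_C, map_sub, map_pow, aeval_X,
    LinearMap.add_apply, Module.End.mul_apply, Module.algebraMap_end_apply]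
  exact Y.add_mem (hpZ _ (hf h m hm)) (hT m hm)

/-- The transfer of a `P`-endomorphism. -/
theorem exists_transfer (ρ : G →* End ℤ_[p] L) (hP : Nat.card P = p) (hi : ¬ p ∣ P.index)
    (hu : u ∈ P) (h1 : u ≠ 1) {φ : End ℤ_[p] L} (hφ : ρ u * φ = φ * ρ u) :
    ∃ (c ψ : End ℤ_[p] L) (T : Finset G), (∀ g, ρ g * c = c * ρ g) ∧
      (∀ g ∈ T, g ∈ normalizer (P : Set G)) ∧ ¬ p ∣ T.card ∧
      c = ∑ g ∈ T, ρ g * φ * ρ g⁻¹ + ∑ i ∈ Finset.range p, ρ (u ^ i) * ψ * ρ (u ^ i)⁻¹ := by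
  classical
  have hz : zpowers u = P := Blk.D1.eq_zpowers hp.out hP hu h1
  have hup : u ^ p = 1 := hP ▸ congrArg Subtype.val (pow_card_eq_one' (x := (⟨u, hu⟩ : P)))
  have hx : ∀ x ∈ P, ρ x * φ * ρ x⁻¹ = φ := by
    intro x hx
    rw [← hz, mem_zpowers_iff_mem_range_orderOf] at hx
    obtain ⟨k, -, rfl⟩ := Finset.mem_image.mp hx
    rw [map_pow, (Commute.pow_left hφ k).eq, mul_assoc, ← map_pow, ← map_mul, mul_inv_cancel,
      map_one, mul_one]
  let F : G ⧸ P → End ℤ_[p] L := fun q => ρ q.out * φ * ρ q.out⁻¹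
  have hF : ∀ g : G, F g = ρ g * φ * ρ g⁻¹ := fun g => by
    obtain ⟨x, hx'⟩ := QuotientGroup.mk_out_eq_mul P g
    simp only [F, hx', mul_inv_rev, map_mul]
    conv_rhs => rw [← hx x x.2]
    simp only [mul_assoc]
  have hF' : ∀ (g : G) q, F (g • q) = ρ g * F q * ρ g⁻¹ := by
    rintro g ⟨x⟩
    change F ((g * x : G) : G ⧸ P) = ρ g * F (x : G ⧸ P) * _
    simp only [hF, mul_inv_rev, map_mul, mul_assoc]
  have hper : ∀ q : G ⧸ P, (fun q : G ⧸ P => u • q)^[p] q = q :=
    fun q => by rw [smul_iterate, hup]; exact one_smul _ _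
  have hS : ∀ q ∈ Finset.univ.filter fun q : G ⧸ P => ¬ u • q = q,
      u • q ∈ (Finset.univ.filter fun q : G ⧸ P => ¬ u • q = q) ∧ u • q ≠ q := fun q hq => by
    have := (Finset.mem_filter.mp hq).2
    exact ⟨Finset.mem_filter.mpr ⟨Finset.mem_univ _, fun h => this (smul_left_cancel u h)⟩, this⟩
  obtain ⟨ψ, hψ⟩ := sum_free (p := p) _ hper
    (fun i => (AddMonoidHom.mulRight (ρ (u ^ i)⁻¹)).comp (AddMonoidHom.mulLeft (ρ (u ^ i)))) F
    (fun i q => by rw [smul_iterate]; exact hF' _ _) _ hS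
  obtain ⟨k, hk⟩ := sum_free (p := p) _ hper (fun _ => AddMonoidHom.id ℕ) (fun _ => 1)
    (fun _ _ => rfl) _ hS
  have hfix : ∀ g : G, u • (g : G ⧸ P) = g ↔ g ∈ normalizer (P : Set G) := fun g => by
    change ((u * g : G) : G ⧸ P) = g ↔ _
    rw [eq_comm, QuotientGroup.eq, ← inv_mem_iff (x := g)]
    refine ⟨fun h => mem_normalizer_fintype fun y hy => ?_, fun h => ?_⟩
    · rw [← hz] at hy
      obtain ⟨k, rfl⟩ := hy
      simp only [← conj_zpow]
      exact P.zpow_mem (by simpa [mul_assoc] using h) k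
    · simpa [mul_assoc] using (mem_normalizer_iff.mp h u).mp hu
  refine ⟨∑ q, F q, ψ, (Finset.univ.filter fun q : G ⧸ P => u • q = q).image Quotient.out,
    fun g => ?_, fun g hg => ?_, ?_, ?_⟩
  · rw [Finset.mul_sum, Finset.sum_mul]
    refine Fintype.sum_equiv (MulAction.toPerm g) _ _ fun q => ?_
    rw [MulAction.toPerm_apply, hF', mul_assoc, ← map_mul, inv_mul_cancel, map_one, mul_one]
  · obtain ⟨q, hq, rfl⟩ := Finset.mem_image.mp hg
    exact (hfix _).mp (by simpa using hq)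
  · rw [Finset.card_image_of_injective _ Quotient.out_injective]
    intro hd
    refine hi ?_
    rw [Subgroup.index, Nat.card_eq_fintype_card, ← Finset.card_univ,
      ← Finset.card_filter_add_card_filter_not fun q : G ⧸ P => u • q = q]
    refine dvd_add hd ⟨k, ?_⟩
    simpa using hk
  · rw [Finset.sum_image fun _ _ _ _ h => Quotient.out_injective h,
      ← Finset.sum_filter_add_sum_filter_not _ fun q : G ⧸ P => u • q = q, hψ]
    rfl

/-- Data describing a Tate cohomology group `X / Y`. -/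
structure TD (ρ : G →* End ℤ_[p] L) (P : Subgroup G) (u : G) (X Y : Submodule ℤ_[p] L) : Prop where
  pX : ∀ l ∈ X, (p : ℤ_[p]) • l ∈ Y
  normX : ∀ g ∈ normalizer (P : Set G), ∀ l ∈ X, ρ g l ∈ X
  normY : ∀ g ∈ normalizer (P : Set G), ∀ l ∈ Y, ρ g l ∈ Y
  comm : ∀ d : End ℤ_[p] L, (∀ g, ρ g * d = d * ρ g) → (∀ l ∈ X, d l ∈ X) ∧ ∀ l ∈ Y, d l ∈ Y
  tr : ∀ ψ : End ℤ_[p] L, ∀ l ∈ X, (∑ i ∈ Finset.range p, ρ (u ^ i) * ψ * ρ (u ^ i)⁻¹) l ∈ Y
  surj : ∀ m ∈ X, ∀ g : Y →ₗ[ℤ_[p]] ℤ_[p], ∃ φ : End ℤ_[p] L, ρ u * φ = φ * ρ u ∧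
    ∀ l (hl : l ∈ X), φ l - g ⟨_, pX l hl⟩ • m ∈ Y

theorem TD.cyclic [Module.Free ℤ_[p] L] [Module.Finite ℤ_[p] L] {ρ : G →* End ℤ_[p] L}
    {X Y : Submodule ℤ_[p] L} (h : TD ρ P u X Y) (hP : Nat.card P = p) (hi : ¬ p ∣ P.index)
    (hu : u ∈ P) (h1 : u ≠ 1)
    (hloc : ∀ c : End ℤ_[p] L, (∀ g, ρ g * c = c * ρ g) → IsUnit c ∨ IsUnit (1 - c)) :
    ∃ m ∈ X, ∀ l ∈ X, (∀ v ∈ centralizer (P : Set G), ρ v l - l ∈ Y) → ∃ c : ℤ_[p], l - c • m ∈ Y := by
  have hCN := centralizer_le_normalizer (P : Set G)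
  let Z : Submodule ℤ_[p] L :=
    { carrier := {l | l ∈ X ∧ ∀ v ∈ centralizer (P : Set G), ρ v l - l ∈ Y}
      add_mem' := fun {a b} ha hb => ⟨X.add_mem ha.1 hb.1, fun v hv => by
        rw [map_add, add_sub_add_comm]; exact Y.add_mem (ha.2 v hv) (hb.2 v hv)⟩
      zero_mem' := ⟨X.zero_mem, fun v _ => by simp⟩
      smul_mem' := fun c a ha => ⟨X.smul_mem c ha.1, fun v hv => by
        rw [map_smul, ← smul_sub]; exact Y.smul_mem c (ha.2 v hv)⟩ }
  by_cases hZ : Z ≤ Y
  · exact ⟨0, X.zero_mem, fun l hl h' => ⟨0, by simpa using hZ ⟨hl, h'⟩⟩⟩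
  obtain ⟨m0, hm0, hm0'⟩ := SetLike.not_le_iff_exists.mp hZ
  obtain ⟨y, hy, hyp, hgen⟩ := exists_gen_norm hp.out hP
  have hZy : ∀ l ∈ Z, ρ y l ∈ Z := fun l hl => ⟨h.normX y hy l hl.1, fun v hv => by
    have hv' : y⁻¹ * v * y ∈ centralizer (P : Set G) := fun x hx => by
      have := hv _ ((mem_normalizer_iff.mp hy x).mp hx)
      calc x * (y⁻¹ * v * y) = y⁻¹ * (y * x * y⁻¹ * v) * y := by group
        _ = _ := by rw [this]; group
    have := h.normY y hy _ (hl.2 _ hv')
    rwa [map_sub, ← Module.End.mul_apply, ← map_mul, show y * (y⁻¹ * v * y) = v * y by group,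
      map_mul] at this⟩
  obtain ⟨m, hm, hmY, a, ha⟩ := exists_eigen hZy (fun l hl => h.pX l hl.1) (fun l hl => by
    have := h.normY y hy _ (hl.2 _ hyp)
    rwa [map_sub, ← Module.End.mul_apply, ← map_mul, ← pow_succ',
      Nat.sub_add_cancel hp.out.one_le, map_pow] at this) hm0 hm0'
  have heig : ∀ g ∈ normalizer (P : Set G), ∃ b : ℤ_[p], ρ g m - b • m ∈ Y := by
    intro g hg
    obtain ⟨k, c, hc, rfl⟩ := hgen g hg
    have : ρ (y ^ k) m - a ^ k • m ∈ Y := by
      induction k with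
      | zero => simp
      | succ k ih =>
        have := Y.add_mem (h.normY y hy _ (ih (mul_mem (pow_mem hy k) (hCN hc))))
          (Y.smul_mem (a ^ k) ha)
        rwa [map_sub, ← Module.End.mul_apply, ← map_mul, ← pow_succ', map_smul, smul_sub,
          sub_add_sub_cancel, smul_smul, ← pow_succ] at this
    refine ⟨a ^ k, ?_⟩
    have := Y.add_mem (h.normY _ (pow_mem hy k) _ (hm.2 c hc)) this
    rwa [map_sub, ← Module.End.mul_apply, ← map_mul, sub_add_sub_cancel] at this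
  -- a functional not vanishing at `m`
  obtain ⟨g, hg⟩ : ∃ g : Y →ₗ[ℤ_[p]] ℤ_[p], IsUnit (g ⟨_, h.pX m hm.1⟩) := by
    by_contra hc
    push Not at hc
    let b := Module.finBasis ℤ_[p] Y
    have : ∀ i, ∃ z, p * z = b.equivFun ⟨_, h.pX m hm.1⟩ i := fun i => by
      have := hc (b.coord i)
      rw [← mem_nonunits_iff, ← IsLocalRing.mem_maximalIdeal, ← PadicInt.ker_toZMod] at this
      exact toZMod_eq_zero.mp this
    choose z hz using this
    have e : (p : ℤ_[p]) • b.equivFun.symm z = ⟨_, h.pX m hm.1⟩ :=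
      b.equivFun.injective (funext fun i => by
        rw [map_smul, LinearEquiv.apply_symm_apply]; exact hz i)
    have e' : mp p L (b.equivFun.symm z) = mp p L m := congrArg Subtype.val e
    exact hmY (mp_injective e' ▸ (b.equivFun.symm z).2)
  obtain ⟨φ, hφ, hφ'⟩ := h.surj m hm.1 g
  obtain ⟨c, ψ, T, hc, hT, hTc, rfl⟩ := exists_transfer ρ hP hi hu h1 hφ
  generalize hcc : ∑ g ∈ T, ρ g * φ * ρ g⁻¹ + _ = c at hc
  have hcl : ∀ l (hl : l ∈ X), c l - ∑ x ∈ T.attach, g ⟨_, h.pX _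
      (h.normX _ (inv_mem (hT x x.2)) l hl)⟩ • ρ x m ∈ Y := by
    intro l hl
    rw [← hcc, LinearMap.add_apply, add_sub_right_comm, LinearMap.sum_apply, ← Finset.sum_attach,
      ← Finset.sum_sub_distrib]
    refine Y.add_mem (Y.sum_mem fun x _ => ?_) (h.tr ψ l hl)
    rw [Module.End.mul_apply, Module.End.mul_apply, ← map_smul, ← map_sub]
    exact h.normY _ (hT x x.2) _ (hφ' _ (h.normX _ (inv_mem (hT x x.2)) l hl))
  have hc1 : ∀ l ∈ X, ∃ b : ℤ_[p], c l - b • m ∈ Y := by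
    intro l hl
    choose b hb using fun x : T => heig x (hT x x.2)
    refine ⟨∑ x ∈ T.attach, g ⟨_, h.pX _ (h.normX _ (inv_mem (hT x x.2)) l hl)⟩ * b x, ?_⟩
    have := Y.add_mem (hcl l hl) (Y.sum_mem (t := T.attach) fun x _ => Y.smul_mem
      (g ⟨_, h.pX _ (h.normX _ (inv_mem (hT x x.2)) l hl)⟩) (hb x))
    simpa only [smul_sub, Finset.sum_sub_distrib, sub_add_sub_cancel, smul_smul, ← Finset.sum_smul]
      using this
  have hc2 : c m - ((T.card : ℤ_[p]) * g ⟨_, h.pX m hm.1⟩) • m ∈ Y := by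
    have : ∀ x : T, g ⟨_, h.pX _ (h.normX _ (inv_mem (hT x x.2)) m hm.1)⟩ • ρ x m -
        g ⟨_, h.pX m hm.1⟩ • m ∈ Y := by
      intro x
      have hx := hT x x.2
      obtain ⟨b, hb⟩ := heig _ (inv_mem hx)
      have e1 : g ⟨_, h.pX _ (h.normX _ (inv_mem hx) m hm.1)⟩ =
          p * g ⟨_, hb⟩ + b * g ⟨_, h.pX m hm.1⟩ := by
        rw [← smul_eq_mul (p : ℤ_[p]) (g _), ← smul_eq_mul b (g _), ← g.map_smul, ← g.map_smul,
          ← map_add]
        congr 1
        ext
        simp only [Submodule.coe_add, Submodule.coe_smul, smul_sub, smul_comm b, sub_add_cancel]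
      have e2 := h.normY _ hx _ hb
      rw [map_sub, ← Module.End.mul_apply, ← map_mul, mul_inv_cancel, map_one, map_smul,
        Module.End.one_apply] at e2
      have := Y.sub_mem (Y.smul_mem (g ⟨_, hb⟩) (h.pX _ (h.normX _ hx m hm.1)))
        (Y.smul_mem (g ⟨_, h.pX m hm.1⟩) e2)
      rw [e1]
      convert this using 1
      module
    have := Y.add_mem (hcl m hm.1) (Y.sum_mem (t := T.attach) fun x _ => this x)
    simpa only [Finset.sum_sub_distrib, sub_add_sub_cancel, Finset.sum_const, Finset.card_attach,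
      ← Nat.cast_smul_eq_nsmul ℤ_[p], smul_smul] using this
  obtain ⟨w, hw⟩ : IsUnit ((T.card : ℤ_[p]) * g ⟨_, h.pX m hm.1⟩) := by
    refine IsUnit.mul ?_ hg
    by_contra hn
    rw [← mem_nonunits_iff, ← IsLocalRing.mem_maximalIdeal, ← PadicInt.ker_toZMod,
      RingHom.mem_ker, map_natCast, ZMod.natCast_eq_zero_iff] at hn
    exact hTc hn
  have hinv : ∀ d : (End ℤ_[p] L)ˣ, (∀ g, ρ g * d = d * ρ g) → ∀ g, ρ g * ↑d⁻¹ = ↑d⁻¹ * ρ g :=
    fun d hd g => (Commute.units_inv_right (hd g)).eq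
  rcases hloc ((↑w⁻¹ : ℤ_[p]) • c) (fun g => by rw [mul_smul_comm, smul_mul_assoc, hc]) with
    ⟨d, hd⟩ | ⟨d, hd⟩
  · refine ⟨m, hm.1, fun l hl _ => ?_⟩
    obtain ⟨b, hb⟩ := hc1 _ ((h.comm _ (hinv d fun g => by
      rw [hd, mul_smul_comm, smul_mul_assoc, hc])).1 l hl)
    refine ⟨↑w⁻¹ * b, ?_⟩
    have := Y.smul_mem (↑w⁻¹ : ℤ_[p]) hb
    rwa [smul_sub, smul_smul, ← LinearMap.smul_apply, ← hd, ← Module.End.mul_apply, d.mul_inv,
      Module.End.one_apply] at this
  · exfalso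
    have h2 : (d : End ℤ_[p] L) m ∈ Y := by
      have := Y.neg_mem (Y.smul_mem (↑w⁻¹ : ℤ_[p]) hc2)
      rw [← hw, smul_sub, smul_smul, w.inv_mul, one_smul, neg_sub] at this
      rw [hd]
      exact this
    have := (h.comm _ (hinv d fun g => by
      rw [hd, mul_sub, sub_mul, mul_smul_comm, smul_mul_assoc, hc, mul_one, one_mul])).2 _ h2
    rw [← Module.End.mul_apply, d.inv_mul] at this
    exact hmY this

section Inst

variable (ρ : G →* End ℤ_[p] L) (hP : Nat.card P = p) (hu : u ∈ P) (h1 : u ≠ 1)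
include hP hu h1

theorem sg_eq : sg (ρ u) = ∑ x ∈ FT.elems (P : Set G), ρ x := by
  have hz : zpowers u = P := Blk.D1.eq_zpowers hp.out hP hu h1
  have ho : orderOf u = p := by rw [← Nat.card_zpowers, hz, hP]
  refine Finset.sum_bij (fun i _ => u ^ i) (fun i _ => FT.mem_elems.mpr (P.pow_mem hu i))
    (fun i hi j hj h => pow_injOn_Iio_orderOf (by simpa [ho] using hi) (by simpa [ho] using hj) h)
    (fun x hx => ?_) fun i _ => (map_pow _ _ _).symm
  classical
  have hx := FT.mem_elems.mp hx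
  rw [SetLike.mem_coe, ← hz, mem_zpowers_iff_mem_range_orderOf, ho] at hx
  obtain ⟨k, hk, rfl⟩ := Finset.mem_image.mp hx
  exact ⟨k, hk, rfl⟩

theorem sum_inv_eq : ∑ i ∈ Finset.range p, ρ (u ^ i)⁻¹ = sg (ρ u) := by
  rw [sg_eq ρ hP hu h1, ← sg_eq ρ hP (inv_mem hu) (inv_ne_one.mpr h1), sg]
  exact Finset.sum_congr rfl fun i _ => by rw [← map_pow, inv_pow]

theorem sg_comm {g : G} (hg : g ∈ normalizer (P : Set G)) : ρ g * sg (ρ u) = sg (ρ u) * ρ g := by
  rw [sg_eq ρ hP hu h1, Finset.mul_sum, Finset.sum_mul]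
  refine Finset.sum_bij (fun x _ => g * x * g⁻¹)
    (fun x hx => FT.mem_elems.mpr ((mem_normalizer_iff.mp hg x).mp (FT.mem_elems.mp hx)))
    (fun x _ y _ h => by simpa using h) (fun x hx => ⟨g⁻¹ * x * g, FT.mem_elems.mpr
      ((mem_normalizer_iff''.mp hg x).mp (FT.mem_elems.mp hx)), by group⟩) fun x _ => ?_
  rw [← map_mul, ← map_mul, inv_mul_cancel_right]

omit h1 hp [Fintype G] in
theorem upow : u ^ p = 1 := hP ▸ congrArg Subtype.val (pow_card_eq_one' (x := (⟨u, hu⟩ : P)))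

theorem exists_pow {x : G} (hx : x ∈ P) : ∃ k : ℕ, u ^ k = x := by
  classical
  rw [← Blk.D1.eq_zpowers hp.out hP hu h1, mem_zpowers_iff_mem_range_orderOf] at hx
  obtain ⟨k, -, rfl⟩ := Finset.mem_image.mp hx
  exact ⟨k, rfl⟩

theorem sub_mem_range {x : G} (hx : x ∈ P) (l : L) : l - ρ x l ∈ range (1 - ρ u) := by
  obtain ⟨k, rfl⟩ := exists_pow hP hu h1 hx
  refine ⟨(∑ i ∈ Finset.range k, ρ u ^ i) l, ?_⟩
  rw [← Module.End.mul_apply, mul_neg_geom_sum, map_pow]; rfl

theorem td_zero : TD ρ P u (ker (1 - ρ u)) (range (sg (ρ u))) where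
  pX l hl := ⟨l, sg_of_fixed hl⟩
  normX g hg l hl := by
    obtain ⟨k, hk⟩ := exists_pow hP hu h1 ((mem_normalizer_iff''.mp hg u).mp hu)
    have := congrArg (ρ g) (pow_apply_of_fixed hl k)
    rw [← map_pow, hk, ← Module.End.mul_apply, ← map_mul, show g * (g⁻¹ * u * g) = u * g by group,
      map_mul, Module.End.mul_apply] at this
    simp [mem_ker, this]
  normY g hg := by
    rintro _ ⟨l, rfl⟩
    exact ⟨ρ g l, (LinearMap.congr_fun (sg_comm ρ hP hu h1 hg) l).symm⟩
  comm d hd := by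
    refine ⟨fun l hl => ?_, ?_⟩
    · have := LinearMap.congr_fun (hd u) l
      simp only [Module.End.mul_apply] at this
      simp [mem_ker, this, show ρ u l = l from pow_one (ρ u) ▸ pow_apply_of_fixed hl 1]
    · rintro _ ⟨l, rfl⟩
      have : Commute (sg (ρ u)) d := Commute.sum_left _ _ _ fun i _ => Commute.pow_left (hd u) i
      exact ⟨d l, LinearMap.congr_fun this.eq l⟩
  tr ψ l hl := by
    refine ⟨ψ l, ?_⟩
    rw [sg, LinearMap.sum_apply, LinearMap.sum_apply]
    refine Finset.sum_congr rfl fun i _ => ?_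
    have : ρ (u ^ i)⁻¹ l = l := by
      conv_lhs => rw [← pow_apply_of_fixed hl i, ← map_pow, ← Module.End.mul_apply, ← map_mul,
        inv_mul_cancel, map_one, Module.End.one_apply]
    rw [Module.End.mul_apply, Module.End.mul_apply, this, map_pow]
  surj m hm g := by
    refine ⟨(g ∘ₗ (sg (ρ u)).rangeRestrict).smulRight m, LinearMap.ext fun l => ?_, fun l hl => ?_⟩
    · have e : (sg (ρ u)).rangeRestrict (ρ u l) = (sg (ρ u)).rangeRestrict l := Subtype.ext (by
        have := LinearMap.congr_fun (sg_mul (u := ρ u) (by rw [← map_pow, upow hP hu, map_one])) l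
        simp only [Module.End.mul_apply, LinearMap.sub_apply, Module.End.one_apply, map_sub,
          LinearMap.zero_apply, sub_eq_zero] at this
        exact this.symm)
      simp [e, show ρ u m = m from pow_one (ρ u) ▸ pow_apply_of_fixed hm 1]
    · have e : (sg (ρ u)).rangeRestrict l = ⟨_, ⟨l, sg_of_fixed hl⟩⟩ := Subtype.ext (sg_of_fixed hl)
      simp [e]

theorem td_one : TD ρ P u (ker (sg (ρ u))) (range (1 - ρ u)) where
  pX l hl := by
    have := (range (1 - ρ u)).sum_mem (t := Finset.range p)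
      fun i _ => sub_mem_range ρ hP hu h1 (P.pow_mem hu i) l
    simp only [Finset.sum_sub_distrib, map_pow, ← LinearMap.sum_apply] at this
    change _ - sg (ρ u) l ∈ _ at this
    rw [mem_ker.mp hl] at this
    simpa [Nat.cast_smul_eq_nsmul] using this
  normX g hg l hl := by
    rw [mem_ker, ← Module.End.mul_apply, ← sg_comm ρ hP hu h1 hg, Module.End.mul_apply,
      mem_ker.mp hl, map_zero]
  normY g hg := by
    rintro _ ⟨l, rfl⟩
    have := sub_mem_range ρ hP hu h1 ((mem_normalizer_iff.mp hg u).mp hu) (ρ g l)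
    rw [← Module.End.mul_apply, ← map_mul, inv_mul_cancel_right, map_mul] at this
    simpa using this
  comm d hd := by
    refine ⟨fun l hl => ?_, ?_⟩
    · have : Commute (sg (ρ u)) d := Commute.sum_left _ _ _ fun i _ => Commute.pow_left (hd u) i
      rw [mem_ker, ← Module.End.mul_apply, this.eq, Module.End.mul_apply, mem_ker.mp hl, map_zero]
    · rintro _ ⟨l, rfl⟩
      have := LinearMap.congr_fun (hd u) l
      simp only [Module.End.mul_apply] at this
      exact ⟨d l, by simp [this]⟩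
  tr ψ l hl := by
    have := (range (1 - ρ u)).neg_mem ((range (1 - ρ u)).sum_mem (t := Finset.range p)
      fun i _ => sub_mem_range ρ hP hu h1 (P.pow_mem hu i) (ψ (ρ (u ^ i)⁻¹ l)))
    rw [Finset.sum_sub_distrib, ← map_sum, ← LinearMap.sum_apply, sum_inv_eq ρ hP hu h1,
      mem_ker.mp hl, map_zero, zero_sub, neg_neg] at this
    rw [LinearMap.sum_apply]
    exact this
  surj m hm g := by
    have hp1 := hp.out.one_le
    have hup := upow hP hu
    have hst : ∀ i : ℕ, ∀ l, ρ (u ^ i)⁻¹ ((1 - ρ u) l) ∈ range (1 - ρ u) := fun i l =>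
      ⟨ρ (u ^ i)⁻¹ l, by
        have : Commute (ρ u) (ρ (u ^ i)⁻¹) := ((Commute.refl u).pow_right i).inv_right.map ρ
        rw [← Module.End.mul_apply, ← Module.End.mul_apply, sub_mul, mul_sub, one_mul, mul_one,
          this.eq]⟩
    let c : ℕ → L →ₗ[ℤ_[p]] ℤ_[p] := fun i =>
      g ∘ₗ LinearMap.codRestrict _ (ρ (u ^ i)⁻¹ ∘ₗ (1 - ρ u)) (hst i)
    let s : ℕ → L := fun i => (∑ j ∈ Finset.range i, ρ u ^ j) m
    have hs0 : s 0 = 0 := by simp [s]
    have hsp : s p = 0 := hm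
    have hs : ∀ i, ρ u (s i) = s (i + 1) - m := fun i => by
      simp [s, Finset.sum_range_succ', pow_succ', LinearMap.sum_apply]
    have hc : ∀ i l, c (i + 1) (ρ u l) = c i l := fun i l => congrArg g (Subtype.ext (by
      change ρ (u ^ (i + 1))⁻¹ ((1 - ρ u) (ρ u l)) = ρ (u ^ i)⁻¹ ((1 - ρ u) l)
      have e : ρ (u ^ (i + 1))⁻¹ * ρ u = ρ (u ^ i)⁻¹ := by rw [← map_mul]; congr 1; group
      rw [← e, ← Module.End.mul_apply (1 - ρ u), ((Commute.one_left _).sub_left
        (Commute.refl (ρ u))).eq]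
      rfl))
    have hsum : ∀ (a : ℕ → ℤ_[p]) (l y : L) (hy : y ∈ range (1 - ρ u)),
        ∑ i ∈ Finset.range p, a i • ρ (u ^ i)⁻¹ ((1 - ρ u) l) = y →
        ∑ i ∈ Finset.range p, a i * c i l = g ⟨y, hy⟩ := by
      intro a l y hy e
      subst e
      simp only [c, LinearMap.comp_apply, ← smul_eq_mul, ← g.map_smul, ← map_sum g]
      congr 1
      ext
      rw [Submodule.coe_sum]; rfl
    have hσ : ∀ l, ∑ i ∈ Finset.range p, ρ (u ^ i)⁻¹ ((1 - ρ u) l) = 0 := fun l => by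
      rw [← LinearMap.sum_apply, sum_inv_eq ρ hP hu h1, ← Module.End.mul_apply,
        sg_mul (by rw [← map_pow, hup, map_one]), LinearMap.zero_apply]
    have hc0 : ∀ l, ∑ i ∈ Finset.range p, c i l = 0 := fun l => by
      have := hsum (fun _ => 1) l 0 (zero_mem _) (by simpa using hσ l)
      simpa using this.trans (map_zero g)
    refine ⟨∑ i ∈ Finset.range p, (c i).smulRight (s i), LinearMap.ext fun l => ?_, fun l hl => ?_⟩
    · simp only [Module.End.mul_apply, LinearMap.sum_apply, LinearMap.smulRight_apply, map_sum,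
        map_smul, hs, smul_sub, Finset.sum_sub_distrib, ← Finset.sum_smul, hc0]
      obtain ⟨q, hq⟩ : ∃ q, p = q + 1 := ⟨p - 1, by omega⟩
      have e1 : ∀ f : ℕ → L, ∑ i ∈ Finset.range p, f i = ∑ i ∈ Finset.range (q + 1), f i :=
        fun f => by rw [← hq]
      rw [e1, e1, Finset.sum_range_succ, Finset.sum_range_succ', ← hq, hsp, hs0]
      simp [hc]
    · have hsi : ∀ i, s i - (i : ℤ_[p]) • m ∈ range (1 - ρ u) := fun i => by
        have := (range (1 - ρ u)).neg_mem ((range (1 - ρ u)).sum_mem (t := Finset.range i)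
          fun j _ => sub_mem_range ρ hP hu h1 (P.pow_mem hu j) m)
        simpa [s, LinearMap.sum_apply, Nat.cast_smul_eq_nsmul] using this
      have hpl : ∀ l ∈ ker (sg (ρ u)), (p : ℤ_[p]) • l ∈ range (1 - ρ u) := fun l hl => by
        have := (range (1 - ρ u)).sum_mem (t := Finset.range p)
          fun i _ => sub_mem_range ρ hP hu h1 (P.pow_mem hu i) l
        simp only [Finset.sum_sub_distrib, map_pow, ← LinearMap.sum_apply] at this
        change _ - sg (ρ u) l ∈ _ at this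
        rw [mem_ker.mp hl] at this
        simpa [Nat.cast_smul_eq_nsmul] using this
      have hul := sub_mem_range ρ hP hu h1 hu l
      have e := hsum (fun i => (i : ℤ_[p])) l ((p : ℤ_[p]) • l - (p : ℤ_[p]) • (l - ρ u l))
        (sub_mem (hpl l hl) (Submodule.smul_mem _ _ hul)) (by
          have h0 : ∑ i ∈ Finset.range p, ρ (u ^ i)⁻¹ l = 0 := by
            rw [← LinearMap.sum_apply, sum_inv_eq ρ hP hu h1, mem_ker.mp hl]
          obtain ⟨q, hq⟩ : ∃ q, p = q + 1 := ⟨p - 1, by omega⟩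
          have e1 : ∀ f : ℕ → L, ∑ i ∈ Finset.range p, f i = ∑ i ∈ Finset.range (q + 1), f i :=
            fun f => by rw [← hq]
          have e2 : ∀ i, ρ (u ^ (i + 1))⁻¹ (ρ u l) = ρ (u ^ i)⁻¹ l := fun i => by
            rw [← Module.End.mul_apply, ← map_mul]; congr 2; group
          have e3 : (u ^ q)⁻¹ = u := by
            rw [inv_eq_iff_mul_eq_one, ← pow_succ, ← hq, hup]
          have e4 : (p : ℤ_[p]) = q + 1 := by exact_mod_cast hq
          rw [e1, Finset.sum_range_succ, e3] at h0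
          simp only [LinearMap.sub_apply, Module.End.one_apply, map_sub, smul_sub,
            Finset.sum_sub_distrib]
          rw [e1, e1, Finset.sum_range_succ, Finset.sum_range_succ', e3]
          simp only [e2, Nat.cast_add, Nat.cast_one, add_smul, one_smul, Finset.sum_add_distrib,
            Nat.cast_zero, zero_smul, add_zero, e4, eq_neg_of_add_eq_zero_left h0]
          abel)
      have e' : g ⟨(p : ℤ_[p]) • l - (p : ℤ_[p]) • (l - ρ u l),
          sub_mem (hpl l hl) (Submodule.smul_mem _ _ hul)⟩ =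
          g ⟨_, hpl l hl⟩ - g ⟨_, hul⟩ * p := by
        rw [mul_comm, ← smul_eq_mul (p : ℤ_[p]) (g _), ← map_smul, ← map_sub]; rfl
      have := (range (1 - ρ u)).sub_mem ((range (1 - ρ u)).sum_mem (t := Finset.range p)
        fun i _ => (range (1 - ρ u)).smul_mem (c i l) (hsi i))
        ((range (1 - ρ u)).smul_mem (g ⟨_, hul⟩) (hpl m hm))
      simp only [smul_sub, Finset.sum_sub_distrib, smul_smul, ← Finset.sum_smul,
        mul_comm (c _ l), e.trans e', sub_smul] at this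
      simp only [LinearMap.sum_apply, LinearMap.smulRight_apply]
      convert this using 1
      abel

end Inst

end CfsgLib.Sy
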