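import Cfsg.Agent.Lib.Sy.W1
import Cfsg.Agent.Lib.Sy.CasePN
import Cfsg.Agent.Lib.Sy.CaseAB
import Cfsg.Agent.Lib.Sy.CaseE

set_option autoImplicit false

namespace CfsgLib.Sy

open Cfsg Subgroup CfsgLib.FT CfsgLib.Blk
open scoped ComplexConjugate

variable {G : Type*} [Group G] [Fintype G] {p r e t : ℕ} {P : Subgroup G}
  {𝒩 𝒳 : Finset (Irr (⊤ : Subgroup G))} {δ : Irr (⊤ : Subgroup G) → ℤ} {δ0 : ℤ} {χ0 : G → ℂ}

theorem Hyp.classify (h : Hyp p P r e t) : centralizer (P : Set G) = P ∧ ((r = 1 ∧ t = 2) ∨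
    (e = 2 ∧ p = 2 * r + 3 ∧ 3 < p ∧ ∃ S : Sylow 2 G, Nat.card S + 1 = p ∧ ElemCent S.1) ∨
    (e = 2 ∧ p + 3 = 2 * r ∧ 3 < p ∧ ∃ S : Sylow 2 G, Nat.card S = p + 1 ∧ ElemCent S.1) ∨
    (p = 13 ∧ r = 11 ∧ ∃ 𝒩 𝒳 δ χ0 St, EData 3 p P r 𝒩 𝒳 δ χ0 St)) := by
  refine ⟨h.cent_eq, ?_⟩
  obtain ⟨𝒩, 𝒳, δ, δ0, χ0, b⟩ := h.exists_bd
  have w : W p P r e t 𝒩 𝒳 δ δ0 χ0 := ⟨h, h.cent_eq, b⟩
  rcases b.typeX h with ⟨h0, hx | ⟨u, v, hr, hx⟩⟩ | ⟨h0, hx | hx | ⟨u, v, hr, hx⟩⟩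
  · exact (w.caseN h0 hx).imp_right Or.inl
  · exact (w.caseA h0 hr hx).elim
  · exact Or.inl (w.caseP h0 hx)
  · exfalso
    have h1 := w.dg0_sq_le
    have h2 := h.pe
    have h3 := h.one_le_r
    have h4 := h.two_le_e
    have h5 := h.one_le_t
    rw [hx] at h1
    have h6 : p < t * e * (1 + r * p) := by
      have : 1 * p ≤ r * p := Nat.mul_le_mul_right _ h3
      have : 1 * (1 + r * p) ≤ t * e * (1 + r * p) := Nat.mul_le_mul_right _ (by nlinarith)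
      omega
    have h7 : (1 + r * p) * e * p < (1 + r * p) * e * (t * e * (1 + r * p)) :=
      Nat.mul_lt_mul_of_pos_left h6 (by positivity)
    nlinarith
  · rcases w.caseB h0 hr hx with h1 | ⟨h1, St, hE⟩
    · exact Or.inr (Or.inr (Or.inl h1))
    · have h3 := hE.eq_three
      subst h3
      have h4 := hE.r_eq
      have h5 := h.pe
      exact Or.inr (Or.inr (Or.inr ⟨by omega, by omega, _, _, _, _, _, hE⟩))

end CfsgLib.Sy
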