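import Cfsg.Agent.Lib.FT.U4b

/-!
# Groups with fewer than `p ^ 2` Sylow subgroups of order `p`: the centralizers of two different
Sylow subgroups intersect trivially
-/

set_option autoImplicit false

namespace CfsgLib.Sy

open Subgroup MulAction CfsgLib.FT.BGN CfsgLib.FT.U4
open scoped Pointwise

variable {G : Type*} [Group G]

theorem dvd_card_of_stab {X : Type*} [MulAction G X] (H : Subgroup G) (m : ℕ) (S : Finset X)
    (h1 : ∀ g ∈ H, ∀ x ∈ S, g • x ∈ S) (h2 : ∀ x ∈ S, m ∣ (stabilizer G x).relIndex H) :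
    m ∣ S.card := by
  classical
  induction S using Finset.strongInduction with
  | H S ih =>
    rcases S.eq_empty_or_nonempty with rfl | ⟨x, hx⟩
    · simp
    let O := S.filter fun y => ∃ g ∈ H, g • x = y
    have hO : O.card = (stabilizer G x).relIndex H := by
      have e : stabilizer H x = (stabilizer G x).subgroupOf H := rfl
      rw [relIndex, ← e, index_stabilizer, ← Set.ncard_coe_finset]
      congr 1
      ext y
      simp only [O, Finset.coe_filter, Set.mem_setOf_eq, mem_orbit_iff]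
      exact ⟨fun ⟨_, g, hg, e⟩ => ⟨⟨g, hg⟩, e⟩, fun ⟨g, e⟩ => ⟨e ▸ h1 g g.2 x hx, g, g.2, e⟩⟩
    rw [← Finset.card_sdiff_add_card_eq_card (Finset.filter_subset _ S : O ⊆ S), hO]
    refine dvd_add (ih _ (Finset.sdiff_ssubset (Finset.filter_subset _ S)
      ⟨x, Finset.mem_filter.2 ⟨hx, 1, one_mem H, one_smul G x⟩⟩) (fun g hg y hy => ?_)
      fun y hy => h2 y (Finset.mem_sdiff.1 hy).1) (h2 x hx)
    rw [Finset.mem_sdiff] at hy ⊢
    refine ⟨h1 g hg y hy.1, fun e => hy.2 ?_⟩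
    obtain ⟨-, a, ha, e⟩ := Finset.mem_filter.1 e
    exact Finset.mem_filter.2 ⟨hy.1, g⁻¹ * a, mul_mem (inv_mem hg) ha, by
      rw [mul_smul, e, inv_smul_smul]⟩

theorem design_num {p r f c s : ℕ} (hr : r < p) (hf : 1 ≤ f) (hc : 2 ≤ c)
    (h1 : (c + p * s) * (p * f + 1) = (1 + r * p) * c)
    (h2 : (p * f + 1) * c + 1 ≤ p * f + 1 + (c + p * s)) : f = 1 ∧ c = s + 1 := by
  have hp : 0 < p := by omega
  have h3 : f * c ≤ f + s := Nat.le_of_mul_le_mul_left (by nlinarith) hp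
  have h4 : c * f + s * (p * f) + s = r * c := Nat.eq_of_mul_eq_mul_left hp (by nlinarith)
  have h5 : s * f < c := Nat.lt_of_mul_lt_mul_left (a := p) (by nlinarith)
  obtain ⟨c, rfl⟩ : ∃ c', c = c' + 1 := ⟨c - 1, by omega⟩
  have h6 : f * c ≤ s := by nlinarith
  have h7 : f = 1 := by
    by_contra h
    have : 2 ≤ f := by omega
    nlinarith
  subst h7
  omega

variable {p r : ℕ}

theorem coe_smul' (g : G) (R : Sylow p G) : ((g • R : Sylow p G) : Subgroup G) = g •ᶜ R :=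
  Sylow.coe_subgroup_smul.trans (conj_smul_eq_map g _)

theorem smul_eq_of_cent {g : G} {R : Sylow p G} (h : g ∈ 𝐂((R : Subgroup G))) : g • R = R :=
  Sylow.smul_eq_iff_mem_normalizer.2 (cent_le_norm _ h)

theorem mem_of_pgroup {x : G} {R : Sylow p G} (h : IsPGroup p (zpowers x)) (e : x • R = R) :
    x ∈ (R : Subgroup G) :=
  ((h.inf_normalizer_sylow R).le ⟨mem_zpowers x, Sylow.smul_eq_iff_mem_normalizer.1 e⟩).2

/-- There are `1 + r p < p ^ 2` Sylow `p`-subgroups, of order `p`. -/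
structure Sp (p : ℕ) (G : Type*) [Group G] (r : ℕ) : Prop where
  card : ∀ R : Sylow p G, Nat.card (R : Subgroup G) = p
  n : Nat.card (Sylow p G) = 1 + r * p
  lt : r < p

variable [Fintype (Sylow p G)] [DecidableEq (Sylow p G)]

open Classical in
/-- The Sylow subgroups centralized by `E`. -/
noncomputable def blk (p : ℕ) [Fintype (Sylow p G)] (E : Subgroup G) : Finset (Sylow p G) :=
  Finset.univ.filter fun R => E ≤ 𝐂((R : Subgroup G))

omit [DecidableEq (Sylow p G)] in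
theorem mem_blk {E : Subgroup G} {R : Sylow p G} : R ∈ blk p E ↔ E ≤ 𝐂((R : Subgroup G)) := by
  simp [blk]

theorem smul_blk (g : G) (E : Subgroup G) : g • blk p E = blk p (g •ᶜ E) := by
  ext R
  rw [← Finset.inv_smul_mem_iff, mem_blk, mem_blk, coe_smul', centralizer_map_conj, conj_le_iff]

theorem smul_blk_of_mem {E : Subgroup G} {R : Sylow p G} (h : R ∈ blk p E) {u : G}
    (hu : u ∈ (R : Subgroup G)) : u • blk p E = blk p E := by
  rw [smul_blk, conj_eq_of_mem_cent (le_centralizer_iff.1 (mem_blk.1 h) hu)]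

namespace Sp

variable [hp : Fact p.Prime] [Finite G] (h : Sp p G r)
include h

omit [Fintype (Sylow p G)] [DecidableEq (Sylow p G)] [Finite G] in
theorem zpowers_eq {R : Sylow p G} {u : G} (hu : u ∈ (R : Subgroup G)) (h1 : u ≠ 1) :
    zpowers u = R :=
  zpowers_eq_of_card_prime (by rw [h.card]; exact hp.out) hu h1

omit [Fintype (Sylow p G)] [DecidableEq (Sylow p G)] [Finite G] in
theorem eq_one {R Q : Sylow p G} (hne : Q ≠ R) {u : G} (hu : u ∈ (R : Subgroup G))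
    (e : u • Q = Q) : u = 1 := by
  by_contra h1
  exact hne (Sylow.ext ((h.zpowers_eq (mem_of_pgroup (R.isPGroup'.to_le (zpowers_le.2 hu)) e)
    h1).symm.trans (h.zpowers_eq hu h1)))

omit [Fintype (Sylow p G)] [DecidableEq (Sylow p G)] [Finite G] hp in
theorem relIndex_eq {H : Subgroup G} {R : Sylow p G} (h1 : ∀ u ∈ H, u ∈ (R : Subgroup G) → u = 1) :
    H.relIndex R = p := by
  have := card_inf_mul_relIndex H R
  rwa [eq_bot_of_forall (H := H ⊓ R) fun u hu => h1 u hu.1 hu.2, card_bot, one_mul, h.card] at this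

omit [Fintype (Sylow p G)] [Finite G] in
theorem dvd_erase {A : Finset (Sylow p G)} {R : Sylow p G}
    (hA : ∀ u ∈ (R : Subgroup G), ∀ Q ∈ A, u • Q ∈ A) : p ∣ (A.erase R).card := by
  refine dvd_card_of_stab (R : Subgroup G) p _ (fun u hu Q hQ => ?_) fun Q hQ =>
    (h.relIndex_eq fun u hu hu' => h.eq_one (Finset.mem_erase.1 hQ).1 hu' hu).symm.dvd
  rw [Finset.mem_erase] at hQ ⊢
  refine ⟨fun e => hQ.1 ?_, hA u hu Q hQ.2⟩
  rw [← inv_smul_smul u Q, e, Sylow.smul_eq_iff_mem_normalizer]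
  exact le_normalizer (inv_mem hu)

theorem fix_le {g : G} {R : Sylow p G} (hc : g ∉ 𝐂((R : Subgroup G))) (hg : g • R = R) :
    (Finset.univ.filter fun Q : Sylow p G => g • Q = Q).card ≤ r + 1 := by
  haveI := Fintype.ofFinite (R : Subgroup G)
  set F := Finset.univ.filter fun Q : Sylow p G => g • Q = Q
  have h1 := Finset.card_le_card_of_injOn (s := Finset.univ ×ˢ F.erase R)
    (t := Finset.univ.erase R) (fun x : ↥(R : Subgroup G) × Sylow p G => (x.1 : G) • x.2)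
    (fun x hx => by
      simp only [Finset.coe_erase, Finset.coe_univ, Set.mem_diff, Set.mem_univ, true_and,
        Set.mem_singleton_iff]
      intro e
      refine (Finset.mem_erase.1 (Finset.mem_product.1 hx).2).1 ?_
      rw [← inv_smul_smul (x.1 : G) x.2, e, Sylow.smul_eq_iff_mem_normalizer]
      exact le_normalizer (inv_mem x.1.2))
    (fun x hx y hy e => by
      obtain ⟨h2, h3⟩ := Finset.mem_erase.1 (Finset.mem_product.1 hx).2
      have h4 := (Finset.mem_filter.1 (Finset.mem_erase.1 (Finset.mem_product.1 hy).2).2).2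
      replace h3 := (Finset.mem_filter.1 h3).2
      obtain ⟨a, ha⟩ : ∃ a, a = (y.1 : G)⁻¹ * x.1 := ⟨_, rfl⟩
      have haR : a ∈ (R : Subgroup G) := ha ▸ mul_mem (inv_mem y.1.2) x.1.2
      have e1 : a • x.2 = y.2 := by rw [ha, mul_smul, inv_smul_eq_iff]; exact e
      have h5 := h.eq_one h2 (u := a⁻¹ * (g * a * g⁻¹)) (mul_mem (inv_mem haR)
        (conj_mem_of_mem_normalizer (Sylow.smul_eq_iff_mem_normalizer.1 hg) haR)) (by
          rw [mul_smul, mul_smul, mul_smul, inv_smul_eq_iff.2 h3.symm, e1, h4, ← e1, inv_smul_smul])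
      have h6 : a = 1 := by
        by_contra h6
        exact hc (by
          rw [← h.zpowers_eq haR h6, cent_zpowers]
          exact mem_cent1_of_conj_eq (inv_mul_eq_one.1 h5).symm)
      rw [h6, one_smul] at e1
      exact Prod.ext (Subtype.ext (inv_mul_eq_one.1 (ha.symm.trans h6)).symm) e1)
  rw [Finset.card_product, Finset.card_univ, ← Nat.card_eq_fintype_card, h.card,
    Finset.card_erase_of_mem (Finset.mem_univ R), Finset.card_univ, ← Nat.card_eq_fintype_card, h.n,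
    Nat.add_sub_cancel_left, mul_comm r] at h1
  have h2 := Nat.le_of_mul_le_mul_left h1 hp.out.pos
  have h3 := Finset.pred_card_le_card_erase (s := F) (a := R)
  omega

theorem cent_of_fix {v : G} {R Q : Sylow p G} (hv : v ∈ 𝐂((R : Subgroup G))) (hne : Q ≠ R)
    (e : v • Q = Q) : v ∈ 𝐂((Q : Subgroup G)) := by
  by_contra hc
  have h1 := h.fix_le hc e
  have h2 := h.dvd_erase (A := Finset.univ.filter fun Q : Sylow p G => v • Q = Q) (R := R)
    fun u hu S hS => by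
      rw [Finset.mem_filter] at hS ⊢
      exact ⟨Finset.mem_univ _, by rw [← mul_smul, ← mem_cent.1 hv u hu, mul_smul, hS.2]⟩
  have h3 := Nat.le_of_dvd (Finset.card_pos.2 ⟨Q, Finset.mem_erase.2 ⟨hne, by simpa using e⟩⟩) h2
  rw [Finset.card_erase_of_mem (by simpa using smul_eq_of_cent hv)] at h3
  have := h.lt
  omega

omit [Fintype (Sylow p G)] [DecidableEq (Sylow p G)] in
theorem not_dvd {R Q : Sylow p G} (hne : Q ≠ R) :
    ¬ p ∣ Nat.card (𝐂((R : Subgroup G)) ⊓ 𝐂((Q : Subgroup G)) : Subgroup G) := fun hd => by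
  obtain ⟨⟨x, hx⟩, ho⟩ := exists_prime_orderOf_dvd_card' p hd
  rw [← Subgroup.orderOf_coe] at ho
  have := h.eq_one hne (mem_of_pgroup (isPGroup_of_card_eq (by rw [Nat.card_zpowers, ho]))
    (smul_eq_of_cent hx.1)) (smul_eq_of_cent hx.2)
  simp only [this, orderOf_one] at ho
  exact hp.out.one_lt.ne ho

/-- In a block of size `p + 1`, the stabilizer of the block in `C(R)` is `R × E`. -/
theorem stab_le {E : Subgroup G} (hk : (blk p E).card = p + 1)
    (hE : ∀ R ∈ blk p E, ∀ Q ∈ blk p E, Q ≠ R → 𝐂((R : Subgroup G)) ⊓ 𝐂((Q : Subgroup G)) ≤ E)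
    {R : Sylow p G} (hR : R ∈ blk p E) {v : G} (hv : v ∈ 𝐂((R : Subgroup G)))
    (e : v • blk p E = blk p E) : v ∈ (R : Subgroup G) ⊔ E := by
  haveI := Fintype.ofFinite (R : Subgroup G)
  have h1 : ((blk p E).erase R).card = p := by rw [Finset.card_erase_of_mem hR, hk]; rfl
  obtain ⟨Q, hQ⟩ := Finset.card_pos.1 (h1 ▸ hp.out.pos)
  have key : ∀ g ∈ 𝐂((R : Subgroup G)), g • blk p E = blk p E → g • Q ∈ (blk p E).erase R :=
    fun g h2 h3 => Finset.mem_erase.2 ⟨fun e1 => (Finset.mem_erase.1 hQ).1 (by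
      rw [← inv_smul_smul g Q, e1, smul_eq_of_cent (inv_mem h2)]),
      h3 ▸ Finset.smul_mem_smul_finset (Finset.mem_erase.1 hQ).2⟩
  have hR' : (R : Subgroup G) ≤ 𝐂((R : Subgroup G)) :=
    le_cent_of_isCyclic (isCyclic_of_prime_card (h.card R))
  have h2 : Finset.univ.image (fun a : (R : Subgroup G) => (a : G) • Q) = (blk p E).erase R := by
    refine Finset.eq_of_subset_of_card_le (fun S hS => ?_) ?_
    · obtain ⟨a, -, rfl⟩ := Finset.mem_image.1 hS
      exact key a (hR' a.2) (smul_blk_of_mem hR a.2)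
    · rw [Finset.card_image_of_injective _ fun a b e1 => Subtype.ext (inv_mul_eq_one.1
        (h.eq_one (Finset.mem_erase.1 hQ).1 (mul_mem (inv_mem a.2) b.2)
          (by rw [mul_smul, inv_smul_eq_iff]; exact e1.symm))), h1, Finset.card_univ,
        ← Nat.card_eq_fintype_card, h.card]
  obtain ⟨a, -, e1⟩ := Finset.mem_image.1 (h2.ge (key v hv e))
  have h3 := mul_mem (hR' (inv_mem a.2)) hv
  exact (mul_mem_cancel_left (mem_sup_left (inv_mem a.2))).1 (mem_sup_right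
    (hE R hR Q (Finset.mem_erase.1 hQ).2 (Finset.mem_erase.1 hQ).1 ⟨h3, h.cent_of_fix h3
      (Finset.mem_erase.1 hQ).1 (by rw [mul_smul, ← e1, inv_smul_smul])⟩))

theorem inf_eq_bot (hr : 1 ≤ r) (hs : ∀ K : Subgroup G, K.Normal → K ≠ ⊥ → K = ⊤)
    {R₀ Q₀ : Sylow p G} (hne : Q₀ ≠ R₀) :
    𝐂((R₀ : Subgroup G)) ⊓ 𝐂((Q₀ : Subgroup G)) = ⊥ := by
  classical
  by_contra h0
  haveI := Fintype.ofFinite G
  obtain ⟨⟨P, Q⟩, hPQ, hmax⟩ := Finset.exists_max_image
    (Finset.univ.filter fun x : Sylow p G × Sylow p G => x.2 ≠ x.1)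
    (fun x => Nat.card (𝐂((x.1 : Subgroup G)) ⊓ 𝐂((x.2 : Subgroup G)) : Subgroup G))
    ⟨(R₀, Q₀), by simpa using hne⟩
  simp only [Finset.mem_filter, Finset.mem_univ, true_and, Prod.forall] at hPQ hmax
  obtain ⟨D, hD⟩ : ∃ D, D = 𝐂((P : Subgroup G)) ⊓ 𝐂((Q : Subgroup G)) := ⟨_, rfl⟩
  rw [← hD] at hmax
  have hD1 : D ≠ ⊥ := fun e => h0 (card_eq_one.1 (le_antisymm
    (by simpa [e] using hmax R₀ Q₀ hne) Nat.card_pos))
  have hDp : (Nat.card D).Coprime p := ((Nat.Prime.coprime_iff_not_dvd hp.out).2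
    (hD ▸ h.not_dvd hPQ)).symm
  have hPD : P ∈ blk p D := mem_blk.2 (hD ▸ inf_le_left)
  have hQD : Q ∈ blk p D := mem_blk.2 (hD ▸ inf_le_right)
  -- the blocks
  set B := Finset.univ.image fun g : G => g • blk p D with hB
  have b0 : blk p D ∈ B := Finset.mem_image.2 ⟨1, Finset.mem_univ _, one_smul _ _⟩
  have b1 : ∀ β ∈ B, ∃ E : Subgroup G, Nat.card E = Nat.card D ∧ β = blk p E := fun β hβ => by
    obtain ⟨g, -, rfl⟩ := Finset.mem_image.1 hβ
    exact ⟨_, card_map_conj g D, smul_blk g D⟩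
  have b2 : ∀ E : Subgroup G, Nat.card E = Nat.card D → ∀ R ∈ blk p E, ∀ S ∈ blk p E, S ≠ R →
      E = 𝐂((R : Subgroup G)) ⊓ 𝐂((S : Subgroup G)) := fun E hE R hR S hS h1 =>
    eq_of_le_of_card_le (le_inf (mem_blk.1 hR) (mem_blk.1 hS)) (hE ▸ hmax R S h1)
  have b3 : ∀ β ∈ B, ∀ γ ∈ B, γ ≠ β → (β ∩ γ).card ≤ 1 := fun β hβ γ hγ h1 =>
    Finset.card_le_one.2 fun R hR S hS => by
      obtain ⟨E, hE, rfl⟩ := b1 β hβ
      obtain ⟨E', hE', rfl⟩ := b1 γ hγ
      rw [Finset.mem_inter] at hR hS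
      by_contra h2
      exact h1 (by rw [b2 E hE S hS.1 R hR.1 h2, b2 E' hE' S hS.2 R hR.2 h2])
  have b4 : ∀ β ∈ B, β.card = (blk p D).card := fun β hβ => by
    obtain ⟨g, -, rfl⟩ := Finset.mem_image.1 hβ
    exact Finset.card_smul_finset g _
  have b5 : ∀ g : G, ∀ β ∈ B, g • β ∈ B := fun g β hβ => by
    obtain ⟨x, -, rfl⟩ := Finset.mem_image.1 hβ
    exact Finset.mem_image.2 ⟨g * x, Finset.mem_univ _, mul_smul _ _ _⟩
  obtain ⟨f, hf⟩ := h.dvd_erase (A := blk p D) (R := P) fun u hu S hS =>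
    smul_blk_of_mem hPD hu ▸ Finset.smul_mem_smul_finset hS
  have hf1 : 1 ≤ f := Nat.pos_of_ne_zero fun e => by
    rw [e, mul_zero, Finset.card_eq_zero] at hf
    exact Finset.notMem_empty Q (hf ▸ Finset.mem_erase.2 ⟨hPQ, hQD⟩)
  have hk : (blk p D).card = p * f + 1 := by rw [← hf, Finset.card_erase_add_one hPD]
  obtain ⟨c, hc⟩ : ∃ c, c = (B.filter fun β => P ∈ β).card := ⟨_, rfl⟩
  have b6 : ∀ R : Sylow p G, (B.filter fun β => R ∈ β).card = c := fun R => by
    obtain ⟨g, rfl⟩ := exists_smul_eq G P R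
    rw [hc]
    refine Finset.card_nbij' (fun β => g⁻¹ • β) (fun β => g • β) (fun β hβ => ?_) (fun β hβ => ?_)
      (fun β _ => smul_inv_smul g β) fun β _ => inv_smul_smul g β
    · rw [Finset.mem_coe, Finset.mem_filter] at hβ ⊢
      exact ⟨b5 _ β hβ.1, Finset.mem_inv_smul_finset_iff.2 hβ.2⟩
    · rw [Finset.mem_coe, Finset.mem_filter] at hβ ⊢
      exact ⟨b5 _ β hβ.1, Finset.smul_mem_smul_finset hβ.2⟩
  have hinv : ∀ g ∈ 𝐂((P : Subgroup G)), ∀ β : Finset (Sylow p G), P ∈ g • β ↔ P ∈ β :=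
    fun g hg β => by
      rw [← Finset.inv_smul_mem_iff, smul_eq_of_cent (inv_mem hg)]
  have hP' : (P : Subgroup G) ≤ 𝐂((P : Subgroup G)) :=
    le_cent_of_isCyclic (isCyclic_of_prime_card (h.card P))
  have b7 : ∀ β ∈ B, P ∉ β → ∀ u ∈ (P : Subgroup G), u • β = β → u = 1 := fun β hβ h1 u hu e => by
    by_contra h2
    have h3 : (P : Subgroup G) ≤ stabilizer G β := h.zpowers_eq hu h2 ▸ zpowers_le.2 e
    have h4 := h.dvd_erase (A := β) (R := P) fun a ha S hS =>
      mem_stabilizer_iff.1 (h3 ha) ▸ Finset.smul_mem_smul_finset hS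
    rw [Finset.erase_eq_of_notMem h1, b4 β hβ, hk, Nat.dvd_add_right (dvd_mul_right p f),
      Nat.dvd_one] at h4
    exact hp.out.one_lt.ne' h4
  have hoff : ∀ g ∈ 𝐂((P : Subgroup G)), ∀ β ∈ B.filter (fun β => P ∉ β),
      g • β ∈ B.filter fun β => P ∉ β := fun g hg β hβ => by
    rw [Finset.mem_filter] at hβ ⊢
    exact ⟨b5 g β hβ.1, (hinv g hg β).not.2 hβ.2⟩
  obtain ⟨s, hs'⟩ := dvd_card_of_stab (P : Subgroup G) p (B.filter fun β => P ∉ β)
    (fun g hg => hoff g (hP' hg)) fun β hβ => (h.relIndex_eq fun u hu hu' =>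
      b7 β (Finset.mem_filter.1 hβ).1 (Finset.mem_filter.1 hβ).2 u hu' hu).symm.dvd
  have hb : B.card = c + p * s := by
    rw [hc, ← hs', Finset.card_filter_add_card_filter_not]
  have e1 : (c + p * s) * (p * f + 1) = (1 + r * p) * c := by
    rw [← h.n, Nat.card_eq_fintype_card, ← Finset.card_univ,
      ← Finset.sum_card_inter fun R _ => b6 R, ← hb, ← hk, ← smul_eq_mul, ← Finset.sum_const]
    exact Finset.sum_congr rfl fun β hβ => by rw [Finset.univ_inter, b4 β hβ]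
  have e2 : ∀ β ∈ B, p * f + 1 + ∑ γ ∈ B.erase β, (β ∩ γ).card = (p * f + 1) * c := fun β hβ => by
    rw [← hk, ← b4 β hβ, ← Finset.sum_card_inter fun R _ => b6 R,
      ← Finset.add_sum_erase B _ hβ, Finset.inter_self]
  have e3 : ∀ β ∈ B, ∑ γ ∈ B.erase β, 1 + 1 = c + p * s := fun β hβ => by
    rw [← Finset.card_eq_sum_ones, Finset.card_erase_add_one hβ, hb]
  have hc2 : 2 ≤ c := by
    have h1 : 1 ≤ c := hc ▸ Finset.card_pos.2 ⟨_, Finset.mem_filter.2 ⟨b0, hPD⟩⟩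
    by_contra h2
    obtain rfl : c = 1 := by omega
    have h3 : s = 0 := by
      by_contra h3
      have h4 : 1 ≤ s := Nat.pos_of_ne_zero h3
      have h5 := h.lt
      have h6 : p * (s * f * p) ≤ p * r := by nlinarith
      have h7 := Nat.le_of_mul_le_mul_left h6 hp.out.pos
      have h8 : 1 ≤ s * f := Nat.mul_pos h4 hf1
      nlinarith
    have h4 : blk p D = Finset.univ := Finset.eq_univ_of_card _ (by
      rw [hk, ← Nat.card_eq_fintype_card, h.n]; simpa [h3] using e1)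
    have h5 := hs (⨅ R : Sylow p G, 𝐂((R : Subgroup G))) ⟨fun x hx g => mem_iInf.2 fun R => by
      have := conj_mem_map_conj (g := g) (mem_iInf.1 hx (g⁻¹ • R))
      rwa [← centralizer_map_conj, ← coe_smul', smul_inv_smul] at this⟩
      fun e => hD1 (le_bot_iff.1 (e ▸ le_iInf fun R => mem_blk.1 (h4 ▸ Finset.mem_univ R)))
    obtain ⟨g, rfl⟩ := exists_smul_eq G P Q
    exact hPQ (smul_eq_of_cent (mem_iInf.1 (h5.ge (mem_top g)) P))
  have b8 := fun β hβ => Finset.sum_le_sum (s := B.erase β) fun γ hγ =>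
    b3 β hβ γ (Finset.mem_erase.1 hγ).2 (Finset.mem_erase.1 hγ).1
  obtain ⟨rfl, rfl⟩ := design_num h.lt hf1 hc2 e1 (by
    have := b8 _ b0
    rw [← e2 _ b0, ← e3 _ b0]
    omega)
  rw [mul_one] at hk e2
  have b9 : ∀ β ∈ B, ∀ γ ∈ B, γ ≠ β → (β ∩ γ).card = 1 := fun β hβ γ hγ h1 =>
    (Finset.sum_eq_sum_iff_of_le fun γ hγ => b3 β hβ γ (Finset.mem_erase.1 hγ).2
      (Finset.mem_erase.1 hγ).1).1 (by
        have h2 := e2 β hβ
        have h3 := e3 β hβ
        nlinarith) γ (Finset.mem_erase.2 ⟨h1, hγ⟩)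
  have b10 : ∀ β ∈ B, ∀ R ∈ β, ∃ T : Subgroup G, Nat.card T ∣ p * Nat.card D ∧
      stabilizer G β ⊓ 𝐂((R : Subgroup G)) ≤ T := fun β hβ R hR => by
    obtain ⟨E, hE, rfl⟩ := b1 β hβ
    refine ⟨E ⊔ R, ?_, fun v hv => sup_comm E R ▸ h.stab_le ((b4 _ hβ).trans hk)
      (fun R hR S hS h1 => (b2 E hE R hR S hS h1).ge) hR hv.2 hv.1⟩
    have := card_sup_dvd_mul ((mem_blk.1 hR).trans (cent_le_norm _))
    rwa [h.card, hE, mul_comm] at this
  have hcD : Nat.card (D ⊔ P : Subgroup G) = Nat.card D * p := by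
    rw [card_sup_of_disjoint ((mem_blk.1 hPD).trans (cent_le_norm _))
      (inf_eq_bot_of_coprime (by rwa [h.card])), h.card]
  have hle : D ⊔ P ≤ 𝐂((P : Subgroup G)) := sup_le (mem_blk.1 hPD) hP'
  obtain ⟨m, hm⟩ := card_dvd_of_le hle
  rw [hcD] at hm
  have key : ∀ (β : Finset (Sylow p G)) (a b : ℕ), Nat.card 𝐂((P : Subgroup G)) = a * b →
      Nat.card (stabilizer G β ⊓ 𝐂((P : Subgroup G)) : Subgroup G) ∣ a →
      b ∣ (stabilizer G β).relIndex 𝐂((P : Subgroup G)) := fun β a b h1 ⟨x, hx⟩ => by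
    have h2 := card_inf_mul_relIndex (stabilizer G β) 𝐂((P : Subgroup G))
    rw [h1, hx, mul_assoc] at h2
    exact ⟨x, by rw [Nat.eq_of_mul_eq_mul_left Nat.card_pos h2, mul_comm]⟩
  have m1 : m ∣ s + 1 := hc ▸ dvd_card_of_stab 𝐂((P : Subgroup G)) m _ (fun g hg β hβ => by
    rw [Finset.mem_filter] at hβ ⊢
    exact ⟨b5 g β hβ.1, (hinv g hg β).2 hβ.2⟩) fun β hβ => by
      obtain ⟨T, h1, h2⟩ := b10 β (Finset.mem_filter.1 hβ).1 P (Finset.mem_filter.1 hβ).2
      exact key β _ m hm (mul_comm p _ ▸ (card_dvd_of_le h2).trans h1)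
  have m2 : p * m ∣ p * s := hs' ▸ dvd_card_of_stab 𝐂((P : Subgroup G)) (p * m) _ hoff
    fun β hβ => by
      obtain ⟨hβ, h1⟩ := Finset.mem_filter.1 hβ
      obtain ⟨u, hu, hu1⟩ := exists_ne_one (ne_bot_of_card_prime (X := (P : Subgroup G))
        (by rw [h.card]; exact hp.out))
      obtain ⟨R, hR⟩ := Finset.card_eq_one.1 (b9 β hβ _ (b5 u β hβ) fun e => hu1 (b7 β hβ h1 u hu e))
      have h2 := Finset.mem_inter.1 (hR.ge (Finset.mem_singleton_self R))
      have h3 : R ≠ P := fun e => h1 (e ▸ h2.1)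
      have h4 : stabilizer G β ⊓ 𝐂((P : Subgroup G)) ≤ 𝐂((R : Subgroup G)) := fun v hv => by
        refine h.cent_of_fix hv.2 h3 (Finset.mem_singleton.1 (hR.le (Finset.mem_inter.2 ⟨?_, ?_⟩)))
        · exact mem_stabilizer_iff.1 hv.1 ▸ Finset.smul_mem_smul_finset h2.1
        · have := Finset.smul_mem_smul_finset (a := v) h2.2
          rwa [← mul_smul, ← mem_cent.1 hv.2 u hu, mul_smul, mem_stabilizer_iff.1 hv.1] at this
      obtain ⟨T, h5, h6⟩ := b10 β hβ R h2.1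
      refine key β _ _ (hm.trans (mul_assoc _ _ _)) (Nat.Coprime.dvd_of_dvd_mul_left
        ((Nat.Prime.coprime_iff_not_dvd hp.out).2 fun e => h.not_dvd h3
          (e.trans (card_dvd_of_le (le_inf inf_le_right h4)))).symm
        ((card_dvd_of_le ((le_inf inf_le_left h4).trans h6)).trans h5))
  obtain rfl : m = 1 := Nat.dvd_one.1
    ((Nat.dvd_add_right (Nat.dvd_of_mul_dvd_mul_left hp.out.pos m2)).1 m1)
  have h1 := eq_of_le_of_card_le hle (by rw [hm, hcD, mul_one])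
  have h2 : (B.filter fun β => P ∈ β) ⊆ {blk p D} := fun β hβ => by
    obtain ⟨hβ, h2⟩ := Finset.mem_filter.1 hβ
    obtain ⟨E, hE, rfl⟩ := b1 β hβ
    have hn : (P : Subgroup G) ≤ 𝐍(D) := (le_centralizer_iff.1 (mem_blk.1 hPD)).trans (cent_le_norm D)
    have h3 : E ≤ D := le_of_normal_hallOf (hallOf_of_coprime (M := D ⊔ P) le_sup_left (by
      have := card_mul_relIndex (le_sup_left : D ≤ D ⊔ P)
      rw [hcD] at this
      rwa [Nat.eq_of_mul_eq_mul_left Nat.card_pos this])) (sup_le le_normalizer hn)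
      (fun q _ hq => hE ▸ hq) (h1 ▸ mem_blk.1 h2)
    rw [eq_of_le_of_card_le h3 hE.ge, Finset.mem_singleton]
  have h3 := Finset.card_le_card h2
  rw [← hc, Finset.card_singleton] at h3
  omega

end Sp

end CfsgLib.Sy
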