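import Cfsg.Agent.Lib.Sy.Defs
import Cfsg.Agent.Lib.Sy.Semi0

set_option autoImplicit false

namespace CfsgLib.Sy

open Cfsg Subgroup CfsgLib.FT CfsgLib.Blk
open scoped ComplexConjugate

variable {G : Type*} [Group G] [Fintype G] {p r e t : ℕ} {P : Subgroup G}
  {𝒩 𝒳 : Finset (Irr (⊤ : Subgroup G))} {δ : Irr (⊤ : Subgroup G) → ℤ} {δ0 : ℤ} {χ0 : G → ℂ}

omit [Fintype G] in
theorem card_fix_quot_le {X : Type*} [MulAction G X] [Finite X] (x₀ : X) {N : Subgroup G}
    (hN : MulAction.stabilizer G x₀ = N) (g : G) :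
    Nat.card {x : G ⧸ N // g • x = x} ≤ Nat.card {y : X // g • y = y} := by
  subst hN
  exact Nat.card_le_card_of_injective (fun x => ⟨MulAction.ofQuotientStabilizer G x₀ x.1, by
    rw [← MulAction.ofQuotientStabilizer_smul, x.2]⟩) fun x y e =>
      Subtype.ext (MulAction.injective_ofQuotientStabilizer G x₀ (congrArg Subtype.val e))

namespace Hyp

variable (h : Hyp p P r e t)
include h

omit [Fintype G] in
theorem exists_sylow [Finite G] [Fact p.Prime] : ∃ Q : Sylow p G, (Q : Subgroup G) = P ∧ Sp p G r := by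
  let Q : Sylow p G := (IsPGroup.of_card (h.card.trans (pow_one p).symm)).toSylow h.ndvd
  refine ⟨Q, rfl, fun R => (Nat.card_congr (Sylow.equiv R Q).toEquiv).trans h.card, ?_, h.lt⟩
  rw [Q.card_eq_index_normalizer]
  exact h.index

/-- An element of `N(P) \ C(P)` normalizes at most `r + 1` Sylow subgroups. -/
theorem fixN_le {g : G} (hg : g ∈ normalizer (P : Set G)) (hc : g ∉ centralizer (P : Set G)) :
    fixN P g ≤ r + 1 := by
  classical
  haveI := Fact.mk h.prime
  obtain ⟨Q, rfl, hs⟩ := h.exists_sylow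
  haveI := Fintype.ofFinite (Sylow p G)
  refine le_trans ?_ (hs.fix_le hc (Sylow.smul_eq_iff_mem_normalizer.2 hg))
  rw [← Fintype.card_subtype, ← Nat.card_eq_fintype_card]
  exact card_fix_quot_le Q Q.stabilizer_eq_normalizer g

/-- Nontrivial elements of `C(P)` normalize no other Sylow subgroup. -/
theorem semi {g x : G} (hg : g ∈ centralizer (P : Set G)) (h1 : g ≠ 1)
    (hx : x⁻¹ * g * x ∈ normalizer (P : Set G)) : x ∈ normalizer (P : Set G) := by
  classical
  haveI := Fact.mk h.prime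
  obtain ⟨Q, rfl, hs⟩ := h.exists_sylow
  haveI := Fintype.ofFinite (Sylow p G)
  by_contra hn
  have h2 : x • Q ≠ Q := fun e => hn (Sylow.smul_eq_iff_mem_normalizer.1 e)
  have h3 : g • x • Q = x • Q := by
    have := Sylow.smul_eq_iff_mem_normalizer.2 hx
    rwa [mul_smul, mul_smul, inv_smul_eq_iff] at this
  exact h1 (mem_bot.1 ((hs.inf_eq_bot h.one_le_r (fun K => h.eq_top_of_normal) h2).le
    ⟨hg, hs.cent_of_fix hg h2 h3⟩))

end Hyp

end CfsgLib.Sy
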