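import Cfsg.Agent.Lib.Sy.Tools1

set_option autoImplicit false

namespace CfsgLib.Sy

open Cfsg Subgroup CfsgLib.FT CfsgLib.Blk
open scoped ComplexConjugate

variable {G : Type*} [Group G] [Fintype G] {p r e t : ℕ} {P : Subgroup G}
  {𝒩 𝒳 : Finset (Irr (⊤ : Subgroup G))} {δ : Irr (⊤ : Subgroup G) → ℤ} {δ0 : ℤ} {χ0 : G → ℂ}

theorem sum_mul_conj_irr (χ ψ : Irr (⊤ : Subgroup G)) :
    ∑ g, χ g * conj (ψ g) = if χ = ψ then (Nat.card G : ℂ) else 0 := by
  have h := χ.cfdot_eq ψ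
  rw [cfdot, inv_mul_eq_iff_eq_mul₀ (card_ne_zero _), elems_top, card_top] at h
  simpa using h

open Classical in
/-- The class multiplication constants. -/
theorem exists_class_mul (g k u : G) : ∃ a : ℕ,
    (Nat.card (centralizer ({g} : Set G)) : ℂ) * Nat.card (centralizer ({k} : Set G)) * a =
      Nat.card G * ∑ χ : Irr (⊤ : Subgroup G), χ g * χ k * conj (χ u) / χ 1 := by
  have h1 : ∀ g : G, cfInd1 {x | IsConj g x} ∈ CF (⊤ : Subgroup G) := fun g =>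
    CFon_CF (cfInd1_mem_CFon (fun _ _ => mem_top _) fun x _ a ha =>
      IsConj.trans ha (isConj_iff.2 ⟨x, rfl⟩))
  have h2 : ∀ (g : G) (χ : Irr (⊤ : Subgroup G)), om χ (cfInd1 {x | IsConj g x}) =
      (centralizer ({g} : Set G)).index * χ g / χ 1 := fun g χ => by
    rw [om, D1.sum_eq_index_mul (u := g) (fun x hx => by
      rw [cfInd1_apply_of_notMem (A := {x | IsConj g x}) fun h => (isConj_iff.1 h).elim hx,
        zero_mul]) fun z => by rw [CF_conj (h1 g) (mem_top z), CF_conj χ.mem_CF (mem_top z)],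
      cfInd1_apply (A := {x | IsConj g x}) (IsConj.refl g), one_mul]
  have h3 := congrFun (conv_idem (fun χ => om χ (cfInd1 {x | IsConj g x})) (h1 k)) u
  rw [idem_om (h1 g), idem_apply, conv, Finset.sum_congr rfl (g := fun x =>
    if IsConj g (u * x⁻¹) ∧ IsConj k x then 1 else 0) fun x _ => by
      simp only [cfInd1, Set.indicator, Set.mem_ofPred_eq, Pi.one_apply, ite_and, mul_ite, mul_one,
        mul_zero]
      split_ifs <;> rfl, Finset.sum_boole] at h3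
  refine ⟨_, (congrArg _ h3).trans ?_⟩
  rw [Finset.mul_sum, Finset.mul_sum]
  refine Finset.sum_congr rfl fun χ _ => ?_
  have h4 : ∀ g : G, (Nat.card (centralizer ({g} : Set G)) : ℂ) * (centralizer {g}).index =
      Nat.card G := fun g => by exact_mod_cast card_mul_index _
  have h5 := χ.irr.one_ne_zero
  have h6 : (Nat.card G : ℂ) ≠ 0 := card_top (G := G) ▸ card_ne_zero ⊤
  simp only [Pi.mul_apply, h2, card_top]
  field_simp
  linear_combination χ g * χ k * conj (χ u) * (Nat.card G * h4 g +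
    Nat.card (centralizer ({g} : Set G)) * (centralizer {g}).index * h4 k)

theorem sum_split (hd : Disjoint 𝒩 𝒳) {M : Type*} [AddCommMonoid M]
    {F : Irr (⊤ : Subgroup G) → M} (h0 : ∀ χ, χ ∉ 𝒩 → χ ∉ 𝒳 → F χ = 0) :
    ∑ χ, F χ = ∑ χ ∈ 𝒩, F χ + ∑ χ ∈ 𝒳, F χ := by
  rw [← Finset.sum_union hd]
  exact (Finset.sum_subset (Finset.subset_univ _) fun χ _ hχ =>
    h0 χ (fun h => hχ (Finset.mem_union_left _ h)) fun h => hχ (Finset.mem_union_right _ h)).symm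

namespace W

variable (h : W p P r e t 𝒩 𝒳 δ δ0 χ0)
include h

theorem vanish {χ : Irr (⊤ : Subgroup G)} (h1 : χ ∉ 𝒩) (h2 : χ ∉ 𝒳) {g : G}
    (hg : p ∣ orderOf g) : χ g = 0 := by
  obtain ⟨x, hx⟩ := h.exists_conj_sharp hg
  rw [← CF_conj χ.mem_CF (mem_top x)]
  generalize x * g * x⁻¹ = u at hx
  have h3 := D1.kerB_self h.hyp.prime h.hyp.card h.hyp.ndvd hx.1 hx.2
  have h4 := sum_irr_norm_sq (mem_top u)
  rw [top_inf_eq, h.cent_eq hx.1 hx.2, h.hyp.card, ← Finset.sum_add_sum_compl (B0 p ⊤)] at h4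
  simp only [kerB, Complex.mul_conj, Complex.normSq_eq_norm_sq] at h3
  rw [show ∑ χ ∈ B0 p ⊤, ‖(χ : G → ℂ) u‖ ^ 2 = p by exact_mod_cast h3, add_eq_left,
    Finset.sum_eq_zero_iff_of_nonneg fun _ _ => sq_nonneg _] at h4
  simpa using h4 χ (by simp [h.bd.mem, h1, h2])

theorem sum_reg_irr (χ ψ : Irr (⊤ : Subgroup G)) : ∑ g ∈ reg G p, χ g * conj (ψ g) =
    (1 + r * p : ℕ) * ((if χ = ψ then p * e else 0) - ∑ u ∈ elems (sharp P), χ u * conj (ψ u)) := by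
  rw [eq_sub_of_add_eq (sum_reg_add_sing p fun g => χ g * conj (ψ g)), sum_mul_conj_irr,
    h.sum_sing fun x g => by
    rw [CF_conj χ.mem_CF (mem_top x), CF_conj ψ.mem_CF (mem_top x)], h.card_eq]
  split_ifs <;> push_cast <;> ring

theorem sum_reg_NN {χ χ' : Irr (⊤ : Subgroup G)} (hχ : χ ∈ 𝒩) (hχ' : χ' ∈ 𝒩) :
    ∑ g ∈ reg G p, χ g * conj (χ' g) =
      (1 + r * p : ℕ) * e * ((if χ = χ' then p else 0) - t * δ χ * δ χ') := by
  rw [h.sum_reg_irr, Finset.sum_congr rfl fun u hu => by rw [h.bd.valP h.hyp hχ' hu, map_intCast],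
    ← Finset.sum_mul, h.bd.sumPN h.hyp hχ]
  split_ifs <;> push_cast <;> ring

theorem sum_reg_N0 {χ : Irr (⊤ : Subgroup G)} (hχ : χ ∈ 𝒩) :
    ∑ g ∈ reg G p, χ0 g * conj (χ g) = -((1 + r * p : ℕ) * e * δ χ * δ0) := by
  obtain ⟨ψ, hψ⟩ := h.bd.exists_X h.hyp
  rw [Finset.sum_congr rfl fun g hg => by rw [← h.bd.valX ψ hψ g (mem_reg.1 hg)], h.sum_reg_irr,
    Finset.sum_congr rfl fun u hu => by rw [h.bd.valP h.hyp hχ hu, map_intCast], ← Finset.sum_mul,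
    h.bd.sumP ψ hψ, if_neg fun e : ψ = χ => Finset.disjoint_left.1 h.bd.disj hχ (e ▸ hψ)]
  push_cast
  ring

theorem sq_sign {χ : Irr (⊤ : Subgroup G)} (hχ : χ ∈ 𝒩) : (δ χ : ℂ) * δ χ = 1 := by
  rcases h.bd.sign χ hχ with h1 | h1 <;> simp [h1]

theorem sq_sign0 : (δ0 : ℂ) * δ0 = 1 := by
  rcases h.bd.sign0 with h1 | h1 <;> simp [h1]

theorem sum_reg_00 : ∑ g ∈ reg G p, χ0 g * conj (χ0 g) = (1 + r * p : ℕ) * e * e := by
  have h1 : ∀ g ∈ reg G p, χ0 g * conj (χ0 g) = ∑ χ ∈ 𝒩, -δ0 * δ χ * (χ0 g * conj (χ g)) :=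
    fun g hg => by
      have h1 := congrArg conj (h.bd.rel g (mem_reg.1 hg))
      simp only [map_add, map_sum, map_mul, map_intCast, map_zero] at h1
      rw [Finset.sum_congr rfl fun χ _ => show _ = -δ0 * χ0 g * (δ χ * conj (χ g)) by ring,
        ← Finset.mul_sum]
      linear_combination δ0 * χ0 g * h1 - χ0 g * conj (χ0 g) * h.sq_sign0
  rw [Finset.sum_congr rfl h1, Finset.sum_comm, Finset.sum_congr rfl
    (g := fun _ => ((1 + r * p : ℕ) * e : ℂ)) fun χ hχ => ?_, Finset.sum_const, h.bd.cardN,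
    nsmul_eq_mul, mul_comm]
  rw [← Finset.mul_sum, h.sum_reg_N0 hχ]
  linear_combination ((1 + r * p : ℕ) * e : ℂ) * (δ0 * δ0 * h.sq_sign hχ + h.sq_sign0)

theorem sum_dg_sq : ∑ χ : Irr (⊤ : Subgroup G), dg (χ : G → ℂ) ^ 2 = (1 + r * p) * p * e := by
  have h1 := sum_irr_one_sq' (L := (⊤ : Subgroup G))
  simp only [irr_one, card_top, h.card_eq] at h1
  exact_mod_cast h1

/-- The big degrees do not occur. -/
theorem dg_sq_lt (χ : Irr (⊤ : Subgroup G)) : dg (χ : G → ℂ) ^ 2 ≤ (1 + r * p) * p * e :=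
  h.sum_dg_sq ▸ Finset.single_le_sum (f := fun χ : Irr (⊤ : Subgroup G) => dg (χ : G → ℂ) ^ 2)
    (fun _ _ => Nat.zero_le _) (Finset.mem_univ χ)

theorem dg0_sq_le : t * dg χ0 ^ 2 ≤ (1 + r * p) * p * e := by
  rw [← h.sum_dg_sq, ← h.bd.cardX, ← smul_eq_mul, ← Finset.sum_const,
    Finset.sum_congr rfl fun ψ hψ => by rw [← h.bd.dg_X h.hyp hψ]]
  exact Finset.sum_le_sum_of_subset (Finset.subset_univ _)

/-- The sum of the values on `P#`. -/
theorem sumP_eq (χ : Irr (⊤ : Subgroup G)) : ∑ u ∈ elems (sharp P), χ u =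
    ((if χ ∈ 𝒩 then e * t * δ χ else if χ ∈ 𝒳 then δ0 * e else 0 : ℤ) : ℂ) := by
  split_ifs with h1 h2
  · exact_mod_cast h.bd.sumPN h.hyp h1
  · exact_mod_cast h.bd.sumP χ h2
  · exact (Finset.sum_eq_zero fun u hu => h.vanish h1 h2
      (h.hyp.orderOf_eq (mem_elems.1 hu).1 (mem_elems.1 hu).2).symm.dvd).trans Int.cast_zero.symm

theorem sumP_aut (u : ℂ →+* ℂ) (χ : Irr (⊤ : Subgroup G)) :
    (if χ.aut u ∈ 𝒩 then e * t * δ (χ.aut u) else if χ.aut u ∈ 𝒳 then δ0 * e else 0 : ℤ) =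
      if χ ∈ 𝒩 then e * t * δ χ else if χ ∈ 𝒳 then δ0 * e else 0 := by
  refine Int.cast_injective (α := ℂ) ?_
  rw [← h.sumP_eq, ← map_intCast u, ← h.sumP_eq, map_sum]
  rfl

/-- For `t ≥ 2` the common values of the exceptional characters are rational integers. -/
theorem int_val0 (ht : 2 ≤ t) {g : G} (hg : ¬ p ∣ orderOf g) : ∃ k : ℤ, χ0 g = k := by
  obtain ⟨ψ, hψ⟩ := h.bd.exists_X h.hyp
  rw [← h.bd.valX ψ hψ g hg]
  refine int_of_isIntegral_of_fixed (ψ.isChar.isIntegral g) fun u => ?_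
  have h1 := h.sumP_aut u ψ
  have h2 := h.hyp.two_le_e
  rw [if_neg (Finset.disjoint_right.1 h.bd.disj hψ), if_pos hψ] at h1
  refine (h.bd.valX (ψ.aut u) ?_ g hg).trans (h.bd.valX ψ hψ g hg).symm
  split_ifs at h1 with h3 h4
  · rcases h.bd.sign _ h3 with h5 | h5 <;> rcases h.bd.sign0 with h6 | h6 <;> rw [h5, h6] at h1 <;>
      nlinarith
  · exact h4
  · rcases h.bd.sign0 with h6 | h6 <;> rw [h6] at h1 <;> omega

/-- The class multiplication constant for the classes of `g`, `g⁻¹` and of `u ∈ P#`. -/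
theorem class_mul {g : G} (hg : ¬ p ∣ orderOf g) : ∃ a : ℕ,
    (Nat.card (centralizer ({g} : Set G)) : ℂ) ^ 2 * a =
      Nat.card G * (∑ χ ∈ 𝒩, δ χ * (χ g * conj (χ g)) / dg (χ : G → ℂ) +
        δ0 * (χ0 g * conj (χ0 g)) / dg χ0) := by
  obtain ⟨u, hu, h1⟩ := h.hyp.exists_ne
  have h2 := (h.hyp.orderOf_eq hu h1).symm.dvd
  obtain ⟨a, ha⟩ := exists_class_mul g g⁻¹ u
  refine ⟨a, ?_⟩
  rw [show centralizer ({g⁻¹} : Set G) = centralizer {g} from Subgroup.ext fun x => by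
    simp only [mem_centralizer_singleton_iff]; exact Commute.inv_right_iff, ← sq,
    sum_split h.bd.disj fun χ h3 h4 => by simp [h.vanish h3 h4 h2]] at ha
  rw [ha, ← map_intCast (starRingEnd ℂ) δ0, ← h.bd.sumX u h2, map_sum, Finset.sum_mul, Finset.sum_div]
  congr 2 <;> refine Finset.sum_congr rfl fun χ hχ => ?_
  · rw [h.bd.valN χ hχ u h2, map_intCast, χ.isChar.inv, irr_one, mul_comm]
  · rw [χ.isChar.inv, irr_one, h.bd.dg_X h.hyp hχ, h.bd.valX χ hχ g hg, mul_comm]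

open Classical in
theorem theta_eq {g : G} (hg : ¬ p ∣ orderOf g) :
    (∑ χ ∈ 𝒩 with δ χ = 1, χ g + if δ0 = 1 then χ0 g else 0) =
      ∑ χ ∈ 𝒩 with δ χ = -1, χ g + if δ0 = -1 then χ0 g else 0 := by
  have h1 := h.bd.rel g hg
  rw [Finset.sum_congr rfl (g := fun χ => (if δ χ = 1 then χ g else 0) -
    if δ χ = -1 then χ g else 0) fun χ hχ => by rcases h.bd.sign χ hχ with h2 | h2 <;> simp [h2],
    Finset.sum_sub_distrib, ← Finset.sum_filter, ← Finset.sum_filter] at h1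
  rcases h.bd.sign0 with h2 | h2 <;> simp [h2] at h1 ⊢ <;> linear_combination h1

open Classical in
theorem theta_fixed {g : G} (hg : ¬ p ∣ orderOf g) (u : ℂ →+* ℂ) :
    u (∑ χ ∈ 𝒩 with δ χ = 1, χ g + if δ0 = 1 then χ0 g else 0) =
      ∑ χ ∈ 𝒩 with δ χ = 1, χ g + if δ0 = 1 then χ0 g else 0 := by
  have h1 := h.hyp.two_le_e
  have h2 := h.hyp.one_le_t
  have h3 : ∑ χ : Irr (⊤ : Subgroup G), ((max 0 (if χ ∈ 𝒩 then e * t * δ χ else
      if χ ∈ 𝒳 then δ0 * e else 0) : ℤ) : ℂ) * χ g = (e * t : ℕ) *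
        (∑ χ ∈ 𝒩 with δ χ = 1, χ g + if δ0 = 1 then χ0 g else 0) := by
    rw [sum_split h.bd.disj fun χ h3 h4 => by simp [h3, h4], mul_add, Finset.sum_filter,
      Finset.mul_sum, Finset.sum_congr rfl (s₂ := 𝒳) (g := fun _ => if δ0 = 1 then e * χ0 g else 0)
        fun χ hχ => ?_, Finset.sum_const, h.bd.cardX]
    · congr 1
      · refine Finset.sum_congr rfl fun χ hχ => ?_
        rcases h.bd.sign χ hχ with h3 | h3
        · simp [hχ, h3, max_eq_right (by positivity : (0 : ℤ) ≤ e * t)]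
        · simp [hχ, h3, max_eq_left (by simp; positivity : -((e : ℤ) * t) ≤ 0)]
      · split_ifs <;> simp; ring
    · rw [if_neg (Finset.disjoint_right.1 h.bd.disj hχ), if_pos hχ, h.bd.valX χ hχ g hg]
      rcases h.bd.sign0 with h3 | h3 <;> simp [h3]
  refine mul_left_cancel₀ (show ((e * t : ℕ) : ℂ) ≠ 0 by
    exact_mod_cast (by positivity : 0 < e * t).ne') ?_
  rw [← h3, ← map_natCast u, ← map_mul, ← h3, map_sum]
  refine Eq.trans (Finset.sum_congr rfl fun χ _ => ?_) (Irr.sum_aut u _)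
  rw [h.sumP_aut, map_mul, map_intCast]
  rfl

open Classical in
/-- The virtual character `θ = θ₊ = θ₋` (on `p`-regular elements): it is integer valued, and
`∑ θ (θ - 1)` is computed by orthogonality. -/
theorem exists_theta : ∃ Θ ∈ ZIrr (⊤ : Subgroup G), ∃ θ : G → ℤ,
    (∀ g, ¬ p ∣ orderOf g → Θ g = θ g) ∧
    (∀ g, ¬ p ∣ orderOf g →
      (θ g : ℂ) = ∑ χ ∈ 𝒩 with δ χ = 1, χ g + if δ0 = 1 then χ0 g else 0) ∧
    (∀ g, ¬ p ∣ orderOf g →
      (θ g : ℂ) = ∑ χ ∈ 𝒩 with δ χ = -1, χ g + if δ0 = -1 then χ0 g else 0) ∧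
    ∑ g ∈ reg G p, θ g = (1 + r * p : ℕ) * e *
      (t * (𝒩.filter fun χ => δ χ = -1).card + if δ0 = -1 then 1 else 0) ∧
    ∑ g ∈ reg G p, θ g * (θ g - 1) = (1 + r * p : ℕ) * e *
      (t * (𝒩.filter fun χ => δ χ = -1).card * (((𝒩.filter fun χ => δ χ = 1).card : ℤ) - 1) +
        if δ0 = 1 then ((𝒩.filter fun χ => δ χ = -1).card : ℤ)
        else ((𝒩.filter fun χ => δ χ = 1).card : ℤ) - 1) := by
  obtain ⟨ψ, hψ⟩ := h.bd.exists_X h.hyp
  set Θ : G → ℂ := ∑ χ ∈ 𝒩 with δ χ = 1, (χ : G → ℂ) + if δ0 = 1 then (ψ : G → ℂ) else 0 with hΘ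
  have h1 : Θ ∈ ZIrr (⊤ : Subgroup G) := add_mem (sum_mem fun χ _ => χ.mem_ZIrr)
    (by split_ifs; exacts [ψ.mem_ZIrr, zero_mem _])
  have h2 : ∀ g, ¬ p ∣ orderOf g →
      Θ g = ∑ χ ∈ 𝒩 with δ χ = 1, χ g + if δ0 = 1 then χ0 g else 0 := fun g hg => by
    rw [hΘ, Pi.add_apply, Finset.sum_apply, ite_apply, h.bd.valX ψ hψ g hg, Pi.zero_apply]
  choose! θ hθ using fun g (hg : ¬ p ∣ orderOf g) => int_of_isIntegral_of_fixed
    (ZIrr_isIntegral h1 g) fun u => by rw [h2 g hg, h.theta_fixed hg]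
  have h3 := fun g hg => (hθ g hg).symm.trans (h2 g hg)
  have h4 := fun g hg => (h3 g hg).trans (h.theta_eq hg)
  have h5 : ∀ χ ∈ 𝒩, δ χ = 1 → ∑ g ∈ reg G p, (θ g : ℂ) * conj (χ g) = (1 + r * p : ℕ) * e *
      (t * (𝒩.filter fun χ => δ χ = -1).card + if δ0 = -1 then 1 else 0) := fun χ hχ h5 => by
    rw [Finset.sum_congr rfl fun g hg => by rw [h4 g (mem_reg.1 hg), add_mul, Finset.sum_mul],
      Finset.sum_add_distrib, Finset.sum_comm, Finset.sum_congr rfl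
        (g := fun _ => ((1 + r * p : ℕ) * e * t : ℂ)) fun χ' hχ' => ?_, Finset.sum_const]
    · split_ifs with h6
      · rw [h.sum_reg_N0 hχ, h5, h6]; simp; ring
      · simp; ring
    · obtain ⟨h6, h7⟩ := Finset.mem_filter.1 hχ'
      rw [h.sum_reg_NN h6 hχ, if_neg (by rintro rfl; omega), h5, h7]; simp
  have h6 : ∑ g ∈ reg G p, (θ g : ℂ) = (1 + r * p : ℕ) * e *
      (t * (𝒩.filter fun χ => δ χ = -1).card + if δ0 = -1 then 1 else 0) := by
    simpa [cf1_top] using h5 1 h.bd.one_mem (h.bd.δ_one h.hyp)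
  have h7 : ∑ g ∈ reg G p, (θ g : ℂ) * θ g = (𝒩.filter fun χ => δ χ = 1).card *
      ∑ g ∈ reg G p, (θ g : ℂ) + (1 + r * p : ℕ) * e *
        if δ0 = 1 then ((𝒩.filter fun χ => δ χ = -1).card : ℂ) else 0 := by
    rw [Finset.sum_congr rfl fun g hg => by
      nth_rw 2 [← map_intCast (starRingEnd ℂ), h3 g (mem_reg.1 hg)]]
    simp only [map_add, map_sum, mul_add, Finset.mul_sum]
    rw [Finset.sum_add_distrib, Finset.sum_comm,
      Finset.sum_congr rfl fun χ hχ => h5 χ (Finset.mem_filter.1 hχ).1 (Finset.mem_filter.1 hχ).2,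
      Finset.sum_const, ← Finset.mul_sum, h6, nsmul_eq_mul, add_right_inj]
    by_cases h7 : δ0 = 1 <;> simp only [h7, if_true, if_false]
    · rw [Finset.sum_congr rfl fun g hg => by
        rw [h4 g (mem_reg.1 hg), if_neg (by omega), add_zero, Finset.sum_mul], Finset.sum_comm,
        Finset.sum_congr rfl (g := fun _ => ((1 + r * p : ℕ) * e : ℂ)) fun χ hχ => ?_,
        Finset.sum_const, nsmul_eq_mul, mul_comm]
      obtain ⟨h8, h9⟩ := Finset.mem_filter.1 hχ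
      simpa [h7, h9, mul_comm] using congrArg conj (h.sum_reg_N0 h8)
    · simp
  refine ⟨Θ, h1, θ, hθ, h3, h4, by exact_mod_cast h6, Int.cast_injective (α := ℂ) ?_⟩
  simp only [mul_sub, mul_one, Finset.sum_sub_distrib]
  push_cast
  rw [h7, h6]
  rcases h.bd.sign0 with h8 | h8 <;> simp [h8] <;> ring

end W

/-- A virtual character with values in `{0, 1}` on the nontrivial `p`-regular elements. -/
theorem zero_one_dvd {Θ : G → ℂ} (hΘ : Θ ∈ ZIrr (⊤ : Subgroup G)) {θ : G → ℤ}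
    (hθ : ∀ g, ¬ p ∣ orderOf g → Θ g = θ g)
    (h01 : ∀ g, ¬ p ∣ orderOf g → g ≠ 1 → θ g = 0 ∨ θ g = 1) (_hp : p.Prime) {g : G}
    (hg : ¬ p ∣ orderOf g) {q : ℕ} (hq : q.Prime) (hqg : q ∣ orderOf g) :
    (q : ℤ) ∣ θ 1 - θ g := by
  have h1 : ∀ m, ¬ p ∣ orderOf (g ^ m) := fun m hd => hg (hd.trans (orderOf_pow_dvd m))
  have h2 : ∀ {s : ℕ}, s.Prime → ∀ m, g ^ m ≠ 1 → (s : ℤ) ∣ θ (g ^ (s * m)) - θ (g ^ m) :=
    fun {s} hs m hm => by
      have h2 := (ZIrr_pow_prime_mod hΘ hs (mem_top (g ^ m))).symm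
      rw [← pow_mul', hθ _ (h1 _), hθ _ (h1 _), ← Int.cast_pow, eqAmod_nat_iff] at h2
      rcases h01 _ (h1 m) hm with h3 | h3 <;> simpa [h3, hs.ne_zero] using h2
  have h3 : ∀ m, m ≠ 0 → g ^ m ≠ 1 → θ (g ^ m) = θ g := fun m => by
    induction m using induction_on_primes with
    | zero => simp
    | one => simp
    | prime_mul s m hs ih =>
      intro h3 h4
      have h5 : g ^ m ≠ 1 := fun e => h4 (by rw [pow_mul', e, one_pow])
      rw [← ih (right_ne_zero_of_mul h3) h5]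
      have h6 := h2 hs m h5
      have h7 := hs.two_le
      rcases h01 _ (h1 _) h4 with h8 | h8 <;> rcases h01 _ (h1 _) h5 with h9 | h9 <;>
        rw [h8, h9] at h6 ⊢ <;> have := Int.le_of_dvd one_pos (by simpa using h6) <;> omega
  obtain ⟨m, hm⟩ := hqg
  have h4 : m ≠ 0 := by rintro rfl; exact (orderOf_pos g).ne' hm
  have h5 : g ^ m ≠ 1 := pow_ne_one_of_lt_orderOf h4
    (hm ▸ lt_mul_left (Nat.pos_of_ne_zero h4) hq.one_lt)
  have h6 := h2 hq m h5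
  rwa [← hm, pow_orderOf_eq_one, h3 m h4 h5] at h6

end CfsgLib.Sy
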