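import Cfsg.Agent.Lib.Sy.Semi
import Cfsg.Agent.Lib.Sy.Deg
import Cfsg.Agent.Lib.SylowIn
import Cfsg.Agent.Lib.PGroupCyclicMax

/-!
# The local structure and the permutation character
-/

set_option autoImplicit false

namespace CfsgLib.Sy

open Cfsg Subgroup CfsgLib.FT CfsgLib.Blk
open scoped ComplexConjugate

variable {G : Type*} [Group G] [Fintype G] {p r e t : ℕ} {P : Subgroup G}
  {𝒩 𝒳 : Finset (Irr (⊤ : Subgroup G))} {δ : Irr (⊤ : Subgroup G) → ℤ} {δ0 : ℤ} {χ0 : G → ℂ}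

omit [Fintype G] in
theorem smul_mk_eq {N : Subgroup G} {g x : G} : g • (x : G ⧸ N) = x ↔ x⁻¹ * g * x ∈ N := by
  rw [eq_comm, MulAction.Quotient.smul_mk, QuotientGroup.eq, smul_eq_mul, mul_assoc]

omit [Fintype G] in
theorem card_fix (P : Subgroup G) (g : G) :
    Nat.card {x : G // x⁻¹ * g * x ∈ normalizer (P : Set G)} =
      Nat.card (normalizer (P : Set G)) * fixN P g :=
  (Nat.card_congr (Equiv.subtypeEquivRight fun _ => smul_mk_eq.symm)).trans
    (QuotientGroup.card_preimage_mk (normalizer (P : Set G)) {ω | g • ω = ω})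

omit [Fintype G] in
theorem fixN_conj (P : Subgroup G) (x g : G) : fixN P (x * g * x⁻¹) = fixN P g :=
  (Nat.card_congr ((MulAction.toPerm x).subtypeEquiv fun ω => by
    simp [mul_smul])).symm

omit [Fintype G] in
theorem exists_of_fixN {g : G} (h0 : fixN P g ≠ 0) : ∃ x, x * g * x⁻¹ ∈ normalizer (P : Set G) := by
  obtain ⟨⟨ω, hω⟩⟩ := (Nat.card_ne_zero.1 h0).1
  obtain ⟨x, rfl⟩ := QuotientGroup.mk_surjective ω
  exact ⟨x⁻¹, by simpa using smul_mk_eq.1 hω⟩

open Classical in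
/-- The part of a character with the normal subgroup `N` in the kernel. -/
theorem exists_fix_char {L N : Subgroup G} {χ : G → ℂ} (h : IsChar ⊤ χ) (hNL : N ≤ L)
    (hN : L ≤ normalizer (N : Set G)) : ∃ φ, IsChar L φ ∧
      ∀ w ∈ L, ∑ u ∈ elems (N : Set G), χ (u * w) = Nat.card N * φ w := by
  refine ⟨∑ ξ ∈ Finset.univ.filter fun ξ : Irr L => N ≤ cfker L ξ, cfdot L χ ξ • (ξ : G → ℂ),
    isChar_sum _ _ fun ξ _ => ?_, fun w hw => ?_⟩
  · obtain ⟨n, hn⟩ := h.cfdot_nat' le_top ξ.isChar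
    exact hn ▸ ξ.isChar.natCast_smul n
  · have h1 := cfun_sum_cfdot (h.cfRes (le_top : L ≤ ⊤)).mem_CF
    rw [Finset.sum_congr rfl fun u hu => (cfRes_apply (mul_mem (hNL (mem_elems.1 hu)) hw)).symm, h1]
    simp only [Finset.sum_apply, Pi.smul_apply, smul_eq_mul, cfdot_cfRes_left, Finset.sum_filter,
      Finset.mul_sum]
    rw [Finset.sum_comm]
    refine Finset.sum_congr rfl fun ξ _ => ?_
    rw [← Finset.mul_sum]
    split_ifs with h2
    · rw [Finset.sum_congr rfl fun u hu => cfker_mul_left (h2 (mem_elems.1 hu)) w, sum_elems_const]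
      simp [mul_left_comm]
    · simp [ξ.irr.sum_eq_zero_of_not_le hNL hN h2]

/-- In a perfect group the product of the eigenvalues is `1`. -/
theorem exists_eigen_prod (hG : ⁅(⊤ : Subgroup G), (⊤ : Subgroup G)⁆ = ⊤) {χ : G → ℂ}
    (h : IsChar ⊤ χ) (x : G) : ∃ (n : ℕ) (ε : Fin n → ℂ), (∀ i, ε i ^ orderOf x = 1) ∧
      (∀ k : ℕ, χ (x ^ k) = ∑ i, ε i ^ k) ∧ ∏ i, ε i = 1 := by
  obtain ⟨n, ρ, rfl⟩ := isChar_top.1 h
  obtain ⟨b, ε, h1, h2, h3⟩ := exists_eigenbasis_rep ρ x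
  refine ⟨_, ε, h1, fun k => by simpa using h3 k, ?_⟩
  have h4 : LinearMap.det (ρ x) = 1 := congrArg Units.val (Abelianization.commutator_subset_ker
    (LinearMap.det.comp ρ).toHomUnits (hG.ge (mem_top x)))
  rw [← h4, ← LinearMap.det_toMatrix b, ← Matrix.det_diagonal]
  congr 1
  ext i j
  have h5 := h2 1 j
  rw [zpow_one, zpow_one] at h5
  rw [LinearMap.toMatrix_apply, h5, map_smul, b.repr_self, Matrix.diagonal_apply]
  split_ifs with h6
  · simp [h6]
  · simp [h6]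

theorem even_of_prod {n : ℕ} {ε : Fin n → ℂ} (he : Even e) (h0 : 0 < e) (h1 : ∀ i, ε i ^ e = 1)
    (h2 : ∀ k, 0 < k → k < e → ∑ i, ε i ^ k = 0) (hn : n = e * t) (h3 : ∏ i, ε i = 1) :
    Even t := by
  have hζ := Complex.isPrimitiveRoot_exp e h0.ne'
  generalize Complex.exp _ = ζ at hζ
  have := NeZero.of_pos h0
  choose a ha1 ha2 using fun i => hζ.eq_pow_of_pow_eq_one (h1 i)
  have hz : ∀ j, ζ ^ j ≠ 0 := fun j => pow_ne_zero j (hζ.ne_zero h0.ne')
  have h4 : ∀ j < e, (Finset.univ.filter fun i => a i = j).card = t := fun j hj => by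
    have h4 : ∑ i, ∑ k ∈ Finset.range e, (ε i / ζ ^ j) ^ k = e * t := by
      obtain ⟨f, rfl⟩ := Nat.exists_eq_succ_of_ne_zero h0.ne'
      rw [Finset.sum_comm, Finset.sum_range_succ', Finset.sum_eq_zero fun k hk => ?_]
      · simp [hn]
      · simp only [div_pow, ← Finset.sum_div]
        rw [h2 _ k.succ_pos (Nat.succ_lt_succ (Finset.mem_range.1 hk)), zero_div]
    rw [Finset.sum_congr rfl (g := fun i => if a i = j then (e : ℂ) else 0) fun i _ => ?_,
      ← Finset.sum_filter, Finset.sum_const, nsmul_eq_mul, mul_comm] at h4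
    · exact_mod_cast mul_left_cancel₀ (by exact_mod_cast h0.ne') h4
    · split_ifs with h5
      · simp [← ha2, h5, hz]
      · rw [geom_sum_eq fun h6 => h5 (hζ.pow_inj (ha1 i) hj ((ha2 i).trans
          ((div_eq_one_iff_eq (hz j)).1 h6))), div_pow, h1, pow_right_comm, hζ.pow_eq_one]
        simp
  have h5 : ∑ i, a i = t * ∑ j ∈ Finset.range e, j := by
    rw [← Finset.sum_fiberwise_of_maps_to (t := Finset.range e) (g := a)
      fun i _ => Finset.mem_range.2 (ha1 i), Finset.mul_sum]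
    refine Finset.sum_congr rfl fun j hj => ?_
    rw [Finset.sum_congr rfl fun i hi => (Finset.mem_filter.1 hi).2, Finset.sum_const,
      h4 j (Finset.mem_range.1 hj), smul_eq_mul]
  rw [← Finset.prod_congr rfl fun i _ => ha2 i, Finset.prod_pow_eq_pow_sum, h5] at h3
  obtain ⟨c, hc⟩ := hζ.dvd_of_pow_eq_one _ h3
  have h6 := Finset.sum_range_id_mul_two e
  have h7 : t * (e - 1) = c * 2 := Nat.eq_of_mul_eq_mul_left h0 (by
    rw [mul_left_comm, ← h6, ← mul_assoc, hc, mul_assoc])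
  exact (Nat.even_mul.1 (h7 ▸ even_two.mul_left c)).resolve_right
    (Nat.not_even_iff_odd.2 (Nat.Even.sub_odd h0 he odd_one))

namespace W

variable (h : W p P r e t 𝒩 𝒳 δ δ0 χ0)
include h

theorem cent_eq {u : G} (hu : u ∈ P) (h1 : u ≠ 1) : centralizer ({u} : Set G) = P :=
  (D1.cent_eq h.hyp.prime h.hyp.card hu h1).trans h.cent

theorem card_norm : Nat.card (normalizer (P : Set G)) = p * e := by
  rw [card_eq_relIndex_mul (le_normalizer (H := P)), ← h.hyp.rel, h.cent, h.hyp.card, mul_comm]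

theorem card_eq : Nat.card G = (1 + r * p) * p * e := by
  rw [← (normalizer (P : Set G)).card_mul_index, h.card_norm, h.hyp.index]; ring

theorem not_mem {g : G} (hg : ¬ p ∣ orderOf g) (h1 : g ≠ 1) : g ∉ P := fun h2 =>
  hg (h.hyp.orderOf_eq h2 h1).symm.dvd

theorem conj_of_comm {g u : G} (hu : orderOf u = p) (hc : g * u = u * g) :
    ∃ x, x * g * x⁻¹ ∈ P := by
  have := Fact.mk h.hyp.prime
  obtain ⟨x, -, hx⟩ := IsSylowIn.exists_conj_le (S := P) (H := ⊤) (Q := zpowers u)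
    ⟨le_top, IsPGroup.of_card (h.hyp.card.trans (pow_one p).symm),
      relIndex_top_right P ▸ h.hyp.ndvd⟩
    (IsPGroup.of_card (n := 1) (by rw [Nat.card_zpowers, hu, pow_one])) le_top
  refine ⟨x, (h.cent_eq (u := x * u * x⁻¹) (hx ⟨u, mem_zpowers u, rfl⟩) fun e => ?_).le
    (mem_centralizer_singleton_iff.2 (by rw [conj_mul, conj_mul, hc]))⟩
  rw [conj_eq_one_iff.1 e, orderOf_one] at hu
  exact h.hyp.prime.one_lt.ne hu

theorem not_dvd_cent {g : G} (hg : ¬ p ∣ orderOf g) (h1 : g ≠ 1) :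
    ¬ p ∣ Nat.card (centralizer ({g} : Set G)) := fun hd => by
  have := Fact.mk h.hyp.prime
  obtain ⟨⟨u, hu⟩, h2⟩ := exists_prime_orderOf_dvd_card' p hd
  obtain ⟨x, hx⟩ := h.conj_of_comm (orderOf_mk u hu ▸ h2)
    (mem_centralizer_singleton_iff.1 hu).symm
  exact h.not_mem (by rwa [orderOf_conj']) (mt conj_eq_one_iff.1 h1) hx

theorem exists_conj_sharp {g : G} (hg : p ∣ orderOf g) : ∃ x, x * g * x⁻¹ ∈ sharp P := by
  obtain ⟨x, hx⟩ := h.conj_of_comm (orderOf_pow_orderOf_div (orderOf_pos g).ne' hg)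
    ((Commute.refl g).pow_right _).eq
  refine ⟨x, hx, fun e => h.hyp.prime.not_dvd_one ?_⟩
  rwa [conj_eq_one_iff.1 e, orderOf_one] at hg

theorem sing_eq : sing G p = elems (classSupport (sharp P) ⊤) := by
  ext g
  rw [mem_sing, mem_elems]
  refine ⟨fun hg => ?_, ?_⟩
  · obtain ⟨x, hx⟩ := h.exists_conj_sharp hg
    exact ⟨_, hx, x⁻¹, mem_top _, by group⟩
  · rintro ⟨a, ha, y, -, rfl⟩
    rw [orderOf_conj', h.hyp.orderOf_eq ha.1 ha.2]

theorem sum_sing {F : G → ℂ} (hF : ∀ x g, F (x * g * x⁻¹) = F g) :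
    ∑ g ∈ sing G p, F g = (1 + r * p : ℕ) * ∑ u ∈ elems (sharp P), F u := by
  rw [h.sing_eq, h.hyp.sum_classSupport hF]

theorem coprime : p.Coprime e := by rw [h.hyp.pe, mul_comm]; simp

/-- The cyclic complement `E = ⟨y⟩` of `P` in its normalizer. -/
theorem exists_compl : ∃ y ∈ normalizer (P : Set G), orderOf y = e := by
  have := Fact.mk h.hyp.prime
  have := isCyclic_of_prime_card h.hyp.card
  have : IsCyclic (ZMod (Nat.card P))ˣ := h.hyp.card ▸ ZMod.isCyclic_units_prime h.hyp.prime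
  have := isCyclic_of_surjective _ (IsCyclic.mulAutMulEquiv P).symm.surjective
  obtain ⟨⟨_, y, rfl⟩, hy⟩ := IsCyclic.exists_ofOrder_eq_natCard (α := P.normalizerMonoidHom.range)
  rw [← orderOf_coe, ← index_ker, normalizerMonoidHom_ker] at hy
  replace hy : orderOf (P.normalizerMonoidHom y) = e := hy.trans h.hyp.rel
  have h1 : ∀ k, (y : G) ^ k ∈ P ↔ e ∣ k := fun k => by
    rw [← hy, orderOf_dvd_iff_pow_eq_one, ← map_pow, ← MonoidHom.mem_ker, normalizerMonoidHom_ker,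
      h.cent]
    rfl
  refine ⟨y, y.2, Nat.dvd_antisymm (orderOf_dvd_of_pow_eq_one (by_contra fun h2 => ?_))
    ((h1 _).1 (by rw [pow_orderOf_eq_one]; exact one_mem P))⟩
  have h3 := (h1 1).1 ((h.cent_eq ((h1 e).2 dvd_rfl) h2).le
    (mem_centralizer_singleton_iff.2 ((Commute.refl _).pow_pow 1 e).eq))
  have := h.hyp.two_le_e
  exact absurd (Nat.le_of_dvd one_pos h3) (by omega)

theorem frob {y : G} (hy : y ∈ normalizer (P : Set G)) (ho : orderOf y = e) :
    FrobIn (normalizer (P : Set G)) P (zpowers y) := by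
  have h1 : P ⊓ zpowers y = ⊥ := disjoint_iff.1 (disjoint_of_coprime_natCard
    (by rw [h.hyp.card, Nat.card_zpowers, ho]; exact h.coprime))
  have h2 := zpowers_le.2 hy
  refine frobIn_of_cent (lt_of_le_of_ne le_normalizer fun e => ?_) le_rfl h.hyp.ne_bot
    (fun k hk h3 => inf_le_right.trans (h.cent_eq hk h3).le) (isComplIn_of_sup ?_ h1 h2)
  · have h3 := h.card_norm
    have := h.hyp.two_le_e
    have := h.hyp.prime.pos
    rw [← e, h.hyp.card] at h3
    nlinarith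
  · refine eq_of_le_of_card_ge (sup_le le_normalizer h2) ?_
    rw [IsComplIn_card (isComplIn_of_sup rfl h1 h2), h.card_norm, h.hyp.card, Nat.card_zpowers, ho]

theorem fixN_le' {g : G} (hg : ¬ p ∣ orderOf g) (h1 : g ≠ 1) : fixN P g ≤ r + 1 := by
  by_cases h0 : fixN P g = 0
  · omega
  obtain ⟨x, hx⟩ := exists_of_fixN h0
  rw [← fixN_conj P x]
  exact h.hyp.fixN_le hx (h.cent.symm ▸ h.not_mem (by rwa [orderOf_conj'])
    (mt conj_eq_one_iff.1 h1))

theorem conj_into {y : G} (hy : y ∈ normalizer (P : Set G)) (ho : orderOf y = e) {g : G}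
    (hg : ¬ p ∣ orderOf g) (h0 : fixN P g ≠ 0) : ∃ x, x * g * x⁻¹ ∈ zpowers y := by
  by_cases h1 : g = 1
  · exact ⟨1, by simp [h1]⟩
  obtain ⟨x, hx⟩ := exists_of_fixN h0
  obtain ⟨k, -, hk⟩ := (h.frob hy ho).exists_conj_mem' hx (h.not_mem (by rwa [orderOf_conj'])
    (mt conj_eq_one_iff.1 h1))
  exact ⟨k * x, by simpa [mul_assoc] using hk⟩

theorem not_dvd_of_mem {y : G} (ho : orderOf y = e) {z : G} (hz : z ∈ zpowers y) :
    ¬ p ∣ orderOf z := fun hd =>
  h.hyp.prime.one_lt.ne' (Nat.eq_one_of_dvd_coprimes h.coprime dvd_rfl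
    (hd.trans (ho ▸ orderOf_dvd_of_mem_zpowers hz)))

theorem card_norm_zpowers {y : G} (hy : y ∈ normalizer (P : Set G)) (ho : orderOf y = e) {z : G}
    (hz : z ∈ zpowers y) (h1 : z ≠ 1) :
    Nat.card (normalizer ((zpowers z : Subgroup G) : Set G)) = e * fixN P z := by
  have h2 := card_fix P z
  have h3 := h.not_dvd_of_mem ho hz
  rw [h.card_norm, mul_assoc, ← h.hyp.card] at h2
  refine Nat.eq_of_mul_eq_mul_left Nat.card_pos (Eq.trans ?_ h2)
  rw [mul_comm, ← Nat.card_prod]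
  refine Nat.card_congr (Equiv.ofBijective (fun a => ⟨a.1 * a.2, ?_⟩) ⟨fun a b hab => ?_, ?_⟩)
  · have h4 := zpowers_le.2 (zpowers_le.2 hy hz) (conj_mem_of_mem_normalizer (inv_mem a.1.2)
      (mem_zpowers z))
    simpa [mul_assoc] using mul_mem (mul_mem (inv_mem (le_normalizer a.2.2)) h4)
      (le_normalizer a.2.2)
  · have h4 : (a.1 : G) * a.2 = b.1 * b.2 := congrArg Subtype.val hab
    have h5 : (b.1 : G)⁻¹ * a.1 = b.2 * (a.2 : G)⁻¹ := by
      rw [inv_mul_eq_iff_eq_mul, ← mul_assoc, ← h4, mul_inv_cancel_right]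
    have h6 : (b.2 : G) * (a.2 : G)⁻¹ = 1 := by
      have h6 := mul_mem b.2.2 (inv_mem a.2.2)
      have h7 := h5 ▸ mul_mem (inv_mem b.1.2) a.1.2
      generalize (b.2 : G) * (a.2 : G)⁻¹ = k at h6 h7
      refine (h.frob hy ho).fpf z hz h1 k h6 (mul_inv_eq_iff_eq_mul.1 (eq_comm.1
        (mul_inv_eq_one.1 ((h.frob hy ho).compl.2.2.1.le ⟨P.mul_mem h6 (P.inv_mem
          (conj_mem_of_mem_normalizer (zpowers_le.2 hy hz) h6)), ?_⟩))))
      rw [show k * (z * k * z⁻¹)⁻¹ = k * z * k⁻¹ * z⁻¹ by group]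
      exact (zpowers y).mul_mem (zpowers_le.2 hz (conj_mem_of_mem_normalizer h7 (mem_zpowers z)))
        ((zpowers y).inv_mem hz)
    exact Prod.ext (Subtype.ext (inv_mul_eq_one.1 (h5.trans h6)).symm)
      (Subtype.ext (mul_inv_eq_one.1 h6).symm)
  · rintro ⟨x, hx⟩
    have h4 : ∀ w : G, orderOf (w⁻¹ * z * w) = orderOf z := fun w => by
      simpa using orderOf_conj' w⁻¹ z
    obtain ⟨k, hk, h5⟩ := (h.frob hy ho).exists_conj_mem' hx (h.not_mem (by rwa [h4])
      fun e => h1 (orderOf_eq_one_iff.1 (by rw [← h4 x, e, orderOf_one])))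
    rw [show k * (x⁻¹ * z * x) * k⁻¹ = (x * k⁻¹)⁻¹ * z * (x * k⁻¹) by group] at h5
    refine ⟨⟨⟨x * k⁻¹, inv_mem_iff.1 (mem_normalizer_fintype fun w hw => ?_)⟩, k, hk⟩,
      Subtype.ext (inv_mul_cancel_right x k)⟩
    obtain ⟨j, rfl⟩ := hw
    rw [← conj_zpow, inv_inv]
    exact zpow_mem (PGrp.mem_zpowers_of_orderOf_dvd h5 hz (h4 _).dvd) j

/-- Double counting with the permutation character. -/
theorem sum_fixN {y : G} (hy : y ∈ normalizer (P : Set G)) (ho : orderOf y = e) {F : G → ℝ}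
    (hF : ∀ x g, F (x * g * x⁻¹) = F g) :
    ∑ g ∈ reg1 G p, F g * fixN P g =
      (1 + r * p : ℕ) * p * ∑ z ∈ elems (sharp (zpowers y)), F z := by
  classical
  have hf := h.frob hy ho
  have h1 := hf.normedTI.sum_classSupport (f := F) fun x _ => hF x
  rw [IsComplIn_relIndex (IsComplIn_symm hf.compl), h.hyp.card, nsmul_eq_mul] at h1
  have h2 : elems (classSupport (sharp (zpowers y)) (normalizer (P : Set G))) =
      (reg1 G p).filter (· ∈ normalizer (P : Set G)) := by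
    ext g
    rw [mem_elems, Finset.mem_filter, mem_reg1]
    refine ⟨?_, fun hg => ?_⟩
    · rintro ⟨a, ha, x, hx, rfl⟩
      exact ⟨⟨orderOf_conj' x a ▸ h.not_dvd_of_mem ho ha.1, mt conj_eq_one_iff.1 ha.2⟩,
        mul_mem (mul_mem hx (zpowers_le.2 hy ha.1)) (inv_mem hx)⟩
    · obtain ⟨k, hk, h2⟩ := hf.exists_conj_mem' hg.2 (h.not_mem hg.1.1 hg.1.2)
      exact ⟨_, ⟨h2, mt conj_eq_one_iff.1 hg.1.2⟩, k⁻¹, inv_mem (le_normalizer hk), by group⟩
  have h3 : ∀ g, (p * e : ℝ) * fixN P g =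
      ∑ x : G, if x⁻¹ * g * x ∈ normalizer (P : Set G) then 1 else 0 := fun g => by
    rw [Finset.sum_boole, ← Fintype.card_subtype, ← Nat.card_eq_fintype_card, card_fix, h.card_norm]
    push_cast; rfl
  refine mul_left_cancel₀ (show (p * e : ℝ) ≠ 0 by
    exact_mod_cast (h.card_norm ▸ Nat.card_pos).ne') ?_
  rw [Finset.mul_sum, Finset.sum_congr rfl fun g _ => by rw [mul_left_comm, h3, Finset.mul_sum],
    Finset.sum_comm, Finset.sum_congr rfl (g := fun _ => p * ∑ z ∈ elems (sharp (zpowers y)), F z)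
      fun x _ => ?_, Finset.sum_const, Finset.card_univ, ← Nat.card_eq_fintype_card, h.card_eq]
  · push_cast [nsmul_eq_mul]; ring
  · rw [← h1, h2, Finset.sum_filter]
    refine Finset.sum_equiv (MulAut.conj x⁻¹).toEquiv (fun g => ?_) fun g _ => ?_
    · change _ ↔ x⁻¹ * g * x⁻¹⁻¹ ∈ _
      rw [mem_reg1, mem_reg1, orderOf_conj', Ne, Ne, conj_eq_one_iff]
    · simp [show F (x⁻¹ * g * x) = F g by simpa using hF x⁻¹ g]

theorem sum_coset {F : G → ℂ} (hF : F ∈ CF (⊤ : Subgroup G)) {z : G}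
    (hz : z ∈ normalizer (P : Set G)) (hz' : z ∉ P) :
    ∑ u ∈ elems (P : Set G), F (u * z) = p * F z := by
  obtain ⟨y, hy, ho⟩ := h.exists_compl
  obtain ⟨k, -, hk⟩ := (h.frob hy ho).exists_conj_mem' hz hz'
  rw [Finset.sum_congr rfl (g := fun _ => F z) fun u hu => ?_, sum_elems_const, h.hyp.card,
    nsmul_eq_mul]
  obtain ⟨x, -, c, hc, h1, h2⟩ := exists_conj_cent_rcoset hz (h.hyp.card ▸
    ((Nat.Prime.coprime_iff_not_dvd h.hyp.prime).2 (orderOf_conj' k z ▸ h.not_dvd_of_mem ho hk)).symm)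
    (mem_elems.1 hu)
  rw [← CF_conj hF (mem_top x), h2, show c = 1 from by_contra fun h3 =>
    hz' ((h.cent_eq hc h3).le (mem_centralizer_singleton_iff.2 h1.symm)), one_mul]

/-- On `E` a character agrees with a virtual character of degree `a = ⟨χ|P, 1⟩` off `1`. -/
theorem exists_resE' {y : G} (hy : y ∈ normalizer (P : Set G)) (ho : orderOf y = e)
    (χ : Irr (⊤ : Subgroup G)) {a : ℤ} (ha : ∑ u ∈ elems (P : Set G), χ u = p * a) :
    ∃ f, IsChar (zpowers y) f ∧ f 1 = a ∧ ∀ z ∈ zpowers y, z ≠ 1 → f z = χ z := by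
  obtain ⟨φ, h1, h2⟩ := exists_fix_char χ.isChar (le_normalizer (H := P)) le_rfl
  have hp : (p : ℂ) ≠ 0 := by exact_mod_cast h.hyp.prime.ne_zero
  rw [h.hyp.card] at h2
  refine ⟨_, h1.cfRes (zpowers_le.2 hy), mul_left_cancel₀ hp ?_, fun z hz h3 =>
    mul_left_cancel₀ hp ?_⟩
  · simpa [← ha] using (h2 1 (one_mem _)).symm
  · rw [cfRes_apply hz, ← h2 z (zpowers_le.2 hy hz), h.sum_coset χ.mem_CF (zpowers_le.2 hy hz)
      (h.not_mem (h.not_dvd_of_mem ho hz) h3)]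

theorem exists_resE {y : G} (hy : y ∈ normalizer (P : Set G)) (ho : orderOf y = e)
    (χ : Irr (⊤ : Subgroup G)) {a : ℤ} (ha : ∑ u ∈ elems (P : Set G), χ u = p * a) :
    ∃ f ∈ ZIrr (zpowers y), f 1 = a ∧ ∀ z ∈ zpowers y, z ≠ 1 → f z = χ z :=
  let ⟨f, h1, h2⟩ := h.exists_resE' hy ho χ ha
  ⟨f, h1.mem_ZIrr, h2⟩

/-- A character without `P`-fixed vectors vanishes on `N(P) \ P`. -/
theorem zero_on_norm {χ : Irr (⊤ : Subgroup G)} (ha : ∑ u ∈ elems (P : Set G), χ u = 0) {z : G}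
    (hz : z ∈ normalizer (P : Set G)) (hz' : z ∉ P) : χ z = 0 := by
  obtain ⟨y, hy, ho⟩ := h.exists_compl
  obtain ⟨k, -, hk⟩ := (h.frob hy ho).exists_conj_mem' hz hz'
  obtain ⟨f, h1, h2, h3⟩ := h.exists_resE' hy ho χ (a := 0) (by simpa using ha)
  rw [← CF_conj χ.mem_CF (mem_top k), ← h3 _ hk fun e => hz' (conj_eq_one_iff.1 e ▸ one_mem P),
    h1.eq_zero_of_one (by simpa using h2), Pi.zero_apply]

/-- The determinant argument. -/
theorem even_t {χ : Irr (⊤ : Subgroup G)} (hd : dg (χ : G → ℂ) + 1 = p)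
    (ha : ∑ u ∈ elems (P : Set G), χ u = 0) (he : Even e) : Even t := by
  obtain ⟨y, hy, ho⟩ := h.exists_compl
  obtain ⟨n, ε, h1, h2, h3⟩ := exists_eigen_prod h.hyp.commutator_eq χ.isChar y
  refine even_of_prod he (zero_lt_two.trans_le h.hyp.two_le_e) (ho ▸ h1) (fun k h4 h5 => ?_) ?_ h3
  · rw [← h2]
    exact h.zero_on_norm ha (pow_mem hy k) (h.not_mem (h.not_dvd_of_mem ho
      (pow_mem (mem_zpowers y) k)) (pow_ne_one_of_lt_orderOf h4.ne' (ho ▸ h5)))
  · have h4 := h2 0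
    have h5 := h.hyp.pe
    simp only [pow_zero, irr_one, Finset.sum_const, Finset.card_univ, Fintype.card_fin,
      nsmul_eq_mul, mul_one, Nat.cast_inj] at h4
    omega

end W

end CfsgLib.Sy
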