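import Cfsg.Agent.Lib.Sy.BD
import Cfsg.Agent.Lib.Sy.Semi
import Cfsg.Agent.Lib.Sy.Deg
import Cfsg.Agent.Lib.Sy.Tools1

/-!
# The Sylow subgroup is self-centralizing
-/

set_option autoImplicit false

namespace CfsgLib.Sy

open Cfsg Subgroup CfsgLib.FT CfsgLib.Blk
open scoped ComplexConjugate

theorem dvd_card_of_free {G X : Type*} [Group G] [Finite G] [MulAction G X] {v : G}
    (hq : (orderOf v).Prime) (S : Finset X) (h1 : ∀ x ∈ S, v • x ∈ S) (h2 : ∀ x ∈ S, v • x ≠ x) :
    orderOf v ∣ S.card := by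
  refine dvd_card_of_stab (zpowers v) _ S (fun g hg => ?_) fun x hx => ?_
  · obtain ⟨k, rfl⟩ := mem_powers_iff_mem_zpowers.mpr hg
    induction k with
    | zero => simp
    | succ k ih =>
      intro x hx
      change v ^ (k + 1) • x ∈ S
      rw [pow_succ', mul_smul]
      exact h1 _ (ih (by simp) x hx)
  · have h3 := relIndex_dvd_card (MulAction.stabilizer G x) (zpowers v)
    rw [Nat.card_zpowers] at h3
    rcases (Nat.dvd_prime hq).mp h3 with h | h
    · exact absurd (relIndex_eq_one.mp h (mem_zpowers v)) (h2 x hx)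
    · exact h.symm.dvd

theorem isIntegral_sum_div {G X : Type*} [Group G] [Finite G] [MulAction G X] {v : G}
    (hq : (orderOf v).Prime) (S : Finset X) (h1 : ∀ x ∈ S, v • x ∈ S) (h2 : ∀ x ∈ S, v • x ≠ x)
    {F : X → ℂ} (h3 : ∀ x, F (v • x) = F x) (h4 : ∀ x, IsIntegral ℤ (F x)) :
    IsIntegral ℤ ((∑ x ∈ S, F x) / orderOf v) := by
  classical
  rw [show ∑ x ∈ S, F x = _ from Finset.sum_comp id F, Finset.sum_div]
  refine IsIntegral.sum _ fun c hc => ?_
  obtain ⟨y, -, rfl⟩ := Finset.mem_image.mp hc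
  obtain ⟨m, hm⟩ := dvd_card_of_free hq (S.filter fun x => F x = F y)
    (fun x hx => by
      rw [Finset.mem_filter] at hx ⊢
      exact ⟨h1 x hx.1, (h3 x).trans hx.2⟩) fun x hx => h2 x (Finset.mem_filter.mp hx).1
  rw [hm, nsmul_eq_mul, Nat.cast_mul, mul_assoc,
    mul_div_cancel_left₀ _ (by exact_mod_cast hq.ne_zero)]
  exact (isIntegral_natCast m).mul (h4 y)

variable {G : Type*} [Group G] [Fintype G] {p r e t : ℕ} {P : Subgroup G}
  {𝒩 𝒳 : Finset (Irr (⊤ : Subgroup G))} {δ : Irr (⊤ : Subgroup G) → ℤ} {δ0 : ℤ} {χ0 : G → ℂ}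

namespace Hyp

variable (h : Hyp p P r e t)
include h

theorem sum_supp_mul (χ : Irr (⊤ : Subgroup G)) (u : G) :
    dg (χ : G → ℂ) * ∑ b ∈ elems (classSupport (sharp P) ⊤), χ (b * u) =
      (1 + r * p : ℕ) * (∑ b ∈ elems (sharp P), χ b) * χ u := by
  rw [← sum_cfInd1_mul _ fun b => χ (b * u), sum_mul_irr χ.irr
    (CFon_CF (cfInd1_mem_CFon (fun _ _ => mem_top _) (by
      rintro x - _ ⟨a, ha, y, -, rfl⟩
      exact ⟨a, ha, x * y, mem_top _, by group⟩))), om_cfInd1,
    h.sum_classSupport fun x => CF_conj χ.mem_CF (mem_top x), irr_one]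
  have : (dg (χ : G → ℂ) : ℂ) ≠ 0 := by exact_mod_cast (dg_pos χ).ne'
  field_simp

variable {v : G} (hv : v ∈ centralizer (P : Set G)) (hq : (orderOf v).Prime)
include hv hq

theorem dvd_rp : orderOf v ∣ r * p := by
  classical
  have h1 : v ≠ 1 := by rintro rfl; simp at hq; exact Nat.not_prime_one hq
  have hN := centralizer_le_normalizer _ hv
  let _ := Fintype.ofFinite (G ⧸ normalizer (P : Set G))
  have h2 := dvd_card_of_free hq (Finset.univ.erase ((1 : G) : G ⧸ normalizer (P : Set G)))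
    (fun x hx => Finset.mem_erase.mpr ⟨fun e => Finset.ne_of_mem_erase hx (by
      rw [smul_eq_iff_eq_inv_smul] at e
      rw [e, smul_mk_eq]
      simpa using hN), Finset.mem_univ _⟩) (fun x hx e => by
      obtain ⟨x, rfl⟩ := QuotientGroup.mk_surjective x
      exact Finset.ne_of_mem_erase hx (QuotientGroup.eq.mpr
        (by simpa using h.semi hv h1 (smul_mk_eq.mp e))))
  rwa [Finset.card_erase_of_mem (Finset.mem_univ _), Finset.card_univ, ← Nat.card_eq_fintype_card,
    ← index_eq_card, h.index, Nat.add_sub_cancel_left] at h2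

theorem types (hqp : orderOf v ≠ p) {Θ : G → ℂ} (hΘ : IsChar ⊤ Θ) {d : ℤ}
    (hd : ∀ g, p ∣ orderOf g → Θ g = d) {x : ℕ} (hx : Θ 1 = x) {u : G} (hu : u ∈ P) (hu1 : u ≠ 1)
    (hy : x * ∑ b ∈ elems (classSupport (sharp P) ⊤), Θ (b * u) = (p - 1) * (1 + r * p)) :
    (d = 1 → ∀ a c, Rep p r a c → x ≠ a * p + 1) ∧
      (d = -1 → (∀ a c, Rep p r a c → x + 1 ≠ (c + 1) * p) ∧ x + 1 ≠ p) := by
  classical
  have hp := h.prime
  have h1 : v ≠ 1 := by rintro rfl; simp at hq; exact Nat.not_prime_one hq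
  have hcop : (orderOf v).Coprime p := (Nat.coprime_primes hq hp).mpr hqp
  have hsh : ∀ F : G → ℂ, (∀ b ∈ P, b ≠ 1 → F b = d) → ∑ b ∈ elems (sharp P), F b = (p - 1) * d :=
    fun F hF => by
      rw [Finset.sum_congr rfl fun b hb => hF b (mem_sharp.mp (mem_elems.mp hb)).1
        (mem_sharp.mp (mem_elems.mp hb)).2, Finset.sum_const, nsmul_eq_mul, Sy.card_sharp h.card]
  have hs1 := hsh Θ fun b hb hb1 => hd b (h.orderOf_eq hb hb1).symm.dvd
  have key : ∀ y : ℤ, x * y = (p - 1) * (1 + r * p) → (orderOf v : ℤ) ∣ y - x - (p - 2) * d := by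
    intro y hxy
    have hsub : elems (sharp P) ⊆ elems (classSupport (sharp P) ⊤) := fun b hb =>
      mem_elems.mpr ⟨b, mem_elems.mp hb, 1, mem_top _, by simp⟩
    have hvu : v * u = u * v := (mem_centralizer_iff.mp hv u hu).symm
    have a1 := isIntegral_sum_div (v := ConjAct.toConjAct v) (X := G) hq
      (elems (classSupport (sharp P) ⊤) \ elems (sharp P)) (fun b hb => by
        rw [Finset.mem_sdiff, mem_elems, mem_elems] at hb ⊢
        obtain ⟨⟨a, ha, y, -, rfl⟩, hb⟩ := hb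
        refine ⟨⟨a, ha, v * y, mem_top _, by rw [ConjAct.toConjAct_smul]; group⟩, fun hc => hb ?_⟩
        rw [ConjAct.toConjAct_smul] at hc
        have a0 := mem_centralizer_iff.mp hv _ (mem_sharp.mp hc).1
        rw [inv_mul_cancel_right] at a0
        rwa [← mul_left_cancel a0] at hc)
      (fun b hb e => by
        rw [Finset.mem_sdiff, mem_elems, mem_elems] at hb
        obtain ⟨⟨a, ha, y, -, rfl⟩, hb⟩ := hb
        obtain ⟨ha, ha1⟩ := mem_sharp.mp ha
        rw [ConjAct.toConjAct_smul] at e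
        have a2 : y⁻¹ * v * y ∈ centralizer (P : Set G) := by
          rw [← D1.cent_eq hp h.card ha ha1, mem_centralizer_singleton_iff]
          calc y⁻¹ * v * y * a = y⁻¹ * (v * (y * a * y⁻¹) * v⁻¹) * v * y := by group
            _ = _ := by rw [e]; group
        have a3 := h.semi hv h1 (centralizer_le_normalizer _ a2)
        exact hb (mem_sharp.mpr ⟨(mem_normalizer_iff.mp a3 a).mp ha, by simpa using ha1⟩))
      (F := fun b => Θ (b * u)) (fun b => by
        rw [ConjAct.toConjAct_smul, ← CF_conj hΘ.mem_CF (mem_top v) (b * u)]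
        congr 1
        calc v * b * v⁻¹ * u = v * b * v⁻¹ * (u * v) * v⁻¹ := by group
          _ = _ := by rw [← hvu]; group) fun b => hΘ.isIntegral _
    have hxyC : (x : ℂ) * y = (p - 1) * (1 + r * p) := by exact_mod_cast hxy
    have hx0 : (x : ℂ) ≠ 0 := by
      rintro h0
      rw [h0, zero_mul, eq_comm, mul_eq_zero, sub_eq_zero] at hxyC
      rcases hxyC with h0 | h0
      · exact hp.one_lt.ne' (by exact_mod_cast h0)
      · exact absurd (show 1 + r * p = 0 by exact_mod_cast h0) (by omega)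
    have a2 := sum_elems_mul_right hu Θ
    rw [sum_elems_sharp, sum_elems_sharp, hs1, one_mul, hx, hd u (h.orderOf_eq hu hu1).symm.dvd] at a2
    rw [Finset.sum_sdiff_eq_sub hsub, mul_left_cancel₀ hx0 (hy.trans hxyC.symm),
      eq_sub_of_add_eq' a2] at a1
    exact dvd_of_isIntegral_div (by exact_mod_cast hq.ne_zero)
      (by convert a1 using 2; push_cast; ring; rfl)
  have hr : orderOf v ∣ r := hcop.dvd_of_dvd_mul_right (h.dvd_rp hv hq)
  have fin : ∀ a c, Rep p r a c → ¬ (orderOf v : ℤ) ∣ (c - a) * p := fun a c hR h2 => by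
    have h3 := (Nat.isCoprime_iff_coprime.mpr hcop).dvd_of_dvd_mul_right h2
    have h4 : ((a : ℤ) + 1) * c + 1 = p := by exact_mod_cast hR.2.2.1
    have h5 : (r : ℤ) = a * c + a + 1 := by exact_mod_cast hR.2.2.2
    have h6 : (orderOf v : ℤ) ∣ p := by
      have := dvd_add h3 (Int.natCast_dvd_natCast.mpr hr)
      rwa [show (c : ℤ) - a + r = p by linear_combination h4 + h5] at this
    exact hqp ((Nat.prime_dvd_prime_iff_eq hq hp).mp (Int.natCast_dvd_natCast.mp h6))
  have hRep : ∀ a c, Rep p r a c →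
      ((a : ℤ) * p + 1) * ((c + 1) * p - 1) = (p - 1) * (1 + r * p) := fun a c hR => by
    have h4 : ((a : ℤ) + 1) * c + 1 = p := by exact_mod_cast hR.2.2.1
    have h5 : (r : ℤ) = a * c + a + 1 := by exact_mod_cast hR.2.2.2
    rw [h5]
    linear_combination (p : ℤ) * h4
  refine ⟨fun h2 a c hR h3 => fin a c hR ?_, fun h2 => ⟨fun a c hR h3 => fin a c hR ?_, fun h3 => ?_⟩⟩
  · have := key ((c + 1) * p - 1) (by rw [← hRep a c hR, h3]; push_cast; ring)
    rw [h2, h3] at this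
    convert this using 1
    push_cast; ring
  · have h4 : (x : ℤ) = (c + 1) * p - 1 := eq_sub_of_add_eq (by exact_mod_cast h3)
    have := key (a * p + 1) (by rw [← hRep a c hR, h4]; ring)
    rw [h2, h4, ← dvd_neg] at this
    exact this.trans (dvd_of_eq (by ring))
  · obtain ⟨φ, hφ, h4⟩ := exists_fix_char hΘ (D1.le_cent hp h.card) (centralizer_le_normalizer _)
    have h5 : (x : ℂ) = p - 1 := eq_sub_of_add_eq (by exact_mod_cast h3)
    have h6 := h4 1 (one_mem _)
    simp only [mul_one] at h6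
    rw [sum_elems_sharp, hs1, hx, h5, h2, eq_comm] at h6
    have h7 := h4 v hv
    rw [hφ.eq_zero_of_one ((mul_eq_zero.mp (h6.trans (by push_cast; ring))).resolve_left
      (card_ne_zero P)), sum_elems_sharp, hsh (fun b => Θ (b * v)) fun b hb hb1 => hd _ (by
        have a1 : (b * v) ^ orderOf v = b ^ orderOf v := by
          rw [(show Commute b v from mem_centralizer_iff.mp hv b hb).mul_pow, pow_orderOf_eq_one,
            mul_one]
        have a2 := orderOf_pow_dvd (x := b * v) (orderOf v)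
        rwa [a1, h.orderOf_eq (pow_mem hb _) fun e => hqp ((Nat.prime_dvd_prime_iff_eq hp hq).mp
          (h.orderOf_eq hb hb1 ▸ orderOf_dvd_of_pow_eq_one e)).symm] at a2), one_mul, h2] at h7
    have h8 : v ∈ cfker ⊤ Θ := hΘ.mem_cfker.mpr ⟨mem_top _, by
      rw [hx, h5]; simp only [Pi.zero_apply] at h7; push_cast at h7; linear_combination h7⟩
    have h9 := h.eq_top_of_normal (normalizer_eq_top_iff.mp (top_le_iff.mp
      (cfker_normal hΘ.mem_CF))) fun e => h1 (by simpa [e] using h8)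
    have h10 := cfker_apply (φ := Θ) (h9.symm ▸ mem_top u : u ∈ cfker ⊤ Θ)
    rw [hd u (h.orderOf_eq hu hu1).symm.dvd, hx, h2] at h10
    have : (-1 : ℤ) = x := by exact_mod_cast h10
    omega

end Hyp

/-- The Sylow subgroup is self-centralizing. -/
theorem Hyp.cent_eq (h : Hyp p P r e t) : centralizer (P : Set G) = P := by
  classical
  by_contra hne
  have hp := h.prime
  have hle := D1.le_cent hp h.card
  obtain ⟨q, hq, hqd⟩ := Nat.exists_prime_and_dvd (n := P.relIndex (centralizer (P : Set G)))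
    fun e => hne (le_antisymm (relIndex_eq_one.mp e) hle)
  have := Fact.mk hq
  obtain ⟨⟨v, hv⟩, ho⟩ := exists_prime_orderOf_dvd_card' q (hqd.trans (relIndex_dvd_card _ _))
  rw [← orderOf_coe] at ho
  change orderOf v = q at ho
  subst ho
  have hqp : orderOf v ≠ p := fun e => h.ndvd (e ▸ hqd.trans (relIndex_dvd_index_of_le hle))
  obtain ⟨𝒩, 𝒳, δ, δ0, χ0, b⟩ := h.exists_bd
  obtain ⟨u, hu, hu1⟩ := h.exists_ne
  have hpu := (h.orderOf_eq hu hu1).symm.dvd
  have hpe : (p : ℂ) - 1 = e * t := by rw [h.pe]; push_cast; ring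
  have hN : ∀ χ ∈ 𝒩, χ ≠ 1 → (1 + r * p : ℕ) ∣ dg (χ : G → ℂ) := fun χ hχ h1 => by
    obtain ⟨a1, a2⟩ := h.types hv hq hqp χ.isChar (b.valN χ hχ) (irr_one χ) hu hu1 (by
      rw [h.sum_supp_mul, b.sumPN h hχ, b.valN χ hχ u hpu, hpe]
      rcases b.sign χ hχ with e | e <;> rw [e] <;> push_cast <;> ring)
    rcases b.typeN h hχ h1 with ⟨e1, e | ⟨a, c, hR, -, e⟩⟩ |
      ⟨e1, ⟨-, e⟩ | ⟨-, e⟩ | ⟨a, c, hR, -, e⟩⟩
    · exact e.symm.dvd
    · exact absurd e (a1 e1 a c hR)
    · exact absurd e (a2 e1).2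
    · exact e ▸ dvd_mul_left _ _
    · exact absurd e ((a2 e1).1 a c hR)
  obtain ⟨a1, a2⟩ := h.types hv hq hqp (isChar_sum 𝒳 _ fun ψ _ => ψ.isChar) (d := δ0)
    (x := t * dg χ0) (fun g hg => by rw [Finset.sum_apply, b.sumX g hg])
    (by rw [Finset.sum_apply, Finset.sum_congr rfl fun ψ hψ => b.X_one h hψ, Finset.sum_const,
      b.cardX, b.one_eq_dg0 h, nsmul_eq_mul, Nat.cast_mul]) hu hu1 (by
      simp only [Finset.sum_apply]
      rw [Finset.sum_comm, Nat.cast_mul, mul_assoc, Finset.mul_sum,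
        Finset.sum_congr rfl fun ψ hψ => by rw [← b.dg_X h hψ, h.sum_supp_mul, b.sumP ψ hψ],
        ← Finset.mul_sum, b.sumX u hpu, hpe]
      rcases b.sign0 with e | e <;> rw [e] <;> push_cast <;> ring)
  have hrel := b.rel_one h
  rw [← Finset.add_sum_erase _ _ b.one_mem, b.δ_one h,
    show dg ((1 : Irr (⊤ : Subgroup G)) : G → ℂ) = 1 by simp [dg]] at hrel
  have hd : ((1 + r * p : ℕ) : ℤ) ∣ 1 + δ0 * dg χ0 := by
    have := Finset.dvd_sum (s := 𝒩.erase 1) (f := fun χ => δ χ * dg (χ : G → ℂ)) fun χ hχ =>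
      (Int.natCast_dvd_natCast.mpr (hN χ (Finset.mem_of_mem_erase hχ)
        (Finset.ne_of_mem_erase hχ))).mul_left _
    rwa [← dvd_neg, show -∑ χ ∈ 𝒩.erase 1, δ χ * dg (χ : G → ℂ) = 1 + δ0 * dg χ0 by
      push_cast at hrel; linear_combination -hrel] at this
  have h0 := b.one_lt_dg0 h
  have hr := h.one_le_r
  have h3 := h.three_le
  rcases b.typeX h with ⟨e1, e | ⟨a, c, hR, e⟩⟩ | ⟨e1, e | e | ⟨a, c, hR, e⟩⟩
  · rw [e1, one_mul, ← e] at hd
    have := (dvd_add_left dvd_rfl).mp ((Int.natCast_dvd_natCast.mpr (dvd_mul_left _ _)).trans hd)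
    have := Int.le_of_dvd one_pos this
    omega
  · exact a1 e1 a c hR e
  · exact (a2 e1).2 (by rw [e, h.pe, mul_comm])
  · rw [e] at hd
    have := (dvd_add_left ((Int.natCast_dvd_natCast.mpr (dvd_mul_left _ _)).mul_left _)).mp hd
    have := Int.le_of_dvd one_pos this
    have : 1 * 3 ≤ r * p := Nat.mul_le_mul hr h3
    omega
  · exact (a2 e1).1 a c hR e

end CfsgLib.Sy
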